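import Mathlib

/-!
The Jacobi-Trudi identity `det (x_k ^ l_i) = det (h_{l_i - j}) * det (x_k ^ i)` and the resulting
orthogonality relation for the numbers of tables with prescribed row and column sums.
-/

set_option autoImplicit false

namespace Cfsg.Agent.UGL

open Finset MvPolynomial

variable {m : ℕ}

/-- tables with prescribed row and column sums -/
def Tab (α β : Fin m → ℕ) : Type := {T : Fin m → Fin m → ℕ // (∀ i, ∑ j, T i j = α i) ∧ ∀ j, ∑ i, T i j = β j}

/-- exponent vector -/
noncomputable abbrev fs (α : Fin m → ℕ) : Fin m →₀ ℕ := Finsupp.equivFunOnFinite.symm α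

theorem prod_X_pow_eq (α : Fin m → ℕ) : ∏ i, (X i : MvPolynomial (Fin m) ℤ) ^ α i = monomial (fs α) 1 := by
  rw [monomial_eq, C_1, one_mul, Finsupp.prod_fintype _ _ (by simp)]
  rfl

noncomputable def geom (i : Fin m) : PowerSeries (MvPolynomial (Fin m) ℤ) := PowerSeries.mk fun r => X i ^ r

theorem geom_mul (i : Fin m) : geom i * (1 - PowerSeries.C (X i) * PowerSeries.X) = 1 := by
  ext1 r
  rw [mul_sub, mul_one, ← mul_assoc, map_sub]
  cases r with
  | zero => simp [geom]
  | succ r => simp [geom, PowerSeries.coeff_succ_mul_X, PowerSeries.coeff_one, pow_succ]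

/-- complete homogeneous symmetric polynomial -/
noncomputable def hh (m k : ℕ) : MvPolynomial (Fin m) ℤ := PowerSeries.coeff k (∏ i : Fin m, geom i)

theorem hh_eq (k : ℕ) : hh m k = ∑ l ∈ piAntidiag univ k, monomial (fs l) 1 := by
  rw [hh, PowerSeries.coeff_prod, finsuppAntidiag, sum_map, ← sum_attach (piAntidiag univ k)]
  refine sum_congr rfl fun l _ => ?_
  simp [geom, prod_X_pow_eq]

theorem hh_zero : hh m 0 = 1 := by simp [hh, geom, map_prod]

theorem coeff_prod_hh (α β : Fin m → ℕ) : coeff (fs β) (∏ i, hh m (α i)) = Nat.card (Tab α β) := by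
  simp only [hh_eq]
  rw [prod_univ_sum, coeff_sum]
  have (T : Fin m → Fin m → ℕ) : coeff (fs β) (∏ i, monomial (fs (T i)) (1 : ℤ)) =
      if ∀ j, ∑ i, T i j = β j then 1 else 0 := by
    rw [← monomial_sum_one, coeff_monomial]
    refine if_congr ?_ rfl rfl
    simp [Finsupp.ext_iff, Finsupp.finsetSum_apply]
  simp only [this, sum_boole]
  rw [← Nat.card_eq_finsetCard]
  exact congrArg _ (Nat.card_congr (Equiv.subtypeEquivRight fun T => by simp))

noncomputable def pp (k : Fin m) : Polynomial (MvPolynomial (Fin m) ℤ) :=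
  ∏ i ∈ univ.erase k, (1 - Polynomial.C (X i) * Polynomial.X)

theorem pp_coeff (k : Fin m) {j : ℕ} (hj : m ≤ j) : (pp k).coeff j = 0 := by
  refine Polynomial.coeff_eq_zero_of_natDegree_lt ((Polynomial.natDegree_prod_le _ _).trans_lt ?_)
  refine (sum_le_card_nsmul _ _ 1 fun i _ => by compute_degree).trans_lt ?_
  have := k.pos
  simp; omega

theorem X_pow_eq (k : Fin m) (r : ℕ) :
    X k ^ r = ∑ j : Fin m, (if j.val ≤ r then hh m (r - j) else 0) * (pp k).coeff j := by
  have h : (pp k : PowerSeries _) * ∏ i : Fin m, geom i = geom k := by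
    rw [pp, ← Polynomial.coeToPowerSeries.ringHom_apply, map_prod, ← mul_prod_erase _ _ (mem_univ k),
      mul_left_comm, ← prod_mul_distrib, prod_eq_one, mul_one]
    intro i _
    rw [map_sub, map_one, map_mul, mul_comm]
    simpa using geom_mul i
  have h2 := congrArg (PowerSeries.coeff r) h
  rw [PowerSeries.coeff_mul, Nat.sum_antidiagonal_eq_sum_range_succ_mk, geom, PowerSeries.coeff_mk] at h2
  rw [← h2, Fin.sum_univ_eq_sum_range (fun j => (if j ≤ r then hh m (r - j) else 0) * (pp k).coeff j),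
    ← sum_subset (inter_subset_left (s₁ := range r.succ) (s₂ := range m)),
    ← sum_subset (inter_subset_right (s₁ := range r.succ) (s₂ := range m))]
  · refine sum_congr rfl fun j hj => ?_
    simp only [mem_inter, mem_range] at hj
    rw [if_pos (by omega), Polynomial.coeff_coe, mul_comm, hh]
  · intro j h1 h2
    simp only [mem_inter, mem_range] at h1 h2
    rw [if_neg (by omega), zero_mul]
  · intro j h1 h2
    simp only [mem_inter, mem_range] at h1 h2
    rw [Polynomial.coeff_coe, pp_coeff k (by omega), zero_mul]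

/-- alternant -/
noncomputable def alt (l : Fin m → ℕ) : MvPolynomial (Fin m) ℤ := (Matrix.of fun i k : Fin m => X k ^ l i).det

/-- Jacobi-Trudi determinant -/
noncomputable def jt (l : Fin m → ℕ) : MvPolynomial (Fin m) ℤ :=
  (Matrix.of fun i j : Fin m => if j.val ≤ l i then hh m (l i - j) else 0).det

theorem alt_eq (l : Fin m → ℕ) : alt l = jt l * alt fun i : Fin m => i.val := by
  have key (l : Fin m → ℕ) : alt l = jt l * (Matrix.of fun j k : Fin m => (pp k).coeff j).det := by
    rw [alt, jt, ← Matrix.det_mul]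
    congr 1
    ext1 i k
    simp only [Matrix.of_apply, Matrix.mul_apply, X_pow_eq]
  have : jt (fun i : Fin m => i.val) = 1 := by
    rw [jt, Matrix.det_of_isLowerTriangular]
    · simp [hh_zero]
    · intro i j h
      exact if_neg (not_le.2 h)
  rw [key l, key fun i => i.val, this, one_mul]

theorem alt_eq_sum (l : Fin m → ℕ) :
    alt l = ∑ κ : Equiv.Perm (Fin m), monomial (fs fun i => l (κ i)) (Equiv.Perm.sign κ : ℤ) := by
  rw [alt, Matrix.det_apply']
  refine sum_congr rfl fun κ _ => ?_
  simp only [Matrix.of_apply, prod_X_pow_eq, ← eq_intCast (C : ℤ →+* MvPolynomial (Fin m) ℤ), C_mul_monomial,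
    mul_one]

theorem jt_eq_sum (l : Fin m → ℕ) : jt l = ∑ κ : Equiv.Perm (Fin m),
    if ∀ i, (κ i).val ≤ l i then C (Equiv.Perm.sign κ : ℤ) * ∏ i, hh m (l i - κ i) else 0 := by
  rw [jt, ← Matrix.det_transpose, Matrix.det_apply']
  refine sum_congr rfl fun κ _ => ?_
  simp [prod_ite_zero]

theorem coeff_mul_alt (f : MvPolynomial (Fin m) ℤ) (l : Fin m → ℕ) :
    coeff (fs l) (f * alt fun i : Fin m => i.val) = ∑ κ : Equiv.Perm (Fin m),
      if ∀ i, (κ i).val ≤ l i then Equiv.Perm.sign κ * coeff (fs fun i => l i - κ i) f else 0 := by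
  rw [alt_eq_sum, mul_sum, coeff_sum]
  refine sum_congr rfl fun κ _ => ?_
  rw [coeff_mul_monomial', mul_comm]
  exact if_congr (by simp [Finsupp.le_def]) (by congr 2; ext; simp) rfl

theorem coeff_alt {l l' : Fin m → ℕ} (h : StrictMono l) (h' : StrictMono l') :
    coeff (fs l') (alt l) = if l = l' then 1 else 0 := by
  rw [alt_eq_sum, coeff_sum, sum_eq_single 1]
  · simp [coeff_monomial]
  · intro κ _ hκ
    rw [coeff_monomial, if_neg]
    intro e
    have e' : l ∘ κ = l' := Finsupp.equivFunOnFinite.symm.injective e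
    have : StrictMono κ := fun a b hab => h.lt_iff_lt.1 (by simpa [← e'] using h' hab)
    exact hκ (Equiv.ext fun i => congrFun (this.eq_id) i)
  · simp

theorem ortho {l l' : Fin m → ℕ} (h : StrictMono l) (h' : StrictMono l') :
    (∑ κ : Equiv.Perm (Fin m), ∑ κ' : Equiv.Perm (Fin m),
      if (∀ i, (κ i).val ≤ l i) ∧ ∀ i, (κ' i).val ≤ l' i then (Equiv.Perm.sign κ : ℤ) * Equiv.Perm.sign κ' *
        Nat.card (Tab (fun i => l i - κ i) fun i => l' i - κ' i) else 0) = if l = l' then 1 else 0 := by
  rw [← coeff_alt h h', alt_eq, coeff_mul_alt, sum_comm]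
  refine sum_congr rfl fun κ' _ => ?_
  split_ifs with e
  · rw [jt_eq_sum, coeff_sum, mul_sum]
    refine sum_congr rfl fun κ _ => ?_
    simp only [e, implies_true, and_true]
    split_ifs
    · rw [coeff_C_mul, coeff_prod_hh]; ring
    · simp
  · simp [e]

end Cfsg.Agent.UGL
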