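import Cfsg.Prelude.Def_LinearParabolics
import Cfsg.Agent.UGL.Sym
import Cfsg.Agent.Conj.Class

/-!
Double cosets of parabolic subgroups of `GL_n` and of Young subgroups are counted by tables.
-/

set_option autoImplicit false

namespace Cfsg.Agent.UGL

open Finset Matrix MulAction
open scoped MatrixGroups

theorem inner_fix {G : Type*} [Group G] [Fintype G] (H K : Subgroup G) {X : Type*} (r : X → G)
    (hs : ∀ g, ∃ x, ∃ h ∈ H, ∃ k ∈ K, g = h * r x * k)
    (hi : ∀ x y, ∀ h ∈ H, ∀ k ∈ K, r x = h * r y * k → x = y) :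
    (Nat.card G : ℂ)⁻¹ * ∑ g, fixedPointCharacter H g * fixedPointCharacter K g = Nat.card X := by
  classical
  have h1 := sum_card_fixedBy_eq_card_orbits_mul_card_group G ((G ⧸ H) × (G ⧸ K))
  have h2 : Nat.card X = Nat.card (orbitRel.Quotient G ((G ⧸ H) × (G ⧸ K))) := by
    refine Nat.card_congr (Equiv.ofBijective (fun x => Quotient.mk _ ((1 : G), r x)) ⟨fun x y e => ?_, ?_⟩)
    · obtain ⟨g, hg⟩ := Quotient.exact e
      simp only [Prod.smul_mk, Quotient.smul_mk, Prod.mk.injEq, QuotientGroup.eq] at hg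
      exact hi x y g (by simpa using hg.1) _ hg.2 (by simp [mul_assoc])
    · rintro ⟨⟨a⟩, ⟨b⟩⟩
      obtain ⟨x, h, hh, k, hk, e⟩ := hs (a⁻¹ * b)
      refine ⟨x, Quotient.sound ⟨(a * h)⁻¹, Prod.ext (QuotientGroup.eq.2 ?_) (QuotientGroup.eq.2 ?_)⟩⟩
      · simpa using hh
      · simpa [mul_assoc a⁻¹, mul_assoc h⁻¹, e, mul_assoc] using hk
  have h3 (g : G) : fixedPointCharacter H g * fixedPointCharacter K g =
      Fintype.card (fixedBy ((G ⧸ H) × (G ⧸ K)) g) := by
    rw [fixedPointCharacter, fixedPointCharacter, ← Nat.cast_mul, ← Nat.card_prod, ← Nat.card_eq_fintype_card]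
    exact congrArg _ (Nat.card_congr ((Equiv.Set.prod _ _).symm.trans (Equiv.setCongr (by
      ext x; simp [Prod.ext_iff]))))
  simp only [h3]
  rw [← Nat.cast_sum, h1, h2, ← Nat.card_eq_fintype_card, ← Nat.card_eq_fintype_card, Nat.cast_mul, mul_comm,
    mul_inv_cancel_right₀ (Nat.cast_ne_zero.2 Nat.card_pos.ne')]

variable {n m : ℕ}

/-- the table of a permutation with respect to two labellings -/
def tab (a b : Fin n → Fin m) (w : Equiv.Perm (Fin n)) (i j : Fin m) : ℕ := #{c | a (w c) = i ∧ b c = j}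

theorem tab_row (a b : Fin n → Fin m) (w : Equiv.Perm (Fin n)) (i : Fin m) :
    ∑ j, tab a b w i j = #{c | a c = i} := by
  rw [← card_equiv w (s := {c | a (w c) = i}) (by simp), card_eq_sum_card_fiberwise (f := b) (t := univ) (by simp)]
  simp [tab, filter_filter]

theorem tab_col (a b : Fin n → Fin m) (w : Equiv.Perm (Fin n)) (j : Fin m) :
    ∑ i, tab a b w i j = #{c | b c = j} := by
  rw [card_eq_sum_card_fiberwise (f := fun c => a (w c)) (t := univ) (by simp)]
  simp [tab, filter_filter, and_comm]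

theorem exists_tab (a b : Fin n → Fin m) {T : Fin m → Fin m → ℕ} (h1 : ∀ i, ∑ j, T i j = #{c | a c = i})
    (h2 : ∀ j, ∑ i, T i j = #{c | b c = j}) : ∃ w, tab a b w = T := by
  have key (P : Fin m → Fin m → Prop) [∀ i j, Decidable (P i j)] :
      #{x : Σ p : Fin m × Fin m, Fin (T p.1 p.2) | P x.1.1 x.1.2} = ∑ i, ∑ j, if P i j then T i j else 0 := by
    rw [card_filter, Fintype.sum_sigma, Fintype.sum_prod_type]
    simp [apply_ite card]
  obtain ⟨e1, he1⟩ := Conj.exists_equiv_of_card_fiber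
    (fun x : Σ p : Fin m × Fin m, Fin (T p.1 p.2) => x.1.1) a fun i => by
      rw [key fun x _ => x = i, ← h1, sum_comm]; simp
  obtain ⟨e2, he2⟩ := Conj.exists_equiv_of_card_fiber
    (fun x : Σ p : Fin m × Fin m, Fin (T p.1 p.2) => x.1.2) b fun i => by
      rw [key fun _ x => x = i, ← h2]; simp
  refine ⟨e2.symm.trans e1, funext₂ fun i j => ?_⟩
  rw [tab, ← card_equiv e2 (s := {x | x.1.1 = i ∧ x.1.2 = j}) (by simp [he1, he2]), key fun x y => x = i ∧ y = j]
  simp [ite_and]

theorem inner_tab {G : Type*} [Group G] [Fintype G] (φ : Equiv.Perm (Fin n) →* G) (H K : Subgroup G)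
    (a b : Fin n → Fin m) {α β : Fin m → ℕ} (hα : ∀ i, #{c | a c = i} = α i) (hβ : ∀ i, #{c | b c = i} = β i)
    (hH : ∀ w : Equiv.Perm (Fin n), (∀ c, a (w c) = a c) → φ w ∈ H)
    (hK : ∀ w : Equiv.Perm (Fin n), (∀ c, b (w c) = b c) → φ w ∈ K)
    (hs : ∀ g, ∃ w, ∃ h ∈ H, ∃ k ∈ K, g = h * φ w * k)
    (hi : ∀ w w', ∀ h ∈ H, ∀ k ∈ K, φ w = h * φ w' * k → tab a b w = tab a b w') :
    (Nat.card G : ℂ)⁻¹ * ∑ g, fixedPointCharacter H g * fixedPointCharacter K g = Nat.card (Tab α β) := by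
  choose r hr using fun T : Tab α β =>
    exists_tab a b (T := T.1) (fun i => by rw [hα, T.2.1]) fun i => by rw [hβ, T.2.2]
  refine inner_fix H K (fun T => φ (r T)) (fun g => ?_) fun x y h hh k hk e =>
    Subtype.ext (by rw [← hr, ← hr, hi _ _ h hh k hk e])
  obtain ⟨w, h, hh, k, hk, rfl⟩ := hs g
  let T : Tab α β := ⟨tab a b w, fun i => by rw [tab_row, hα], fun i => by rw [tab_col, hβ]⟩
  obtain ⟨σ, hσ⟩ := Conj.exists_equiv_of_card_fiber (fun c => (a (w c), b c)) (fun c => (a (r T c), b c))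
    fun x => by simpa [tab, Prod.ext_iff, T] using (congrFun₂ (hr T) x.1 x.2).symm
  simp only [Prod.mk.injEq] at hσ
  refine ⟨T, h * φ (w * (r T * σ)⁻¹), mul_mem hh (hH _ fun c => ?_), φ σ * k,
    mul_mem (hK _ fun c => (hσ c).2) hk, by simp [mul_assoc]⟩
  obtain ⟨c, rfl⟩ := (r T * σ).surjective c
  simpa using (hσ c).1.symm

theorem inner_young (H K : Subgroup (Equiv.Perm (Fin n))) (a b : Fin n → Fin m) {α β : Fin m → ℕ}
    (hα : ∀ i, #{c | a c = i} = α i) (hβ : ∀ i, #{c | b c = i} = β i)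
    (hH : ∀ w, w ∈ H ↔ ∀ c, a (w c) = a c) (hK : ∀ w, w ∈ K ↔ ∀ c, b (w c) = b c) :
    (Nat.card (Equiv.Perm (Fin n)) : ℂ)⁻¹ * ∑ g, fixedPointCharacter H g * fixedPointCharacter K g =
      Nat.card (Tab α β) := by
  refine inner_tab (MonoidHom.id _) H K a b hα hβ (fun w => (hH w).2) (fun w => (hK w).2)
    (fun g => ⟨g, 1, one_mem _, 1, one_mem _, by simp⟩) ?_
  rintro w w' h hh k hk (rfl : w = h * w' * k)
  exact funext₂ fun i j => card_equiv k (by simp [(hH h).1 hh, (hK k).1 hk])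

variable {F : Type*} [Field F]

theorem exists_low {v : Fin n → F} (hv : v ≠ 0) : ∃ i, v i ≠ 0 ∧ ∀ k, i < k → v k = 0 := by
  classical
  obtain ⟨i, hi, h⟩ := exists_max_image {i | v i ≠ 0} id (by
    obtain ⟨i, hi⟩ := Function.ne_iff.1 hv
    exact ⟨i, by simpa using hi⟩)
  exact ⟨i, by simpa using hi, fun k hk => by_contra fun e => (h k (by simpa using e)).not_gt hk⟩

/-- permutation matrices -/
noncomputable def pm (F : Type*) [Field F] (n : ℕ) : Equiv.Perm (Fin n) →* GL (Fin n) F :=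
  permMatrixHom.toHomUnits

theorem pm_val (w : Equiv.Perm (Fin n)) : (pm F n w).1 = w⁻¹.permMatrix F := rfl

theorem exists_tri {M : Matrix (Fin n) (Fin n) F} (h : M.BlockTriangular id) (h' : ∀ i, M i i ≠ 0) :
    ∃ g : GL (Fin n) F, g.1 = M :=
  ⟨GeneralLinearGroup.mkOfDetNeZero M (by rw [det_of_isUpperTriangular h]; exact prod_ne_zero_iff.2 fun i _ => h' i),
    rfl⟩

/-- Bruhat decomposition -/
theorem bruhat (g : GL (Fin n) F) : ∃ w, ∃ h ∈ upperTriangularGL n F, ∃ k ∈ upperTriangularGL n F,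
    g = h * pm F n w * k := by
  classical
  let P (j i : Fin n) : Prop := ∃ u : Fin n → F, (u j ≠ 0 ∧ ∀ k, j < k → u k = 0) ∧ (g.1 *ᵥ u) i ≠ 0 ∧
    ∀ k, i < k → (g.1 *ᵥ u) k = 0
  have hP (j) (u : Fin n → F) (hu : u j ≠ 0) : g.1 *ᵥ u ≠ 0 := fun e =>
    hu (congrFun (eq_zero_of_mulVec_eq_zero g.det_ne_zero e) j)
  have (j : Fin n) : ∃ i, P j i ∧ ∀ i', P j i' → i ≤ i' := by
    obtain ⟨i, hi, h⟩ := exists_min_image {i | P j i} id (by
      obtain ⟨i, hi⟩ := exists_low (hP j (Pi.single j 1) (by simp))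
      exact ⟨i, mem_filter.2 ⟨mem_univ _, _, ⟨by simp, fun k hk => by simp [hk.ne']⟩, hi⟩⟩)
    exact ⟨i, (mem_filter.1 hi).2, fun i' hi' => h i' (mem_filter.2 ⟨mem_univ _, hi'⟩)⟩
  choose w hw hmin using this
  choose u hu h1 h2 using hw
  have inj {j j' : Fin n} (hj : j < j') : w j ≠ w j' := fun e => by
    set c := (g.1 *ᵥ u j') (w j') / (g.1 *ᵥ u j) (w j)
    have e1 : (u j' - c • u j) j' ≠ 0 := by simp [(hu j).2 _ hj, (hu j').1]
    obtain ⟨i, hi⟩ := exists_low (hP j' _ e1)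
    have e2 := hmin j' i ⟨_, ⟨e1, fun k hk => by simp [(hu j).2 _ (hj.trans hk), (hu j').2 _ hk]⟩, hi⟩
    refine hi.1 ?_
    rw [mulVec_sub, mulVec_smul, Pi.sub_apply, Pi.smul_apply, smul_eq_mul]
    rcases e2.eq_or_lt with rfl | e2
    · rw [← e, div_mul_cancel₀ _ (h1 j), e, sub_self]
    · rw [h2 _ _ e2, h2 _ _ (e ▸ e2), mul_zero, sub_zero]
  let σ : Equiv.Perm (Fin n) := Equiv.ofBijective w (Finite.injective_iff_bijective.1 fun j j' e =>
    by_contra fun h => (lt_or_gt_of_ne h).elim (fun h => inj h e) fun h => inj h e.symm)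
  have hσ (j) : w (σ.symm j) = j := σ.apply_symm_apply j
  have t1 : (of fun i j => u j i).BlockTriangular id := fun i j h => (hu j).2 i h
  have t2 : (of fun i j => (g.1 *ᵥ u (σ.symm j)) i).BlockTriangular id := fun i j h => h2 _ i (by rwa [hσ])
  obtain ⟨k, hk⟩ := exists_tri t1 fun i => (hu i).1
  obtain ⟨h, hh⟩ := exists_tri t2 fun i => by simpa [hσ] using h1 (σ.symm i)
  refine ⟨σ, h, show h.1.BlockTriangular id from hh ▸ t2, k⁻¹,
    inv_mem (show k.1.BlockTriangular id from hk ▸ t1), eq_mul_inv_of_mul_eq (Units.ext ?_)⟩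
  rw [Units.val_mul, Units.val_mul, pm_val, PEquiv.mul_toMatrix_toPEquiv, hh, hk]
  ext i j
  simp [mul_apply, mulVec, dotProduct, Equiv.Perm.inv_def]

theorem tri_vanish {b : Fin n → Fin m} {p : Matrix (Fin n) (Fin n) F} (hp : p.BlockTriangular b) {j : ℕ}
    {v : Fin n → F} (hv : ∀ c, j ≤ b c → v c = 0) (c : Fin n) (hc : j ≤ b c) : (p *ᵥ v) c = 0 :=
  sum_eq_zero (s := univ) (f := fun d => p c d * v d) fun d _ => (lt_or_ge (b d) (b c)).elim (fun h => by rw [hp h, zero_mul])
    fun h => by rw [hv d (hc.trans h), mul_zero]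

theorem card_vanish [Fintype F] (P : Fin n → Prop) [DecidablePred P] :
    Nat.card {v : Fin n → F // ∀ c, ¬ P c → v c = 0} = Fintype.card F ^ #{c | P c} := by
  rw [← Fintype.card_subtype, ← Fintype.card_fun, ← Nat.card_eq_fintype_card]
  exact Nat.card_congr
    { toFun := fun v c => v.1 c
      invFun := fun u => ⟨fun c => if h : P c then u ⟨c, h⟩ else 0, fun c h => dif_neg h⟩
      left_inv := fun v => Subtype.ext (funext fun c => by by_cases h : P c <;> simp [h, v.2 c])
      right_inv := fun u => funext fun c => dif_pos c.2 }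

theorem inner_par [Fintype F] [DecidableEq F] (H K : Subgroup (GL (Fin n) F)) {a b : Fin n → Fin m}
    (ha : Monotone a) (hb : Monotone b) {α β : Fin m → ℕ}
    (hα : ∀ i, #{c | a c = i} = α i) (hβ : ∀ i, #{c | b c = i} = β i)
    (hH : ∀ g, g ∈ H ↔ g.1.BlockTriangular a) (hK : ∀ g, g ∈ K ↔ g.1.BlockTriangular b) :
    (Nat.card (GL (Fin n) F) : ℂ)⁻¹ * ∑ g, fixedPointCharacter H g * fixedPointCharacter K g =
      Nat.card (Tab α β) := by
  have k1 {a : Fin n → Fin m} (w : Equiv.Perm (Fin n)) (h : ∀ c, a (w c) = a c) :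
      (pm F n w).1.BlockTriangular a := fun i j hij => by
    have : w.symm i ≠ j := by rintro rfl; simp [← h (w.symm i)] at hij
    simp [pm_val, this]
  have k2 {a : Fin n → Fin m} (ha : Monotone a) {g : GL (Fin n) F} (h : g ∈ upperTriangularGL n F) :
      g.1.BlockTriangular a := fun i j hij => h (ha.reflect_lt hij)
  refine inner_tab (pm F n) H K a b hα hβ (fun w h => (hH _).2 (k1 w h)) (fun w h => (hK _).2 (k1 w h))
    (fun g => ?_) fun w w' h hh k hk e => ?_
  · obtain ⟨w, h, hh, k, hk, e⟩ := bruhat g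
    exact ⟨w, h, (hH _).2 (k2 ha hh), k, (hK _).2 (k2 hb hk), e⟩
  have k3 (w : Equiv.Perm (Fin n)) (i j : ℕ) : Nat.card {v : Fin n → F // (∀ c, j ≤ b c → v c = 0) ∧
      ∀ c, i ≤ a c → ((pm F n w).1 *ᵥ v) c = 0} = Fintype.card F ^ #{c | a (w c) < i ∧ b c < j} := by
    rw [← card_vanish]
    refine Nat.card_congr (Equiv.subtypeEquivRight fun v => ?_)
    rw [pm_val, permMatrix_mulVec, and_comm, ← w.forall_congr_right]
    simp only [not_and_or, not_lt, or_imp, forall_and]
    simp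
  have k4 (i j : ℕ) : #{c | a (w c) < i ∧ b c < j} = #{c | a (w' c) < i ∧ b c < j} := by
    refine Nat.pow_right_injective (Fintype.one_lt_card (α := F)) ?_
    simp only [← k3, e]
    refine Nat.card_congr (Equiv.subtypeEquiv (MulAction.toPerm k) fun v => and_congr
      ⟨fun h => tri_vanish ((hK _).1 hk) h, fun h => ?_⟩ ⟨fun h => ?_, fun h => ?_⟩)
    · simpa [mulVec_mulVec, Units.smul_def] using tri_vanish ((hK _).1 (inv_mem hk)) h
    · simpa [mulVec_mulVec, Units.smul_def, ← Matrix.mul_assoc] using tri_vanish ((hH _).1 (inv_mem hh)) h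
    · simpa [mulVec_mulVec, Units.smul_def, ← Matrix.mul_assoc] using tri_vanish ((hH _).1 hh) h
  have k5 (w : Equiv.Perm (Fin n)) (i j : Fin m) : tab a b w i j + #{c | a (w c) < i.1 + 1 ∧ b c < j.1} +
      #{c | a (w c) < i.1 ∧ b c < j.1 + 1} =
        #{c | a (w c) < i.1 + 1 ∧ b c < j.1 + 1} + #{c | a (w c) < i.1 ∧ b c < j.1} := by
    simp only [tab, card_filter, ← sum_add_distrib, Fin.ext_iff]
    exact sum_congr rfl fun c _ => by split_ifs <;> omega
  funext i j
  have := k5 w i j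
  have := k5 w' i j
  simp only [k4] at *
  omega

/-! ### labels of a composition -/

theorem label_lt_iff {μ : Fin n → ℕ} (h : ∑ i, μ i = n) (c : Fin n) (j : ℕ) :
    compLabel μ c < j ↔ c < ∑ k with k.val < j, μ k := by
  constructor
  · intro e
    by_contra e'
    rcases le_or_gt n j with hj | hj
    · rw [filter_true_of_mem fun k _ => k.2.trans_le hj, h] at e'
      exact e' c.2
    · refine e.not_ge ?_
      refine (Fin.card_Iio ⟨j, hj⟩).symm.trans_le (card_le_card fun k hk => mem_filter.2 ⟨mem_univ _, le_trans (sum_le_sum_of_subset fun l hl => ?_)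
        (not_lt.1 e')⟩)
      simp only [mem_filter, mem_univ, true_and, mem_Iio, Fin.lt_def, Fin.le_def] at *
      omega
  · intro e
    rcases j with _ | j
    · simp at e
    refine Nat.lt_succ_of_le ((card_le_card_of_injOn (t := range j) (fun k => k.val) (fun k hk => ?_)
      Fin.val_injective.injOn).trans (card_range j).le)
    simp only [coe_filter, mem_univ, true_and, Set.mem_ofPred_eq, coe_range, Set.mem_Iio] at *
    by_contra e'
    refine (e.trans_le (sum_le_sum_of_subset fun l hl => ?_)).not_ge hk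
    simp only [mem_filter, mem_univ, true_and, Fin.le_def] at *
    omega

/-- the block label as an element of `Fin n` -/
def lab {μ : Fin n → ℕ} (h : ∑ i, μ i = n) (c : Fin n) : Fin n :=
  ⟨compLabel μ c, (label_lt_iff h c n).2 (by simp [h])⟩

theorem lab_mono {μ : Fin n → ℕ} (h : ∑ i, μ i = n) : Monotone (lab h) := fun x y e =>
  show compLabel μ x ≤ compLabel μ y from
    card_le_card fun _ hk => mem_filter.2 ⟨mem_univ _, (mem_filter.1 hk).2.trans e⟩

theorem card_lab {μ : Fin n → ℕ} (h : ∑ i, μ i = n) (i : Fin n) : #{c | lab h c = i} = μ i := by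
  have key (j : ℕ) : #{c | compLabel μ c < j} = ∑ k with k.val < j, μ k := by
    simp only [label_lt_iff h]
    rw [Fin.card_filter_val_lt, min_eq_right]
    exact (sum_le_sum_of_subset (filter_subset _ _)).trans h.le
  have e1 : #{c | compLabel μ c < i + 1} = #{c | compLabel μ c < i} + #{c | lab h c = i} := by
    simp only [card_filter, ← sum_add_distrib, Fin.ext_iff, lab]
    exact sum_congr rfl fun c _ => by split_ifs <;> omega
  have e2 : ∑ k : Fin n with k.val < i.val + 1, μ k = ∑ k : Fin n with k.val < i.val, μ k + ∑ k with k = i, μ k := by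
    simp only [sum_filter, ← sum_add_distrib, Fin.ext_iff]
    exact sum_congr rfl fun c _ => by split_ifs <;> omega
  rw [key, key, e2] at e1
  simpa [filter_eq'] using e1.symm

theorem inner_GL [Fintype F] [DecidableEq F] {α β : Fin n → ℕ} (hα : ∑ i, α i = n) (hβ : ∑ i, β i = n) :
    (Nat.card (GL (Fin n) F) : ℂ)⁻¹ * ∑ g, fixedPointCharacter (parabolicGL n F α) g *
      fixedPointCharacter (parabolicGL n F β) g = Nat.card (Tab α β) :=
  inner_par _ _ (lab_mono hα) (lab_mono hβ) (card_lab hα) (card_lab hβ) (fun _ => Iff.rfl) fun _ => Iff.rfl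

theorem inner_S {α β : Fin n → ℕ} (hα : ∑ i, α i = n) (hβ : ∑ i, β i = n) :
    (Nat.card (Equiv.Perm (Fin n)) : ℂ)⁻¹ * ∑ g, fixedPointCharacter (youngSubgroup α) g *
      fixedPointCharacter (youngSubgroup β) g = Nat.card (Tab α β) :=
  inner_young _ _ _ _ (card_lab hα) (card_lab hβ) (fun _ => by simp [Fin.ext_iff]; rfl)
    fun _ => by simp [Fin.ext_iff]; rfl

end Cfsg.Agent.UGL
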