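import Mathlib

/-!
The generating function `∏ (1 - t^j) / (1 - q t^j)` and bounds for its coefficients.
-/

set_option autoImplicit false

namespace Cfsg.Agent.UGL.Cl

open PowerSeries

/-- non-negative coefficients -/
def NN (f : PowerSeries ℤ) : Prop := ∀ n, 0 ≤ coeff n f

theorem NN.add {f g : PowerSeries ℤ} (hf : NN f) (hg : NN g) : NN (f + g) := fun n => by
  rw [map_add]; exact add_nonneg (hf n) (hg n)

theorem NN.mul {f g : PowerSeries ℤ} (hf : NN f) (hg : NN g) : NN (f * g) := fun n => by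
  rw [coeff_mul]; exact Finset.sum_nonneg fun p _ => mul_nonneg (hf _) (hg _)

theorem NN.one : NN 1 := fun n => by rw [coeff_one]; split_ifs <;> simp

theorem NN.zero : NN 0 := fun n => by simp

theorem NN.X_pow (k : ℕ) : NN (X ^ k) := fun n => by rw [coeff_X_pow]; split_ifs <;> simp

theorem NN.sum {ι : Type*} {s : Finset ι} {f : ι → PowerSeries ℤ} (h : ∀ i ∈ s, NN (f i)) :
    NN (∑ i ∈ s, f i) := fun n => by
  rw [map_sum]; exact Finset.sum_nonneg fun i hi => h i hi n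

theorem NN.prod {ι : Type*} {s : Finset ι} {f : ι → PowerSeries ℤ} (h : ∀ i ∈ s, NN (f i)) :
    NN (∏ i ∈ s, f i) :=
  Finset.prod_induction f NN (fun _ _ => NN.mul) NN.one h

theorem NN.prod_sub {ι : Type*} {s : Finset ι} {f g : ι → PowerSeries ℤ} (h : ∀ i ∈ s, NN (f i))
    (h' : ∀ i ∈ s, NN (g i - f i)) : NN (∏ i ∈ s, g i - ∏ i ∈ s, f i) := by
  classical
  induction s using Finset.induction_on with
  | empty => simpa using NN.zero
  | insert a s ha ih =>
    rw [Finset.prod_insert ha, Finset.prod_insert ha]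
    have h1 := ih (fun i hi => h i (Finset.mem_insert_of_mem hi))
      (fun i hi => h' i (Finset.mem_insert_of_mem hi))
    have h2 : NN (∏ i ∈ s, f i) := NN.prod fun i hi => h i (Finset.mem_insert_of_mem hi)
    have h3 := h a (Finset.mem_insert_self _ _)
    have h4 := h' a (Finset.mem_insert_self _ _)
    have : g a * ∏ i ∈ s, g i - f a * ∏ i ∈ s, f i = (g a - f a + f a) *
      (∏ i ∈ s, g i - ∏ i ∈ s, f i) + (g a - f a) * ∏ i ∈ s, f i := by ring
    rw [this]
    exact ((h4.add h3).mul h1).add (h4.mul h2)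

theorem NN.expand {f : PowerSeries ℤ} (hf : NN f) (e : ℕ) (he : e ≠ 0) : NN (expand e he f) := by
  intro n
  by_cases h : e ∣ n
  · obtain ⟨m, rfl⟩ := h
    rw [coeff_expand_mul]; exact hf m
  · rw [coeff_expand_of_not_dvd _ _ _ h]

/-- `1 / (1 - q t)` -/
noncomputable def gI (q : ℕ) : PowerSeries ℤ := mk fun n => (q : ℤ) ^ n

theorem gI_mul (q : ℕ) : gI q * (1 - (q : PowerSeries ℤ) * X) = 1 := by
  ext n
  have : (q : PowerSeries ℤ) = C (q : ℤ) := by simp
  rw [mul_sub, mul_one, this, ← mul_assoc, map_sub]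
  rcases n with _ | n
  · simp [gI]
  · rw [coeff_succ_mul_X, coeff_mul_C]; simp [gI, pow_succ, coeff_one]

theorem NN_gI (q : ℕ) : NN (gI q) := fun n => by simp [gI]

/-- `(1 - t) / (1 - q t)` -/
noncomputable def g1 (q : ℕ) : PowerSeries ℤ := gI q * (1 - X)

theorem coeff_g1_zero (q : ℕ) : coeff 0 (g1 q) = 1 := by simp [g1, gI]

theorem coeff_g1_succ (q m : ℕ) : coeff (m + 1) (g1 q) = (q : ℤ) ^ (m + 1) - q ^ m := by
  rw [g1, mul_sub, mul_one, map_sub, coeff_succ_mul_X]; simp [gI]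

theorem NN_g1_sub {q : ℕ} (hq : 1 ≤ q) : NN (g1 q - 1) := fun n => by
  rcases n with _ | n
  · rw [map_sub, coeff_g1_zero]; simp
  · rw [map_sub, coeff_g1_succ, coeff_one, if_neg (Nat.succ_ne_zero n), sub_zero, sub_nonneg]
    exact pow_le_pow_right₀ (by exact_mod_cast hq) (Nat.le_succ n)

/-- `(1 - t^(i+1)) / (1 - q t^(i+1))` -/
noncomputable def gg (q i : ℕ) : PowerSeries ℤ := expand (i + 1) (Nat.succ_ne_zero i) (g1 q)

theorem NN_gg_sub {q : ℕ} (hq : 1 ≤ q) (i : ℕ) : NN (gg q i - 1) := by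
  have := (NN_g1_sub hq).expand (i + 1) (Nat.succ_ne_zero i)
  rwa [map_sub, map_one] at this

theorem NN_gg {q : ℕ} (hq : 1 ≤ q) (i : ℕ) : NN (gg q i) := by
  simpa using (NN_gg_sub hq i).add NN.one

theorem gg_mul (q i : ℕ) : gg q i * (1 - (q : PowerSeries ℤ) * X ^ (i + 1)) = 1 - X ^ (i + 1) := by
  have h : g1 q * (1 - (q : PowerSeries ℤ) * X) = 1 - X := by
    rw [g1, mul_right_comm, gI_mul, one_mul]
  have := congrArg (expand (i + 1) (Nat.succ_ne_zero i)) h
  simpa [gg] using this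

theorem one_sub_ne (q i : ℕ) : (1 - (q : PowerSeries ℤ) * X ^ (i + 1)) ≠ 0 := by
  intro h
  have := congrArg constantCoeff h
  simp at this

/-- the truncated generating function -/
noncomputable def AA (q J : ℕ) : PowerSeries ℤ := ∏ i ∈ Finset.range J, gg q i

theorem step (q J : ℕ) : gI q * (1 - X ^ (J + 1)) * gg q (J + 1) + X ^ (J + 1) * gg q (J + 1) =
    gI q * (1 - X ^ (J + 2)) := by
  apply mul_right_cancel₀ (one_sub_ne q (J + 1))
  have h1 := gg_mul q (J + 1)
  have h2 := gI_mul q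
  linear_combination (gI q * (1 - X ^ (J + 1)) + X ^ (J + 1)) * h1 -
    X ^ (J + 1) * (1 - X ^ (J + 2)) * h2

theorem key {q : ℕ} (hq : 1 ≤ q) (J : ℕ) : NN (gI q * (1 - X ^ (J + 1)) -
    ∑ i ∈ Finset.range J, X ^ (i + 1) * gg q (i + 1) - AA q (J + 1)) := by
  induction J with
  | zero =>
    have : gg q 0 = g1 q := expand_one_apply _
    simpa [AA, this, g1] using NN.zero
  | succ J ih =>
    have h1 := (ih.mul (NN_gg hq (J + 1))).add ((NN.sum (s := Finset.range J) fun i _ =>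
      (NN.X_pow (i + 1)).mul (NN_gg hq (i + 1))).mul (NN_gg_sub hq (J + 1)))
    convert h1 using 1
    rw [Finset.sum_range_succ, AA, Finset.prod_range_succ, ← AA, ← step]
    ring

theorem coeff_gg_zero (q i : ℕ) : coeff 0 (gg q i) = 1 := by
  rw [gg, ← coeff_g1_zero q, ← coeff_expand_mul (i + 1) (Nat.succ_ne_zero i) (g1 q) 0]; rfl

theorem coeff_AA_le {q : ℕ} (hq : 1 ≤ q) {N m : ℕ} (hm : 1 ≤ m) (hN : m ≤ N) :
    coeff m (AA q N) ≤ (q : ℤ) ^ m - 1 := by
  obtain ⟨J, rfl⟩ : ∃ J, N = J + 1 := ⟨N - 1, by omega⟩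
  have h := key hq J m
  rw [map_sub, map_sub, mul_sub, mul_one, map_sub, map_sum] at h
  have h1 : coeff m (gI q) = (q : ℤ) ^ m := by simp [gI]
  have h2 : ∀ i ∈ Finset.range J, 0 ≤ coeff m (X ^ (i + 1) * gg q (i + 1)) := fun i _ =>
    ((NN.X_pow (i + 1)).mul (NN_gg hq (i + 1))) m
  rcases hN.eq_or_lt with rfl | hN
  · have h3 : coeff (J + 1) (gI q * X ^ (J + 1)) = 1 := by
      have := coeff_mul_X_pow (gI q) (J + 1) 0
      rw [zero_add] at this
      rw [this]; simp [gI]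
    have := Finset.sum_nonneg h2
    linarith
  · obtain ⟨k, rfl⟩ : ∃ k, m = k + 1 := ⟨m - 1, by omega⟩
    have h3 := Finset.single_le_sum h2 (Finset.mem_range.2 (show k < J by omega))
    have h4 : coeff (k + 1) (X ^ (k + 1) * gg q (k + 1)) = 1 := by
      have := coeff_X_pow_mul (gg q (k + 1)) (k + 1) 0
      rw [zero_add] at this
      rw [this, coeff_gg_zero]
    have h5 := ((NN_gI q).mul (NN.X_pow (J + 1))) (k + 1)
    linarith

theorem coeff_AA_three {q : ℕ} (hq : 1 ≤ q) {N : ℕ} (hN : 3 ≤ N) :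
    coeff 3 (AA q N) ≤ (q : ℤ) ^ 3 - q := by
  obtain ⟨J, rfl⟩ : ∃ J, N = J + 1 := ⟨N - 1, by omega⟩
  have h := key hq J 3
  rw [map_sub, map_sub, mul_sub, mul_one, map_sub, map_sum] at h
  have h1 : coeff 3 (gI q) = (q : ℤ) ^ 3 := by simp [gI]
  have h2 : ∀ i ∈ Finset.range J, 0 ≤ coeff 3 (X ^ (i + 1) * gg q (i + 1)) := fun i _ =>
    ((NN.X_pow (i + 1)).mul (NN_gg hq (i + 1))) 3
  have h4 : coeff 3 (X ^ (0 + 1) * gg q (0 + 1)) = (q : ℤ) - 1 := by
    have := coeff_X_pow_mul (gg q 1) 1 2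
    rw [this, gg]
    have h := coeff_expand_mul (1 + 1) (Nat.succ_ne_zero 1) (g1 q) 1
    rw [show (1 + 1) * 1 = 2 from rfl] at h
    rw [h, coeff_g1_succ]; simp
  rcases hN.eq_or_lt with h3 | hN
  · obtain rfl : J = 2 := by omega
    have h3 : coeff 3 (gI q * X ^ (2 + 1)) = 1 := by
      have := coeff_mul_X_pow (gI q) 3 0
      rw [zero_add] at this
      rw [this]; simp [gI]
    have h5 := Finset.single_le_sum h2 (Finset.mem_range.2 (show 0 < 2 by omega))
    linarith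
  · have h3 := Finset.sum_le_sum_of_subset_of_nonneg (s := {0, 2}) (t := Finset.range J)
      (f := fun i => coeff 3 (X ^ (i + 1) * gg q (i + 1)))
      (fun i hi => by simp at hi ⊢; omega) fun i hi _ => h2 i hi
    rw [Finset.sum_pair (by decide)] at h3
    have h6 : coeff 3 (X ^ (2 + 1) * gg q (2 + 1)) = 1 := by
      have := coeff_X_pow_mul (gg q 3) 3 0
      rw [zero_add] at this
      rw [this, coeff_gg_zero]
    have h5 := ((NN_gI q).mul (NN.X_pow (J + 1))) 3
    linarith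

theorem prod_ite_dvd (q d : ℕ) (hd : d ≠ 0) (N : ℕ) :
    ∏ i ∈ Finset.range N, (if d ∣ i + 1 then gg q i else 1) = expand d hd (AA q (N / d)) := by
  induction N with
  | zero => simp [AA]
  | succ N ih =>
    rw [Finset.prod_range_succ, ih, Nat.succ_div]
    split_ifs with h
    · rw [AA, AA, Finset.prod_range_succ, map_mul]
      congr 1
      have h1 : N + 1 = d * (N / d + 1) := by
        have := Nat.succ_div (a := N) (b := d)
        rw [if_pos h] at this
        rw [← this, Nat.mul_div_cancel' h]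
      rw [gg, gg, ← expand_mul]
      congr 2
    · simp

theorem coeff_expand_AA_le {q : ℕ} (hq : 1 ≤ q) {N m : ℕ} (hm : 1 ≤ m) (hN : m ≤ N) (d : ℕ)
    (hd : d ≠ 0) :
    coeff m (expand d hd (AA q (N / d))) ≤ if d ∣ m then (q : ℤ) ^ (m / d) - 1 else 0 := by
  split_ifs with h
  · obtain ⟨k, rfl⟩ := h
    rw [coeff_expand_mul, Nat.mul_div_cancel_left _ (Nat.pos_of_ne_zero hd)]
    refine coeff_AA_le hq (Nat.pos_of_ne_zero fun h => by simp [h] at hm) ?_
    rwa [Nat.le_div_iff_mul_le (Nat.pos_of_ne_zero hd), mul_comm]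
  · rw [coeff_expand_of_not_dvd _ _ _ h]

/-- the correction term -/
def TT (q m : ℕ) : ℤ :=
  ∑ d ∈ (q - 1).divisors, ((d : ℤ) ^ 2 - 1) * if d ∣ m then (q : ℤ) ^ (m / d) - 1 else 0

theorem TT_le_small {q : ℕ} (hq : 2 ≤ q) {m : ℕ} (hm : m ≠ 0) : TT q m ≤
    ∑ d ∈ m.divisors, if d + 1 ≤ q then ((d : ℤ) ^ 2 - 1) * ((q : ℤ) ^ (m / d) - 1) else 0 := by
  simp only [TT, mul_ite, mul_zero]
  rw [← Finset.sum_filter, ← Finset.sum_filter]
  refine Finset.sum_le_sum_of_subset_of_nonneg (fun d hd => ?_) fun d hd _ => ?_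
  · simp only [Finset.mem_filter, Nat.mem_divisors] at hd ⊢
    have := Nat.le_of_dvd (by omega) hd.1.1
    exact ⟨⟨hd.2, hm⟩, by omega⟩
  · have h1 : 1 ≤ d := Nat.pos_of_mem_divisors (Finset.mem_filter.1 hd).1
    refine mul_nonneg (sub_nonneg.2 (one_le_pow₀ (by exact_mod_cast h1)))
      (sub_nonneg.2 (one_le_pow₀ (by exact_mod_cast (by omega : 1 ≤ q))))

theorem TT_le_large {q : ℕ} (hq : 2 ≤ q) {m : ℕ} (hm : 5 ≤ m) :
    TT q (m + 2) ≤ (q : ℤ) ^ m * (2 * q - 3) := by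
  rcases hq.eq_or_lt with rfl | hq
  · simp [TT]
  have hq1 : (1 : ℤ) ≤ q := by exact_mod_cast (by omega : 1 ≤ q)
  have h1 : TT q (m + 2) ≤ (q - 1).divisors.card • ((q : ℤ) ^ 2 * q ^ ((m + 2) / 2)) := by
    refine Finset.sum_le_card_nsmul _ _ _ fun d hd => ?_
    have h1 : 1 ≤ d := Nat.pos_of_mem_divisors hd
    have h2 : d ≤ q - 1 := Nat.divisor_le hd
    rcases h1.eq_or_lt with rfl | h1
    · simp only [Nat.cast_one, one_pow, sub_self, zero_mul]; positivity
    split_ifs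
    · have h3 : (d : ℤ) ^ 2 ≤ q ^ 2 :=
        pow_le_pow_left₀ (by positivity) (by exact_mod_cast (by omega : d ≤ q)) 2
      have h4 : (q : ℤ) ^ ((m + 2) / d) ≤ q ^ ((m + 2) / 2) :=
        pow_le_pow_right₀ hq1 (Nat.div_le_div_left h1 (by omega))
      refine mul_le_mul (by linarith) (by linarith) (sub_nonneg.2 (one_le_pow₀ hq1))
        (by positivity)
    · rw [mul_zero]; positivity
  have h2 : (q - 1).divisors.card ≤ q := (Nat.card_divisors_le_self _).trans (by omega)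
  rw [nsmul_eq_mul] at h1
  have h3 : (((q - 1).divisors.card : ℕ) : ℤ) * ((q : ℤ) ^ 2 * q ^ ((m + 2) / 2)) ≤
      q * ((q : ℤ) ^ 2 * q ^ ((m + 2) / 2)) :=
    mul_le_mul_of_nonneg_right (by exact_mod_cast h2) (by positivity)
  have h4 : (q : ℤ) * ((q : ℤ) ^ 2 * q ^ ((m + 2) / 2)) = q ^ ((m + 2) / 2 + 3) := by ring
  have h5 : (q : ℤ) ^ ((m + 2) / 2 + 3) ≤ q ^ (m + 1) := pow_le_pow_right₀ hq1 (by omega)
  have h6 : (q : ℤ) ^ (m + 1) ≤ (q : ℤ) ^ m * (2 * q - 3) := by
    rw [pow_succ]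
    have : (3 : ℤ) ≤ q := by exact_mod_cast hq
    exact mul_le_mul_of_nonneg_left (by linarith) (by positivity)
  linarith

theorem TT_one {q : ℕ} (hq : 2 ≤ q) : TT q 1 ≤ 0 := by
  simpa using TT_le_small hq (m := 1) one_ne_zero

theorem TT_two {q : ℕ} (hq : 2 ≤ q) : TT q 2 ≤ if 3 ≤ q then 3 * ((q : ℤ) - 1) else 0 := by
  have := TT_le_small hq (m := 2) (by decide)
  rw [show Nat.divisors 2 = {1, 2} by decide, Finset.sum_pair (by decide)] at this
  norm_num at this ⊢
  exact this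

theorem TT_three {q : ℕ} (hq : 2 ≤ q) : TT q 3 ≤ 2 * (q : ℤ) * (q - 1) := by
  have := TT_le_small hq (m := 3) (by decide)
  rw [show Nat.divisors 3 = {1, 3} by decide, Finset.sum_pair (by decide)] at this
  norm_num at this
  have hq' : (2 : ℤ) ≤ q := by exact_mod_cast hq
  split_ifs at this with h
  · have : (4 : ℤ) ≤ q := by exact_mod_cast h
    nlinarith
  · nlinarith

theorem TT_le {q : ℕ} (hq : 2 ≤ q) {m : ℕ} (hm : 2 ≤ m) :
    TT q (m + 2) ≤ (q : ℤ) ^ m * (2 * q - 3) + 1 := by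
  rcases le_or_gt 5 m with h | h
  · linarith [TT_le_large hq h]
  rcases hq.eq_or_lt with rfl | hq
  · simp [TT]; positivity
  have := TT_le_small hq.le (m := m + 2) (by omega)
  obtain ⟨x, rfl⟩ : ∃ x, q = x + 3 := ⟨q - 3, by omega⟩
  have hx : (0 : ℤ) ≤ x := by positivity
  interval_cases m
  · rw [show Nat.divisors (2 + 2) = {1, 2, 4} by decide, Finset.sum_insert (by decide),
      Finset.sum_pair (by decide)] at this
    norm_num at this ⊢
    split_ifs at this with h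
    · have : (2 : ℤ) ≤ x := by exact_mod_cast (by omega : 2 ≤ x)
      nlinarith [mul_nonneg hx hx, mul_nonneg hx (mul_nonneg hx hx)]
    · nlinarith [mul_nonneg hx hx, mul_nonneg hx (mul_nonneg hx hx)]
  · rw [show Nat.divisors (3 + 2) = {1, 5} by decide, Finset.sum_pair (by decide)] at this
    norm_num at this ⊢
    split_ifs at this with h <;>
    nlinarith [mul_nonneg hx hx, mul_nonneg hx (mul_nonneg hx hx), pow_nonneg hx 4]
  · rw [show Nat.divisors (4 + 2) = {1, 2, 3, 6} by decide, Finset.sum_insert (by decide),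
      Finset.sum_insert (by decide), Finset.sum_pair (by decide)] at this
    norm_num at this ⊢
    split_ifs at this with h <;>
    nlinarith [mul_nonneg hx hx, mul_nonneg hx (mul_nonneg hx hx), pow_nonneg hx 4,
      pow_nonneg hx 5]

end Cfsg.Agent.UGL.Cl
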