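import Mathlib
import Cfsg.Agent.UGL.ClPS

/-!
Counting tuples of monic polynomials with non-zero constant term.
-/

set_option autoImplicit false

namespace Cfsg.Agent.UGL.Cl

open Polynomial
open scoped _root_.Classical

variable {F : Type*} [Field F] [Fintype F]

theorem card_monic (m : ℕ) :
    Nat.card {p : F[X] // p.Monic ∧ p.natDegree = m} = Fintype.card F ^ m := by
  rw [Nat.card_congr ((monicEquivDegreeLT m).trans (degreeLTEquiv F m).toEquiv)]
  simp

theorem finite_monic (m : ℕ) : {p : F[X] | p.Monic ∧ p.natDegree = m}.Finite := by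
  apply Nat.finite_of_card_ne_zero
  change Nat.card {p : F[X] // p.Monic ∧ p.natDegree = m} ≠ 0
  rw [card_monic]
  exact pow_ne_zero _ Fintype.card_ne_zero

variable (F) in
/-- monic polynomials of degree `m` -/
noncomputable def MD (m : ℕ) : Finset F[X] := (finite_monic m).toFinset

theorem mem_MD {m : ℕ} {p : F[X]} : p ∈ MD F m ↔ p.Monic ∧ p.natDegree = m := by
  simp [MD]

theorem card_MD (m : ℕ) : (MD F m).card = Fintype.card F ^ m := by
  rw [← card_monic, MD, ← Set.ncard_eq_toFinset_card _ (finite_monic m)]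
  rfl

variable (F) in
/-- monic polynomials of degree `m` with non-zero constant term -/
noncomputable def M0 (m : ℕ) : Finset F[X] := (MD F m).filter fun p => p.coeff 0 ≠ 0

theorem mem_M0 {m : ℕ} {p : F[X]} : p ∈ M0 F m ↔ p.Monic ∧ p.natDegree = m ∧ p.coeff 0 ≠ 0 := by
  simp [M0, mem_MD, and_assoc]

theorem card_M0_succ (m : ℕ) :
    (M0 F (m + 1)).card + Fintype.card F ^ m = Fintype.card F ^ (m + 1) := by
  rw [← card_MD (m + 1), ← Finset.card_filter_add_card_filter_not (s := MD F (m + 1))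
    (fun p => p.coeff 0 ≠ 0), ← card_MD m]
  congr 1
  refine Finset.card_bij (fun p _ => X * p) (fun p hp => ?_) (fun p _ p' _ h => ?_) fun p hp => ?_
  · rw [mem_MD] at hp
    simp only [Finset.mem_filter, mem_MD]
    exact ⟨⟨monic_X.mul hp.1, by rw [natDegree_X_mul hp.1.ne_zero, hp.2]⟩, by simp⟩
  · exact mul_left_cancel₀ X_ne_zero h
  · simp only [Finset.mem_filter, mem_MD, not_not] at hp
    obtain ⟨r, rfl⟩ := X_dvd_iff.2 hp.2
    have h1 : r.Monic := monic_X.of_mul_monic_left hp.1.1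
    refine ⟨r, mem_MD.2 ⟨h1, ?_⟩, rfl⟩
    have := hp.1.2
    rw [natDegree_X_mul h1.ne_zero] at this
    omega

theorem card_M0_le (m : ℕ) : ((M0 F m).card : ℤ) ≤ PowerSeries.coeff m (g1 (Fintype.card F)) := by
  rcases m with _ | m
  · rw [coeff_g1_zero]
    have : (M0 F 0).card ≤ (MD F 0).card := Finset.card_filter_le _ _
    rw [card_MD, pow_zero] at this
    exact_mod_cast this
  · rw [coeff_g1_succ]
    have := card_M0_succ (F := F) m
    zify at this
    linarith

variable (F) in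
/-- monic polynomials of degree at most `m` with non-zero constant term -/
noncomputable def ML (m : ℕ) : Finset F[X] := (Finset.range (m + 1)).biUnion (M0 F)

theorem mem_ML {m : ℕ} {p : F[X]} : p ∈ ML F m ↔ p.Monic ∧ p.natDegree ≤ m ∧ p.coeff 0 ≠ 0 := by
  simp only [ML, Finset.mem_biUnion, Finset.mem_range, mem_M0]
  constructor
  · rintro ⟨a, ha, h1, rfl, h2⟩
    exact ⟨h1, by omega, h2⟩
  · rintro ⟨h1, h2, h3⟩
    exact ⟨_, Nat.lt_succ_of_le h2, h1, rfl, h3⟩

theorem NN_gg_sub_sum (m i : ℕ) : NN (gg (Fintype.card F) i -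
    ∑ p ∈ ML F m, PowerSeries.X ^ ((i + 1) * p.natDegree)) := by
  have h : NN (g1 (Fintype.card F) - ∑ p ∈ ML F m, PowerSeries.X ^ p.natDegree) := fun n => by
    rw [map_sub, map_sum, sub_nonneg]
    refine le_trans ?_ (card_M0_le n)
    simp only [PowerSeries.coeff_X_pow]
    rw [Finset.sum_boole]
    exact_mod_cast Finset.card_le_card fun p hp => by
      rw [Finset.mem_filter, mem_ML] at hp
      exact mem_M0.2 ⟨hp.1.1, hp.2.symm, hp.1.2.2⟩
  have := h.expand (i + 1) (Nat.succ_ne_zero i)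
  simp only [map_sub, map_sum, map_pow, PowerSeries.expand_X, ← pow_mul] at this
  exact this

variable (F) in
/-- the tuples -/
noncomputable def SS (N m : ℕ) : Finset (Fin N → F[X]) :=
  (Fintype.piFinset fun _ => ML F m).filter fun s => ∑ j : Fin N, (j + 1) * (s j).natDegree = m

theorem mem_SS {N m : ℕ} {s : Fin N → F[X]} : s ∈ SS F N m ↔
    (∀ j, (s j).Monic ∧ (s j).coeff 0 ≠ 0) ∧ ∑ j : Fin N, (j + 1) * (s j).natDegree = m := by
  simp only [SS, Finset.mem_filter, Fintype.mem_piFinset, mem_ML]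
  refine ⟨fun h => ⟨fun j => ⟨(h.1 j).1, (h.1 j).2.2⟩, h.2⟩,
    fun h => ⟨fun j => ⟨(h.1 j).1, ?_, (h.1 j).2⟩, h.2⟩⟩
  have := Finset.single_le_sum (f := fun j : Fin N => ((j : ℕ) + 1) * (s j).natDegree)
    (fun _ _ => Nat.zero_le _) (Finset.mem_univ j)
  rw [h.2] at this
  nlinarith

theorem card_SS_filter (N m d : ℕ) (hd : d ≠ 0) :
    ((((SS F N m).filter fun s => ∀ j : Fin N, s j ≠ 1 → d ∣ j + 1).card : ℕ) : ℤ) ≤
      PowerSeries.coeff m (PowerSeries.expand d hd (AA (Fintype.card F) (N / d))) := by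
  rw [← prod_ite_dvd, ← Fin.prod_univ_eq_prod_range
    (fun i => if d ∣ i + 1 then gg (Fintype.card F) i else 1)]
  let A : Fin N → Finset F[X] := fun j => if d ∣ j + 1 then ML F m else {1}
  have h := NN.prod_sub (s := Finset.univ)
    (f := fun j : Fin N => ∑ p ∈ A j, PowerSeries.X ^ (((j : ℕ) + 1) * p.natDegree))
    (g := fun j : Fin N => if d ∣ j + 1 then gg (Fintype.card F) j else 1)
    (fun j _ => NN.sum fun _ _ => NN.X_pow _) (fun j _ => by
      simp only [A]
      split_ifs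
      · exact NN_gg_sub_sum m j
      · simpa using NN.zero) m
  rw [map_sub, sub_nonneg, Finset.prod_univ_sum, map_sum] at h
  refine le_trans ?_ h
  simp only [Finset.prod_pow_eq_pow_sum, PowerSeries.coeff_X_pow]
  rw [Finset.sum_boole]
  exact_mod_cast Finset.card_le_card fun s hs => by
    simp only [SS, Finset.mem_filter, Fintype.mem_piFinset] at hs ⊢
    refine ⟨fun j => ?_, hs.1.2.symm⟩
    simp only [A]
    split_ifs with h
    · exact hs.1.1 j
    · by_contra h'
      exact h (hs.2 j (by simpa using h'))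

theorem card_SS_le (N m : ℕ) :
    ((SS F N m).card : ℤ) ≤ PowerSeries.coeff m (AA (Fintype.card F) N) := by
  have := card_SS_filter (F := F) N m 1 one_ne_zero
  simpa using this

/-- the determinants available in the centraliser -/
noncomputable def psi {N : ℕ} (s : Fin N → F[X]) : (Fin N → Fˣ) →* Fˣ where
  toFun τ := ∏ j : Fin N, if s j = 1 then 1 else τ j ^ ((j : ℕ) + 1)
  map_one' := by simp
  map_mul' a b := by
    rw [← Finset.prod_mul_distrib]
    refine Finset.prod_congr rfl fun j _ => ?_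
    split_ifs <;> simp [mul_pow]

/-- the splitting number -/
noncomputable def hh {N : ℕ} (s : Fin N → F[X]) : ℕ := (psi s).range.index

theorem hh_mul {N : ℕ} (s : Fin N → F[X]) :
    hh s * Nat.card (psi s).range = Fintype.card F - 1 := by
  rw [hh, Subgroup.index_mul_card, Nat.card_units, Nat.card_eq_fintype_card]

theorem hh_dvd {N : ℕ} (s : Fin N → F[X]) {j : Fin N} (hj : s j ≠ 1) : hh s ∣ j + 1 := by
  have : IsCyclic (Fˣ ⧸ (psi s).range) :=
    isCyclic_of_surjective _ (QuotientGroup.mk'_surjective _)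
  rw [hh, Subgroup.index, ← IsCyclic.exponent_eq_card]
  refine Monoid.exponent_dvd_of_forall_pow_eq_one fun x => ?_
  obtain ⟨x, rfl⟩ := QuotientGroup.mk_surjective x
  rw [← QuotientGroup.mk_pow, QuotientGroup.eq_one_iff]
  refine ⟨Pi.mulSingle j x, ?_⟩
  change ∏ _ : Fin N, _ = _
  rw [Finset.prod_eq_single j, if_neg hj, Pi.mulSingle_eq_same]
  · intro b _ hb
    simp [Pi.mulSingle_eq_of_ne hb]
  · simp

theorem sum_hh_sq_le {N m : ℕ} (hm : 1 ≤ m) (hN : m ≤ N) :
    ∑ s ∈ SS F N m, (hh s : ℤ) ^ 2 ≤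
      PowerSeries.coeff m (AA (Fintype.card F) N) + TT (Fintype.card F) m := by
  have hq : 2 ≤ Fintype.card F := Fintype.one_lt_card
  have h1 : ∑ s ∈ SS F N m, (hh s : ℤ) ^ 2 =
      (SS F N m).card + ∑ s ∈ SS F N m, ((hh s : ℤ) ^ 2 - 1) := by
    rw [Finset.sum_sub_distrib]; simp
  have h2 : ∀ s ∈ SS F N m, hh s ∈ (Fintype.card F - 1).divisors := fun s _ =>
    Nat.mem_divisors.2 ⟨⟨_, (hh_mul s).symm⟩, by omega⟩
  rw [h1, ← Finset.sum_fiberwise_of_maps_to h2]
  refine add_le_add (card_SS_le N m) (Finset.sum_le_sum fun d hd => ?_)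
  have h3 : 1 ≤ d := Nat.pos_of_mem_divisors hd
  rw [Finset.sum_congr rfl (g := fun _ => (d : ℤ) ^ 2 - 1) fun s hs => by
    rw [(Finset.mem_filter.1 hs).2], Finset.sum_const, nsmul_eq_mul, mul_comm]
  refine mul_le_mul_of_nonneg_left ?_ (sub_nonneg.2 (one_le_pow₀ (by exact_mod_cast h3)))
  refine le_trans ?_ ((card_SS_filter (F := F) N m d (by omega)).trans
    (coeff_expand_AA_le (by omega) hm hN d _))
  exact_mod_cast Finset.card_le_card fun s hs => by
    rw [Finset.mem_filter] at hs ⊢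
    exact ⟨hs.1, fun j hj => hs.2 ▸ hh_dvd s hj⟩

/-- the determinant up to sign -/
noncomputable def DD {N : ℕ} (s : Fin N → F[X]) : F := ∏ j : Fin N, (s j).coeff 0 ^ ((j : ℕ) + 1)

/-- scaling of the constant terms -/
noncomputable def sc {N : ℕ} (τ : Fin N → Fˣ) (s : Fin N → F[X]) : Fin N → F[X] := fun j =>
  if s j = 1 then 1 else s j + C (((τ j : F) - 1) * (s j).coeff 0)

omit [Fintype F] in
theorem natDegree_sc {N : ℕ} (τ : Fin N → Fˣ) (s : Fin N → F[X]) (j : Fin N) :
    (sc τ s j).natDegree = (s j).natDegree := by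
  unfold sc
  split_ifs with h
  · rw [h]
  · exact natDegree_add_C

omit [Fintype F] in
theorem monic_sc {N : ℕ} (τ : Fin N → Fˣ) {s : Fin N → F[X]} {j : Fin N} (h : (s j).Monic) :
    (sc τ s j).Monic := by
  unfold sc
  split_ifs with h'
  · exact monic_one
  · refine h.add_of_left (degree_C_le.trans_lt ?_)
    exact h.degree_pos.2 h'

omit [Fintype F] in
theorem coeff_sc {N : ℕ} (τ : Fin N → Fˣ) (s : Fin N → F[X]) (j : Fin N) :
    (sc τ s j).coeff 0 = ((if s j = 1 then 1 else τ j : Fˣ) : F) * (s j).coeff 0 := by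
  unfold sc
  split_ifs with h
  · simp [h]
  · simp; ring

omit [Fintype F] in
theorem sc_eq_one {N : ℕ} (τ : Fin N → Fˣ) {s : Fin N → F[X]} {j : Fin N} (h : (s j).Monic) :
    sc τ s j = 1 ↔ s j = 1 := by
  rw [← (monic_sc τ h).natDegree_eq_zero, natDegree_sc, h.natDegree_eq_zero]

omit [Fintype F] in
theorem DD_sc {N : ℕ} (τ : Fin N → Fˣ) (s : Fin N → F[X]) : DD (sc τ s) = psi s τ * DD s := by
  simp only [DD, coeff_sc, mul_pow, Finset.prod_mul_distrib]
  congr 1
  change _ = ((∏ _, _ : Fˣ) : F)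
  rw [Units.coe_prod]
  refine Finset.prod_congr rfl fun j _ => ?_
  split_ifs <;> simp

omit [Fintype F] in
theorem psi_congr {N : ℕ} {s s' : Fin N → F[X]} (h : ∀ j, s j = 1 ↔ s' j = 1) : psi s = psi s' := by
  ext τ
  change ((∏ _, _ : Fˣ) : F) = ((∏ _, _ : Fˣ) : F)
  simp only [h]

omit [Fintype F] in
theorem sc_inj {N : ℕ} (τ : Fin N → Fˣ) {s s' : Fin N → F[X]} (h : ∀ j, s j = 1 ↔ s' j = 1)
    (H : sc τ s = sc τ s') : s = s' := by
  funext j
  by_cases h1 : s j = 1
  · rw [h1, (h j).1 h1]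
  · have h2 : ¬ s' j = 1 := fun h2 => h1 ((h j).2 h2)
    have h3 := congrArg (fun t => (t j).coeff 0) H
    simp only [coeff_sc, if_neg h1, if_neg h2] at h3
    have h4 := mul_left_cancel₀ (τ j).ne_zero h3
    have h5 := congrFun H j
    simp only [sc, if_neg h1, if_neg h2, h4] at h5
    exact add_right_cancel h5

variable (F) in
/-- the bound for the number of classes of `SL` -/
noncomputable def KK (N m : ℕ) (c : F) : ℕ := ∑ s ∈ (SS F N m).filter fun s => DD s = c, hh s

theorem sum_le_of_injOn {α β : Type*} {s : Finset α} {t : Finset β} {f : α → ℕ} {g : β → ℕ}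
    (e : α → β) (h1 : Set.InjOn e s) (h2 : ∀ a ∈ s, e a ∈ t) (h3 : ∀ a ∈ s, f a ≤ g (e a)) :
    ∑ a ∈ s, f a ≤ ∑ b ∈ t, g b := by
  refine (Finset.sum_le_sum h3).trans ?_
  rw [← Finset.sum_image h1]
  exact Finset.sum_le_sum_of_subset (Finset.image_subset_iff.2 h2)

theorem KK_mul_le (N m : ℕ) (c : F) :
    (Fintype.card F - 1) * KK F N m c ≤ ∑ s ∈ SS F N m, hh s ^ 2 := by
  have hτ : ∀ (ψ : (Fin N → Fˣ) →* Fˣ) (x : Fˣ), ∃ τ, x ∈ ψ.range → ψ τ = x := fun ψ x => by
    by_cases h : x ∈ ψ.range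
    · obtain ⟨τ, h⟩ := h
      exact ⟨τ, fun _ => h⟩
    · exact ⟨1, fun h' => absurd h' h⟩
  choose τ hτ using hτ
  let T := ((SS F N m).filter fun s => DD s = c).sigma
    fun s => Finset.univ.filter fun x : Fˣ => x ∈ (psi s).range
  have h1 : (Fintype.card F - 1) * KK F N m c = ∑ p ∈ T, hh p.1 ^ 2 := by
    rw [Finset.sum_sigma, KK, Finset.mul_sum]
    refine Finset.sum_congr rfl fun s _ => ?_
    simp only [Finset.sum_const, smul_eq_mul]
    rw [← hh_mul s, ← Fintype.card_subtype, ← Nat.card_eq_fintype_card]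
    ring
  rw [h1]
  have h2 : ∀ p ∈ T, (∀ j, (p.1 j).Monic ∧ (p.1 j).coeff 0 ≠ 0) ∧
      ∑ j : Fin N, (j + 1) * (p.1 j).natDegree = m ∧ DD p.1 = c ∧ p.2 ∈ (psi p.1).range :=
    fun p hp => by
      simp only [T, Finset.mem_sigma, Finset.mem_filter, mem_SS, Finset.mem_univ, true_and] at hp
      exact ⟨hp.1.1.1, hp.1.1.2, hp.1.2, hp.2⟩
  refine sum_le_of_injOn (fun p => sc (τ (psi p.1) p.2) p.1) ?_ ?_ ?_
  · rintro ⟨s, x⟩ hp ⟨s', x'⟩ hp' H
    obtain ⟨a1, -, a3, a4⟩ := h2 _ hp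
    obtain ⟨b1, -, b3, b4⟩ := h2 _ hp'
    simp only at H a1 a3 a4 b1 b3 b4
    have h3 : ∀ j, s j = 1 ↔ s' j = 1 := fun j => by
      rw [← sc_eq_one (τ (psi s) x) (a1 j).1, H, sc_eq_one _ (b1 j).1]
    have h4 := congrArg DD H
    rw [DD_sc, DD_sc, hτ _ _ a4, hτ _ _ b4, a3, b3] at h4
    have hc : c ≠ 0 := by
      rw [← a3]
      exact Finset.prod_ne_zero_iff.2 fun j _ => pow_ne_zero _ (a1 j).2
    obtain rfl : x = x' := Units.ext (mul_right_cancel₀ hc h4)
    rw [psi_congr h3] at H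
    obtain rfl := sc_inj _ h3 H
    rfl
  · intro p hp
    obtain ⟨a1, a2, -, -⟩ := h2 _ hp
    refine mem_SS.2 ⟨fun j => ⟨monic_sc _ (a1 j).1, ?_⟩, by simpa only [natDegree_sc] using a2⟩
    rw [coeff_sc]
    exact mul_ne_zero (Units.ne_zero _) (a1 j).2
  · intro p hp
    obtain ⟨a1, -, -, -⟩ := h2 _ hp
    rw [hh, hh, psi_congr fun j => sc_eq_one _ (a1 j).1]

theorem KK_le {N m : ℕ} (hm : 1 ≤ m) (hN : m ≤ N) (c : F) :
    ((Fintype.card F : ℤ) - 1) * KK F N m c ≤
      PowerSeries.coeff m (AA (Fintype.card F) N) + TT (Fintype.card F) m := by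
  have h := KK_mul_le (F := F) N m c
  have hq : 1 ≤ Fintype.card F := Fintype.card_pos
  zify [hq] at h
  exact h.trans (sum_hh_sq_le hm hN)

theorem KK_one {N : ℕ} (hN : 1 ≤ N) (c : F) : KK F N 1 c ≤ 1 := by
  have hq : 2 ≤ Fintype.card F := Fintype.one_lt_card
  have h1 := KK_le le_rfl hN c
  have h2 := coeff_AA_le (q := Fintype.card F) (by omega) le_rfl hN
  have h3 := TT_one hq
  have h4 : (2 : ℤ) ≤ Fintype.card F := by exact_mod_cast hq
  have : (KK F N 1 c : ℤ) ≤ 1 := by nlinarith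
  exact_mod_cast this

theorem KK_two {N : ℕ} (hN : 2 ≤ N) (c : F) :
    KK F N 2 c ≤ Fintype.card F + 4 ∧ 2 * KK F N 2 c ≤ 5 * Fintype.card F := by
  have hq : 2 ≤ Fintype.card F := Fintype.one_lt_card
  have h1 := KK_le (by omega) hN c
  have h2 := coeff_AA_le (q := Fintype.card F) (by omega) (by omega) hN
  have h3 := TT_two hq
  have h4 : (2 : ℤ) ≤ Fintype.card F := by exact_mod_cast hq
  split_ifs at h3 with h
  · have : (KK F N 2 c : ℤ) ≤ Fintype.card F + 4 := by nlinarith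
    omega
  · have : (KK F N 2 c : ℤ) ≤ Fintype.card F + 1 := by nlinarith
    omega

theorem KK_ge {N m : ℕ} (hm : 1 ≤ m) (hN : m + 2 ≤ N) (c : F) :
    KK F N (m + 2) c ≤ Fintype.card F ^ (m + 1) + 3 * Fintype.card F ^ m := by
  have hq : 2 ≤ Fintype.card F := Fintype.one_lt_card
  have h1 := KK_le (by omega) hN c
  have h4 : (2 : ℤ) ≤ Fintype.card F := by exact_mod_cast hq
  zify
  refine le_of_mul_le_mul_left (h1.trans ?_) (by linarith)
  rcases hm.eq_or_lt with rfl | hm
  · have h2 := coeff_AA_three (q := Fintype.card F) (by omega) hN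
    have h3 := TT_three hq
    exact (add_le_add h2 h3).trans (le_of_eq (by ring))
  · have h2 := coeff_AA_le (q := Fintype.card F) (by omega) (by omega) hN
    have h3 := TT_le hq hm
    rw [pow_succ, pow_succ] at h2
    rw [pow_succ]
    nlinarith

theorem KK_half {N m : ℕ} (hN : m + 1 ≤ N) (c : F) :
    2 * KK F N (m + 1) c ≤ 5 * Fintype.card F ^ m := by
  have hq : 2 ≤ Fintype.card F := Fintype.one_lt_card
  rcases m with _ | _ | m
  · have := KK_one hN c
    simp only [zero_add, pow_zero]; omega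
  · simpa using (KK_two hN c).2
  · have := KK_ge (m := m + 1) (by omega) hN c
    rw [pow_succ _ (m + 1)] at this ⊢
    nlinarith [Nat.zero_le (Fintype.card F ^ (m + 1))]

end Cfsg.Agent.UGL.Cl
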