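import Mathlib
import Cfsg.Agent.Conj.Jt

/-!
Macdonald's parametrisation of similarity classes by tuples of monic polynomials.
-/

set_option autoImplicit false

namespace Cfsg.Agent.UGL.Cl

open Polynomial Module Cfsg.Agent.Conj
open scoped _root_.Classical

variable {F : Type*} [Field F] {V W : Type*} [AddCommGroup V] [Module F V]
  [AddCommGroup W] [Module F W] {N : ℕ}

/-- `s j` is the product of the irreducible polynomials with a block of exponent `j + 1` -/
def Has (f : End F V) (s : Fin N → F[X]) : Prop :=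
  ∃ (t : ℕ) (p : Fin t → F[X]) (e : Fin t → Fin N), (∀ i, Irreducible (p i)) ∧ (∀ i, (p i).Monic) ∧
    Sim f (mdl fun i => p i ^ ((e i : ℕ) + 1)) ∧
    ∀ j, s j = ∏ i ∈ Finset.univ.filter fun i => e i = j, p i

theorem exists_has [FiniteDimensional F V] (f : End F V) (hN : finrank F V ≤ N) :
    ∃ s : Fin N → F[X], Has f s := by
  obtain ⟨t, p, e, hp, hm, he, h⟩ := exists_model f
  have h1 : ∀ i, e i - 1 < N := fun i => by
    have h2 := h.finrank_eq
    rw [finrank_alg fun i => (hm i).pow _] at h2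
    have h3 := Finset.single_le_sum (f := fun i => (p i ^ e i).natDegree)
      (fun _ _ => Nat.zero_le _) (Finset.mem_univ i)
    rw [← h2, (hm i).natDegree_pow] at h3
    have := (hp i).natDegree_pos
    have := he i
    have : e i ≤ e i * (p i).natDegree := Nat.le_mul_of_pos_right _ (hp i).natDegree_pos
    omega
  refine ⟨_, t, p, fun i => ⟨e i - 1, h1 i⟩, hp, hm, h.trans (sim_mdl_equiv (Equiv.refl _)
    fun i => ?_), fun _ => rfl⟩
  simp [Nat.sub_add_cancel (he i)]

theorem Has.of_sim {f : End F V} {g : End F W} {s : Fin N → F[X]} (h : Has f s) (H : Sim g f) :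
    Has g s := by
  obtain ⟨t, p, e, hp, hm, h1, h2⟩ := h
  exact ⟨t, p, e, hp, hm, H.trans h1, h2⟩

theorem count_prod {t : ℕ} {p : Fin t → F[X]} {e : Fin t → Fin N} (hp : ∀ i, Irreducible (p i))
    (hm : ∀ i, (p i).Monic) (j : Fin N) (q : F[X]) :
    (UniqueFactorizationMonoid.normalizedFactors
      (∏ i ∈ Finset.univ.filter fun i => e i = j, p i)).count q =
      (Finset.univ.filter fun i => p i = q ∧ e i = j).card := by
  rw [Finset.prod_subtype (p := fun i => e i = j) _ (by simp),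
    normalizedFactors_prod_monic (fun i : {i // e i = j} => hp i) fun i => hm i, Multiset.count_map,
    ← Fintype.card_subtype, ← Finset.filter_val, ← Finset.card_def, ← Fintype.card_subtype]
  exact Fintype.card_congr
    ⟨fun x => ⟨x.1.1, x.2.symm, x.1.2⟩, fun x => ⟨⟨x.1, x.2.2⟩, x.2.1.symm⟩, fun _ => rfl,
      fun _ => rfl⟩

theorem Has.sim {f : End F V} {g : End F W} {s : Fin N → F[X]} (h : Has f s) (h' : Has g s) :
    Sim f g := by
  obtain ⟨t, p, e, hp, hm, h1, h2⟩ := h
  obtain ⟨t', p', e', hp', hm', h1', h2'⟩ := h'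
  obtain ⟨E, hE⟩ := exists_equiv_of_card_fiber (fun i => (p i, e i)) (fun i => (p' i, e' i))
    fun ⟨q, j⟩ => by
      simp only [Prod.mk.injEq]
      rw [← count_prod hp hm, ← count_prod hp' hm', ← h2, h2']
  refine h1.trans ((sim_mdl_equiv E fun i => ?_).trans h1'.symm)
  have := hE i
  simp only [Prod.mk.injEq] at this
  rw [this.1, this.2]

theorem Has.monic {f : End F V} {s : Fin N → F[X]} (h : Has f s) (j : Fin N) : (s j).Monic := by
  obtain ⟨t, p, e, hp, hm, h1, h2⟩ := h
  rw [h2]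
  exact monic_prod_of_monic _ _ fun i _ => hm i

theorem Has.unique {f : End F V} {s s' : Fin N → F[X]} (h : Has f s) (h' : Has f s') : s = s' := by
  funext j
  have m1 := h.monic j
  have m2 := h'.monic j
  obtain ⟨t, p, e, hp, hm, h1, h2⟩ := h
  obtain ⟨t', p', e', hp', hm', h1', h2'⟩ := h'
  apply eq_of_monic_of_associated m1 m2
  rw [UniqueFactorizationMonoid.associated_iff_normalizedFactors_eq_normalizedFactors
    m1.ne_zero m2.ne_zero]
  ext q
  rw [h2, h2', count_prod hp hm, count_prod hp' hm']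
  by_cases hq : Irreducible q ∧ q.Monic
  · have key : ∀ k : ℕ, (∑ i, if p i = q then min ((e i : ℕ) + 1) k else 0) =
        ∑ i, if p' i = q then min ((e' i : ℕ) + 1) k else 0 := by
      intro k
      have := ((h1.symm.trans h1').aeval (q ^ k)).finrank_ker
      rw [finrank_ker_pow_mdl hp hm _ hq.1 hq.2, finrank_ker_pow_mdl hp' hm' _ hq.1 hq.2] at this
      exact Nat.eq_of_mul_eq_mul_right hq.1.natDegree_pos this
    have a1 := sum_min_second_diff (fun i => p i = q) (fun i => (e i : ℕ) + 1) j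
    have a2 := sum_min_second_diff (fun i => p' i = q) (fun i => (e' i : ℕ) + 1) j
    simp only [Nat.add_right_cancel_iff, Fin.val_inj] at a1 a2
    rw [key, key, key] at a1
    omega
  · rw [Finset.filter_false_of_mem fun i _ (hi : p i = q ∧ _) => hq (hi.1 ▸ ⟨hp i, hm i⟩),
      Finset.filter_false_of_mem fun i _ (hi : p' i = q ∧ _) => hq (hi.1 ▸ ⟨hp' i, hm' i⟩)]
    rfl

theorem Has.charpoly [FiniteDimensional F V] {f : End F V} {s : Fin N → F[X]} (h : Has f s) :
    f.charpoly = ∏ j : Fin N, s j ^ ((j : ℕ) + 1) := by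
  obtain ⟨t, p, e, hp, hm, h1, h2⟩ := h
  have := finite_alg fun i => (hm i).pow ((e i : ℕ) + 1)
  rw [h1.charpoly_eq, charpoly_mdl fun i => (hm i).pow _, ← Finset.prod_fiberwise _ e]
  refine Finset.prod_congr rfl fun j _ => ?_
  rw [h2, ← Finset.prod_pow]
  exact Finset.prod_congr rfl fun i hi => by rw [(Finset.mem_filter.1 hi).2]

theorem exists_norm_eq [Fintype F] {p : F[X]} (hp : Irreducible p) (hm : p.Monic) (e : ℕ) (c : F) :
    ∃ a : AdjoinRoot (p ^ e), Algebra.norm F a = c ^ e := by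
  have := Fact.mk hp
  have := hm.finite_adjoinRoot
  have := (hm.pow e).finite_adjoinRoot
  have : Finite (AdjoinRoot p) := Module.finite_of_finite F
  obtain ⟨b, rfl⟩ := FiniteField.norm_surjective F (AdjoinRoot p) c
  have h1 : ∀ k, expand F (Fintype.card F ^ k) p = p ^ Fintype.card F ^ k := fun k => by
    induction k with
    | zero => simp
    | succ k ih => rw [pow_succ', expand_mul, ih, FiniteField.expand_card, ← pow_mul, mul_comm]
  have h2 : p.eval₂ (Algebra.ofId F (AdjoinRoot (p ^ e)))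
      (AdjoinRoot.root (p ^ e) ^ Fintype.card F ^ e) = 0 := by
    change aeval _ p = 0
    rw [← expand_aeval, h1, AdjoinRoot.aeval_eq, AdjoinRoot.mk_eq_zero]
    exact pow_dvd_pow _ (Nat.lt_pow_self Fintype.one_lt_card).le
  let φ := AdjoinRoot.liftAlgHom p _ _ h2
  let _ : Algebra (AdjoinRoot p) (AdjoinRoot (p ^ e)) := φ.toRingHom.toAlgebra
  have : IsScalarTower F (AdjoinRoot p) (AdjoinRoot (p ^ e)) :=
    IsScalarTower.of_algebraMap_eq fun x => (φ.commutes x).symm
  have h3 : finrank (AdjoinRoot p) (AdjoinRoot (p ^ e)) = e := by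
    have := finrank_mul_finrank F (AdjoinRoot p) (AdjoinRoot (p ^ e))
    rw [finrank_adjoinRoot hm, finrank_adjoinRoot (hm.pow e), hm.natDegree_pow, mul_comm e] at this
    exact Nat.eq_of_mul_eq_mul_left hp.natDegree_pos this
  refine ⟨algebraMap (AdjoinRoot p) _ b, ?_⟩
  rw [← Algebra.norm_norm (S := AdjoinRoot p), Algebra.norm_algebraMap, h3, map_pow]

theorem Has.exists_det [Fintype F] {f : End F V} {s : Fin N → F[X]} (h : Has f s) {j : Fin N}
    (hj : s j ≠ 1) (c : F) : ∃ z : End F V, z * f = f * z ∧ LinearMap.det z = c ^ ((j : ℕ) + 1) := by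
  obtain ⟨t, p, e, hp, hm, h1, h2⟩ := h
  have : (Finset.univ.filter fun i => e i = j).Nonempty := by
    rw [Finset.nonempty_iff_ne_empty]
    intro h
    rw [h2, h] at hj
    exact hj rfl
  obtain ⟨i, hi⟩ := this
  obtain rfl := (Finset.mem_filter.1 hi).2
  obtain ⟨a, ha⟩ := exists_norm_eq (hp i) (hm i) ((e i : ℕ) + 1) c
  apply h1.exists_commute_det
  rw [← ha]
  exact exists_commute_det_norm (f := fun i => p i ^ ((e i : ℕ) + 1)) (fun i => (hm i).pow _) i a

/-- scaling of the roots -/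
noncomputable def scE {ζ : F} (h : ζ ≠ 0) : F[X] ≃* F[X] where
  toFun p := p.scaleRoots ζ
  invFun p := p.scaleRoots ζ⁻¹
  left_inv p := by simp [← scaleRoots_mul, h]
  right_inv p := by simp [← scaleRoots_mul, h]
  map_mul' p q := mul_scaleRoots_of_noZeroDivisors p q ζ

theorem exists_scale_equiv {ζ : F} (h : ζ ≠ 0) {p : F[X]} (hm : p.Monic) :
    ∃ e : AdjoinRoot (p.scaleRoots ζ) ≃ₗ[F] AdjoinRoot p,
      ∀ v, e (AdjoinRoot.root _ * v) = ζ • (AdjoinRoot.root p * e v) := by
  have hm' : (p.scaleRoots ζ).Monic := (monic_scaleRoots_iff ζ).2 hm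
  have := hm.finite_adjoinRoot
  have := hm'.finite_adjoinRoot
  have h2 : (p.scaleRoots ζ).eval₂ (Algebra.ofId F (AdjoinRoot p))
      (algebraMap F _ ζ * AdjoinRoot.root p) = 0 :=
    scaleRoots_aeval_eq_zero (by rw [AdjoinRoot.aeval_eq, AdjoinRoot.mk_self])
  let φ := AdjoinRoot.liftAlgHom _ _ _ h2
  have h3 : φ (AdjoinRoot.root _) = algebraMap F _ ζ * AdjoinRoot.root p :=
    AdjoinRoot.liftAlgHom_root _ _ _ _
  have h4 : Function.Surjective φ := by
    rw [← AlgHom.range_eq_top, eq_top_iff, ← AdjoinRoot.adjoinRoot_eq_top, Algebra.adjoin_le_iff,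
      Set.singleton_subset_iff]
    refine ⟨ζ⁻¹ • AdjoinRoot.root _, ?_⟩
    change φ _ = _
    rw [map_smul, h3, ← Algebra.smul_def, inv_smul_smul₀ h]
  have h5 : Function.Injective φ.toLinearMap :=
    (LinearMap.injective_iff_surjective_of_finrank_eq_finrank (by
      rw [finrank_adjoinRoot hm, finrank_adjoinRoot hm', natDegree_scaleRoots])).2 h4
  refine ⟨LinearEquiv.ofBijective φ.toLinearMap ⟨h5, h4⟩, fun v => ?_⟩
  change φ _ = ζ • (_ * φ v)
  rw [map_mul, h3, Algebra.smul_def, mul_assoc]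

theorem Has.smul {f : End F V} {s : Fin N → F[X]} (h : Has f s) {ζ : F} (hζ : ζ ≠ 0) :
    Has (ζ • f) fun j => (s j).scaleRoots ζ := by
  obtain ⟨t, p, e, hp, hm, h1, h2⟩ := h
  refine ⟨t, fun i => scE hζ (p i), e, fun i => (MulEquiv.irreducible_iff _).2 (hp i),
    fun i => (monic_scaleRoots_iff ζ).2 (hm i), (h1.smul ζ).trans ?_, fun j => ?_⟩
  · choose E hE using fun i => exists_scale_equiv hζ ((hm i).pow ((e i : ℕ) + 1))
    refine Sim.trans (g := mdl fun i => (p i ^ ((e i : ℕ) + 1)).scaleRoots ζ) (Sim.symm ?_)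
      (sim_mdl_equiv (Equiv.refl _) fun i => (map_pow (scE hζ) _ _).symm)
    refine ⟨LinearEquiv.piCongrRight E, fun v => funext fun i => ?_⟩
    exact hE i (v i)
  · simp only
    rw [h2, ← map_prod]; rfl

theorem expand_contract_of_scale {ζ : Fˣ} {p : F[X]} (h0 : p.coeff 0 ≠ 0)
    (h : p.scaleRoots ζ = p) (hr : orderOf ζ ≠ 0) :
    expand F (orderOf ζ) (contract (orderOf ζ) p) = p := by
  have key : ∀ i, p.coeff i ≠ 0 → orderOf ζ ∣ p.natDegree - i := fun i hi => by
    have := congrArg (fun p => p.coeff i) h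
    simp only [coeff_scaleRoots] at this
    rw [orderOf_dvd_iff_pow_eq_one]
    exact Units.ext (by simpa using mul_left_cancel₀ hi (this.trans (mul_one _).symm))
  ext i
  rw [coeff_expand (Nat.pos_of_ne_zero hr), coeff_contract hr]
  split_ifs with hd
  · rw [Nat.div_mul_cancel hd]
  · by_contra hi
    have h1 := key i (Ne.symm hi)
    have h2 := key 0 h0
    have h3 := le_natDegree_of_ne_zero (Ne.symm hi)
    apply hd
    have := Nat.dvd_sub h2 h1
    rwa [Nat.sub_zero, Nat.sub_sub_self h3] at this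

end Cfsg.Agent.UGL.Cl
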