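import Mathlib
import Cfsg.Agent.UGL.ClCnt
import Cfsg.Agent.UGL.ClMod
import Cfsg.Agent.Classical.SLBasic

/-!
Bounds for the number of conjugacy classes of `GL_n(q)`, `SL_n(q)` and `PSL_n(q)`.
-/

set_option autoImplicit false
set_option backward.isDefEq.respectTransparency false

namespace Cfsg.Agent.UGL.Cl

open Polynomial Module Cfsg.Agent.Conj Matrix
open scoped _root_.Classical

section burnside

variable {G : Type*} [Group G] (Z : Subgroup G) (hZ : Z ≤ Subgroup.center G)

include hZ in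
theorem isConj_central {z a b : G} (hz : z ∈ Z) (h : IsConj a b) : IsConj (z * a) (z * b) := by
  obtain ⟨c, rfl⟩ := isConj_iff.1 h
  refine isConj_iff.2 ⟨c, ?_⟩
  rw [← mul_assoc, Subgroup.mem_center_iff.1 (hZ hz) c]
  group

/-- the action of a central subgroup on the conjugacy classes -/
@[reducible] def cact : MulAction Z (ConjClasses G) where
  smul z := Quotient.map (fun g => (z : G) * g) fun _ _ h => isConj_central Z hZ z.2 h
  one_smul C := by
    obtain ⟨g, rfl⟩ := ConjClasses.mk_surjective C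
    change ConjClasses.mk ((1 : G) * g) = _
    rw [one_mul]
  mul_smul a b C := by
    obtain ⟨g, rfl⟩ := ConjClasses.mk_surjective C
    change ConjClasses.mk ((a * b : G) * g) = ConjClasses.mk ((a : G) * (b * g))
    rw [mul_assoc]

include hZ in
theorem card_mul_classes [Finite G] [Z.Normal] [Fintype Z] :
    Nat.card Z * Nat.card (ConjClasses (G ⧸ Z)) =
      ∑ z : Z, Nat.card {C : ConjClasses G // ∃ g, ConjClasses.mk g = C ∧ IsConj (z * g) g} := by
  let _ := cact Z hZ
  have hs : ∀ (z : Z) (g : G), z • ConjClasses.mk g = ConjClasses.mk (z * g) := fun _ _ => rfl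
  have := Fintype.ofFinite (ConjClasses G)
  have h := MulAction.sum_card_fixedBy_eq_card_orbits_mul_card_group Z (ConjClasses G)
  simp only [← Nat.card_eq_fintype_card] at h
  have key : ∀ a b : ConjClasses G, MulAction.orbitRel Z _ a b ↔
      ConjClasses.map (QuotientGroup.mk' Z) a = ConjClasses.map (QuotientGroup.mk' Z) b := by
    intro a b
    obtain ⟨a, rfl⟩ := ConjClasses.mk_surjective a
    obtain ⟨b, rfl⟩ := ConjClasses.mk_surjective b
    rw [MulAction.orbitRel_apply, MulAction.mem_orbit_iff]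
    change _ ↔ ConjClasses.mk (a : G ⧸ Z) = ConjClasses.mk (b : G ⧸ Z)
    simp only [hs, ConjClasses.mk_eq_mk_iff_isConj]
    constructor
    · rintro ⟨z, hz⟩
      have h1 := (QuotientGroup.mk' Z).map_isConj hz
      rw [map_mul, QuotientGroup.mk'_apply, (QuotientGroup.eq_one_iff _).2 z.2, one_mul] at h1
      exact h1.symm
    · intro h
      obtain ⟨c, hc⟩ := isConj_iff.1 h
      obtain ⟨c, rfl⟩ := QuotientGroup.mk_surjective c
      have h1 : (c * a * c⁻¹)⁻¹ * b ∈ Z := QuotientGroup.eq.1 hc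
      refine ⟨⟨_, h1⟩⁻¹, IsConj.symm (isConj_iff.2 ⟨c, ?_⟩)⟩
      change _ = ((c * a * c⁻¹)⁻¹ * b)⁻¹ * b
      rw [← Subgroup.mem_center_iff.1 (hZ (Z.inv_mem h1)) b]
      group
  have h1 : Nat.card (Quotient (MulAction.orbitRel Z (ConjClasses G))) =
      Nat.card (ConjClasses (G ⧸ Z)) := by
    refine Nat.card_congr (Equiv.ofBijective (Quotient.lift (ConjClasses.map (QuotientGroup.mk' Z))
      fun a b h => (key a b).1 h) ⟨fun a b => ?_, fun c => ?_⟩)
    · induction a using Quotient.inductionOn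
      induction b using Quotient.inductionOn
      exact fun h => Quotient.sound ((key _ _).2 h)
    · obtain ⟨c, rfl⟩ := ConjClasses.map_surjective (QuotientGroup.mk'_surjective Z) c
      exact ⟨Quotient.mk _ c, rfl⟩
  rw [mul_comm, ← h1, ← h]
  refine Finset.sum_congr rfl fun z _ => Nat.card_congr (Equiv.subtypeEquivRight fun C => ?_)
  obtain ⟨g, rfl⟩ := ConjClasses.mk_surjective C
  rw [MulAction.mem_fixedBy, hs, ConjClasses.mk_eq_mk_iff_isConj]
  refine ⟨fun h => ⟨g, rfl, h⟩, fun ⟨g', h1, h2⟩ => ?_⟩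
  rw [ConjClasses.mk_eq_mk_iff_isConj] at h1
  exact ((isConj_central Z hZ z.2 h1).symm.trans h2).trans h1

end burnside

variable {F : Type*} [Field F] [Fintype F] {n N : ℕ}

omit [Fintype F] in
theorem Has.DD_eq {A : Matrix (Fin n) (Fin n) F} {s : Fin N → F[X]} (h : Has (toLin' A) s) :
    DD s = (-1) ^ n * A.det := by
  have h1 := h.charpoly
  rw [charpoly_toLin'] at h1
  rw [det_eq_sign_charpoly_coeff, Fintype.card_fin, ← mul_assoc, ← mul_pow, h1]
  simp [DD, eval_prod, coeff_zero_eq_eval_zero]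

omit [Fintype F] in
theorem Has.sum_eq {A : Matrix (Fin n) (Fin n) F} {s : Fin N → F[X]} (h : Has (toLin' A) s) :
    ∑ j : Fin N, (j + 1) * (s j).natDegree = n := by
  have h1 := congrArg natDegree h.charpoly
  rw [LinearMap.charpoly_natDegree, natDegree_prod_of_monic _ _ fun j _ => (h.monic j).pow _] at h1
  simp only [(h.monic _).natDegree_pow] at h1
  simpa using h1.symm

omit [Fintype F] in
theorem Has.coeff_ne {A : Matrix (Fin n) (Fin n) F} {s : Fin N → F[X]} (h : Has (toLin' A) s)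
    (hA : A.det ≠ 0) (j : Fin N) : (s j).coeff 0 ≠ 0 := by
  have h1 : DD s ≠ 0 := by rw [h.DD_eq]; simp [hA]
  exact fun h2 => Finset.prod_ne_zero_iff.1 h1 j (Finset.mem_univ _) (by simp [h2])

theorem card_GL_le :
    Nat.card (ConjClasses (GL (Fin n) F)) ≤ (SS F n n).card := by
  choose g hg using ConjClasses.mk_surjective (α := GL (Fin n) F)
  choose s hs using fun C => exists_has (N := n) (toLin' (g C).1) (by simp)
  rw [← Fintype.card_coe, ← Nat.card_eq_fintype_card]
  refine Nat.card_le_card_of_injective (fun C => (⟨s C, mem_SS.2 ⟨fun j => ⟨(hs C).monic j,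
    (hs C).coeff_ne (g C).det_ne_zero j⟩, (hs C).sum_eq⟩⟩ : SS F n n)) fun C D h => ?_
  have h1 : s C = s D := congrArg Subtype.val h
  rw [← hg C, ← hg D, ConjClasses.mk_eq_mk_iff_isConj, isConj_GL_iff_sim]
  exact (hs C).sim (h1 ▸ hs D)

omit [Fintype F] in
theorem exists_charpoly {p : F[X]} (hp : p.Monic) (hn : p.natDegree = n) :
    ∃ A : Matrix (Fin n) (Fin n) F, A.charpoly = p := by
  have := hp.finite_adjoinRoot
  obtain ⟨A, hA⟩ := exists_matrix_sim (ι := Fin n) (LinearMap.mulLeft F (AdjoinRoot.root p))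
    (by rw [finrank_adjoinRoot hp, hn, Fintype.card_fin])
  exact ⟨A, by rw [← charpoly_toLin', ← hA.charpoly_eq, charpoly_root hp]⟩

omit [Fintype F] in
theorem charpoly_eq_of_isConj {A B : GL (Fin n) F} (h : IsConj A B) :
    A.1.charpoly = B.1.charpoly := by
  rw [← charpoly_toLin', ← charpoly_toLin', (isConj_GL_iff_sim.1 h).charpoly_eq]

theorem le_card_GL : (M0 F n).card ≤ Nat.card (ConjClasses (GL (Fin n) F)) := by
  have : ∀ p : M0 F n, ∃ g : GL (Fin n) F, g.1.charpoly = p := fun p => by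
    obtain ⟨h1, h2, h3⟩ := mem_M0.1 p.2
    obtain ⟨A, hA⟩ := exists_charpoly h1 h2
    refine ⟨GeneralLinearGroup.mkOfDetNeZero A ?_, hA⟩
    rw [det_eq_sign_charpoly_coeff, hA]
    simp [h3]
  choose g hg using this
  rw [← Fintype.card_coe, ← Nat.card_eq_fintype_card]
  refine Nat.card_le_card_of_injective (fun p => ConjClasses.mk (g p)) fun a b h => ?_
  apply Subtype.ext
  rw [← hg, ← hg, charpoly_eq_of_isConj (ConjClasses.mk_eq_mk_iff_isConj.1 h)]

theorem exists_SL (p : MD F (n + 1)) : ∃ g : SpecialLinearGroup (Fin (n + 2)) F,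
      g.1.charpoly = X * p.1 + C ((-1) ^ (n + 2)) := by
  obtain ⟨h1, h2⟩ := mem_MD.1 p.2
  have h3 : (X * p.1).natDegree = n + 2 := by rw [natDegree_X_mul h1.ne_zero, h2]
  obtain ⟨A, hA⟩ := exists_charpoly (n := n + 2) (p := X * p.1 + C ((-1) ^ (n + 2)))
    ((monic_X.mul h1).add_of_left (degree_C_le.trans_lt (natDegree_pos_iff_degree_pos.1
      (by omega)))) (by rw [natDegree_add_C, h3])
  refine ⟨⟨A, ?_⟩, hA⟩
  rw [det_eq_sign_charpoly_coeff, hA, coeff_add, coeff_C_zero, coeff_X_mul_zero]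
  simp [← mul_pow]

omit [Fintype F] in
theorem exists_tv : ∃ t : SpecialLinearGroup (Fin (n + 2)) F, t ≠ 1 ∧
    t.1.charpoly = (1 : SpecialLinearGroup (Fin (n + 2)) F).1.charpoly := by
  have h01 : (0 : Fin (n + 2)) ≠ 1 := Fin.zero_ne_one
  refine ⟨⟨transvection 0 1 1, det_transvection_of_ne _ _ h01 _⟩, fun h3 => ?_, ?_⟩
  · have h4 := congrFun₂ (congrArg Subtype.val h3) 0 1
    simp [transvection] at h4
  · have h2 : (transvection 0 1 (1 : F) : Matrix (Fin (n + 2)) (Fin (n + 2)) F).BlockTriangular id :=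
      blockTriangular_transvection (by simp) _
    change (transvection 0 1 (1 : F)).charpoly = (1 : Matrix (Fin (n + 2)) (Fin (n + 2)) F).charpoly
    rw [charpoly_of_isUpperTriangular _ h2, charpoly_of_isUpperTriangular _ blockTriangular_one]
    refine Finset.prod_congr rfl fun i _ => ?_
    have : ¬ (0 = i ∧ 1 = i) := fun h => h01 (h.1.trans h.2.symm)
    simp [transvection, single, this]

theorem lt_card_classes {G α β : Type*} [Group G] [Finite G] [Fintype α] (cp : G → β)
    (hcp : ∀ a b, IsConj a b → cp a = cp b) (g : α → G) (inj : ∀ a b, cp (g a) = cp (g b) → a = b)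
    {t : G} (ht : t ≠ 1) (h1 : cp t = cp 1) : Fintype.card α < Nat.card (ConjClasses G) := by
  have := Fintype.ofFinite (ConjClasses G)
  rw [Nat.card_eq_fintype_card]
  have key : ∀ a b : G, ConjClasses.mk a = ConjClasses.mk b → cp a = cp b := fun a b h =>
    hcp a b (ConjClasses.mk_eq_mk_iff_isConj.1 h)
  refine Fintype.card_lt_of_injective_not_surjective (fun p => ConjClasses.mk (g p))
    (fun a b h => inj a b (key (g a) (g b) h)) fun hs => ?_
  obtain ⟨a, ha⟩ := hs (ConjClasses.mk 1)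
  obtain ⟨b, hb⟩ := hs (ConjClasses.mk t)
  obtain rfl : a = b := inj a b ((key (g a) 1 ha).trans (h1.symm.trans (key (g b) t hb).symm))
  exact ht (isConj_one_right.1 (ConjClasses.mk_eq_mk_iff_isConj.1 (ha.symm.trans hb)))

omit [Fintype F] in
theorem charpoly_eq_of_isConj_SL (A B : SpecialLinearGroup (Fin n) F) (h : IsConj A B) :
    A.1.charpoly = B.1.charpoly := by
  have := charpoly_eq_of_isConj (Matrix.SpecialLinearGroup.toGL.map_isConj h)
  rwa [Matrix.SpecialLinearGroup.coe_GL_coe_matrix,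
    Matrix.SpecialLinearGroup.coe_GL_coe_matrix] at this

theorem lt_card_SL : Fintype.card F ^ (n + 1) <
    Nat.card (ConjClasses (SpecialLinearGroup (Fin (n + 2)) F)) := by
  choose g hg using exists_SL (F := F) (n := n)
  obtain ⟨t, ht, h1⟩ := exists_tv (F := F) (n := n)
  have inj : ∀ a b, (g a).1.charpoly = (g b).1.charpoly → a = b := fun a b h => by
    rw [hg, hg, add_left_inj] at h
    exact Subtype.ext (mul_left_cancel₀ X_ne_zero h)
  rw [← card_MD, ← Fintype.card_coe]
  exact lt_card_classes (fun a : SpecialLinearGroup (Fin (n + 2)) F => a.1.charpoly)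
    charpoly_eq_of_isConj_SL g inj ht h1

theorem card_split_le {x : SpecialLinearGroup (Fin n) F} {s s' : Fin N → F[X]}
    (h : Has (toLin' x.1) s) (hs : ∀ j, s j = 1 ↔ s' j = 1) :
    Nat.card {C : ConjClasses (SpecialLinearGroup (Fin n) F) // ∃ g, ConjClasses.mk g = C ∧
      Has (toLin' g.1) s} ≤ hh s' := by
  rw [card_classes_split GeneralLinearGroup.det Matrix.SpecialLinearGroup.toGL
    Matrix.SpecialLinearGroup.toGL_injective Classical.SLBasic.range_toGL_eq_ker x _ fun g => ?_]
  · have h1 : (psi s').range ≤ (Subgroup.centralizer {Matrix.SpecialLinearGroup.toGL x}).map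
        GeneralLinearGroup.det := by
      rintro _ ⟨τ, rfl⟩
      change ∏ _ : Fin N, _ ∈ _
      refine Subgroup.prod_mem _ fun j _ => ?_
      split_ifs with hj
      · exact one_mem _
      obtain ⟨c, hc, hd⟩ := h.exists_det (fun h => hj ((hs j).1 h)) (τ j)
      obtain ⟨c, rfl⟩ := toLin'.surjective c
      rw [← toLin'_mul', ← toLin'_mul', toLin'.injective.eq_iff] at hc
      rw [LinearMap.det_toLin'] at hd
      refine ⟨GeneralLinearGroup.mkOfDetNeZero c (hd ▸ pow_ne_zero _ (τ j).ne_zero),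
        Subgroup.mem_centralizer_singleton_iff.2 (Units.ext hc), Units.ext hd⟩
    refine (Subgroup.relIndex_le_of_le_right le_top ?_).trans ?_
    · rw [Subgroup.relIndex_top_right]; exact Subgroup.index_ne_zero_of_finite
    · rw [Subgroup.relIndex_top_right]; exact Subgroup.index_antitone h1
  · rw [isConj_GL_iff_sim]
    exact ⟨fun h' => h.sim h', fun h' => h.of_sim h'.symm⟩

theorem card_fix_le (ζ : Fˣ) {m : ℕ} (hm : n = orderOf ζ * m) :
    Nat.card {C : ConjClasses (SpecialLinearGroup (Fin n) F) // ∃ g, ConjClasses.mk g = C ∧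
      Sim ((ζ : F) • toLin' g.1) (toLin' g.1)} ≤ KK F n m ((-1) ^ n) := by
  have hr : 0 < orderOf ζ := orderOf_pos ζ
  have := Fintype.ofFinite (ConjClasses (SpecialLinearGroup (Fin n) F))
  rw [Nat.card_eq_fintype_card, Fintype.card_subtype, KK]
  refine le_trans (Finset.card_le_card (t := ((SS F n m).filter fun s => DD s = (-1) ^ n).biUnion
    fun h => Finset.univ.filter fun C => ∃ g, ConjClasses.mk g = C ∧
      Has (toLin' g.1) fun j => expand F (orderOf ζ) (h j)) fun C hC => ?_)
    (Finset.card_biUnion_le.trans (Finset.sum_le_sum fun h _ => ?_))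
  · obtain ⟨g, rfl, hg⟩ := (Finset.mem_filter.1 hC).2
    obtain ⟨s, hs⟩ := exists_has (N := n) (toLin' g.1) (by simp)
    have h0 := hs.coeff_ne (by simp)
    have h1 := (hs.smul ζ.ne_zero).unique (hs.of_sim hg)
    have h2 : s = fun j => expand F (orderOf ζ) (contract (orderOf ζ) (s j)) :=
      funext fun j => (expand_contract_of_scale (h0 j) (congrFun h1 j) hr.ne').symm
    have h3 : ∀ j, (contract (orderOf ζ) (s j)).coeff 0 = (s j).coeff 0 := fun j => by
      rw [coeff_contract hr.ne', zero_mul]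
    simp only [Finset.mem_biUnion, Finset.mem_filter, Finset.mem_univ, true_and]
    refine ⟨fun j => contract (orderOf ζ) (s j), ⟨mem_SS.2 ⟨fun j => ⟨?_, h3 j ▸ h0 j⟩, ?_⟩, ?_⟩,
      g, rfl, h2 ▸ hs⟩
    · rw [← monic_expand_iff hr, ← congrFun h2 j]
      exact hs.monic j
    · have h4 := hs.sum_eq
      rw [h2] at h4
      simp only [natDegree_expand, ← mul_assoc, ← Finset.sum_mul] at h4
      exact Nat.eq_of_mul_eq_mul_right hr (by rw [h4, mul_comm, ← hm])
    · have h4 := hs.DD_eq
      rw [g.2, mul_one] at h4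
      rw [← h4]
      simp only [DD, h3]
  · rcases Finset.eq_empty_or_nonempty (Finset.univ.filter fun C => ∃ g :
      SpecialLinearGroup (Fin n) F, ConjClasses.mk g = C ∧
      Has (toLin' g.1) fun j => expand F (orderOf ζ) (h j)) with h1 | ⟨C, hC⟩
    · rw [h1]; exact Nat.zero_le _
    · obtain ⟨x, -, hx⟩ := (Finset.mem_filter.1 hC).2
      rw [← Fintype.card_subtype, ← Nat.card_eq_fintype_card]
      refine card_split_le hx fun j => ?_
      rw [← expand_inj (f := h j) (g := 1) hr, map_one]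

theorem card_SL_le :
    Nat.card (ConjClasses (SpecialLinearGroup (Fin n) F)) ≤ KK F n n ((-1) ^ n) := by
  refine le_trans (le_of_eq ?_) (card_fix_le (F := F) (n := n) 1 (by simp))
  refine Nat.card_congr (Equiv.subtypeUnivEquiv fun C => ?_).symm
  obtain ⟨g, rfl⟩ := ConjClasses.mk_surjective C
  exact ⟨g, rfl, by simpa using Sim.refl _⟩

theorem card_fix_center {z : SpecialLinearGroup (Fin n) F} (hz : z ∈ Subgroup.center _)
    (h1 : z ≠ 1) : ∃ m, 2 * m ≤ n ∧ (n ≠ 0 → m ≠ 0) ∧
    Nat.card {C : ConjClasses (SpecialLinearGroup (Fin n) F) // ∃ g, ConjClasses.mk g = C ∧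
      IsConj (z * g) g} ≤ KK F n m ((-1) ^ n) := by
  obtain ⟨r, hr, hz⟩ := Matrix.SpecialLinearGroup.mem_center_iff.1 hz
  rw [Fintype.card_fin] at hr
  have hn : n ≠ 0 := by
    rintro rfl
    exact h1 (Subsingleton.elim _ _)
  have hr0 : r ≠ 0 := by
    rintro rfl
    simp [hn] at hr
  obtain ⟨m, hm⟩ : orderOf (Units.mk0 r hr0) ∣ n :=
    orderOf_dvd_of_pow_eq_one (Units.ext (by simpa using hr))
  have h2 : orderOf (Units.mk0 r hr0) ≠ 1 := by
    rw [Ne, orderOf_eq_one_iff]
    intro h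
    obtain rfl : r = 1 := congrArg Units.val h
    exact h1 (Subtype.ext (by simpa using hz.symm))
  have h3 := orderOf_pos (Units.mk0 r hr0)
  refine ⟨m, hm ▸ Nat.mul_le_mul_right _ (by omega), fun _ h => hn (by simp [hm, h]),
    le_trans ?_ (card_fix_le _ hm)⟩
  refine Nat.card_le_card_of_injective (Subtype.map id fun C ⟨g, h4, h5⟩ => ⟨g, h4, ?_⟩)
    (Subtype.map_injective _ Function.injective_id)
  have h6 := isConj_GL_iff_sim.1 (Matrix.SpecialLinearGroup.toGL.map_isConj h5)
  have h7 : (Matrix.SpecialLinearGroup.toGL (z * g)).1 = r • g.1 := by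
    change z.1 * g.1 = _
    rw [← hz]
    simp [smul_eq_diagonal_mul]
  rw [h7, map_smul] at h6
  exact h6

theorem numeric {q d n : ℕ} (hq : d + 1 ≤ q) (hd : d ≤ n + 3) :
    (d - 1) * (5 * q ^ ((n + 3) / 2 - 1)) ≤ 4 * q ^ (n + 1) := by
  rcases n with _ | _ | n
  · simp; omega
  · have : (d - 1) * 5 ≤ 4 * q := by omega
    simp only [show (0 + 1 + 3) / 2 - 1 = 1 from rfl, pow_succ, pow_zero, one_mul]
    nlinarith
  · have h1 : q ^ ((n + 1 + 1 + 3) / 2 - 1) ≤ q ^ (n + 1) :=
      Nat.pow_le_pow_right (by omega) (by omega)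
    have h2 : (d - 1) * 5 ≤ 4 * (q * q) := by
      have : d - 1 ≤ q - 1 := by omega
      rcases q with _ | q
      · omega
      · rw [Nat.add_sub_cancel] at this
        nlinarith
    calc _ = (d - 1) * 5 * q ^ ((n + 1 + 1 + 3) / 2 - 1) := by ring
      _ ≤ 4 * (q * q) * q ^ (n + 1) := Nat.mul_le_mul h2 h1
      _ = _ := by ring

theorem card_PSL : Fintype.card F ^ (n + 1) ≤ Nat.gcd (n + 2) (Fintype.card F - 1) *
      Nat.card (ConjClasses (ProjectiveSpecialLinearGroup (Fin (n + 2)) F)) ∧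
    Nat.gcd (n + 2) (Fintype.card F - 1) *
      Nat.card (ConjClasses (ProjectiveSpecialLinearGroup (Fin (n + 2)) F)) ≤
      Fintype.card F ^ (n + 1) + 5 * Fintype.card F ^ n := by
  have hq : 2 ≤ Fintype.card F := Fintype.one_lt_card
  have hc := Classical.SLBasic.card_center_SL (ι := Fin (n + 2)) (F := F)
  rw [Fintype.card_fin, Nat.card_eq_fintype_card (α := F)] at hc
  have := Fintype.ofFinite (Subgroup.center (SpecialLinearGroup (Fin (n + 2)) F))
  have h := card_mul_classes (Subgroup.center (SpecialLinearGroup (Fin (n + 2)) F)) le_rfl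
  rw [← Finset.add_sum_erase _ _ (Finset.mem_univ 1)] at h
  have h1 : Nat.card {C : ConjClasses (SpecialLinearGroup (Fin (n + 2)) F) //
      ∃ g, ConjClasses.mk g = C ∧ IsConj
        ((1 : Subgroup.center (SpecialLinearGroup (Fin (n + 2)) F)).1 * g) g} =
      Nat.card (ConjClasses (SpecialLinearGroup (Fin (n + 2)) F)) := by
    refine Nat.card_congr (Equiv.subtypeUnivEquiv fun C => ?_)
    obtain ⟨g, rfl⟩ := ConjClasses.mk_surjective C
    exact ⟨g, rfl, by rw [OneMemClass.coe_one, one_mul]⟩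
  rw [h1] at h
  rw [← hc]
  change _ ≤ _ * Nat.card (ConjClasses (_ ⧸ _)) ∧ _ * Nat.card (ConjClasses (_ ⧸ _)) ≤ _
  rw [h]
  refine ⟨lt_card_SL.le.trans (Nat.le_add_right _ _), ?_⟩
  have h2 : ∀ z ∈ Finset.univ.erase (1 : Subgroup.center (SpecialLinearGroup (Fin (n + 2)) F)),
      2 * Nat.card {C : ConjClasses (SpecialLinearGroup (Fin (n + 2)) F) //
      ∃ g, ConjClasses.mk g = C ∧ IsConj (z * g) g} ≤
        if n = 0 then 2 else 5 * Fintype.card F ^ ((n + 2) / 2 - 1) := fun z hz => by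
    obtain ⟨m, a1, a2, a3⟩ := card_fix_center z.2 fun h => (Finset.mem_erase.1 hz).1 (Subtype.ext h)
    obtain ⟨m, rfl⟩ := Nat.exists_eq_succ_of_ne_zero (a2 (by omega))
    refine (Nat.mul_le_mul_left 2 a3).trans ?_
    split_ifs with hn
    · obtain rfl : m = 0 := by omega
      exact Nat.mul_le_mul_left 2 (KK_one (by omega) _)
    · exact (KK_half (by omega) _).trans
        (Nat.mul_le_mul_left 5 (Nat.pow_le_pow_right (by omega) (by omega)))
  have h3 := Finset.sum_le_card_nsmul _ _ _ h2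
  rw [← Finset.mul_sum, Finset.card_erase_of_mem (Finset.mem_univ _), Finset.card_univ,
    ← Nat.card_eq_fintype_card, hc, smul_eq_mul] at h3
  have h4 := Nat.gcd_le_left (Fintype.card F - 1) (show 0 < n + 2 by omega)
  have h5 := Nat.gcd_le_right (n + 2) (show 0 < Fintype.card F - 1 by omega)
  have h6 := card_SL_le (F := F) (n := n + 2)
  rcases n with _ | n
  · have h7 := (KK_two (F := F) (N := 2) le_rfl ((-1) ^ 2)).1
    simp only [zero_add, if_true, pow_one, pow_zero] at h3 h4 h6 ⊢
    omega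
  · have h7 := KK_ge (F := F) (m := n + 1) (by omega) le_rfl ((-1) ^ (n + 1 + 2))
    rw [if_neg (Nat.succ_ne_zero n)] at h3
    have h8 := numeric (q := Fintype.card F) (n := n) (by omega) h4
    have h9 := h3.trans h8
    omega

end Cfsg.Agent.UGL.Cl
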