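import Mathlib
import Cfsg.Agent.UGL.ClCnt

/-!
Bounds `c q^n` for coefficients of infinite products.
-/

set_option autoImplicit false

namespace Cfsg.Agent.UGL.Cl

open PowerSeries

/-- the partial sums at `y` are bounded by `c` -/
def Bd (y : ℝ) (f : PowerSeries ℤ) (c : ℝ) : Prop :=
  ∀ n, ∑ k ∈ Finset.range n, ((coeff k f : ℤ) : ℝ) * y ^ k ≤ c

theorem Bd.expand {y c : ℝ} {f : PowerSeries ℤ} {e : ℕ} (he : e ≠ 0) (hf : NN f) (hy : 0 ≤ y)
    (h : Bd (y ^ e) f c) : Bd y (expand e he f) c := by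
  intro n
  refine le_trans ?_ (h n)
  rw [← Finset.sum_filter_add_sum_filter_not _ (fun k => e ∣ k), Finset.sum_eq_zero
    (s := Finset.filter (fun k => ¬ e ∣ k) _) fun k hk => by
      rw [coeff_expand_of_not_dvd _ _ _ (Finset.mem_filter.1 hk).2]; simp, add_zero]
  have h1 : (Finset.range n).filter (fun k => e ∣ k) ⊆ (Finset.range n).image (e * ·) := by
    intro k hk
    obtain ⟨h1, m, rfl⟩ := Finset.mem_filter.1 hk
    refine Finset.mem_image.2 ⟨m, ?_, rfl⟩
    rw [Finset.mem_range] at h1 ⊢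
    exact (Nat.le_mul_of_pos_left _ (Nat.pos_of_ne_zero he)).trans_lt h1
  refine (Finset.sum_le_sum_of_subset_of_nonneg h1 fun k _ _ =>
    mul_nonneg (by exact_mod_cast hf.expand e he k) (by positivity)).trans ?_
  rw [Finset.sum_image fun a _ b _ h => Nat.eq_of_mul_eq_mul_left (Nat.pos_of_ne_zero he) h]
  simp only [coeff_expand_mul, pow_mul, le_refl]

theorem coeff_mul_le {q c d : ℝ} (hq : 0 < q) (hc : 0 ≤ c) {f g : PowerSeries ℤ}
    (hf : ∀ n, ((coeff n f : ℤ) : ℝ) ≤ c * q ^ n) (hg : NN g) (h : Bd q⁻¹ g d) (n : ℕ) :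
    ((coeff n (f * g) : ℤ) : ℝ) ≤ c * d * q ^ n := by
  rw [mul_comm f, coeff_mul, Finset.Nat.sum_antidiagonal_eq_sum_range_succ
    (fun i j => coeff i g * coeff j f)]
  push_cast
  calc _ ≤ ∑ k ∈ Finset.range (n + 1), ((coeff k g : ℤ) : ℝ) * q⁻¹ ^ k * (c * q ^ n) := by
        refine Finset.sum_le_sum fun k hk => ?_
        rw [mul_assoc]
        refine mul_le_mul_of_nonneg_left ((hf _).trans (le_of_eq ?_)) (by exact_mod_cast hg k)
        rw [pow_sub₀ _ hq.ne' (Nat.lt_succ_iff.1 (Finset.mem_range.1 hk))]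
        simp only [inv_pow]
        ring
    _ ≤ d * (c * q ^ n) := by
        rw [← Finset.sum_mul]
        exact mul_le_mul_of_nonneg_right (h _) (by positivity)
    _ = _ := by ring

/-- the product of the expansions -/
noncomputable def AG (g : PowerSeries ℤ) (J : ℕ) : PowerSeries ℤ :=
  ∏ i ∈ Finset.range J, expand (i + 1) (Nat.succ_ne_zero i) g

theorem coeff_AG_le {q c : ℝ} (hq : 0 < q) (hc : 1 ≤ c) {g : PowerSeries ℤ} (hg : NN g)
    (h0 : ∀ n, ((coeff n g : ℤ) : ℝ) ≤ c * q ^ n) {f : ℕ → ℝ} (hf : ∀ i, 1 ≤ f i)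
    (h : ∀ i, Bd (q⁻¹ ^ (i + 2)) g (f i)) (J n : ℕ) :
    ((coeff n (AG g J) : ℤ) : ℝ) ≤ c * (∏ i ∈ Finset.range (J - 1), f i) * q ^ n := by
  rcases J with _ | J
  · simp only [AG, Finset.range_zero, Finset.prod_empty, coeff_one, zero_tsub, mul_one]
    split_ifs with h
    · simp [h, hc]
    · simp only [Int.cast_zero]; positivity
  rw [Nat.add_sub_cancel]
  induction J generalizing n with
  | zero => simpa [AG] using h0 n
  | succ J ih =>
    rw [AG, Finset.prod_range_succ, ← AG, Finset.prod_range_succ, ← mul_assoc]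
    refine coeff_mul_le hq (mul_nonneg (by linarith) (Finset.prod_nonneg fun i _ => by
      linarith [hf i])) ih (hg.expand _ _) (Bd.expand _ hg (by positivity) (h J)) n

theorem prod_ite_dvd' (g : PowerSeries ℤ) (d : ℕ) (hd : d ≠ 0) (N : ℕ) :
    ∏ i ∈ Finset.range N, (if d ∣ i + 1 then expand (i + 1) (Nat.succ_ne_zero i) g else 1) =
      expand d hd (AG g (N / d)) := by
  induction N with
  | zero => simp [AG]
  | succ N ih =>
    rw [Finset.prod_range_succ, ih, Nat.succ_div]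
    split_ifs with h
    · rw [AG, AG, Finset.prod_range_succ, map_mul]
      congr 1
      have h1 : N + 1 = d * (N / d + 1) := by
        have := Nat.succ_div (a := N) (b := d)
        rw [if_pos h] at this
        rw [← this, Nat.mul_div_cancel' h]
      rw [← expand_mul]
      congr 2
    · simp

theorem Bd_gI {q : ℕ} {z : ℝ} (hz : 0 ≤ z) (h : q * z < 1) : Bd z (gI q) (1 - q * z)⁻¹ := by
  intro n
  simp only [gI, coeff_mk, Int.cast_pow, Int.cast_natCast, ← mul_pow]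
  rw [← tsum_geometric_of_lt_one (by positivity) h]
  exact (summable_geometric_of_lt_one (by positivity) h).sum_le_tsum _ fun _ _ => by positivity

theorem Bd.mul_one_add {z c : ℝ} (hz : 0 ≤ z) {f : PowerSeries ℤ} (h : Bd z f c) :
    Bd z (f * (1 + X)) ((1 + z) * c) := by
  intro n
  simp only [mul_add, mul_one, map_add, Int.cast_add, add_mul, one_mul, Finset.sum_add_distrib]
  refine add_le_add (h n) ?_
  rcases n with _ | n
  · simpa using mul_nonneg hz (by simpa using h 0)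
  · rw [Finset.sum_range_succ']
    simp only [coeff_succ_mul_X, pow_succ, ← mul_assoc, ← Finset.sum_mul]
    simp only [coeff_zero_mul_X, Int.cast_zero, zero_mul, add_zero, mul_comm z]
    exact mul_le_mul_of_nonneg_right (h n) hz

theorem prod_le_of_tail {f : ℕ → ℝ} {y M C : ℝ} (hy : 0 ≤ y) (hM : 0 ≤ M) (h1 : ∀ i, 1 ≤ f i)
    (N₀ : ℕ) (hs : ∀ i, N₀ ≤ i → f i * (1 + M * y ^ (i + 1)) ≤ 1 + M * y ^ i)
    (hb : (∏ i ∈ Finset.range N₀, f i) * (1 + M * y ^ N₀) ≤ C) (N : ℕ) :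
    ∏ i ∈ Finset.range N, f i ≤ C := by
  have hp : ∀ N, 0 ≤ ∏ i ∈ Finset.range N, f i := fun N =>
    Finset.prod_nonneg fun i _ => by linarith [h1 i]
  have key : ∀ N, N₀ ≤ N → (∏ i ∈ Finset.range N, f i) * (1 + M * y ^ N) ≤ C := by
    intro N hN
    induction N, hN using Nat.le_induction with
    | base => exact hb
    | succ N hN ih =>
      rw [Finset.prod_range_succ, mul_assoc]
      exact (mul_le_mul_of_nonneg_left (hs N hN) (hp N)).trans ih
  have h2 : ∏ i ∈ Finset.range N, f i ≤ ∏ i ∈ Finset.range (max N N₀), f i :=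
    Finset.prod_le_prod_of_subset_of_one_le (Finset.range_mono (le_max_left _ _))
      (fun i _ => by linarith [h1 i]) fun i _ _ => h1 i
  refine h2.trans (le_trans ?_ (key _ (le_max_right N N₀)))
  exact le_mul_of_one_le_right (hp _) (by have : 0 ≤ M * y ^ max N N₀ := by positivity
                                          linarith)

theorem pow_le_of_le {y : ℝ} (h0 : 0 ≤ y) (h1 : y ≤ 1) {a b : ℕ} (h : a ≤ b) : y ^ b ≤ y ^ a :=
  pow_le_pow_of_le_one h0 h1 h

/-- `∏ (1 - y^i)⁻¹` for `y ≤ 1/3` -/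
theorem prodQ3 {y : ℝ} (h0 : 0 ≤ y) (h1 : y ≤ 1 / 3) (N : ℕ) :
    ∏ i ∈ Finset.range N, (1 - y ^ (i + 1))⁻¹ ≤ 1.7854 := by
  have hl : ∀ i : ℕ, (1 / 3 : ℝ) ^ (i + 1) ≤ 1 / 3 := fun i => by
    simpa using pow_le_of_le (y := 1 / 3) (by norm_num) (by norm_num) (show 1 ≤ i + 1 by omega)
  have hp : ∀ i : ℕ, (0 : ℝ) < (1 / 3) ^ i := fun i => by positivity
  refine (Finset.prod_le_prod (g := fun i => (1 - (1 / 3 : ℝ) ^ (i + 1))⁻¹) (fun i _ => ?_)
    fun i _ => ?_).trans ?_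
  · have : y ^ (i + 1) ≤ (1 / 3) ^ (i + 1) := by gcongr
    exact inv_nonneg.2 (by linarith [hl i])
  · have : y ^ (i + 1) ≤ (1 / 3) ^ (i + 1) := by gcongr
    exact inv_anti₀ (by linarith [hl i]) (by linarith)
  refine prod_le_of_tail (y := 1 / 3) (M := 0.51) (by norm_num) (by norm_num) (fun i => ?_) 9
    (fun i hi => ?_) (by norm_num [Finset.prod_range_succ]) N
  · exact (one_le_inv₀ (by linarith [hl i])).2 (by linarith [hp (i + 1)])
  · have h2 := pow_le_of_le (y := 1 / 3) (by norm_num) (by norm_num) hi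
    have h3 := hp i
    rw [inv_mul_le_iff₀ (by linarith [hl i]), pow_succ]
    generalize (1 / 3 : ℝ) ^ i = z at h2 h3
    norm_num at h2
    nlinarith

/-- the unitary product for `y = 1/2` -/
theorem prodU2 (N : ℕ) : (1 + 1 / 2 : ℝ) * ∏ i ∈ Finset.range N,
    ((1 + (1 / 2 : ℝ) ^ (i + 2)) * (1 - (1 / 2) ^ (i + 1))⁻¹) ≤ 8.26 := by
  have hl : ∀ i : ℕ, (1 / 2 : ℝ) ^ (i + 1) ≤ 1 / 2 := fun i => by
    simpa using pow_le_of_le (y := 1 / 2) (by norm_num) (by norm_num) (show 1 ≤ i + 1 by omega)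
  have hp : ∀ i : ℕ, (0 : ℝ) < (1 / 2) ^ i := fun i => by positivity
  have := prod_le_of_tail (f := fun i => (1 + (1 / 2 : ℝ) ^ (i + 2)) * (1 - (1 / 2) ^ (i + 1))⁻¹)
    (y := 1 / 2) (M := 1.6) (C := 5.5066) (by norm_num) (by norm_num) (fun i => ?_) 12
    (fun i hi => ?_) (by norm_num [Finset.prod_range_succ]) N
  · linarith
  · exact one_le_mul_of_one_le_of_one_le (by linarith [hp (i + 2)])
      ((one_le_inv₀ (by linarith [hl i])).2 (by linarith [hp (i + 1)]))
  · have h2 := pow_le_of_le (y := 1 / 2) (by norm_num) (by norm_num) hi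
    have h3 := hp i
    rw [mul_comm (1 + _ : ℝ), mul_assoc, inv_mul_le_iff₀ (by linarith [hl i]), pow_succ, pow_succ]
    generalize (1 / 2 : ℝ) ^ i = z at h2 h3
    norm_num at h2
    nlinarith

/-- the unitary product for `y ≤ 1/3` -/
theorem prodU3 {y : ℝ} (h0 : 0 ≤ y) (h1 : y ≤ 1 / 3) (N : ℕ) : (1 + y) * ∏ i ∈ Finset.range N,
    ((1 + y ^ (i + 2)) * (1 - y ^ (i + 1))⁻¹) ≤ 3 := by
  have hl : ∀ i : ℕ, (1 / 3 : ℝ) ^ (i + 1) ≤ 1 / 3 := fun i => by
    simpa using pow_le_of_le (y := 1 / 3) (by norm_num) (by norm_num) (show 1 ≤ i + 1 by omega)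
  have hp : ∀ i : ℕ, (0 : ℝ) < (1 / 3) ^ i := fun i => by positivity
  have h2 : ∏ i ∈ Finset.range N, ((1 + y ^ (i + 2)) * (1 - y ^ (i + 1))⁻¹) ≤
      ∏ i ∈ Finset.range N, ((1 + (1 / 3 : ℝ) ^ (i + 2)) * (1 - (1 / 3) ^ (i + 1))⁻¹) := by
    refine Finset.prod_le_prod (fun i _ => ?_) fun i _ => ?_
    · have : y ^ (i + 1) ≤ (1 / 3) ^ (i + 1) := by gcongr
      exact mul_nonneg (by positivity) (inv_nonneg.2 (by linarith [hl i]))
    · have : y ^ (i + 1) ≤ (1 / 3) ^ (i + 1) := by gcongr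
      exact mul_le_mul (by gcongr) (inv_anti₀ (by linarith [hl i]) (by linarith))
        (inv_nonneg.2 (by linarith [hl i])) (by positivity)
  have := prod_le_of_tail (f := fun i => (1 + (1 / 3 : ℝ) ^ (i + 2)) * (1 - (1 / 3) ^ (i + 1))⁻¹)
    (y := 1 / 3) (M := 1) (C := 2.2) (by norm_num) (by norm_num) (fun i => ?_) 3
    (fun i hi => ?_) (by norm_num [Finset.prod_range_succ]) N
  · have h3 := h2.trans this
    have h4 : 0 ≤ ∏ i ∈ Finset.range N, ((1 + y ^ (i + 2)) * (1 - y ^ (i + 1))⁻¹) :=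
      Finset.prod_nonneg fun i _ => by
        have : y ^ (i + 1) ≤ (1 / 3) ^ (i + 1) := by gcongr
        exact mul_nonneg (by positivity) (inv_nonneg.2 (by linarith [hl i]))
    nlinarith
  · exact one_le_mul_of_one_le_of_one_le (by linarith [hp (i + 2)])
      ((one_le_inv₀ (by linarith [hl i])).2 (by linarith [hp (i + 1)]))
  · have h2 := pow_le_of_le (y := 1 / 3) (by norm_num) (by norm_num) hi
    have h3 := hp i
    rw [mul_comm (1 + _ : ℝ), mul_assoc, inv_mul_le_iff₀ (by linarith [hl i]), pow_succ, pow_succ]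
    generalize (1 / 3 : ℝ) ^ i = z at h2 h3
    norm_num at h2
    nlinarith

theorem q_mul_pow {q : ℕ} (hq : 2 ≤ q) (i : ℕ) :
    (q : ℝ) * (q : ℝ)⁻¹ ^ (i + 2) = (q : ℝ)⁻¹ ^ (i + 1) ∧ (q : ℝ)⁻¹ ^ (i + 1) < 1 := by
  have h : (2 : ℝ) ≤ q := by exact_mod_cast hq
  refine ⟨by rw [pow_succ' _ (i + 1), ← mul_assoc, mul_inv_cancel₀ (by linarith), one_mul],
    pow_lt_one₀ (by positivity) (inv_lt_one_of_one_lt₀ (by linarith))
    (Nat.succ_ne_zero i)⟩

theorem coeff_AG_gI {q : ℕ} (hq : 2 ≤ q) (J n : ℕ) : ((coeff n (AG (gI q) J) : ℤ) : ℝ) ≤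
    (∏ i ∈ Finset.range (J - 1), (1 - (q : ℝ)⁻¹ ^ (i + 1))⁻¹) * q ^ n := by
  have h : (2 : ℝ) ≤ q := by exact_mod_cast hq
  have := coeff_AG_le (q := q) (c := 1) (by linarith) le_rfl (NN_gI q) (fun n => by simp [gI])
    (f := fun i => (1 - (q : ℝ)⁻¹ ^ (i + 1))⁻¹) (fun i => (one_le_inv₀ (by
      linarith [(q_mul_pow hq i).2])).2 (by have : 0 ≤ (q : ℝ)⁻¹ ^ (i + 1) := by positivity
                                            linarith)) (fun i => by
      have := Bd_gI (q := q) (z := (q : ℝ)⁻¹ ^ (i + 2)) (by positivity)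
        (by rw [(q_mul_pow hq i).1]; exact (q_mul_pow hq i).2)
      rwa [(q_mul_pow hq i).1] at this) J n
  rwa [one_mul] at this

theorem coeff_AG_gI3 {q : ℕ} (hq : 3 ≤ q) (J n : ℕ) :
    ((coeff n (AG (gI q) J) : ℤ) : ℝ) ≤ 1.7854 * q ^ n := by
  have h : (3 : ℝ) ≤ q := by exact_mod_cast hq
  refine (coeff_AG_gI (by omega) J n).trans (mul_le_mul_of_nonneg_right
    (prodQ3 (by positivity) ?_ _) (by positivity))
  rw [one_div]
  exact inv_anti₀ (by norm_num) h

/-- `(1 + t) / (1 - q t)` -/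
noncomputable def gU (q : ℕ) : PowerSeries ℤ := gI q * (1 + X)

theorem NN_gU (q : ℕ) : NN (gU q) := (NN_gI q).mul (NN.one.add (by simpa using NN.X_pow 1))

theorem coeff_gU_zero (q : ℕ) : coeff 0 (gU q) = 1 := by simp [gU, gI]

theorem coeff_gU_succ (q m : ℕ) : coeff (m + 1) (gU q) = (q : ℤ) ^ (m + 1) + q ^ m := by
  rw [gU, mul_add, mul_one, map_add, coeff_succ_mul_X]; simp [gI]

theorem coeff_AG_gU {q : ℕ} (hq : 2 ≤ q) (J n : ℕ) : ((coeff n (AG (gU q) J) : ℤ) : ℝ) ≤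
    (1 + (q : ℝ)⁻¹) * (∏ i ∈ Finset.range (J - 1),
      ((1 + (q : ℝ)⁻¹ ^ (i + 2)) * (1 - (q : ℝ)⁻¹ ^ (i + 1))⁻¹)) * q ^ n := by
  have h : (2 : ℝ) ≤ q := by exact_mod_cast hq
  have h0 : 0 ≤ (q : ℝ)⁻¹ := by positivity
  refine coeff_AG_le (q := q) (by linarith) (by linarith) (NN_gU q) (fun n => ?_)
    (fun i => one_le_mul_of_one_le_of_one_le (by have : 0 ≤ (q : ℝ)⁻¹ ^ (i + 2) := by positivity
                                                 linarith) ((one_le_inv₀ (by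
      linarith [(q_mul_pow hq i).2])).2 (by have : 0 ≤ (q : ℝ)⁻¹ ^ (i + 1) := by positivity
                                            linarith))) (fun i => ?_) J n
  · rcases n with _ | n
    · rw [coeff_gU_zero]; simp
    · rw [coeff_gU_succ]
      push_cast
      apply le_of_eq
      field_simp
      ring
  · have := (Bd_gI (q := q) (z := (q : ℝ)⁻¹ ^ (i + 2)) (by positivity)
        (by rw [(q_mul_pow hq i).1]; exact (q_mul_pow hq i).2)).mul_one_add (by positivity)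
    rwa [(q_mul_pow hq i).1] at this

theorem coeff_AG_gU2 (J n : ℕ) : ((coeff n (AG (gU 2) J) : ℤ) : ℝ) ≤ 8.26 * 2 ^ n := by
  have := coeff_AG_gU le_rfl J n
  simp only [Nat.cast_ofNat, ← one_div (2 : ℝ)] at this
  exact this.trans (mul_le_mul_of_nonneg_right (prodU2 _) (by positivity))

theorem coeff_AG_gU3 {q : ℕ} (hq : 3 ≤ q) (J n : ℕ) :
    ((coeff n (AG (gU q) J) : ℤ) : ℝ) ≤ 3 * q ^ n := by
  have h : (3 : ℝ) ≤ q := by exact_mod_cast hq
  refine (coeff_AG_gU (by omega) J n).trans (mul_le_mul_of_nonneg_right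
    (prodU3 (by positivity) ?_ _) (by positivity))
  rw [one_div]
  exact inv_anti₀ (by norm_num) h

theorem coeff_one_AG {g : PowerSeries ℤ} (h : coeff 0 g = 1) (J : ℕ) :
    coeff 0 (AG g (J + 1)) = 1 ∧ coeff 1 (AG g (J + 1)) = coeff 1 g := by
  induction J with
  | zero => simpa [AG] using h
  | succ J ih =>
    have h0 : coeff 0 (expand (J + 1 + 1) (Nat.succ_ne_zero _) g) = 1 := by
      rw [← h, ← coeff_expand_mul (J + 1 + 1) (Nat.succ_ne_zero _) g 0]; rfl
    have h1 : coeff 1 (expand (J + 1 + 1) (Nat.succ_ne_zero _) g) = 0 :=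
      coeff_expand_of_not_dvd _ _ _ (by simp)
    rw [AG, Finset.prod_range_succ, ← AG, coeff_mul, coeff_mul]
    simp only [Finset.Nat.antidiagonal_zero, Finset.sum_singleton, Finset.Nat.antidiagonal_succ,
      Finset.sum_cons, Finset.map_singleton, Function.Embedding.coe_prodMap, Prod.map_apply,
      Function.Embedding.coeFn_mk, Function.Embedding.refl_apply, ih.1, h0, h1, zero_add]
    simpa using ih.2

section tuples
open scoped _root_.Classical

/-- counting tuples by total weight -/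
theorem card_tuples_le {α : Type*} {N : ℕ} (A : Finset α) (wt : α → ℕ) (o : α) (ho : wt o = 0)
    {g : PowerSeries ℤ} (hg : ∀ m, (((A.filter fun a => wt a = m).card : ℕ) : ℤ) ≤ coeff m g)
    (m d : ℕ) (hd : d ≠ 0) (S : Finset (Fin N → α))
    (hS : ∀ s ∈ S, (∀ j, s j ∈ A) ∧ ∑ j : Fin N, (j + 1) * wt (s j) = m ∧
      ∀ j : Fin N, s j ≠ o → d ∣ j + 1) :
    (S.card : ℤ) ≤ coeff m (expand d hd (AG g (N / d))) := by
  rw [← prod_ite_dvd', ← Fin.prod_univ_eq_prod_range
    (fun i => if d ∣ i + 1 then expand (i + 1) (Nat.succ_ne_zero i) g else 1)]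
  let A' : Fin N → Finset α := fun j => if d ∣ j + 1 then A else {o}
  have h0 : NN (g - ∑ p ∈ A, X ^ wt p) := fun n => by
    rw [map_sub, map_sum, sub_nonneg]
    refine le_trans (le_of_eq ?_) (hg n)
    simp only [coeff_X_pow, eq_comm (a := n)]
    rw [Finset.sum_boole]
  have h := NN.prod_sub (s := Finset.univ)
    (f := fun j : Fin N => ∑ p ∈ A' j, X ^ (((j : ℕ) + 1) * wt p))
    (g := fun j : Fin N => if d ∣ j + 1 then expand (j + 1) (Nat.succ_ne_zero j) g else 1)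
    (fun j _ => NN.sum fun _ _ => NN.X_pow _) (fun j _ => by
      simp only [A']
      split_ifs
      · have := h0.expand (j + 1) (Nat.succ_ne_zero j)
        simp only [map_sub, map_sum, map_pow, expand_X, ← pow_mul] at this
        exact this
      · simpa [ho] using NN.zero) m
  rw [map_sub, sub_nonneg, Finset.prod_univ_sum, map_sum] at h
  refine le_trans ?_ h
  simp only [Finset.prod_pow_eq_pow_sum, coeff_X_pow]
  rw [Finset.sum_boole]
  exact_mod_cast Finset.card_le_card fun s hs => by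
    obtain ⟨h1, h2, h3⟩ := hS s hs
    simp only [Finset.mem_filter, Fintype.mem_piFinset]
    refine ⟨fun j => ?_, h2.symm⟩
    simp only [A']
    split_ifs with h
    · exact h1 j
    · by_contra h'
      exact h (h3 j (by simpa using h'))

end tuples

end Cfsg.Agent.UGL.Cl
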