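import Mathlib
import Cfsg.Agent.UGL.ClMod

/-!
Self-duality of the invariants of an isometry.
-/

set_option autoImplicit false

namespace Cfsg.Agent.UGL.Cl

open Polynomial Module Cfsg.Agent.Conj
open scoped _root_.Classical

variable {F : Type*} [Field F] {V : Type*} [AddCommGroup V] [Module F V] {N : ℕ} (σ : F →+* F)

/-- the dual polynomial -/
noncomputable def dual : F[X] →* F[X] where
  toFun p := C (σ (p.coeff 0))⁻¹ * (p.map σ).reverse
  map_one' := by simp [reverse, reflect_one]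
  map_mul' p q := by
    rw [mul_coeff_zero, map_mul, mul_inv, C_mul, Polynomial.map_mul, reverse_mul_of_domain]
    ring

theorem dual_apply (p : F[X]) : dual σ p = C (σ (p.coeff 0))⁻¹ * (p.map σ).reverse := rfl

theorem coeff_dual (p : F[X]) (i : ℕ) :
    (dual σ p).coeff i = (σ (p.coeff 0))⁻¹ * σ (p.coeff (revAt p.natDegree i)) := by
  rw [dual_apply, coeff_C_mul, coeff_reverse, natDegree_map, coeff_map]

variable {σ}

theorem natDegree_dual {p : F[X]} (h0 : p.coeff 0 ≠ 0) : (dual σ p).natDegree = p.natDegree := by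
  refine natDegree_eq_of_le_of_coeff_ne_zero ((natDegree_C_mul_le _ _).trans
    ((reverse_natDegree_le _).trans natDegree_map_le)) ?_
  rw [coeff_dual, revAt_le le_rfl, Nat.sub_self]
  simp [h0]

theorem monic_dual {p : F[X]} (h0 : p.coeff 0 ≠ 0) : (dual σ p).Monic := by
  rw [Monic, leadingCoeff, natDegree_dual h0, coeff_dual, revAt_le le_rfl, Nat.sub_self]
  simp [h0]

theorem coeff_zero_dual {p : F[X]} (hm : p.Monic) : (dual σ p).coeff 0 = (σ (p.coeff 0))⁻¹ := by
  rw [coeff_dual, revAt_zero, ← leadingCoeff, hm.leadingCoeff, map_one, mul_one]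

theorem coeff_zero_dual_ne {p : F[X]} (hm : p.Monic) (h0 : p.coeff 0 ≠ 0) :
    (dual σ p).coeff 0 ≠ 0 := by
  rw [coeff_zero_dual hm]; simp [h0]

theorem dual_dual (hσ : ∀ a, σ (σ a) = a) {p : F[X]} (hm : p.Monic) (h0 : p.coeff 0 ≠ 0) :
    dual σ (dual σ p) = p := by
  ext i
  rw [coeff_dual, coeff_zero_dual hm, natDegree_dual h0, coeff_dual, revAt_invol]
  simp [hσ, h0]

theorem irreducible_dual (hσ : ∀ a, σ (σ a) = a) {p : F[X]} (hp : Irreducible p) (hm : p.Monic)
    (h0 : p.coeff 0 ≠ 0) : Irreducible (dual σ p) := by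
  have h1 : p ≠ 1 := fun h => hp.not_isUnit (h ▸ isUnit_one)
  have h2 : dual σ p ≠ 1 := fun h => h1 (by rw [← dual_dual hσ hm h0, h, map_one])
  rw [irreducible_of_monic (monic_dual h0) h2]
  intro f g hf hg h
  have h3 := coeff_zero_dual_ne (σ := σ) hm h0
  rw [← h, mul_coeff_zero, mul_ne_zero_iff] at h3
  have h4 := congrArg (dual σ) h
  rw [dual_dual hσ hm h0, map_mul] at h4
  rcases (irreducible_of_monic hm h1).1 hp _ _ (monic_dual h3.1) (monic_dual h3.2) h4 with h | h
  · exact Or.inl (by rw [← dual_dual hσ hf h3.1, h, map_one])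
  · exact Or.inr (by rw [← dual_dual hσ hg h3.2, h, map_one])

theorem aeval_reverse {A : Type*} [Ring A] [Algebra F A] {g g' : A} (h : g * g' = 1) (r : F[X]) :
    aeval g r.reverse = g ^ r.natDegree * aeval g' r := by
  have h1 : ∀ i, g ^ i * g' ^ i = 1 := fun i => by
    induction i with
    | zero => simp
    | succ i ih => rw [pow_succ, pow_succ', mul_assoc, ← mul_assoc g, h, one_mul, ih]
  rw [aeval_eq_sum_range' (Nat.lt_succ_of_le (reverse_natDegree_le r)), aeval_eq_sum_range,
    Finset.mul_sum, ← Finset.sum_range_reflect]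
  refine Finset.sum_congr rfl fun i hi => ?_
  have hi' := Nat.lt_succ_iff.1 (Finset.mem_range.1 hi)
  rw [Nat.succ_sub_one, coeff_reverse, revAt_le (Nat.sub_le _ _), Nat.sub_sub_self hi',
    mul_smul_comm]
  congr 1
  conv_rhs => rw [← Nat.sub_add_cancel hi', pow_add, mul_assoc, h1, mul_one]

theorem ker_dual [FiniteDimensional F V] {g g' : End F V} (h : g * g' = 1) {p : F[X]}
    (h0 : p.coeff 0 ≠ 0) :
    LinearMap.ker (aeval g (dual σ p)) = LinearMap.ker (aeval g' (p.map σ)) := by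
  have h1 : IsUnit (aeval g (C (σ (p.coeff 0))⁻¹) * g ^ (p.map σ).natDegree) :=
    ((isUnit_C.2 (IsUnit.mk0 _ (by simp [h0]))).map _).mul ((IsUnit.of_mul_eq_one _ h).pow _)
  rw [dual_apply, map_mul, aeval_reverse h, ← mul_assoc, End.mul_eq_comp,
    LinearMap.ker_comp_of_ker_eq_bot _ ((LinearMap.isUnit_iff_ker_eq_bot _).1 h1)]

theorem Has.coeff_ne' [FiniteDimensional F V] {g : End F V} {s : Fin N → F[X]} (h : Has g s)
    (hg : IsUnit g) (j : Fin N) : (s j).coeff 0 ≠ 0 := by
  have h1 := (LinearMap.isUnit_det g hg).ne_zero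
  rw [LinearMap.det_eq_sign_charpoly_coeff, h.charpoly, coeff_zero_prod] at h1
  have h2 := Finset.prod_ne_zero_iff.1 (right_ne_zero_of_mul h1) j (Finset.mem_univ _)
  intro h3
  rw [coeff_zero_eq_eval_zero] at h2 h3
  simp [h3] at h2

theorem Has.dual_eq [FiniteDimensional F V] (hσ : ∀ a, σ (σ a) = a) {g g' : End F V}
    (hg : g * g' = 1) (H : ∀ p : F[X], finrank F (LinearMap.ker (aeval g' (p.map σ))) =
      finrank F (LinearMap.ker (aeval g p))) {s : Fin N → F[X]} (h : Has g s) (j : Fin N) :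
    dual σ (s j) = s j := by
  refine congrFun (Has.unique (s := fun j => dual σ (s j)) ?_ h) j
  have hc := h.coeff_ne' (IsUnit.of_mul_eq_one _ hg)
  obtain ⟨t, p, e, hp, hm, h1, h2⟩ := h
  have h0 : ∀ i, (p i).coeff 0 ≠ 0 := fun i => by
    have := hc (e i)
    rw [h2, coeff_zero_prod] at this
    exact Finset.prod_ne_zero_iff.1 this i (by simp)
  have hp' : ∀ i, Irreducible (dual σ (p i)) := fun i => irreducible_dual hσ (hp i) (hm i) (h0 i)
  have hm' : ∀ i, (dual σ (p i)).Monic := fun i => monic_dual (h0 i)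
  refine ⟨t, fun i => dual σ (p i), e, hp', hm', ?_, fun j => by simp only [h2, map_prod]⟩
  have := finite_alg fun i => (hm' i).pow ((e i : ℕ) + 1)
  refine sim_of_finrank_ker fun q k hq hqm => ?_
  rw [finrank_ker_pow_mdl hp' hm' _ hq hqm]
  by_cases hq0 : q.coeff 0 = 0
  · rw [(h1.aeval _).finrank_ker, finrank_ker_pow_mdl hp hm _ hq hqm]
    congr 1
    refine Finset.sum_congr rfl fun i _ => ?_
    rw [if_neg fun h : p i = q => h0 i (h ▸ hq0), if_neg fun h : dual σ (p i) = q =>
      coeff_zero_dual_ne (hm i) (h0 i) (h ▸ hq0)]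
  · rw [← H, ← ker_dual hg (by rw [coeff_zero_eq_eval_zero] at hq0 ⊢; simp [hq0]), map_pow,
      (h1.aeval _).finrank_ker, finrank_ker_pow_mdl hp hm _ (irreducible_dual hσ hq hqm hq0)
      (monic_dual hq0), natDegree_dual hq0]
    congr 1
    refine Finset.sum_congr rfl fun i _ => if_congr ⟨fun h => ?_, fun h => ?_⟩ rfl rfl
    · rw [h, dual_dual hσ hqm hq0]
    · rw [← h, dual_dual hσ (hm i) (h0 i)]

theorem Has.sum_eq' [FiniteDimensional F V] {g : End F V} {s : Fin N → F[X]} (h : Has g s) :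
    ∑ j : Fin N, (j + 1) * (s j).natDegree = finrank F V := by
  have h1 := congrArg natDegree h.charpoly
  rw [LinearMap.charpoly_natDegree, natDegree_prod_of_monic _ _ fun j _ => (h.monic j).pow _] at h1
  simp only [(h.monic _).natDegree_pow] at h1
  exact h1.symm

theorem exists_idx {β κ : Type*} (P : β → Prop) (key : β → κ) (b : κ → ℕ)
    (h : ∀ k, Finite {a // P a ∧ key a = k} ∧ Nat.card {a // P a ∧ key a = k} ≤ b k) :
    ∃ idx : β → ℕ, (∀ a, P a → idx a < b (key a)) ∧
      ∀ a a', P a → P a' → key a = key a' → idx a = idx a' → a = a' := by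
  have h1 : ∀ k, ∃ f : β → ℕ, (∀ a, P a → key a = k → f a < b k) ∧
      ∀ a a', P a → P a' → key a = k → key a' = k → f a = f a' → a = a' := fun k => by
    have := (h k).1
    let e := Finite.equivFin {a // P a ∧ key a = k}
    refine ⟨fun a => if ha : P a ∧ key a = k then e ⟨a, ha⟩ else 0, fun a h1 h2 => ?_,
      fun a a' h1 h1' h2 h2' h3 => ?_⟩
    · simp only [dif_pos (And.intro h1 h2)]
      exact (e _).2.trans_le (h k).2
    · simp only [dif_pos (And.intro h1 h2), dif_pos (And.intro h1' h2')] at h3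
      exact congrArg Subtype.val (e.injective (Fin.ext h3))
  choose f hf hf' using h1
  refine ⟨fun a => f (key a) a, fun a ha => hf _ a ha rfl, fun a a' h1 h2 h3 h4 => ?_⟩
  simp only [← h3] at h4
  exact hf' _ a a' h1 h2 rfl h3.symm h4

end Cfsg.Agent.UGL.Cl
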