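import Mathlib
import Cfsg.Agent.UGL.ClDual
import Cfsg.Agent.UGL.ClBd
import Cfsg.Agent.Conj.SsEx

/-!
Upper bound for the number of conjugacy classes of `SU_n(q)`.
-/

set_option autoImplicit false
set_option backward.isDefEq.respectTransparency false

namespace Cfsg.Agent.UGL.Cl

open Polynomial Module Cfsg.Agent.Conj Matrix
open scoped _root_.Classical

section data
variable {U : Type*} [CommGroup U] {N : ℕ}

/-- the determinants available in the centraliser -/
noncomputable def psiG (b : Fin N → ℕ) : (Fin N → U) →* U where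
  toFun τ := ∏ j : Fin N, if b j = 0 then 1 else τ j ^ ((j : ℕ) + 1)
  map_one' := by simp
  map_mul' a b := by
    rw [← Finset.prod_mul_distrib]
    refine Finset.prod_congr rfl fun j _ => ?_
    split_ifs <;> simp [mul_pow]

variable (U) in
/-- the splitting number -/
noncomputable def hG (b : Fin N → ℕ) : ℕ := (psiG (U := U) b).range.index

theorem hG_dvd [IsCyclic U] (b : Fin N → ℕ) {j : Fin N} (hj : b j ≠ 0) : hG U b ∣ j + 1 := by
  have : IsCyclic (U ⧸ (psiG (U := U) b).range) :=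
    isCyclic_of_surjective _ (QuotientGroup.mk'_surjective _)
  rw [hG, Subgroup.index, ← IsCyclic.exponent_eq_card]
  refine Monoid.exponent_dvd_of_forall_pow_eq_one fun x => ?_
  obtain ⟨x, rfl⟩ := QuotientGroup.mk_surjective x
  rw [← QuotientGroup.mk_pow, QuotientGroup.eq_one_iff]
  refine ⟨Pi.mulSingle j x, ?_⟩
  change ∏ _ : Fin N, _ = _
  rw [Finset.prod_eq_single j, if_neg hj, Pi.mulSingle_eq_same]
  · intro b _ hb
    simp [Pi.mulSingle_eq_of_ne hb]
  · simp

variable [Fintype U]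

variable (U) in
/-- abstract self-dual polynomials -/
noncomputable def AU (q M : ℕ) : Finset (ℕ × U × ℕ) :=
  ((Finset.range (M + 1)) ×ˢ Finset.univ ×ˢ Finset.range (q ^ M + 1)).filter fun a =>
    a.2.2 < q ^ (a.1 - 1) ∧ (a.1 = 0 → a.2.1 = 1)

theorem mem_AU {q M : ℕ} (hq : 1 ≤ q) {a : ℕ × U × ℕ} : a ∈ AU U q M ↔
    a.1 ≤ M ∧ a.2.2 < q ^ (a.1 - 1) ∧ (a.1 = 0 → a.2.1 = 1) := by
  simp only [AU, Finset.mem_filter, Finset.mem_product, Finset.mem_range, Finset.mem_univ, true_and,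
    Nat.lt_succ_iff]
  exact ⟨fun h => ⟨h.1.1, h.2⟩, fun h => ⟨⟨h.1, h.2.1.le.trans
    (Nat.pow_le_pow_right hq (by omega))⟩, h.2⟩⟩

theorem card_AU {q : ℕ} (hq : 1 ≤ q) (hU : Fintype.card U = q + 1) (M m : ℕ) :
    ((((AU U q M).filter fun a => a.1 = m).card : ℕ) : ℤ) ≤ PowerSeries.coeff m (gU q) := by
  rcases m with _ | m
  · rw [coeff_gU_zero]
    have : ((AU U q M).filter fun a => a.1 = 0).card ≤ ({(0, 1, 0)} : Finset (ℕ × U × ℕ)).card :=
      Finset.card_le_card fun ⟨a, u, x⟩ ha => by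
        simp only [Finset.mem_filter, mem_AU hq] at ha
        obtain ⟨⟨-, h1, h2⟩, rfl⟩ := ha
        simp only [zero_tsub, pow_zero, Nat.lt_one_iff, forall_const] at h1 h2
        simp [h1, h2]
    exact_mod_cast this
  · rw [coeff_gU_succ]
    have : ((AU U q M).filter fun a => a.1 = m + 1).card ≤
        (({m + 1} : Finset ℕ) ×ˢ (Finset.univ : Finset U) ×ˢ Finset.range (q ^ m)).card :=
      Finset.card_le_card fun ⟨a, u, x⟩ ha => by
        simp only [Finset.mem_filter, mem_AU hq] at ha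
        obtain ⟨⟨-, h1, -⟩, rfl⟩ := ha
        simpa using h1
    simp only [Finset.card_product, Finset.card_singleton, Finset.card_univ, Finset.card_range, hU,
      one_mul] at this
    refine (Int.ofNat_le.2 this).trans (le_of_eq ?_)
    push_cast
    ring

variable (U) in
/-- the tuples -/
noncomputable def SU' (q N m : ℕ) : Finset (Fin N → ℕ × U × ℕ) :=
  (Fintype.piFinset fun _ => AU U q m).filter fun s => ∑ j : Fin N, (j + 1) * (s j).1 = m

theorem mem_SU' {q m : ℕ} (hq : 1 ≤ q) {s : Fin N → ℕ × U × ℕ} : s ∈ SU' U q N m ↔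
    (∀ j, (s j).2.2 < q ^ ((s j).1 - 1) ∧ ((s j).1 = 0 → (s j).2.1 = 1)) ∧
      ∑ j : Fin N, (j + 1) * (s j).1 = m := by
  simp only [SU', Finset.mem_filter, Fintype.mem_piFinset, mem_AU hq]
  refine ⟨fun h => ⟨fun j => (h.1 j).2, h.2⟩, fun h => ⟨fun j => ⟨?_, h.1 j⟩, h.2⟩⟩
  have := Finset.single_le_sum (f := fun j : Fin N => ((j : ℕ) + 1) * (s j).1)
    (fun _ _ => Nat.zero_le _) (Finset.mem_univ j)
  rw [h.2] at this
  nlinarith

variable (U) in
/-- the bound -/
noncomputable def KU (q N m : ℕ) (c : U) : ℕ :=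
  ∑ s ∈ (SU' U q N m).filter fun s => ∏ j : Fin N, (s j).2.1 ^ ((j : ℕ) + 1) = c,
    hG U fun j => (s j).1

theorem card_le_sum {C α : Type*} [Finite C] (T : Finset α) (R : C → α → Prop) (f : α → ℕ)
    (h1 : ∀ c, ∃ t ∈ T, R c t) (h2 : ∀ t ∈ T, Nat.card {c // R c t} ≤ f t) :
    Nat.card C ≤ ∑ t ∈ T, f t := by
  have := Fintype.ofFinite C
  rw [Nat.card_eq_fintype_card, ← Finset.card_univ]
  refine le_trans (Finset.card_le_card (t := T.biUnion fun t => Finset.univ.filter fun c => R c t)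
    fun c _ => ?_) (Finset.card_biUnion_le.trans (Finset.sum_le_sum fun t ht => ?_))
  · simpa using h1 c
  · rw [← Fintype.card_subtype, ← Nat.card_eq_fintype_card]
    exact h2 t ht

theorem KU_mul_le {q : ℕ} (hq : 1 ≤ q) (N m : ℕ) (c : U) :
    Fintype.card U * KU U q N m c ≤ ∑ s ∈ SU' U q N m, (hG U fun j => (s j).1) ^ 2 := by
  have hτ : ∀ (ψ : (Fin N → U) →* U) (x : U), ∃ τ, x ∈ ψ.range → ψ τ = x := fun ψ x => by
    by_cases h : x ∈ ψ.range
    · obtain ⟨τ, h⟩ := h
      exact ⟨τ, fun _ => h⟩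
    · exact ⟨1, fun h' => absurd h' h⟩
  choose τ hτ using hτ
  let T := ((SU' U q N m).filter fun s => ∏ j : Fin N, (s j).2.1 ^ ((j : ℕ) + 1) = c).sigma
    fun s => Finset.univ.filter fun x : U => x ∈ (psiG fun j => (s j).1).range
  have h1 : Fintype.card U * KU U q N m c = ∑ p ∈ T, (hG U fun j => (p.1 j).1) ^ 2 := by
    rw [Finset.sum_sigma, KU, Finset.mul_sum]
    refine Finset.sum_congr rfl fun s _ => ?_
    simp only [Finset.sum_const, smul_eq_mul]
    rw [← Nat.card_eq_fintype_card, ← (psiG (U := U) fun j => (s j).1).range.index_mul_card,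
      ← Fintype.card_subtype, ← Nat.card_eq_fintype_card, hG]
    ring
  rw [h1]
  let sc : (Fin N → U) → (Fin N → ℕ × U × ℕ) → Fin N → ℕ × U × ℕ := fun τ s j =>
    ((s j).1, (if (s j).1 = 0 then 1 else τ j) * (s j).2.1, (s j).2.2)
  have h2 : ∀ τ s, ∏ j : Fin N, (sc τ s j).2.1 ^ ((j : ℕ) + 1) =
      psiG (fun j => (s j).1) τ * ∏ j : Fin N, (s j).2.1 ^ ((j : ℕ) + 1) := fun τ s => by
    simp only [sc, mul_pow, Finset.prod_mul_distrib]
    congr 1
    refine Finset.prod_congr rfl fun j _ => ?_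
    split_ifs <;> simp
  refine sum_le_of_injOn (fun p => sc (τ (psiG fun j => (p.1 j).1) p.2) p.1) ?_ ?_
    fun _ _ => le_rfl
  · rintro ⟨s, x⟩ hp ⟨s', x'⟩ hp' H
    simp only [T, Finset.coe_sigma, Finset.coe_filter, Set.mem_sigma_iff, Set.mem_ofPred_eq,
      Finset.mem_univ, true_and] at hp hp' H
    have h3 : (fun j => (s j).1) = fun j => (s' j).1 :=
      _root_.funext fun j => (congrArg Prod.fst (congrFun H j) :)
    have h4 := congrArg (fun s : Fin N → ℕ × U × ℕ => ∏ j : Fin N, (s j).2.1 ^ ((j : ℕ) + 1)) H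
    simp only [h2] at h4
    rw [hτ _ _ hp.2, hτ _ _ hp'.2, hp.1.2, hp'.1.2] at h4
    obtain rfl : x = x' := mul_right_cancel h4
    rw [← h3] at H
    obtain rfl : s = s' := funext fun j => by
      have h5 := congrFun H j
      have h6 := congrFun h3 j
      simp only [sc, Prod.mk.injEq] at h5 h6
      rw [← h6] at h5
      exact Prod.ext h6 (Prod.ext (mul_left_cancel h5.2.1) h5.2.2)
    rfl
  · intro p hp
    have := (mem_SU' hq).1 (Finset.mem_filter.1 (Finset.mem_sigma.1 hp).1).1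
    exact (mem_SU' hq).2 ⟨fun j => ⟨(this.1 j).1, fun h => by
      simp only [sc] at h ⊢
      rw [if_pos h, one_mul, (this.1 j).2 h]⟩, this.2⟩

theorem card_SU'_filter {q : ℕ} (hq : 1 ≤ q) (hU : Fintype.card U = q + 1) (N m d : ℕ)
    (hd : d ≠ 0) : ((((SU' U q N m).filter fun s => ∀ j : Fin N, (s j).1 ≠ 0 → d ∣ j + 1).card : ℕ) : ℤ)
      ≤ PowerSeries.coeff m (PowerSeries.expand d hd (AG (gU q) (N / d))) := by
  refine card_tuples_le (AU U q m) Prod.fst (0, 1, 0) rfl (card_AU hq hU m) m d hd _ fun s hs => ?_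
  obtain ⟨h1, h2⟩ := Finset.mem_filter.1 hs
  obtain ⟨h3, h4⟩ := Finset.mem_filter.1 h1
  refine ⟨Fintype.mem_piFinset.1 h3, h4, fun j hj => h2 j fun h => hj ?_⟩
  obtain ⟨h5, h6⟩ := ((mem_SU' hq).1 h1).1 j
  rw [h] at h5
  exact Prod.ext h (Prod.ext (h6 h) (by simpa using h5))

theorem KU_le [IsCyclic U] {q : ℕ} (hq : 1 ≤ q) (hU : Fintype.card U = q + 1) (n : ℕ) (c : U) :
    ((q : ℤ) + 1) * KU U q n n c ≤ PowerSeries.coeff n (AG (gU q) n) +
      ∑ d ∈ (q + 1).divisors, ((d : ℤ) ^ 2 - 1) *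
        if d ∣ n then PowerSeries.coeff (n / d) (AG (gU q) (n / d)) else 0 := by
  have h := KU_mul_le hq n n c
  rw [hU] at h
  zify at h
  refine h.trans ?_
  have h1 : ∑ s ∈ SU' U q n n, ((hG U fun j => (s j).1 : ℕ) : ℤ) ^ 2 =
      (SU' U q n n).card + ∑ s ∈ SU' U q n n, (((hG U fun j => (s j).1 : ℕ) : ℤ) ^ 2 - 1) := by
    rw [Finset.sum_sub_distrib]; simp
  have h2 : ∀ s ∈ SU' U q n n, (hG U fun j => (s j).1) ∈ (q + 1).divisors := fun s _ =>
    Nat.mem_divisors.2 ⟨by
      rw [← hU, ← Nat.card_eq_fintype_card]; exact Subgroup.index_dvd_card _, by omega⟩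
  rw [h1, ← Finset.sum_fiberwise_of_maps_to h2]
  refine add_le_add (by simpa using card_SU'_filter hq hU n n 1 one_ne_zero)
    (Finset.sum_le_sum fun d hd => ?_)
  have h3 : 1 ≤ d := Nat.pos_of_mem_divisors hd
  rw [Finset.sum_congr rfl (g := fun _ => (d : ℤ) ^ 2 - 1) fun s hs => by
    rw [(Finset.mem_filter.1 hs).2], Finset.sum_const, nsmul_eq_mul, mul_comm]
  refine mul_le_mul_of_nonneg_left ?_ (sub_nonneg.2 (one_le_pow₀ (by exact_mod_cast h3)))
  refine le_trans ?_ ((card_SU'_filter hq hU n n d (by omega)).trans (le_of_eq ?_))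
  · exact_mod_cast Finset.card_le_card fun s hs => by
      rw [Finset.mem_filter] at hs ⊢
      exact ⟨hs.1, fun j hj => hs.2 ▸ hG_dvd _ hj⟩
  · split_ifs with h
    · obtain ⟨k, rfl⟩ := h
      rw [PowerSeries.coeff_expand_mul, Nat.mul_div_cancel_left _ h3]
    · exact PowerSeries.coeff_expand_of_not_dvd _ _ _ h

theorem num_term {q n d : ℕ} (hq : 3 ≤ q) (hd : 2 ≤ d) (h : d ∣ n) (hn : n ≠ 0) :
    ((d : ℝ) ^ 2 - 1) * q ^ (n / d) ≤
      q ^ n * ((if d = n then 1 else 0) + 4 / 3 * (1 / 2) ^ d) := by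
  obtain ⟨k, rfl⟩ := h
  rw [Nat.mul_div_cancel_left _ (by omega)]
  obtain ⟨d, rfl⟩ : ∃ e, d = e + 1 := ⟨d - 1, by omega⟩
  have hq' : (3 : ℝ) ≤ q := by exact_mod_cast hq
  have hk : 1 ≤ k := Nat.pos_of_ne_zero fun h => by simp [h] at hn
  rw [show (d + 1) * k = k + d * k by ring, pow_add, mul_comm, mul_assoc]
  refine mul_le_mul_of_nonneg_left ?_ (by positivity)
  have h1 : ∀ d : ℕ, ((d + 1 : ℕ) : ℝ) ^ 2 - 1 ≤ 3 ^ d := fun d => by
    induction d with
    | zero => simp
    | succ d ih =>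
      rcases d with _ | d
      · norm_num
      · push_cast at ih ⊢
        rw [pow_succ 3]
        nlinarith [(Nat.cast_nonneg d : (0 : ℝ) ≤ d)]
  rcases hk.eq_or_lt with rfl | hk
  · rw [if_pos (by omega), mul_one]
    have h2 : (3 : ℝ) ^ d ≤ q ^ d := by gcongr
    have h3 : (0 : ℝ) ≤ q ^ d * (4 / 3 * (1 / 2) ^ (d + 1)) := by positivity
    linarith [h1 d]
  · rw [if_neg (by nlinarith), zero_add]
    have h2 : (9 : ℝ) ^ d ≤ q ^ (d * k) := by
      calc (9 : ℝ) ^ d = 3 ^ (d * 2) := by rw [mul_comm, pow_mul]; norm_num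
        _ ≤ q ^ (d * 2) := by gcongr
        _ ≤ _ := pow_le_pow_right₀ (by linarith) (Nat.mul_le_mul_left _ hk)
    have h3 : (3 : ℝ) ^ d ≤ 9 ^ d * (4 / 3 * (1 / 2) ^ (d + 1)) := by
      obtain ⟨d, rfl⟩ : ∃ e, d = e + 1 := ⟨d - 1, by omega⟩
      have : (9 : ℝ) ^ (d + 1) * (4 / 3 * (1 / 2) ^ (d + 1 + 1)) = 3 * (9 / 2) ^ d := by
        simp only [pow_succ, div_pow, one_pow]; field_simp; ring
      rw [this, pow_succ']
      gcongr; norm_num
    exact (h1 d).trans (h3.trans (by gcongr))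

theorem KU_bound [IsCyclic U] {q : ℕ} (hq : 2 ≤ q) (hU : Fintype.card U = q + 1) {n : ℕ}
    (hn : 1 ≤ n) (c : U) : 100 * KU U q (n + 1) (n + 1) c ≤ 826 * q ^ n := by
  have h := KU_le (by omega) hU (n + 1) c
  have h' : ((q : ℝ) + 1) * KU U q (n + 1) (n + 1) c ≤
      ((PowerSeries.coeff (n + 1) (AG (gU q) (n + 1)) : ℤ) : ℝ) +
      ∑ d ∈ (q + 1).divisors, ((d : ℝ) ^ 2 - 1) * if d ∣ n + 1 then
        ((PowerSeries.coeff ((n + 1) / d) (AG (gU q) ((n + 1) / d)) : ℤ) : ℝ) else 0 := by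
    exact_mod_cast h
  have goal : (100 : ℝ) * KU U q (n + 1) (n + 1) c ≤ 826 * q ^ n → 
      100 * KU U q (n + 1) (n + 1) c ≤ 826 * q ^ n := fun h => by exact_mod_cast h
  apply goal
  rcases hq.eq_or_lt with rfl | hq
  · rw [show Nat.divisors (2 + 1) = {1, 3} by decide, Finset.sum_pair (by decide)] at h'
    have h1 := coeff_AG_gU2 (n + 1) (n + 1)
    rw [pow_succ] at h1
    have hp : (0 : ℝ) < 2 ^ n := by positivity
    norm_num at h' ⊢
    split_ifs at h' with h3
    · obtain ⟨k, hk⟩ := h3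
      rw [hk, Nat.mul_div_cancel_left _ (by norm_num)] at h'
      rcases k with _ | _ | k
      · omega
      · obtain rfl : n = 2 := by omega
        rw [(coeff_one_AG (coeff_gU_zero 2) 0).2, coeff_gU_succ] at h'
        norm_num at h' h1 ⊢
        linarith
      · have h4 := coeff_AG_gU2 (k + 1 + 1) (k + 1 + 1)
        have h5 : (2 : ℝ) ^ (k + 1 + 1) * 2 ^ 3 ≤ 2 ^ n := by
          rw [← pow_add]; exact pow_le_pow_right₀ (by norm_num) (by omega)
        rw [← hk] at h'
        linarith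
    · linarith
  · have hq' : (3 : ℝ) ≤ q := by exact_mod_cast hq
    have h1 := coeff_AG_gU3 hq (n + 1) (n + 1)
    have h2 : ∑ d ∈ (q + 1).divisors, (((d : ℝ) ^ 2 - 1) * if d ∣ n + 1 then
        ((PowerSeries.coeff ((n + 1) / d) (AG (gU q) ((n + 1) / d)) : ℤ) : ℝ) else 0) ≤
        ∑ d ∈ Finset.Ico 2 (q + 2), 3 * ((q : ℝ) ^ (n + 1) * ((if d = n + 1 then 1 else 0) +
          4 / 3 * (1 / 2) ^ d)) := by
      rw [← Finset.sum_erase (a := 1) _ (by norm_num)]
      refine le_trans (Finset.sum_le_sum fun d hd => ?_) (Finset.sum_le_sum_of_subset_of_nonneg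
        (fun d hd => ?_) fun d _ _ => by positivity)
      · have h3 := Nat.pos_of_mem_divisors (Finset.mem_erase.1 hd).2
        have h4 := (Finset.mem_erase.1 hd).1
        split_ifs with h5 h6 h6
        · have := num_term hq (by omega) h5 (by omega)
          rw [if_pos h6] at this
          have h7 := coeff_AG_gU3 hq ((n + 1) / d) ((n + 1) / d)
          have h8 : (0 : ℝ) ≤ (d : ℝ) ^ 2 - 1 := sub_nonneg.2 (one_le_pow₀ (by exact_mod_cast h3))
          nlinarith
        · have := num_term hq (by omega) h5 (by omega)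
          rw [if_neg h6] at this
          have h7 := coeff_AG_gU3 hq ((n + 1) / d) ((n + 1) / d)
          have h8 : (0 : ℝ) ≤ (d : ℝ) ^ 2 - 1 := sub_nonneg.2 (one_le_pow₀ (by exact_mod_cast h3))
          nlinarith
        · rw [mul_zero]; positivity
        · rw [mul_zero]; positivity
      · have h3 := Nat.pos_of_mem_divisors (Finset.mem_erase.1 hd).2
        have h4 := (Finset.mem_erase.1 hd).1
        have h5 := Nat.divisor_le (Finset.mem_erase.1 hd).2
        rw [Finset.mem_Ico]; omega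
    rw [← Finset.mul_sum, ← Finset.mul_sum, Finset.sum_add_distrib, ← Finset.mul_sum,
      Finset.sum_ite_eq'] at h2
    have h3 := geom_sum_Ico_le_of_lt_one (x := (1 / 2 : ℝ)) (m := 2) (n := q + 2) (by norm_num)
      (by norm_num)
    have h4 : (if n + 1 ∈ Finset.Ico 2 (q + 2) then (1 : ℝ) else 0) ≤ 1 := by split_ifs <;> norm_num
    have h5 : (0 : ℝ) < q ^ n := by positivity
    have h6 : (q : ℝ) ^ (n + 1) * ((if n + 1 ∈ Finset.Ico 2 (q + 2) then (1 : ℝ) else 0) +
        4 / 3 * ∑ i ∈ Finset.Ico 2 (q + 2), (1 / 2 : ℝ) ^ i) ≤ q ^ (n + 1) * (5 / 3) :=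
      mul_le_mul_of_nonneg_left (by linarith) (by positivity)
    refine le_of_mul_le_mul_left ?_ (show (0 : ℝ) < q + 1 by linarith)
    rw [pow_succ] at h1 h2 h6
    nlinarith

end data

section SU
open Herm
variable {F : Type*} [Field F] [Finite F] {σ : F →+* F} {ι : Type*} [Fintype ι] [DecidableEq ι]

theorem exists_unitary_det (hσ : Inv σ) {A c : Matrix ι ι F} (hA : ct σ A * A = 1)
    (hc : c * A = A * c) (he : c.det ≠ 0) :
    ∃ w : Matrix ι ι F, ct σ w * w = 1 ∧ w * A = A * w ∧ w.det * σ c.det = c.det := by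
  have hcu : IsUnit c := (isUnit_iff_isUnit_det _).2 he.isUnit
  obtain ⟨u, s, hu, huA, hus, hs⟩ := hσ.exists_unitary_conj hA hA hcu hc
  have huu : IsUnit u := IsUnit.of_mul_eq_one_right _ hu
  have hsu : IsUnit s := by rw [hus] at hcu; exact isUnit_of_mul_isUnit_right hcu
  have hsA : s * A = A * s := by
    refine huu.mul_left_cancel ?_
    rw [← mul_assoc, ← hus, hc, hus, ← mul_assoc, ← mul_assoc, huA]
  have hA' : A * ct σ A = 1 := mul_eq_one_comm.1 hA
  have htA : ct σ s * A = A * ct σ s := by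
    have h1 := congrArg (ct σ) hsA
    rw [ct_mul, ct_mul] at h1
    calc ct σ s * A = (A * ct σ A) * ct σ s * A := by rw [hA', one_mul]
      _ = A * (ct σ s * ct σ A) * A := by rw [mul_assoc A, h1]
      _ = A * ct σ s := by rw [mul_assoc, mul_assoc, hA, mul_one]
  have hst : Commute (ct σ s) s := by
    refine commute_of_mem_adjoin (u := ct σ c * c) ?_ hs
    have h2 : Commute (ct σ c * c) s := commute_of_mem_adjoin (Commute.refl _) hs
    have h3 := congrArg (ct σ) h2.eq
    simp only [ct_mul, hσ.ct_ct] at h3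
    exact h3
  have htu := isUnit_ct (σ := σ) hsu
  obtain ⟨t, ht⟩ := htu.exists_right_inv
  have ht' : t * ct σ s = 1 := mul_eq_one_comm.1 ht
  have ht2 : s * ct σ t = 1 := by
    have := congrArg (ct σ) ht'
    rwa [ct_mul, hσ.ct_ct, ct_one] at this
  have ht3 : ct σ t * s = 1 := mul_eq_one_comm.1 ht2
  refine ⟨u * u * s * t, ?_, ?_, ?_⟩
  · rw [ct_mul, ct_mul, ct_mul]
    calc ct σ t * (ct σ s * (ct σ u * ct σ u)) * (u * u * s * t)
        = ct σ t * (ct σ s * (ct σ u * (ct σ u * u) * u) * s) * t := by simp only [mul_assoc]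
      _ = ct σ t * (s * ct σ s) * t := by rw [hu, mul_one, hu, mul_one, hst.eq]
      _ = (ct σ t * s) * (ct σ s * t) := by simp only [mul_assoc]
      _ = 1 := by rw [ht3, ht, one_mul]
  · have htA' : t * A = A * t := by
      calc t * A = t * A * (ct σ s * t) := by rw [ht, mul_one]
        _ = t * (ct σ s * A) * t := by rw [htA]; simp only [mul_assoc]
        _ = A * t := by rw [← mul_assoc, ht', one_mul]
    have c1 : Commute u A := huA
    have c2 : Commute s A := hsA
    have c3 : Commute t A := htA'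
    exact (((c1.mul_left c1).mul_left c2).mul_left c3).eq
  · have d1 := congrArg det hu
    have d2 := congrArg det ht
    have d3 := congrArg det hus
    rw [det_mul, det_ct, det_one] at d1 d2
    rw [det_mul] at d3
    rw [det_mul, det_mul, det_mul]
    nth_rewrite 1 [d3]
    rw [map_mul]
    linear_combination (u.det * s.det * (σ u.det * u.det)) * d2 + (u.det * s.det) * d1 - d3

theorem card_selfdual {q : ℕ} (hF : Nat.card F = q ^ 2) (hσ : Inv σ) (k : ℕ × F) :
    Finite {p : F[X] // (p.Monic ∧ p.coeff 0 ≠ 0 ∧ dual σ p = p) ∧ (p.natDegree, p.coeff 0) = k} ∧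
    Nat.card {p : F[X] // (p.Monic ∧ p.coeff 0 ≠ 0 ∧ dual σ p = p) ∧ (p.natDegree, p.coeff 0) = k}
      ≤ q ^ (k.1 - 1) := by
  obtain ⟨m, c⟩ := k
  rcases isEmpty_or_nonempty {p : F[X] // (p.Monic ∧ p.coeff 0 ≠ 0 ∧ dual σ p = p) ∧
    (p.natDegree, p.coeff 0) = (m, c)} with h | ⟨⟨p₀, ⟨a1, a2, a3⟩, a4⟩⟩
  · exact ⟨inferInstance, by rw [Nat.card_of_isEmpty]; exact Nat.zero_le _⟩
  have hc : c * σ c = 1 := by
    have := coeff_zero_dual (σ := σ) a1
    rw [a3] at this
    rw [← (Prod.mk.inj a4).2]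
    nth_rewrite 1 [this]
    exact inv_mul_cancel₀ (by simpa using a2)
  have hc' : (σ c)⁻¹ = c := (eq_inv_of_mul_eq_one_left hc).symm
  let φ : (Fin (m - 1) → F) →+ (Fin (m - 1) → F) :=
    { toFun := fun a i => c * σ (a i.rev)
      map_zero' := by ext; simp
      map_add' := fun a b => by ext; simp [mul_add] }
  have hφ : ∀ a i, φ a i = c * σ (a i.rev) := fun _ _ => rfl
  have h := card_fix_semi hσ φ (fun a w => by ext; simp [hφ]; ring)
    (fun w => by ext i; rw [hφ, hφ, map_mul, hσ.invol, Fin.rev_rev, ← mul_assoc, hc, one_mul])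
  rw [Nat.card_fun, hF, Nat.card_fin, ← pow_mul, mul_comm, pow_mul] at h
  have h' : Nat.card {w // φ w = w} = q ^ (m - 1) := (Nat.pow_left_injective two_ne_zero h).symm
  let f : {p : F[X] // (p.Monic ∧ p.coeff 0 ≠ 0 ∧ dual σ p = p) ∧
      (p.natDegree, p.coeff 0) = (m, c)} → {w // φ w = w} := fun p =>
    ⟨fun i => p.1.coeff (i + 1), funext fun i => by
      obtain ⟨p, ⟨b1, b2, b3⟩, b4⟩ := p
      have := coeff_dual σ p (i + 1)
      rw [b3, (Prod.mk.inj b4).1, (Prod.mk.inj b4).2, hc', revAt_le (by omega)] at this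
      rw [hφ]
      simp only
      rw [this, Fin.val_rev]
      congr 3
      omega⟩
  have hf : Function.Injective f := by
    rintro ⟨p, ⟨b1, b2, b3⟩, b4⟩ ⟨p', ⟨b1', b2', b3'⟩, b4'⟩ H
    obtain ⟨rfl, rfl⟩ := Prod.mk.inj b4
    obtain ⟨b5, b6⟩ := Prod.mk.inj b4'
    apply Subtype.ext
    ext i
    rcases lt_trichotomy i p.natDegree with hi | rfl | hi
    · rcases i with _ | i
      · exact b6.symm
      · exact congrFun (congrArg Subtype.val H) ⟨i, by omega⟩
    · simp only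
      rw [b1.coeff_natDegree, ← b5, b1'.coeff_natDegree]
    · simp only
      rw [coeff_eq_zero_of_natDegree_lt hi, coeff_eq_zero_of_natDegree_lt (b5 ▸ hi)]
  exact ⟨Finite.of_injective f hf, h' ▸ Nat.card_le_card_of_injective f hf⟩

theorem finrank_ker_ct (hσ : Inv σ) (A : Matrix ι ι F) (p : F[X]) :
    finrank F (LinearMap.ker (aeval (toLin' (ct σ A)) (p.map σ))) =
      finrank F (LinearMap.ker (aeval (toLin' A) p)) := by
  have h : aeval (ct σ A) (p.map σ) = ct σ (aeval A p) := by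
    induction p using Polynomial.induction_on' with
    | add p q hp hq => rw [Polynomial.map_add, map_add, map_add, map_add, hp, hq]
    | monomial n a =>
      rw [Polynomial.map_monomial, aeval_monomial, aeval_monomial, ← Algebra.smul_def,
        ← Algebra.smul_def, ct_smul]
      congr 1
      induction n with
      | zero => simp
      | succ n ih => rw [pow_succ, pow_succ', ct_mul, ih]
  rw [← toLin'_aeval, ← toLin'_aeval, finrank_ker_toLin', finrank_ker_toLin', h, ct_apply,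
    rank_transpose, rank_map]

variable {q n : ℕ} (hF : Nat.card F = q ^ 2)

/-- the determinant on `GU` -/
noncomputable def detGU (n : ℕ) : Cfsg.GU n F q →* normOne (frob hF) :=
  (GeneralLinearGroup.det.comp (Cfsg.GU n F q).subtype).codRestrict _ fun g => by
    have := congrArg det ((mem_GU_iff hF g.1).1 g.2)
    rwa [det_mul, det_ct, det_one] at this

theorem card_split_le_U {x : Cfsg.SU n F q} {s : Fin n → F[X]} (h : Has (toLin' x.1.1) s) :
    Nat.card {C : ConjClasses (Cfsg.SU n F q) // ∃ g, ConjClasses.mk g = C ∧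
      Has (toLin' g.1.1) s} ≤ hG (normOne (frob hF)) fun j => (s j).natDegree := by
  have := Fintype.ofFinite F
  rw [card_classes_split (detGU hF n) (suToGU n F q) suToGU_injective ?_ x _ fun g => ?_]
  · have h1 : (psiG fun j => (s j).natDegree).range ≤
        (Subgroup.centralizer {suToGU n F q x}).map (detGU hF n) := by
      rintro _ ⟨τ, rfl⟩
      change ∏ _ : Fin n, _ ∈ _
      refine Subgroup.prod_mem _ fun j _ => ?_
      split_ifs with hj
      · exact one_mem _
      obtain ⟨θ, hθ⟩ := (inv_frob hF).ne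
      obtain ⟨e, he, he'⟩ := ring_hilbert90 (inv_frob hF).invol (θ := θ)
        (sub_ne_zero.2 (Ne.symm hθ)).isUnit (u := (τ j).1) (by rw [mul_comm]; exact (τ j).2)
      obtain ⟨c, hc, hd⟩ := h.exists_det (j := j) (fun h => hj (by simp only [h, natDegree_one])) e
      obtain ⟨c, rfl⟩ := toLin'.surjective c
      rw [← toLin'_mul', ← toLin'_mul', toLin'.injective.eq_iff] at hc
      rw [LinearMap.det_toLin'] at hd
      obtain ⟨w, h1, h2, h3⟩ := exists_unitary_det (inv_frob hF)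
        ((mem_GU_iff hF _).1 (suToGU n F q x).2) hc (hd ▸ pow_ne_zero _ he.ne_zero)
      refine ⟨mkGU hF w h1, Subgroup.mem_centralizer_singleton_iff.2 (Subtype.ext (Units.ext h2)),
        Subtype.ext (Units.ext ?_)⟩
      change w.det = ((τ j).1 : F) ^ ((j : ℕ) + 1)
      rw [hd, map_pow] at h3
      apply mul_right_cancel₀ (pow_ne_zero ((j : ℕ) + 1) ((map_ne_zero (frob hF)).2 he.ne_zero))
      rw [h3, ← mul_pow, ← he']
    refine (Subgroup.relIndex_le_of_le_right le_top ?_).trans ?_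
    · rw [Subgroup.relIndex_top_right]; exact Subgroup.index_ne_zero_of_finite
    · rw [Subgroup.relIndex_top_right]; exact Subgroup.index_antitone h1
  · ext g
    rw [mem_range_suToGU, MonoidHom.mem_ker, Subtype.ext_iff, Units.ext_iff]
    rfl
  · rw [isConj_GU_iff hF, isConj_GL_iff_sim]
    exact ⟨fun h' => h.sim h', fun h' => h.of_sim h'.symm⟩

include hF in
theorem card_SU_le (hn : 1 ≤ n) :
    100 * Nat.card (ConjClasses (Cfsg.SU (n + 1) F q)) ≤ 826 * q ^ n := by
  have hq := two_le_of_card hF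
  have hσ := inv_frob hF
  have := Fintype.ofFinite (normOne (frob hF))
  have hU : Fintype.card (normOne (frob hF)) = q + 1 := by
    rw [← Nat.card_eq_fintype_card, hσ.card_normOne hF]
  let c : normOne (frob hF) := ⟨(-1) ^ (n + 1), pow_mem (by simp [mem_normOne]) _⟩
  refine le_trans (Nat.mul_le_mul_left _ ?_) (KU_bound hq hU hn c)
  obtain ⟨idx, hi, hi'⟩ := exists_idx _ _ _ (card_selfdual hF hσ)
  let cu : F[X] → normOne (frob hF) := fun p =>
    if h : frob hF (p.coeff 0) * p.coeff 0 = 1 then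
      ⟨Units.mk0 _ (right_ne_zero_of_mul_eq_one h), h⟩ else 1
  have hcu : ∀ p : F[X], p.Monic → p.coeff 0 ≠ 0 → dual (frob hF) p = p →
      ((cu p).1 : F) = p.coeff 0 := fun p h1 h2 h3 => by
    have h4 := coeff_zero_dual (σ := frob hF) h1
    rw [h3] at h4
    have h5 : frob hF (p.coeff 0) * p.coeff 0 = 1 := by
      nth_rewrite 2 [h4]
      exact mul_inv_cancel₀ (by simpa using h2)
    simp only [cu, dif_pos h5, Units.val_mk0]
  let enc : (Fin (n + 1) → F[X]) → Fin (n + 1) → ℕ × normOne (frob hF) × ℕ := fun s j =>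
    ((s j).natDegree, cu (s j), idx (s j))
  have key : ∀ (g : Cfsg.SU (n + 1) F q) (s : Fin (n + 1) → F[X]), Has (toLin' g.1.1) s → ∀ j,
      (s j).Monic ∧ (s j).coeff 0 ≠ 0 ∧ dual (frob hF) (s j) = s j := fun g s h j => by
    have h1 : toLin' g.1.1 * toLin' (ct (frob hF) g.1.1) = 1 := by
      have h0 : g.1.1 * ct (frob hF) g.1.1 = 1 :=
        mul_eq_one_comm.1 ((mem_GU_iff hF _).1 (suToGU _ F q g).2)
      rw [← toLin'_mul', h0, toLin'_one]
      rfl
    exact ⟨h.monic j, h.coeff_ne' (IsUnit.of_mul_eq_one _ h1) j,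
      h.dual_eq hσ.invol h1 (finrank_ker_ct hσ _) j⟩
  refine card_le_sum _ (fun C t => ∃ (g : Cfsg.SU (n + 1) F q) (s : Fin (n + 1) → F[X]),
      ConjClasses.mk g = C ∧ Has (toLin' g.1.1) s ∧ enc s = t) _ (fun C => ?_) fun t _ => ?_
  · obtain ⟨g, rfl⟩ := ConjClasses.mk_surjective C
    obtain ⟨s, hs⟩ := exists_has (N := n + 1) (toLin' g.1.1) (by simp)
    simp only [Finset.mem_filter]
    refine ⟨enc s, ⟨(mem_SU' (by omega)).2 ⟨fun j => ⟨hi _ (key g s hs j), fun h => ?_⟩, ?_⟩, ?_⟩,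
      g, s, rfl, hs, rfl⟩
    · obtain ⟨a1, a2, a3⟩ := key g s hs j
      refine Subtype.ext (Units.ext ((hcu _ a1 a2 a3).trans ?_))
      rw [a1.natDegree_eq_zero.1 h]; simp
    · simpa using hs.sum_eq'
    · refine Subtype.ext (Units.ext ?_)
      have h1 := hs.charpoly
      have h2 := det_eq_sign_charpoly_coeff g.1.1
      rw [g.1.2, ← charpoly_toLin', h1, Fintype.card_fin, coeff_zero_prod] at h2
      simp only [SubmonoidClass.coe_finsetProd, Units.coe_prod,
        SubmonoidClass.coe_pow, Units.val_pow_eq_pow_val, c, enc, Units.val_neg, Units.val_one]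
      rw [Finset.prod_congr rfl fun j _ => by
        rw [hcu _ (key g s hs j).1 (key g s hs j).2.1 (key g s hs j).2.2]]
      simp only [coeff_zero_eq_eval_zero, eval_pow] at h2 ⊢
      have h3 : ((-1 : F) ^ (n + 1)) * (-1) ^ (n + 1) = 1 := by rw [← mul_pow]; simp
      linear_combination (-(-1) ^ (n + 1)) * h2 - (∏ j : Fin (n + 1),
        eval 0 (s j) ^ ((j : ℕ) + 1)) * h3
  · rcases isEmpty_or_nonempty {C // ∃ (g : Cfsg.SU (n + 1) F q)
      (s : Fin (n + 1) → F[X]), ConjClasses.mk g = C ∧ Has (toLin' g.1.1) s ∧ enc s = t}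
      with h1 | ⟨⟨C, x, s, -, hx, rfl⟩⟩
    · rw [Nat.card_of_isEmpty]; exact Nat.zero_le _
    · refine le_trans ?_ (card_split_le_U hF hx)
      refine Nat.card_le_card_of_injective (Subtype.map id fun D ⟨g, s', h2, h3, h4⟩ => ?_)
        (Subtype.map_injective _ Function.injective_id)
      obtain rfl : s' = s := funext fun j => by
        have h5 := congrFun h4 j
        simp only [enc, Prod.mk.injEq] at h5
        obtain ⟨a1, a2, a3⟩ := key x s hx j
        obtain ⟨b1, b2, b3⟩ := key g s' h3 j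
        refine hi' _ _ ⟨b1, b2, b3⟩ ⟨a1, a2, a3⟩ (Prod.ext h5.1 ?_) h5.2.2
        simp only
        rw [← hcu _ a1 a2 a3, ← hcu _ b1 b2 b3, h5.2.1]
      exact ⟨g, h2, h3⟩

end SU

end Cfsg.Agent.UGL.Cl
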