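import Mathlib
import Cfsg.Agent.UGL.ClDual
import Cfsg.Agent.Conj.UniCl
import Cfsg.Agent.Conj.SsCnt

/-!
Wall's invariants of isometries of bilinear forms in odd characteristic.
-/

set_option autoImplicit false
set_option backward.isDefEq.respectTransparency false

namespace Cfsg.Agent.UGL.Cl

open Polynomial Module Cfsg.Agent.Conj
open scoped _root_.Classical

universe u

variable {F : Type u} [Field F] {V V' : Type*} [AddCommGroup V] [Module F V]
  [AddCommGroup V'] [Module F V'] {B : LinearMap.BilinForm F V} {B' : LinearMap.BilinForm F V'}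
  {ε : F} {g : End F V} {g' : End F V'} {W W₀ : Submodule F V} {U U₀ : Submodule F V'}

/-- an invariant orthogonal splitting -/
structure Spl (B : LinearMap.BilinForm F V) (g : End F V) (W W₀ : Submodule F V) : Prop where
  compl : IsCompl W W₀
  inv : ∀ x ∈ W, g x ∈ W
  inv' : ∀ x ∈ W₀, g x ∈ W₀
  orth : ∀ x ∈ W, ∀ y ∈ W₀, B x y = 0

theorem Spl.symm (h : Spl B g W W₀) (hB : EF B ε) : Spl B g W₀ W :=
  ⟨h.compl.symm, h.inv', h.inv, fun x hx y hy => hB.zero_symm (h.orth y hy x hx)⟩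

theorem Spl.dec (h : Spl B g W W₀) (v : V) : ∃ x ∈ W, ∃ y ∈ W₀, x + y = v :=
  Submodule.mem_sup.1 (h.compl.sup_eq_top ▸ Submodule.mem_top)

theorem Spl.ef (h : Spl B g W W₀) (hB : EF B ε) : EF (B.restrict W) ε :=
  ⟨hB.invol, hB.eps, fun x y => hB.symm x y, fun x hx => Subtype.ext (hB.nd _ fun v => by
    obtain ⟨a, ha, b, hb, rfl⟩ := h.dec v
    rw [map_add, h.orth _ x.2 b hb, add_zero]
    exact hx ⟨a, ha⟩)⟩

theorem Spl.ef' (h : Spl B g W W₀) (hB : EF B ε) : EF (B.restrict W₀) ε := (h.symm hB).ef hB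

theorem Spl.glue (h : Spl B g W W₀) (h' : Spl B' g' U U₀) (hB : EF B ε) (hB' : EF B' ε)
    (t : Tri (B.restrict W) (g.restrict h.inv) (B'.restrict U) (g'.restrict h'.inv))
    (t' : Tri (B.restrict W₀) (g.restrict h.inv') (B'.restrict U₀) (g'.restrict h'.inv')) :
    Tri B g B' g' := by
  obtain ⟨e, he, he'⟩ := t
  obtain ⟨f, hf, hf'⟩ := t'
  let E := (W.prodEquivOfIsCompl W₀ h.compl).symm.trans
    ((e.prodCongr f).trans (U.prodEquivOfIsCompl U₀ h'.compl))
  have hE : ∀ (x : W) (y : W₀), E (x + y) = e x + f y := fun x y => by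
    have : (W.prodEquivOfIsCompl W₀ h.compl).symm (x + y) = (x, y) :=
      (LinearEquiv.symm_apply_eq _).2 rfl
    simp only [E, LinearEquiv.trans_apply, this]
    rfl
  refine ⟨E, fun v => ?_, fun v w => ?_⟩
  · obtain ⟨a, ha, b, hb, rfl⟩ := h.dec v
    rw [map_add g, hE ⟨a, ha⟩ ⟨b, hb⟩]
    refine (hE (g.restrict h.inv ⟨a, ha⟩) (g.restrict h.inv' ⟨b, hb⟩)).trans ?_
    rw [he, hf, map_add]
    rfl
  · obtain ⟨a, ha, b, hb, rfl⟩ := h.dec v
    obtain ⟨c, hc, d, hd, rfl⟩ := h.dec w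
    rw [hE ⟨a, ha⟩ ⟨b, hb⟩, hE ⟨c, hc⟩ ⟨d, hd⟩]
    have h1 := he' ⟨a, ha⟩ ⟨c, hc⟩
    have h2 := hf' ⟨b, hb⟩ ⟨d, hd⟩
    simp only [LinearMap.BilinForm.restrict_apply, LinearMap.domRestrict_apply] at h1 h2
    simp only [map_add, LinearMap.add_apply, h1, h2, h.orth a ha d hd,
      (h.symm hB).orth b hb c hc, h'.orth _ (e _).2 _ (f _).2, (h'.symm hB').orth _ (f _).2 _ (e _).2]

theorem Spl.finrank_add [FiniteDimensional F V] (h : Spl B g W W₀) :
    finrank F W + finrank F W₀ = finrank F V := Submodule.finrank_add_eq_of_isCompl h.compl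

theorem uIso_smul (hg : ∀ x y, B (g x) (g y) = B x y) {a : F} (ha : a * a = 1) :
    UIso B (a • g - 1) := uIso_iff.2 fun x y => by
  simp only [LinearMap.smul_apply, map_smul, smul_eq_mul, hg, ← mul_assoc, ha, one_mul]

theorem exists_spl [FiniteDimensional F V] (hg : ∀ x y, B (g x) (g y) = B x y) {a : F}
    (ha : a * a = 1) : ∃ (W W₀ : Submodule F V) (h : Spl B g W W₀),
      IsNilpotent (a • g.restrict h.inv - 1) ∧ ∀ x ∈ W₀, g x = a • x → x = 0 := by
  obtain ⟨k, hk⟩ := Filter.eventually_atTop.1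
    (LinearMap.eventually_isCompl_ker_pow_range_pow (a • g - 1))
  have hc : ∀ v, ((a • g - 1) ^ (k + 1)) (g v) = g (((a • g - 1) ^ (k + 1)) v) := fun v =>
    LinearMap.congr_fun (((Commute.refl g).smul_left a).sub_left (Commute.one_left g)
      |>.pow_left (k + 1)).eq v
  have hi : ∀ x ∈ LinearMap.ker ((a • g - 1) ^ (k + 1)),
      g x ∈ LinearMap.ker ((a • g - 1) ^ (k + 1)) := fun x hx => by
    rw [LinearMap.mem_ker, hc, LinearMap.mem_ker.1 hx, map_zero]
  refine ⟨_, _, ⟨hk (k + 1) (by omega), hi, ?_, ?_⟩, ⟨k + 1, ?_⟩, fun x hx h => ?_⟩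
  · rintro _ ⟨x, rfl⟩
    exact ⟨g x, hc x⟩
  · rintro x hx _ ⟨y, rfl⟩
    exact (uIso_smul hg ha).ker_orth _ hx y
  · ext x
    have := aeval_intertwine (f := a • g.restrict hi - 1) (g := a • g - 1) (Submodule.subtype _)
      (fun _ => rfl) (X ^ (k + 1)) x
    simp only [map_pow, aeval_X] at this
    exact this.trans x.2
  · refine (Submodule.disjoint_def.1 (hk (k + 1) (by omega)).disjoint) x ?_ hx
    rw [LinearMap.mem_ker, pow_succ, End.mul_apply]
    simp [h, smul_smul, ha]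

theorem tri_of_beta [Finite F] [FiniteDimensional F V] [FiniteDimensional F V'] (h2 : (2 : F) ≠ 0)
    (hB : EF B ε) (hB' : EF B' ε) {N : End F V} {N' : End F V'} (hu : UIso B N) (hu' : UIso B' N')
    (hN : IsNilpotent N) (hN' : IsNilpotent N') (H : ∀ j, ∃ e : Lay N j ≃ₗ[F] Lay N' j,
      ∀ x y, beta hu' j (e x) (e y) = beta hu j x y) : Tri B N B' N' := by
  have h1 : jt N = jt N' := by
    ext j
    rcases j with _ | j
    · rw [Multiset.count_eq_zero.2 fun h => (jt_pos hN _ h).false,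
        Multiset.count_eq_zero.2 fun h => (jt_pos hN' _ h).false]
    · obtain ⟨e, -⟩ := H j
      rw [count_jt hN, count_jt hN', e.finrank_eq]
  obtain ⟨k, hk⟩ := (sim_iff_jt hN hN').2 h1
  obtain ⟨c, hc, hc'⟩ := exists_isom_of_beta h2 hB (hB'.comp k) hu (hu'.comp hk) hN fun j => by
    obtain ⟨e, he⟩ := H j
    obtain ⟨l, hl⟩ := exists_layMap hk j
    refine ⟨l.trans e.symm, fun x y => ?_⟩
    obtain ⟨x, rfl⟩ := Submodule.Quotient.mk_surjective _ x
    obtain ⟨y, rfl⟩ := Submodule.Quotient.mk_surjective _ y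
    obtain ⟨_, hx⟩ := hl x
    obtain ⟨_, hy⟩ := hl y
    rw [← he, LinearEquiv.trans_apply, LinearEquiv.trans_apply, e.apply_symm_apply,
      e.apply_symm_apply, hx, hy, beta_mk, beta_mk, ← pow_intertwine hk]
    rfl
  let c' := LinearEquiv.ofBijective c.1 ((End.isUnit_iff _).1 ((isUnit_Cen_iff c).1 hc))
  have h3 : ∀ v, c' (N v) = N (c' v) := fun v => (LinearMap.congr_fun (mem_Cen.1 c.2) v).symm
  refine ⟨c'.symm.trans k, fun v => ?_, fun x y => ?_⟩
  · obtain ⟨v, rfl⟩ := c'.surjective v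
    rw [← h3, LinearEquiv.trans_apply, LinearEquiv.trans_apply, c'.symm_apply_apply,
      c'.symm_apply_apply, hk]
  · have := hc' (c'.symm x) (c'.symm y)
    change B' (k _) (k _) = B (c' _) (c' _) at this
    rwa [c'.apply_symm_apply, c'.apply_symm_apply] at this

theorem Tri.of_smul {a : F} (ha : a ≠ 0) (h : Tri B (a • g - 1) B' (a • g' - 1)) :
    Tri B g B' g' := by
  obtain ⟨e, he, he'⟩ := h
  refine ⟨e, fun v => ?_, he'⟩
  have := he v
  simp only [LinearMap.sub_apply, LinearMap.smul_apply, End.one_apply, map_sub, map_smul,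
    sub_left_inj] at this
  exact smul_right_injective _ ha this

/-- the invariants of a unipotent isometry -/
def UD [FiniteDimensional F V] (B : LinearMap.BilinForm F V) (N : End F V) (ε : F) {M : ℕ}
    (z : Fin M → ℕ × Bool) : Prop :=
  ∃ hu : UIso B N, N ^ M = 0 ∧ ∀ j : Fin M, finrank F (Lay N j) = (z j).1 ∧
    ((-1) ^ (j : ℕ) * ε = 1 → (Dsc (beta hu j) ↔ (z j).2 = true))

theorem finrank_Lay_eq_zero [FiniteDimensional F V] {N : End F V} {M j : ℕ} (h : N ^ M = 0)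
    (hj : M ≤ j) : finrank F (Lay N j) = 0 := by
  obtain ⟨t, d, hd, s⟩ := exists_jordan ⟨M, h⟩
  have := (nil_pow_eq_zero_iff d M).1 ((s.pow M).zero_iff.1 h)
  rw [finrank_Lay_of_sim s, Finset.card_eq_zero, Finset.filter_eq_empty_iff]
  intro k _
  have := this k
  omega

theorem sum_finrank_Lay [FiniteDimensional F V] {N : End F V} {M : ℕ} (h : N ^ M = 0) :
    ∑ j : Fin M, (j + 1) * finrank F (Lay N j) = finrank F V := by
  obtain ⟨t, d, hd, s⟩ := exists_jordan ⟨M, h⟩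
  have := (nil_pow_eq_zero_iff d M).1 ((s.pow M).zero_iff.1 h)
  rw [s.finrank_eq, finrank_nil, sum_comp_eq d this (fun x => x), Finset.sum_range_succ', mul_zero,
    add_zero, ← Fin.sum_univ_eq_sum_range
      (fun i => (Finset.univ.filter fun k => d k = i + 1).card * (i + 1))]
  exact Finset.sum_congr rfl fun j _ => by rw [finrank_Lay_of_sim s, mul_comm]

theorem eps_cases (hB : EF B ε) (j : ℕ) : (-1) ^ j * ε = 1 ∨ (-1) ^ j * ε = -1 := by
  rcases neg_one_pow_eq_or F j with h | h <;> rcases hB.eps with h' | h' <;> simp [h, h']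

theorem UD.tri [Finite F] [FiniteDimensional F V] [FiniteDimensional F V'] (h2 : (2 : F) ≠ 0)
    (hB : EF B ε) (hB' : EF B' ε) {N : End F V} {N' : End F V'} {M : ℕ} {z : Fin M → ℕ × Bool}
    (h : UD B N ε z) (h' : UD B' N' ε z) : Tri B N B' N' := by
  obtain ⟨hu, h1, h3⟩ := h
  obtain ⟨hu', h1', h3'⟩ := h'
  refine tri_of_beta h2 hB hB' hu hu' ⟨M, h1⟩ ⟨M, h1'⟩ fun j => ?_
  have hd : finrank F (Lay N j) = finrank F (Lay N' j) := by
    rcases lt_or_ge j M with hj | hj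
    · rw [(h3 ⟨j, hj⟩).1, (h3' ⟨j, hj⟩).1]
    · rw [finrank_Lay_eq_zero h1 hj, finrank_Lay_eq_zero h1' hj]
  have a := hB.beta hu j
  have a' := hB'.beta hu' j
  rcases eps_cases hB j with he | he
  · rw [he] at a a'
    rw [iso_iff_dsc h2 a a' hd]
    rcases lt_or_ge j M with hj | hj
    · rw [(h3 ⟨j, hj⟩).2 he, (h3' ⟨j, hj⟩).2 he]
    · exact iff_of_true (dsc_of_finrank_eq_zero (finrank_Lay_eq_zero h1 hj) _)
        (dsc_of_finrank_eq_zero (finrank_Lay_eq_zero h1' hj) _)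
  · rw [he] at a a'
    exact iso_of_alt a.nondeg (a.alt_of_neg h2) a'.nondeg (a'.alt_of_neg h2) hd

/-- admissible values -/
def Val (P : Prop) (z : ℕ × Bool) : Prop :=
  (¬ P → Even z.1 ∧ z.2 = true) ∧ (z.1 = 0 → z.2 = true)

theorem exists_UD [FiniteDimensional F V] (h2 : (2 : F) ≠ 0) (hB : EF B ε) {N : End F V}
    (hu : UIso B N) (hN : IsNilpotent N) {M : ℕ} (hM : finrank F V ≤ M) :
    ∃ z : Fin M → ℕ × Bool, UD B N ε z ∧ ∀ j : Fin M, Val ((-1) ^ (j : ℕ) * ε = 1) (z j) := by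
  refine ⟨fun j => (finrank F (Lay N j), decide ((-1) ^ (j : ℕ) * ε = 1 → Dsc (beta hu j))),
    ⟨hu, pow_eq_zero_of_le hM (pow_finrank_eq_zero hN), fun j => ⟨rfl, fun h => by simp [h]⟩⟩,
    fun j => ⟨fun h => ⟨?_, by simp [h]⟩, fun h => ?_⟩⟩
  · have a := hB.beta hu j
    rw [(eps_cases hB j).resolve_left h] at a
    exact a.even_of_alt (a.alt_of_neg h2)
  · exact decide_eq_true fun _ => dsc_of_finrank_eq_zero h _

theorem UD.sum [FiniteDimensional F V] {N : End F V} {M : ℕ} {z : Fin M → ℕ × Bool}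
    (h : UD B N ε z) : ∑ j : Fin M, (j + 1) * (z j).1 = finrank F V := by
  obtain ⟨hu, h1, h3⟩ := h
  rw [← sum_finrank_Lay h1]
  exact Finset.sum_congr rfl fun j _ => by rw [(h3 j).1]

/-- Wall's invariants -/
def WD [FiniteDimensional F V] (B : LinearMap.BilinForm F V) (g : End F V) (ε : F) {M : ℕ}
    (r : Fin M → F[X]) (z : Bool → Fin M → ℕ × Bool) : Prop :=
  ∃ (W W₀ : Submodule F V) (h : Spl B g W W₀) (U U₀ : Submodule F W₀)
    (h' : Spl (B.restrict W₀) (g.restrict h.inv') U U₀),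
    UD (B.restrict W) ((1 : F) • g.restrict h.inv - 1) ε (z true) ∧
    UD ((B.restrict W₀).restrict U) ((-1 : F) • (g.restrict h.inv').restrict h'.inv - 1) ε
      (z false) ∧
    Has ((g.restrict h.inv').restrict h'.inv') r ∧
    (∀ x, (g.restrict h.inv').restrict h'.inv' x = x → x = 0) ∧
    (∀ x, (g.restrict h.inv').restrict h'.inv' x = -x → x = 0)

theorem WD.tri [Finite F] [FiniteDimensional F V] [FiniteDimensional F V'] (h2 : (2 : F) ≠ 0)
    (hB : EF B ε) (hB' : EF B' ε) (hg : ∀ x y, B (g x) (g y) = B x y)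
    (hg' : ∀ x y, B' (g' x) (g' y) = B' x y) {M : ℕ} {r : Fin M → F[X]}
    {z : Bool → Fin M → ℕ × Bool} (h : WD B g ε r z) (h' : WD B' g' ε r z) : Tri B g B' g' := by
  obtain ⟨W, W₀, s, U, U₀, t, a1, a2, a3, a4, a5⟩ := h
  obtain ⟨W', W₀', s', U', U₀', t', b1, b2, b3, -, -⟩ := h'
  refine s.glue s' hB hB' (Tri.of_smul one_ne_zero (a1.tri h2 (s.ef hB) (s'.ef hB') b1))
    (t.glue t' (s.ef' hB) (s'.ef' hB') (Tri.of_smul (by simp)
      (a2.tri h2 (t.ef (s.ef' hB)) (t'.ef (s'.ef' hB')) b2)) ?_)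
  exact tri_of_fpf (t.ef' (s.ef' hB)) (t'.ef' (s'.ef' hB')) (fun x y => hg x y)
    (fun x y => hg' x y) (a3.sim b3) a4 a5

theorem Has.eval_ne [FiniteDimensional F V] {M : ℕ} {s : Fin M → F[X]} (h : Has g s) {a : F}
    (ha : ∀ x, g x = a • x → x = 0) (j : Fin M) : (s j).eval a ≠ 0 := by
  intro h0
  have : g.charpoly.IsRoot a := by
    rw [h.charpoly, IsRoot, eval_prod]
    exact Finset.prod_eq_zero (Finset.mem_univ j) (by simp [h0])
  obtain ⟨x, hx⟩ := ((End.hasEigenvalue_iff_isRoot_charpoly g a).2 this).exists_hasEigenvector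
  exact hx.2 (ha x hx.apply_eq_smul)

theorem Has.dual_eq' [FiniteDimensional F V] (hB : EF B ε) (hg : ∀ x y, B (g x) (g y) = B x y)
    {M : ℕ} {s : Fin M → F[X]} (h : Has g s) (j : Fin M) :
    (s j).coeff 0 ≠ 0 ∧ dual (RingHom.id F) (s j) = s j := by
  have h1 := mul_eq_one_comm.1 ((hB.adj_mul_eq_one_iff g).2 hg)
  refine ⟨h.coeff_ne' (IsUnit.of_mul_eq_one _ h1) j, h.dual_eq (fun _ => rfl) h1 (fun p => ?_) j⟩
  rw [Polynomial.map_id, ((hB.sim_inv hg h1).aeval p).finrank_ker]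

/-- palindromic polynomials of even degree -/
def Pal (p : F[X]) : Prop := p.Monic ∧ Even p.natDegree ∧ p.reverse = p

theorem eval_reverse {a : F} (ha : a * a = 1) (p : F[X]) :
    p.reverse.eval a = a ^ p.natDegree * p.eval a := by
  simpa using aeval_reverse (F := F) ha p

theorem pal_of_dual {p : F[X]} (hm : p.Monic) (h0 : p.coeff 0 ≠ 0)
    (h : dual (RingHom.id F) p = p) (h1 : p.eval 1 ≠ 0) :
    p.reverse = p := by
  rw [dual_apply, Polynomial.map_id, RingHom.id_apply] at h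
  have h3 := congrArg (eval 1) h
  rw [eval_mul, eval_C, eval_reverse (one_mul 1), one_pow, one_mul] at h3
  have h4 : (p.coeff 0)⁻¹ = 1 := mul_right_cancel₀ h1 (h3.trans (one_mul _).symm)
  rwa [h4, C_1, one_mul] at h

theorem even_of_reverse (h2 : (2 : F) ≠ 0) {p : F[X]} (h : p.reverse = p) (h1 : p.eval (-1) ≠ 0) :
    Even p.natDegree := by
  by_contra ho
  have := eval_reverse (a := -1) (by simp) p
  rw [h, (Nat.not_even_iff_odd.1 ho).neg_one_pow] at this
  exact mul_ne_zero h2 h1 (by linear_combination this)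

/-- admissible invariants -/
structure WVal (ε : F) (n : ℕ) {M : ℕ} (r : Fin M → F[X]) (z : Bool → Fin M → ℕ × Bool) :
    Prop where
  pal : ∀ j, Pal (r j)
  ne : ∀ j, (r j).eval 1 ≠ 0
  ne' : ∀ j, (r j).eval (-1) ≠ 0
  val : ∀ (b : Bool) (j : Fin M), Val ((-1) ^ (j : ℕ) * ε = 1) (z b j)
  sum : ∑ j : Fin M, (j + 1) * ((r j).natDegree + (z true j).1 + (z false j).1) = n

theorem exists_WD [FiniteDimensional F V] (h2 : (2 : F) ≠ 0) (hB : EF B ε)
    (hg : ∀ x y, B (g x) (g y) = B x y) {M : ℕ} (hM : finrank F V ≤ M) :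
    ∃ (r : Fin M → F[X]) (z : Bool → Fin M → ℕ × Bool), WD B g ε r z ∧
      WVal ε (finrank F V) r z := by
  obtain ⟨W, W₀, s, a1, a2⟩ := exists_spl hg (mul_one 1)
  obtain ⟨U, U₀, t, b1, b2⟩ := exists_spl (B := B.restrict W₀) (g := g.restrict s.inv')
    (fun x y => hg x y) (a := -1) (by simp)
  have d1 := s.finrank_add
  have d2 := t.finrank_add
  obtain ⟨z₁, c1, c2⟩ := exists_UD (M := M) h2 (s.ef hB)
    (uIso_smul (g := g.restrict s.inv) (fun x y => hg x y) (mul_one 1)) a1 (by omega)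
  obtain ⟨z₂, c3, c4⟩ := exists_UD (M := M) h2 (t.ef (s.ef' hB))
    (uIso_smul (g := (g.restrict s.inv').restrict t.inv) (fun x y => hg x y) (a := -1) (by simp)) b1
    (by omega)
  obtain ⟨r, hr⟩ := exists_has (N := M) ((g.restrict s.inv').restrict t.inv') (by omega)
  have e1 : ∀ x, (g.restrict s.inv').restrict t.inv' x = (1 : F) • x → x = 0 := fun x hx =>
    Subtype.ext (Subtype.ext (a2 _ x.1.2 (congrArg (fun y : U₀ => y.1.1) hx)))
  have e2 : ∀ x, (g.restrict s.inv').restrict t.inv' x = (-1 : F) • x → x = 0 := fun x hx =>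
    Subtype.ext (b2 _ x.2 (congrArg Subtype.val hx))
  have e3 := hr.dual_eq' (t.ef' (s.ef' hB)) fun x y => hg x y
  have e4 := fun j => pal_of_dual (hr.monic j) (e3 j).1 (e3 j).2 (hr.eval_ne e1 j)
  refine ⟨r, fun b => bif b then z₁ else z₂, ⟨W, W₀, s, U, U₀, t, c1, c3, hr,
    fun x hx => e1 x (by rwa [one_smul]), fun x hx => e2 x (hx.trans (neg_one_smul F x).symm)⟩,
    fun j => ⟨hr.monic j, even_of_reverse h2 (e4 j) (hr.eval_ne e2 j), e4 j⟩, hr.eval_ne e1,
    hr.eval_ne e2, fun b => by cases b; exacts [c4, c2], ?_⟩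
  simp only [mul_add, Finset.sum_add_distrib, cond_true, cond_false, c1.sum, c3.sum, hr.sum_eq']
  omega

end Cfsg.Agent.UGL.Cl
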