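import Mathlib
import Cfsg.Agent.UGL.ClWall
import Cfsg.Agent.UGL.ClSU

/-!
Counting Wall's invariants.
-/

set_option autoImplicit false

namespace Cfsg.Agent.UGL.Cl

open Polynomial
open scoped _root_.Classical

universe u

variable {F : Type u} [Field F]

theorem Pal.coeff {p : F[X]} (h : Pal p) {i : ℕ} (hi : i ≤ p.natDegree) :
    p.coeff (p.natDegree - i) = p.coeff i := by
  conv_rhs => rw [← h.2.2, coeff_reverse, revAt_le hi]

theorem Pal.coeff_zero {p : F[X]} (h : Pal p) : p.coeff 0 = 1 := by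
  rw [← h.coeff (Nat.zero_le _), Nat.sub_zero, h.1.coeff_natDegree]

theorem Pal.mul {p q : F[X]} (h : Pal p) (h' : Pal q) : Pal (p * q) :=
  ⟨h.1.mul h'.1, by rw [h.1.natDegree_mul h'.1]; exact h.2.1.add h'.2.1,
    by rw [reverse_mul_of_domain, h.2.2, h'.2.2]⟩

theorem Pal.pow {p : F[X]} (h : Pal p) (k : ℕ) : Pal (p ^ k) := by
  induction k with
  | zero => exact ⟨by simp, by simp, by simp [reverse, reflect_one]⟩
  | succ k ih => rw [pow_succ]; exact ih.mul h

theorem pal_sq {a : F} (ha : a * a = 1) : Pal ((X - C a) ^ 2) := by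
  refine ⟨(monic_X_sub_C a).pow _, by simp, ?_⟩
  have h : (X - C a).reverse = 1 - C a * X := by
    rw [reverse, natDegree_X_sub_C, reflect_sub, reflect_one_X, reflect_C, pow_one]
  rw [sq, reverse_mul_of_domain, h]
  have : (C a : F[X]) * C a = 1 := by rw [← C_mul, ha, C_1]
  linear_combination (X ^ 2 - 1) * this

theorem pal_ext {p p' : F[X]} (h : Pal p) (h' : Pal p') {m : ℕ} (hm : p.natDegree = 2 * m)
    (hm' : p'.natDegree = 2 * m) (H : ∀ i, i < m → p.coeff (i + 1) = p'.coeff (i + 1)) :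
    p = p' := by
  have key : ∀ i, i ≤ m → p.coeff i = p'.coeff i := fun i hi => by
    rcases i with _ | i
    · rw [h.coeff_zero, h'.coeff_zero]
    · exact H i hi
  ext i
  rcases le_or_gt i m with hi | hi
  · exact key i hi
  rcases le_or_gt i (2 * m) with hi' | hi'
  · rw [← h.coeff (hm ▸ hi'), ← h'.coeff (hm' ▸ hi'), hm, hm']
    exact key _ (by omega)
  · rw [coeff_eq_zero_of_natDegree_lt (hm ▸ hi'), coeff_eq_zero_of_natDegree_lt (hm' ▸ hi')]

theorem cancel_pow {p p' : F[X]} {c : F} {a a' : ℕ} (h : p.eval c ≠ 0) (h' : p'.eval c ≠ 0)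
    (H : p * (X - C c) ^ a = p' * (X - C c) ^ a') : a = a' ∧ p = p' := by
  wlog ha : a ≤ a' generalizing p p' a a'
  · obtain ⟨h1, h2⟩ := this h' h H.symm (by omega)
    exact ⟨h1.symm, h2.symm⟩
  obtain ⟨k, rfl⟩ := Nat.exists_eq_add_of_le ha
  rw [add_comm, pow_add, ← mul_assoc] at H
  have h1 := mul_right_cancel₀ (pow_ne_zero _ (X_sub_C_ne_zero c)) H
  rcases k with _ | k
  · exact ⟨rfl, by simpa using h1⟩
  · exact absurd (by simp [h1]) h

/-- first bit -/
def bit1 (z : ℕ × Bool) : Bool := if z.2 then z.1 % 2 = 1 else z.1 % 2 = 0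

/-- half of the remaining multiplicity -/
def hlf (z : ℕ × Bool) : ℕ := (z.1 - (bit1 z).toNat - (!z.2).toNat) / 2

theorem eq_hlf {z : ℕ × Bool} (h : z.1 = 0 → z.2 = true) :
    z.1 = 2 * hlf z + (bit1 z).toNat + (!z.2).toNat := by
  obtain ⟨m, b⟩ := z
  cases b <;> rcases Nat.mod_two_eq_zero_or_one m with h' | h' <;> simp [hlf, bit1, h'] at h ⊢ <;>
    omega

variable {M : ℕ}

/-- the polynomial part of the code -/
noncomputable def encU (r : Fin M → F[X]) (z : Bool → Fin M → ℕ × Bool) : Fin M → F[X] := fun j =>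
  r j * ((X - C 1) ^ 2) ^ hlf (z true j) * ((X - C (-1)) ^ 2) ^ hlf (z false j)

/-- the bits of the code -/
def encB (z : Bool → Fin M → ℕ × Bool) : Fin M × Bool × Bool → Bool := fun i =>
  bif i.2.2 then bit1 (z i.2.1 i.1) else !(z i.2.1 i.1).2

/-- the weight of the bits -/
def wB (β : Fin M × Bool × Bool → Bool) : ℕ := ∑ i, ((i.1 : ℕ) + 1) * (β i).toNat

variable {ε : F} {n : ℕ} {r r' : Fin M → F[X]} {z z' : Bool → Fin M → ℕ × Bool}

theorem WVal.pal_enc (h : WVal ε n r z) (j : Fin M) : Pal (encU r z j) :=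
  ((h.pal j).mul ((pal_sq (by simp)).pow _)).mul ((pal_sq (by simp)).pow _)

theorem WVal.natDegree_enc (h : WVal ε n r z) (j : Fin M) : (encU r z j).natDegree =
    (r j).natDegree + 2 * hlf (z true j) + 2 * hlf (z false j) := by
  rw [encU, Monic.natDegree_mul ((h.pal j).1.mul (((monic_X_sub_C _).pow _).pow _))
    (((monic_X_sub_C _).pow _).pow _), (h.pal j).1.natDegree_mul (((monic_X_sub_C _).pow _).pow _)]
  simp only [natDegree_pow, natDegree_X_sub_C]
  ring

theorem WVal.sum_enc (h : WVal ε n r z) :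
    wB (encB z) + 2 * ∑ j : Fin M, (j + 1) * ((encU r z j).natDegree / 2) = n := by
  rw [← h.sum, wB, Fintype.sum_prod_type, Finset.mul_sum, ← Finset.sum_add_distrib]
  refine Finset.sum_congr rfl fun j _ => ?_
  have h1 := eq_hlf (h.val true j).2
  have h2 := eq_hlf (h.val false j).2
  have h3 := h.natDegree_enc j
  have h4 := Nat.two_mul_div_two_of_even (h.pal_enc j).2.1
  simp only [Fintype.sum_prod_type, Fintype.sum_bool, encB, cond_true, cond_false]
  rw [mul_left_comm, h4, h3]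
  conv_rhs => rw [h1, h2]
  ring

theorem enc_inj (h2 : (2 : F) ≠ 0) (h : WVal ε n r z) (h' : WVal ε n r' z')
    (H : encU r z = encU r' z') (H' : encB z = encB z') : r = r' ∧ z = z' := by
  have h3 : (1 : F) - -1 ≠ 0 := by rwa [sub_neg_eq_add, one_add_one_eq_two]
  have h4 : (-1 : F) - 1 ≠ 0 := by rw [← neg_sub, neg_ne_zero]; exact h3
  have key : ∀ j, r j = r' j ∧ ∀ b, hlf (z b j) = hlf (z' b j) := fun j => by
    have h5 := congrFun H j
    simp only [encU, ← pow_mul] at h5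
    obtain ⟨a1, a2⟩ := cancel_pow (by simp [h.ne' j, h4]) (by simp [h'.ne' j, h4]) h5
    obtain ⟨a3, a4⟩ := cancel_pow (h.ne j) (h'.ne j) a2
    exact ⟨a4, fun b => by cases b <;> omega⟩
  refine ⟨funext fun j => (key j).1, funext fun b => funext fun j => ?_⟩
  have a1 : bit1 (z b j) = bit1 (z' b j) := congrFun H' (j, b, true)
  have a2 : (!(z b j).2) = !(z' b j).2 := congrFun H' (j, b, false)
  refine Prod.ext ?_ (Bool.not_inj a2)
  rw [eq_hlf (h.val b j).2, eq_hlf (h'.val b j).2, a1, a2, (key j).2]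

variable (ε M) in
/-- the admissible bits -/
noncomputable def Bits : Finset (Fin M × Bool × Bool → Bool) :=
  Fintype.piFinset fun i => if (-1) ^ (i.1 : ℕ) * ε = 1 then Finset.univ else {false}

theorem WVal.mem_Bits (h : WVal ε n r z) : encB z ∈ Bits M ε := by
  refine Fintype.mem_piFinset.2 fun ⟨j, b, c⟩ => ?_
  split_ifs with h1
  · exact Finset.mem_univ _
  · obtain ⟨h2, h3⟩ := (h.val b j).1 h1
    cases c <;> simp [encB, bit1, h3, Nat.even_iff.1 h2]

theorem sum_Bits (x : ℝ) : ∑ β ∈ Bits M ε, x ^ wB β =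
    (∏ j : Fin M, if (-1) ^ (j : ℕ) * ε = 1 then 1 + x ^ ((j : ℕ) + 1) else 1) ^ 4 := by
  simp only [wB, ← Finset.prod_pow_eq_pow_sum]
  rw [Bits, ← Finset.prod_univ_sum (f := fun (i : Fin M × Bool × Bool) (b : Bool) =>
    x ^ (((i.1 : ℕ) + 1) * b.toNat)), Fintype.prod_prod_type, ← Finset.prod_pow]
  refine Finset.prod_congr rfl fun j _ => ?_
  split_ifs <;> simp [add_comm]

variable [Fintype F]

variable (F) in
/-- tuples of palindromic polynomials -/
noncomputable def UU (M k : ℕ) : Finset (Fin M → F[X]) :=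
  (Fintype.piFinset fun _ => (ML F (2 * k)).filter Pal).filter fun s =>
    ∑ j : Fin M, (j + 1) * ((s j).natDegree / 2) = k

theorem mem_UU {k : ℕ} {s : Fin M → F[X]} : s ∈ UU F M k ↔
    (∀ j, Pal (s j)) ∧ ∑ j : Fin M, (j + 1) * ((s j).natDegree / 2) = k := by
  simp only [UU, Finset.mem_filter, Fintype.mem_piFinset, mem_ML]
  refine ⟨fun h => ⟨fun j => (h.1 j).2, h.2⟩, fun h => ⟨fun j => ⟨⟨(h.1 j).1, ?_,
    by simp [(h.1 j).coeff_zero]⟩, h.1 j⟩, h.2⟩⟩
  have := Finset.single_le_sum (f := fun j : Fin M => ((j : ℕ) + 1) * ((s j).natDegree / 2))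
    (fun _ _ => Nat.zero_le _) (Finset.mem_univ j)
  rw [h.2] at this
  rw [← Nat.two_mul_div_two_of_even (h.1 j).2.1]
  nlinarith

theorem card_pal_le (A : Finset F[X]) (m : ℕ) (h : ∀ p ∈ A, Pal p ∧ p.natDegree / 2 = m) :
    A.card ≤ Fintype.card F ^ m := by
  have : Fintype.card F ^ m = (Finset.univ : Finset (Fin m → F)).card := by simp
  rw [this]
  refine Finset.card_le_card_of_injOn (fun p i => p.coeff (i + 1)) (fun _ _ => Finset.mem_univ _)
    fun p hp p' hp' H => ?_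
  refine pal_ext (m := m) (h p hp).1 (h p' hp').1 ?_ ?_ fun i hi => congrFun H ⟨i, hi⟩
  · rw [← (h p hp).2, Nat.two_mul_div_two_of_even (h p hp).1.2.1]
  · rw [← (h p' hp').2, Nat.two_mul_div_two_of_even (h p' hp').1.2.1]

theorem card_UU_le (M k : ℕ) :
    ((UU F M k).card : ℤ) ≤ PowerSeries.coeff k (AG (gI (Fintype.card F)) M) := by
  have := card_tuples_le ((ML F (2 * k)).filter Pal) (fun p => p.natDegree / 2) 1 (by simp)
    (g := gI (Fintype.card F)) (fun m => by
      rw [gI, PowerSeries.coeff_mk]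
      exact_mod_cast card_pal_le _ m fun p hp =>
        ⟨(Finset.mem_filter.1 (Finset.mem_filter.1 hp).1).2, (Finset.mem_filter.1 hp).2⟩)
    k 1 one_ne_zero (UU F M k) fun s hs => ⟨Fintype.mem_piFinset.1 (Finset.mem_filter.1 hs).1,
      (Finset.mem_filter.1 hs).2, fun _ _ => one_dvd _⟩
  simpa using this

theorem card_UU_le3 (hq : 3 ≤ Fintype.card F) (M k : ℕ) :
    ((UU F M k).card : ℝ) ≤ 1.7854 * Fintype.card F ^ k :=
  le_trans (by exact_mod_cast card_UU_le M k) (coeff_AG_gI3 hq M k)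

variable (ε n M) in
/-- the admissible invariants -/
abbrev WT : Type _ := {p : (Fin M → F[X]) × (Bool → Fin M → ℕ × Bool) // WVal ε n p.1 p.2}

theorem finite_WT (h2 : (2 : F) ≠ 0) : Finite (WT M ε n) :=
  Finite.of_injective (fun d => ((⟨encU d.1.1 d.1.2, mem_UU.2 ⟨d.2.pal_enc, by
      have := d.2.sum_enc; omega⟩⟩ : UU F M ((n - wB (encB d.1.2)) / 2)) |> fun u =>
      ((⟨encB d.1.2, u⟩ : Σ β : Fin M × Bool × Bool → Bool, UU F M ((n - wB β) / 2)))))
    fun d d' H => by
      have h1 : encB d.1.2 = encB d'.1.2 := congrArg Sigma.fst H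
      have h3 : encU d.1.1 d.1.2 = encU d'.1.1 d'.1.2 :=
        congrArg (fun x : Σ β : Fin M × Bool × Bool → Bool, UU F M ((n - wB β) / 2) => x.2.1) H
      obtain ⟨a, b⟩ := enc_inj h2 d.2 d'.2 h3 h1
      exact Subtype.ext (Prod.ext a b)

theorem card_WT_le (h2 : (2 : F) ≠ 0) (P : (Fin M × Bool × Bool → Bool) → Prop) :
    Nat.card {d : WT M ε n // P (encB d.1.2)} ≤ ∑ β ∈ (Bits M ε).filter P,
      if wB β ≤ n ∧ Even (n - wB β) then (UU F M ((n - wB β) / 2)).card else 0 := by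
  have := finite_WT (M := M) (ε := ε) (n := n) h2
  refine card_le_sum _ (fun d β => encB d.1.1.2 = β) _
    (fun d => ⟨_, Finset.mem_filter.2 ⟨d.1.2.mem_Bits, d.2⟩, rfl⟩) fun β _ => ?_
  split_ifs with h
  · rw [← Fintype.card_coe, ← Nat.card_eq_fintype_card]
    refine Nat.card_le_card_of_injective (fun d => ⟨encU d.1.1.1.1 d.1.1.1.2,
      mem_UU.2 ⟨d.1.1.2.pal_enc, ?_⟩⟩) fun d d' H => ?_
    · have := d.1.1.2.sum_enc
      rw [d.2] at this
      omega
    · obtain ⟨a, b⟩ := enc_inj h2 d.1.1.2 d'.1.1.2 (congrArg Subtype.val H) (d.2.trans d'.2.symm)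
      exact Subtype.ext (Subtype.ext (Subtype.ext (Prod.ext a b)))
  · have : IsEmpty {c : {d : WT M ε n // P (encB d.1.2)} // encB c.1.1.2 = β} := ⟨fun d => h (by
      have := d.1.1.2.sum_enc
      rw [d.2] at this
      exact ⟨by omega, by rw [← this, Nat.add_sub_cancel_left]; exact even_two_mul _⟩)⟩
    rw [Nat.card_of_isEmpty]

theorem three_le_card (h2 : (2 : F) ≠ 0) : 3 ≤ Fintype.card F := by
  have h1 := Orth.odd_card_of_two_ne_zero h2
  have h3 : 2 ≤ Fintype.card F := Fintype.one_lt_card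
  rcases h3.eq_or_lt with h | h
  · rw [← h] at h1; exact absurd h1 (by decide)
  · exact h

theorem pow_le_aux {q x : ℝ} (hq : 0 < q) (hx : 1 ≤ q * x ^ 2) {m k : ℕ} (h : k ≤ m) :
    q ^ (m - k) ≤ q ^ m * x ^ (2 * k) := by
  obtain ⟨l, rfl⟩ := Nat.exists_eq_add_of_le h
  rw [Nat.add_sub_cancel_left, add_comm, pow_add, mul_assoc, pow_mul, ← mul_pow]
  exact le_mul_of_one_le_right (by positivity) (one_le_pow₀ hx)

theorem card_WT_even (h2 : (2 : F) ≠ 0) (m : ℕ) {x : ℝ} (hx0 : 0 ≤ x)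
    (hx : 1 ≤ Fintype.card F * x ^ 2) (P : (Fin M × Bool × Bool → Bool) → Prop) :
    (Nat.card {d : WT M ε (2 * m) // P (encB d.1.2)} : ℝ) ≤ 1.7854 * Fintype.card F ^ m *
      ∑ β ∈ (Bits M ε).filter P, (x ^ wB β + (-x) ^ wB β) / 2 := by
  have hq := three_le_card h2
  refine le_trans (Nat.cast_le.2 (card_WT_le h2 P)) ?_
  rw [Finset.mul_sum, Nat.cast_sum]
  refine Finset.sum_le_sum fun β _ => ?_
  split_ifs with h
  · obtain ⟨k, hk⟩ : Even (wB β) := by
      have := (Nat.even_sub h.1).1 h.2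
      simpa using this
    refine (card_UU_le3 hq _ _).trans ?_
    rw [hk, ← two_mul, show (2 * m - 2 * k) / 2 = m - k by omega, Even.neg_pow (even_two_mul k),
      add_self_div_two, mul_assoc]
    exact mul_le_mul_of_nonneg_left (pow_le_aux (by positivity) hx (by omega)) (by norm_num)
  · rw [Nat.cast_zero]
    refine mul_nonneg (by positivity) (div_nonneg ?_ (by norm_num))
    rcases Nat.even_or_odd (wB β) with h | h
    · rw [h.neg_pow]; positivity
    · rw [h.neg_pow, add_neg_cancel]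

theorem card_WT_odd (h2 : (2 : F) ≠ 0) (m : ℕ) {x : ℝ} (hx0 : 0 < x)
    (hx : 1 ≤ Fintype.card F * x ^ 2) (P : (Fin M × Bool × Bool → Bool) → Prop) :
    (Nat.card {d : WT M ε (2 * m + 1) // P (encB d.1.2)} : ℝ) ≤ 1.7854 * Fintype.card F ^ m *
      ∑ β ∈ (Bits M ε).filter P, (x ^ wB β - (-x) ^ wB β) / (2 * x) := by
  have hq := three_le_card h2
  refine le_trans (Nat.cast_le.2 (card_WT_le h2 P)) ?_
  rw [Finset.mul_sum, Nat.cast_sum]
  refine Finset.sum_le_sum fun β _ => ?_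
  split_ifs with h
  · obtain ⟨k, hk⟩ : Odd (wB β) := by
      have := (Nat.even_sub h.1).1 h.2
      simpa [parity_simps] using this
    refine (card_UU_le3 hq _ _).trans ?_
    rw [hk, show (2 * m + 1 - (2 * k + 1)) / 2 = m - k by omega, Odd.neg_pow (odd_two_mul_add_one k),
      show (x ^ (2 * k + 1) - -x ^ (2 * k + 1)) / (2 * x) = x ^ (2 * k) by field_simp; ring,
      mul_assoc]
    exact mul_le_mul_of_nonneg_left (pow_le_aux (by positivity) hx (by omega)) (by norm_num)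
  · rw [Nat.cast_zero]
    refine mul_nonneg (by positivity) (div_nonneg ?_ (by positivity))
    rcases Nat.even_or_odd (wB β) with h | h
    · rw [h.neg_pow, sub_self]
    · rw [h.neg_pow, sub_neg_eq_add]; positivity

theorem prod_odd_le (M : ℕ) :
    ∏ j ∈ Finset.range M, (if Odd j then 1 + (0.57736 : ℝ) ^ (j + 1) else 1) ≤ 1.567 := by
  refine prod_le_of_tail (y := 0.57736) (M := 1.5) (by norm_num) (by norm_num) (fun i => ?_) 14
    (fun i hi => ?_) (by norm_num [Finset.prod_range_succ, Nat.odd_iff]) M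
  · split_ifs
    · have : (0 : ℝ) ≤ 0.57736 ^ (i + 1) := by positivity
      linarith
    · exact le_rfl
  · have h2 := pow_le_of_le (y := 0.57736) (by norm_num) (by norm_num) hi
    have h3 : (0 : ℝ) ≤ 0.57736 ^ i := by positivity
    rw [pow_succ]
    generalize (0.57736 : ℝ) ^ i = z at h2 h3
    norm_num at h2
    split_ifs <;> nlinarith

theorem prod_even_le (M : ℕ) :
    ∏ j ∈ Finset.range M, (if Even j then 1 + (0.57736 : ℝ) ^ (j + 1) else 1) ≤ 2.067 := by
  refine prod_le_of_tail (y := 0.57736) (M := 1.5) (by norm_num) (by norm_num) (fun i => ?_) 16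
    (fun i hi => ?_) (by norm_num [Finset.prod_range_succ, Nat.even_iff]) M
  · split_ifs
    · have : (0 : ℝ) ≤ 0.57736 ^ (i + 1) := by positivity
      linarith
    · exact le_rfl
  · have h2 := pow_le_of_le (y := 0.57736) (by norm_num) (by norm_num) hi
    have h3 : (0 : ℝ) ≤ 0.57736 ^ i := by positivity
    rw [pow_succ]
    generalize (0.57736 : ℝ) ^ i = z at h2 h3
    norm_num at h2
    split_ifs <;> nlinarith

omit [Fintype F] in
theorem good_neg (h2 : (2 : F) ≠ 0) (j : ℕ) : (-1) ^ j * (-1 : F) = 1 ↔ Odd j := by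
  rcases Nat.even_or_odd j with h | h
  · rw [h.neg_one_pow]
    exact iff_of_false (fun h => h2 (by linear_combination -h)) (Nat.not_odd_iff_even.2 h)
  · simp [h.neg_one_pow, h]

omit [Fintype F] in
theorem good_pos (h2 : (2 : F) ≠ 0) (j : ℕ) : (-1) ^ j * (1 : F) = 1 ↔ Even j := by
  rcases Nat.even_or_odd j with h | h
  · simp [h.neg_one_pow, h]
  · rw [h.neg_one_pow]
    exact iff_of_false (fun h => h2 (by linear_combination -h)) (Nat.not_even_iff_odd.2 h)

theorem one_le_card_mul (h2 : (2 : F) ≠ 0) : 1 ≤ Fintype.card F * (0.57736 : ℝ) ^ 2 := by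
  have : (3 : ℝ) ≤ Fintype.card F := by exact_mod_cast three_le_card h2
  nlinarith

theorem card_WT_sp (h2 : (2 : F) ≠ 0) (m : ℕ) :
    5 * Nat.card (WT M (-1 : F) (2 * m)) ≤ 54 * Fintype.card F ^ m := by
  have h := card_WT_even (M := M) (ε := -1) h2 m (by norm_num) (one_le_card_mul h2) fun _ => True
  rw [Nat.card_congr (Equiv.subtypeUnivEquiv fun _ => trivial), Finset.filter_true] at h
  have h1 : ∑ β ∈ Bits M (-1 : F), ((0.57736 : ℝ) ^ wB β + (-0.57736) ^ wB β) / 2 ≤
      ∑ β ∈ Bits M (-1 : F), (0.57736 : ℝ) ^ wB β := Finset.sum_le_sum fun β _ => by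
    have h0 : (0 : ℝ) ≤ (0.57736 : ℝ) ^ wB β := by positivity
    rcases Nat.even_or_odd (wB β) with h | h
    · rw [h.neg_pow]; linarith
    · rw [h.neg_pow]; linarith
  rw [sum_Bits] at h1
  simp only [good_neg h2] at h1
  rw [Fin.prod_univ_eq_prod_range (fun j => if Odd j then 1 + (0.57736 : ℝ) ^ (j + 1) else 1)] at h1
  have h3 := pow_le_pow_left₀ (Finset.prod_nonneg fun i _ => by split_ifs <;> positivity)
    (prod_odd_le M) 4
  have h4 : (0 : ℝ) ≤ Fintype.card F ^ m := by positivity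
  have h5 : (5 : ℝ) * Nat.card (WT M (-1 : F) (2 * m)) ≤ 54 * Fintype.card F ^ m := by
    have := h.trans (mul_le_mul_of_nonneg_left (h1.trans h3) (by positivity))
    nlinarith
  exact_mod_cast h5

end Cfsg.Agent.UGL.Cl
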