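import Mathlib
import Cfsg.Agent.UGL.ClEnc
import Cfsg.Agent.Conj.SsMat

/-!
Conjugacy classes of isometry groups inject into Wall's invariants.
-/

set_option autoImplicit false
set_option backward.isDefEq.respectTransparency false

namespace Cfsg.Agent.UGL.Cl

open Polynomial Module Cfsg.Agent.Conj Cfsg.Agent.Classical.SpWitt
open scoped _root_.Classical

theorem card_conjClasses_congr {G H : Type*} [Group G] [Group H] (e : G ≃* H) :
    Nat.card (ConjClasses G) = Nat.card (ConjClasses H) := by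
  refine Nat.card_congr (Equiv.ofBijective (ConjClasses.map e.toMonoidHom) ⟨fun a b h => ?_,
    ConjClasses.map_surjective e.surjective⟩)
  obtain ⟨a, rfl⟩ := ConjClasses.mk_surjective a
  obtain ⟨b, rfl⟩ := ConjClasses.mk_surjective b
  have := e.symm.toMonoidHom.map_isConj (ConjClasses.mk_eq_mk_iff_isConj.1 h)
  simpa [ConjClasses.mk_eq_mk_iff_isConj] using this

universe u

variable {F : Type u} [Field F] [Fintype F] {V : Type*} [AddCommGroup V] [Module F V]
  [FiniteDimensional F V] {B : LinearMap.BilinForm F V} {ε : F}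

/-- realised invariants -/
def Rl (B : LinearMap.BilinForm F V) (ε : F) {M n : ℕ} (d : WT M ε n) : Prop :=
  ∃ g : End F V, (∀ x y, B (g x) (g y) = B x y) ∧ WD B g ε d.1.1 d.1.2

theorem card_classes_le (h2 : (2 : F) ≠ 0) (hB : EF B ε) {M n : ℕ} (hn : finrank F V = n)
    (hM : n ≤ M) : Nat.card (ConjClasses (SG B)) ≤ Nat.card {d : WT M ε n // Rl B ε d} := by
  have := finite_WT (M := M) (ε := ε) (n := n) h2
  subst hn
  have H : ∀ c : ConjClasses (SG B), ∃ (g : SG B) (d : WT M ε (finrank F V)),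
      ConjClasses.mk g = c ∧ WD B g.1.toLinearMap ε d.1.1 d.1.2 := fun c => by
    obtain ⟨g, rfl⟩ := ConjClasses.mk_surjective c
    obtain ⟨r, z, h1, h3⟩ := exists_WD (g := g.1.toLinearMap) h2 hB g.2 hM
    exact ⟨g, ⟨(r, z), h3⟩, rfl, h1⟩
  choose g d hg hd using H
  refine Nat.card_le_card_of_injective (fun c => ⟨d c, _, (g c).2, hd c⟩) fun c c' h => ?_
  have h3 : d c = d c' := congrArg Subtype.val h
  obtain ⟨e, he, he'⟩ := (hd c).tri h2 hB hB (g c).2 (g c').2 (h3 ▸ hd c')
  rw [← hg c, ← hg c', ConjClasses.mk_eq_mk_iff_isConj]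
  exact isConj_of_equiv e he' he

omit [FiniteDimensional F V] in
theorem two_ne_zero_of_odd (h : Odd (Fintype.card F)) : (2 : F) ≠ 0 := by
  intro h2
  have : ((Fintype.card F : ℕ) : F) = 0 := FiniteField.cast_card_eq_zero F
  obtain ⟨k, hk⟩ := h
  rw [hk] at this
  push_cast at this
  rw [h2, zero_mul, zero_add] at this
  exact one_ne_zero this

theorem card_Sp_le (h2 : (2 : F) ≠ 0) (n : ℕ) :
    5 * Nat.card (ConjClasses (Matrix.symplecticGroup (Fin n) F)) ≤ 54 * Fintype.card F ^ n := by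
  have := finite_WT (M := 2 * n) (ε := (-1 : F)) (n := 2 * n) h2
  rw [card_conjClasses_congr (Classical.SpMat.spEquiv (Fin n) F)]
  refine le_trans (Nat.mul_le_mul_left _ ((card_classes_le (M := 2 * n) (n := 2 * n) h2
    (ef_of_alt Classical.SpMat.sB_nondeg Classical.SpMat.sB_alt) (by simp [two_mul]) le_rfl).trans
    (Finite.card_subtype_le _))) (card_WT_sp h2 n)

end Cfsg.Agent.UGL.Cl
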