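import Mathlib
import Cfsg.Agent.UGL.ClSp

/-!
Discriminants of orthogonal sums and of twisted forms.
-/

set_option autoImplicit false
set_option backward.isDefEq.respectTransparency false

namespace Cfsg.Agent.UGL.Cl

open Polynomial Module Cfsg.Agent.Conj
open scoped _root_.Classical

variable {F : Type*} [Field F] {U V W : Type*} [AddCommGroup U] [Module F U] [FiniteDimensional F U]
  [AddCommGroup V] [Module F V] [FiniteDimensional F V] [AddCommGroup W] [Module F W] [FiniteDimensional F W]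
  {B : LinearMap.BilinForm F V} {C : LinearMap.BilinForm F W} {ε : F}

theorem det_exact {a : End F U} {b : End F V} {c : End F W} (i : U →ₗ[F] V) (f : V →ₗ[F] W)
    (hi : Function.Injective i) (hf : Function.Surjective f) (hex : LinearMap.range i = LinearMap.ker f)
    (h1 : ∀ x, i (a x) = b (i x)) (h2 : ∀ x, f (b x) = c (f x)) :
    LinearMap.det b = LinearMap.det a * LinearMap.det c := by
  have h : LinearMap.ker f ≤ (LinearMap.ker f).comap b := fun x hx => by
    rw [Submodule.mem_comap, LinearMap.mem_ker, h2, LinearMap.mem_ker.1 hx, map_zero]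
  rw [LinearMap.det_eq_det_mul_det _ b h, ← LinearMap.det_conj a ((LinearEquiv.ofInjective i hi).trans
    (LinearEquiv.ofEq _ _ hex)), ← LinearMap.det_conj c (f.quotKerEquivOfSurjective hf).symm]
  congr 2
  · ext x
    obtain ⟨x, rfl⟩ := ((LinearEquiv.ofInjective i hi).trans (LinearEquiv.ofEq _ _ hex)).surjective x
    simp only [LinearMap.comp_apply, LinearEquiv.coe_coe, LinearEquiv.symm_apply_apply]
    exact (h1 x).symm
  · ext x
    simp [LinearEquiv.eq_symm_apply, h2]

theorem det_lay {N : End F V} (c : Cen N) (hc : IsUnit c.1) {n : ℕ} (hn : N ^ n = 0) :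
    LinearMap.det c.1 = ∏ j : Fin n, LinearMap.det (rho N j c) ^ ((j : ℕ) + 1) := by
  have i1 : ∀ j, ∀ x ∈ LinearMap.ker (N ^ j), c.1 x ∈ LinearMap.ker (N ^ j) := fun j x hx => by
    rw [LinearMap.mem_ker, ← Cen.comm_pow, LinearMap.mem_ker.1 hx, map_zero]
  have i2 : ∀ j, ∀ x ∈ LinearMap.ker N ⊓ LinearMap.range (N ^ j), c.1 x ∈ LinearMap.ker N ⊓ LinearMap.range (N ^ j) := by
    rintro j _ ⟨h, y, rfl⟩
    exact ⟨by simpa using i1 1 _ (by simpa using h), _, (Cen.comm_pow c j y).symm⟩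
  have i3 : ∀ j, ∀ x ∈ Rr N j, c.1.restrict (i1 (j + 1)) x ∈ Rr N j := by
    rintro j x ⟨y, hy⟩
    exact ⟨c.1 y, by rw [← Cen.comm_pow, hy]; exact Cen.comm_pow c j x⟩
  have hk : ∀ j, LinearMap.ker (N ^ j) ≤ LinearMap.ker (N ^ (j + 1)) := fun j x hx => by
    rw [LinearMap.mem_ker, pow_succ', End.mul_apply, LinearMap.mem_ker.1 hx, map_zero]
  set D := fun j => LinearMap.det (c.1.restrict (i1 j)) with hD
  set E := fun j => LinearMap.det (c.1.restrict (i2 j)) with hE
  have h1 : ∀ j, D (j + 1) = D j * E j := fun j => det_exact (Submodule.inclusion (hk j))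
    (((N ^ j) ∘ₗ Submodule.subtype _).codRestrict _ fun x => ⟨by simpa [pow_succ'] using x.2, _, rfl⟩)
    (Submodule.inclusion_injective _) (by
      rintro ⟨_, h, y, rfl⟩
      exact ⟨⟨y, by simpa [pow_succ'] using h⟩, rfl⟩) (by
      ext x
      exact ⟨by rintro ⟨y, rfl⟩; exact Subtype.ext y.2, fun h => ⟨⟨x, congrArg Subtype.val h⟩, rfl⟩⟩)
    (fun _ => rfl) fun x => Subtype.ext (Cen.comm_pow c j x).symm
  have h2 : ∀ j, D (j + 1) = D j * E (j + 1) * LinearMap.det (rho N j c) := fun j => by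
    rw [← det_exact (a := c.1.restrict (i1 j)) (c := c.1.restrict (i2 (j + 1)))
      (b := (c.1.restrict (i1 (j + 1))).restrict (i3 j)) ((Submodule.inclusion (hk j)).codRestrict _
      fun x => ⟨0, by simp⟩)
      (((N ^ j) ∘ₗ Submodule.subtype _ ∘ₗ Submodule.subtype _).codRestrict
        (LinearMap.ker N ⊓ LinearMap.range (N ^ (j + 1))) fun x => ⟨by simpa [pow_succ'] using x.1.2, x.2⟩)
      (fun x y h => Subtype.ext (congrArg (fun z : Rr N j => z.1.1) h)) (by
        rintro ⟨_, h, y, rfl⟩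
        exact ⟨⟨⟨N y, by simpa [← End.mul_apply, ← pow_succ, ← pow_succ'] using h⟩, y, by simp [pow_succ]⟩,
          Subtype.ext (by simp [pow_succ])⟩) (by
        ext x
        exact ⟨by rintro ⟨y, rfl⟩; exact Subtype.ext y.2, fun h => ⟨⟨x.1, congrArg Subtype.val h⟩, rfl⟩⟩)
      (fun _ => rfl) fun x => Subtype.ext (Cen.comm_pow c j x.1).symm]
    exact det_exact (Rr N j).subtype (Rr N j).mkQ (Submodule.injective_subtype _) (Submodule.mkQ_surjective _) (by simp)
      (fun _ => rfl) fun _ => rfl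
  have h3 : ∀ j, D j ≠ 0 := fun j => (LinearMap.isUnit_iff_isUnit_det _ |>.1 (isUnit_of_inj fun x y h =>
    Subtype.ext (((End.isUnit_iff _).1 hc).1 (congrArg Subtype.val h)))).ne_zero
  have h4 : ∀ j, D j = (∏ i ∈ Finset.range j, LinearMap.det (rho N i c) ^ (i + 1)) * E j ^ j := fun j => by
    induction j with
    | zero =>
      have : Subsingleton (LinearMap.ker (N ^ 0)) := ⟨fun x y => Subtype.ext (x.2.trans y.2.symm)⟩
      simpa using LinearMap.det_eq_one_of_subsingleton _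
    | succ j ih =>
      rw [h1, ih, Finset.prod_range_succ, mul_assoc, mul_assoc, ← pow_succ, ← mul_pow, mul_comm _ (E (j + 1)),
        mul_left_cancel₀ (h3 j) (((h1 j).symm.trans (h2 j)).trans (mul_assoc _ _ _))]
  have : Subsingleton (LinearMap.ker N ⊓ LinearMap.range (N ^ n) :) := by rw [hn]; simp; infer_instance
  have h5 : E n = 1 := LinearMap.det_eq_one_of_subsingleton _
  have h6 := det_exact (c := (0 : End F PUnit)) (LinearMap.ker (N ^ n)).subtype 0 (Submodule.injective_subtype _)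
    (fun _ => ⟨0, rfl⟩) (by simp [hn]) (a := c.1.restrict (i1 n)) (fun _ => rfl) fun _ => rfl
  rw [h6, LinearMap.det_eq_one_of_subsingleton (0 : End F PUnit), mul_one, Fin.prod_univ_eq_prod_range
    (fun j => LinearMap.det (rho N j c) ^ (j + 1))]
  simpa [h5] using h4 n

theorem dsc_iff {ι : Type*} [Fintype ι] [DecidableEq ι] (b : Basis ι F V) :
    Dsc B ↔ IsSquare (LinearMap.BilinForm.toMatrix b B).det := by
  let e : ι ≃ Fin (finrank F V) := Fintype.equivFinOfCardEq (finrank_eq_card_basis b).symm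
  have h : (LinearMap.BilinForm.toMatrix b B).det = (LinearMap.BilinForm.toMatrix (b.reindex e) B).det := by
    rw [← Matrix.det_submatrix_equiv_self e.symm]
    congr 1; ext i j; simp
  rw [Dsc, h, ← LinearMap.BilinForm.toMatrix_mul_basis_toMatrix (finBasis F V) (b.reindex e), Matrix.det_mul,
    Matrix.det_mul, Matrix.det_transpose, mul_right_comm, ← sq, Orth.isSquare_sq_mul_iff]
  have := Basis.invertibleToMatrix (finBasis F V) (b.reindex e)
  exact (Matrix.isUnit_det_of_invertible _).ne_zero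

theorem dsc_congr (e : V ≃ₗ[F] W) (h : ∀ x y, C (e x) (e y) = B x y) : Dsc C ↔ Dsc B := by
  rw [dsc_iff ((finBasis F V).map e), Dsc]
  congr! 2
  ext i j; simp [h]

theorem det_ne_zero_of_ef (hB : EF B ε) : (LinearMap.BilinForm.toMatrix (finBasis F V) B).det ≠ 0 :=
  (LinearMap.BilinForm.nondegenerate_iff_det_ne_zero _).1 hB.nondeg

theorem dsc_twist [Finite F] (hB : EF B ε) {h : End F V} (hu : IsUnit h) :
    Dsc (B ∘ₗ h) ↔ (IsSquare (LinearMap.det h) ↔ Dsc B) := by
  rw [Dsc, Dsc, ← isSquare_mul_iff ((LinearMap.isUnit_iff_isUnit_det _).1 hu).ne_zero (det_ne_zero_of_ef hB),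
    ← LinearMap.det_toMatrix (finBasis F V), ← Matrix.det_transpose (LinearMap.toMatrix _ _ h), ← Matrix.det_mul,
    ← LinearMap.BilinForm.toMatrix_compLeft]
  rfl

/-- the orthogonal sum -/
def osum (B : LinearMap.BilinForm F V) (C : LinearMap.BilinForm F W) : LinearMap.BilinForm F (V × W) :=
  B.compl₁₂ (LinearMap.fst F V W) (LinearMap.fst F V W) + C.compl₁₂ (LinearMap.snd F V W) (LinearMap.snd F V W)

theorem osum_apply (x y : V × W) : osum B C x y = B x.1 y.1 + C x.2 y.2 := rfl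

theorem ef_osum (hB : EF B ε) (hC : EF C ε) : EF (osum B C) ε :=
  ⟨hB.invol, hB.eps, fun x y => by simp [osum_apply, hB.symm x.1, hC.symm x.2, mul_add], fun x h =>
    Prod.ext (hB.nd _ fun y => by simpa [osum_apply] using h (y, 0)) (hC.nd _ fun y => by simpa [osum_apply] using h (0, y))⟩

theorem dsc_osum [Finite F] (hB : EF B ε) (hC : EF C ε) : Dsc (osum B C) ↔ (Dsc B ↔ Dsc C) := by
  rw [dsc_iff ((finBasis F V).prod (finBasis F W)), Dsc, Dsc, ← isSquare_mul_iff (det_ne_zero_of_ef hB)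
    (det_ne_zero_of_ef hC), ← Matrix.det_fromBlocks_zero₂₁ _ 0]
  congr! 2
  ext (i | i) (j | j) <;> simp [osum_apply]

theorem Spl.dsc [Finite F] {g : End F V} {W W₀ : Submodule F V} (h : Spl B g W W₀) (hB : EF B ε) :
    Dsc B ↔ (Dsc (B.restrict W) ↔ Dsc (B.restrict W₀)) := by
  rw [← dsc_osum (h.ef hB) (h.ef' hB)]
  exact dsc_congr (W.prodEquivOfIsCompl W₀ h.compl) fun x y => by
    simp [osum_apply, h.orth _ x.1.2 _ y.2.2, (h.symm hB).orth _ x.2.2 _ y.1.2]

theorem Tri.dsc {g : End F V} {g' : End F W} (h : Tri B g C g') : Dsc C ↔ Dsc B := by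
  obtain ⟨e, -, he⟩ := h
  exact dsc_congr e he

/-- changing one discriminant bit -/
def flp {M : ℕ} (z : Fin M → ℕ × Bool) (j : Fin M) : Fin M → ℕ × Bool := Function.update z j ((z j).1, !(z j).2)

theorem UD.flip [Finite F] (h2 : (2 : F) ≠ 0) (hB : EF B 1) (hC : EF C 1) {N : End F V} {N' : End F W} {M : ℕ}
    {z : Fin M → ℕ × Bool} {j : Fin M} (hj : Even (j : ℕ)) (h0 : (z j).1 ≠ 0) (h : UD B N 1 z) (h' : UD C N' 1 (flp z j)) :
    Dsc C ↔ ¬ Dsc B := by
  obtain ⟨hu, h1, h3⟩ := h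
  have e1 : (-1 : F) ^ (j : ℕ) * 1 = 1 := by rw [hj.neg_one_pow, one_mul]
  obtain ⟨γ, k1, k2⟩ := exists_dsc (V := Lay N j) h2 (¬ Dsc (beta hu j)) fun e => (h0 ((h3 j).1.symm.trans e)).elim
  obtain ⟨s, s1, s2, s3⟩ := (hB.beta hu j).exists_twist (e1.symm ▸ k1)
  have s4 : γ = beta hu j ∘ₗ s := LinearMap.ext₂ s3
  rw [s4, dsc_twist (hB.beta hu j) s2] at k2
  obtain ⟨c, hc, hc'⟩ := exists_lift_fix hB hu ⟨M, h1⟩ (a := 2⁻¹) (by simp [← two_mul, h2]) M
    (h := Function.update 1 j s) (funext fun i => by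
      by_cases e : i = j
      · subst e; simpa [tauP] using s1
      · simpa [tauP, e] using (hB.beta hu i).adj_one)
  have c1 : ∀ i : Fin M, i ≠ j → rho N i c = 1 := fun i e => by simpa [e, Psi_apply] using congrFun hc' i
  have c2 : rho N j c = s := by simpa [Psi_apply] using congrFun hc' j
  have c3 : IsUnit c.1 := (isUnit_Cen_iff c).1 ((isUnit_iff_Psi h1 c).2 (Pi.isUnit_iff.2 fun i => by
    by_cases e : i = j
    · subst e; rwa [Psi_apply, c2]
    · rw [Psi_apply, c1 i e]; exact isUnit_one))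
  have c4 := det_lay c c3 h1
  rw [Finset.prod_eq_single j (fun i _ e => by simp [c1 i e]) (by simp), c2] at c4
  obtain ⟨k, hk⟩ := hj
  rw [Tri.dsc (UD.tri h2 (hB.twist (congrArg Subtype.val hc) c3) hC ⟨hu.twist c, h1, fun i => ?_⟩ h'), dsc_twist hB c3,
    c4, pow_succ, show LinearMap.det s ^ (j : ℕ) = (LinearMap.det s ^ k) ^ 2 by rw [sq, ← pow_add, ← hk], Orth.isSquare_sq_mul_iff (pow_ne_zero _
      ((LinearMap.isUnit_iff_isUnit_det _).1 s2).ne_zero)]
  · tauto
  have b1 : beta (hu.twist c) i = beta hu i ∘ₗ rho N i c := LinearMap.ext₂ (beta_twist hu _ c (fun _ _ => rfl) i)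
  by_cases e : i = j
  · subst e
    refine ⟨by simpa [flp] using (h3 i).1, fun e => ?_⟩
    rw [b1, c2, dsc_twist (hB.beta hu i) s2, k2, (h3 i).2 e]
    simp [flp]
  · rw [b1, c1 i e]
    simpa [flp, e, End.one_eq_id] using h3 i

end Cfsg.Agent.UGL.Cl
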