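import Mathlib
import Cfsg.Agent.UGL.ClDsc

/-!
Class numbers of orthogonal groups in odd characteristic.
-/

set_option autoImplicit false
set_option backward.isDefEq.respectTransparency false

namespace Cfsg.Agent.UGL.Cl

open Polynomial Module Cfsg.Agent.Conj Cfsg.Agent.Classical.SpWitt
open scoped _root_.Classical

universe u

variable {F : Type u} [Field F] [Fintype F] {V : Type*} [AddCommGroup V] [Module F V]
  [FiniteDimensional F V] {B : LinearMap.BilinForm F V} {M n : ℕ}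

theorem iff_aux (a b c d : Prop) : ((a ↔ (b ↔ (c ↔ d))) → ¬ (a ↔ (b ↔ (¬ c ↔ d)))) ∧
    ((a ↔ (b ↔ c)) → ¬ (a ↔ (¬ b ↔ c))) := by tauto

theorem WD.flip (h2 : (2 : F) ≠ 0) (hB : EF B 1) {g g' : End F V} (hg : ∀ x y, B (g x) (g y) = B x y)
    (hg' : ∀ x y, B (g' x) (g' y) = B x y) {r : Fin M → F[X]} {z : Bool → Fin M → ℕ × Bool} {b : Bool} {j : Fin M}
    (hj : Even (j : ℕ)) (h0 : (z b j).1 ≠ 0) (h : WD B g 1 r z) :
    ¬ WD B g' 1 r (Function.update z b (flp (z b) j)) := by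
  obtain ⟨W, W₀, s, U, U₀, t, a1, a2, a3, a4, a5⟩ := h
  rintro ⟨W', W₀', s', U', U₀', t', b1, b2, b3, -, -⟩
  have k1 := s.dsc hB
  have k2 := s'.dsc hB
  rw [t.dsc (s.ef' hB)] at k1
  rw [t'.dsc (s'.ef' hB), Tri.dsc (tri_of_fpf (t.ef' (s.ef' hB)) (t'.ef' (s'.ef' hB)) (fun x y => hg x y)
    (fun x y => hg' x y) (a3.sim b3) a4 a5)] at k2
  cases b
  · rw [Function.update_of_ne (by simp)] at b1
    rw [Function.update_self] at b2
    rw [Tri.dsc (a1.tri h2 (s.ef hB) (s'.ef hB) b1), a2.flip h2 (t.ef (s.ef' hB)) (t'.ef (s'.ef' hB)) hj h0 b2] at k2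
    exact (iff_aux _ _ _ _).1 k1 k2
  · rw [Function.update_self] at b1
    rw [Function.update_of_ne (by simp)] at b2
    rw [Tri.dsc (a2.tri h2 (t.ef (s.ef' hB)) (t'.ef (s'.ef' hB)) b2), a1.flip h2 (s.ef hB) (s'.ef hB) hj h0 b1] at k2
    exact (iff_aux _ _ _ True).2 k1 k2

omit [Fintype F] in
theorem WVal.flip {r : Fin M → F[X]} {z : Bool → Fin M → ℕ × Bool} {b : Bool} {j : Fin M} (hj : Even (j : ℕ))
    (h0 : (z b j).1 ≠ 0) (h : WVal 1 n r z) : WVal 1 n r (Function.update z b (flp (z b) j)) := by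
  have h1 : ∀ c i, (Function.update z b (flp (z b) j) c i).1 = (z c i).1 := fun c i => by
    by_cases e : c = b <;> by_cases e' : i = j <;> simp [flp, e, e']
  refine ⟨h.pal, h.ne, h.ne', fun c i => ?_, by simpa only [h1] using h.sum⟩
  by_cases e : c = b ∧ i = j
  · obtain ⟨rfl, rfl⟩ := e
    exact ⟨fun k => (k (by simp [hj.neg_one_pow])).elim, fun k => (h0 (by rwa [h1] at k)).elim⟩
  · rw [show Function.update z b (flp (z b) j) c i = z c i by
      by_cases e : c = b <;> by_cases e' : i = j <;> simp_all [flp]]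
    exact h.val c i

theorem two_mul_card_le {α : Type*} [Finite α] (P Q : α → Prop) (f : {a // ¬ Q a} → α) (hf : Function.Injective f)
    (h : ∀ a, P a.1 → ¬ P (f a)) : 2 * Nat.card {a // P a} ≤ Nat.card α + Nat.card {a // Q a} := by
  rw [two_mul, ← Nat.card_sum, ← Nat.card_sum]
  refine Nat.card_le_card_of_injective (Sum.elim (fun a => .inl a.1) fun a => if h : Q a.1 then .inr ⟨_, h⟩ else
    .inl (f ⟨_, h⟩)) ?_
  rintro (a | a) (b | b) e <;> simp only [Sum.elim_inl, Sum.elim_inr] at e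
  · exact congrArg _ (Subtype.ext (Sum.inl.inj e))
  · split_ifs at e with k
    exact (h ⟨_, k⟩ b.2 (Sum.inl.inj e ▸ a.2)).elim
  · split_ifs at e with k
    exact (h ⟨_, k⟩ a.2 ((Sum.inl.inj e).symm ▸ b.2)).elim
  · split_ifs at e
    · exact congrArg _ (Subtype.ext (Subtype.mk.inj (Sum.inr.inj e)))
    · exact congrArg _ (Subtype.ext (Subtype.mk.inj (hf (Sum.inl.inj e))))

theorem card_Rl_le (h2 : (2 : F) ≠ 0) (hB : EF B 1) : 2 * Nat.card {d : WT M (1 : F) n // Rl B 1 d} ≤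
    Nat.card (WT M (1 : F) n) + Nat.card {d : WT M (1 : F) n // encB d.1.2 = fun _ => false} := by
  have := finite_WT (M := M) (ε := (1 : F)) (n := n) h2
  have H : ∀ s : Bool → Fin M → ℕ, ∃ i : Option (Bool × Fin M), ∀ z : Bool → Fin M → ℕ × Bool, (∀ b j, (z b j).1 = s b j) →
      (∀ b (j : Fin M), Val ((-1) ^ (j : ℕ) * (1 : F) = 1) (z b j)) → encB z ≠ (fun _ => false) →
        ∃ b j, i = some (b, j) ∧ Even (j : ℕ) ∧ (z b j).1 ≠ 0 := fun s => by
    by_cases h : ∃ b, ∃ j : Fin M, Even (j : ℕ) ∧ s b j ≠ 0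
    · obtain ⟨b, j, h⟩ := h
      exact ⟨_, fun z hz _ _ => ⟨b, j, rfl, by rwa [hz]⟩⟩
    refine ⟨none, fun z hz hv h' => (h' (funext fun ⟨j, b, c⟩ => ?_)).elim⟩
    have : Even (z b j).1 ∧ (z b j).2 = true := by
      by_cases e : Even (j : ℕ)
      · have : (z b j).1 = 0 := by_contra fun k => h ⟨b, j, e, hz b j ▸ k⟩
        exact ⟨by simp [this], (hv b j).2 this⟩
      · exact (hv b j).1 (mt (good_pos h2 _).1 e)
    cases c <;> simp [encB, bit1, this.2, Nat.even_iff.1 this.1]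
  choose i hi using H
  choose b j k1 k2 k3 using fun d : {d : WT M (1 : F) n // ¬ encB d.1.2 = fun _ => false} =>
    hi _ d.1.1.2 (fun _ _ => rfl) d.1.2.val d.2
  refine two_mul_card_le _ _ (fun d => ⟨(d.1.1.1, Function.update d.1.1.2 (b d) (flp (d.1.1.2 (b d)) (j d))),
    d.1.2.flip (k2 d) (k3 d)⟩) (fun d d' e => ?_)
    fun d ⟨g, hg, h⟩ ⟨g', hg', h'⟩ => h.flip h2 hB hg hg' (k2 d) (k3 d) h'
  obtain ⟨e1, e2⟩ := Prod.mk.inj (Subtype.mk.inj e)
  have h1 : ∀ (z : Bool → Fin M → ℕ × Bool) b j c i, (Function.update z b (flp (z b) j) c i).1 = (z c i).1 :=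
    fun z b j c i => by by_cases e : c = b <;> by_cases e' : i = j <;> simp [flp, e, e']
  have h3 : (fun b j => (d.1.1.2 b j).1) = fun b j => (d'.1.1.2 b j).1 := funext₂ fun c i => by rw [← h1, e2, h1]
  obtain ⟨h4, h5⟩ := Prod.mk.inj (Option.some.inj ((k1 d).symm.trans ((congrArg i h3).trans (k1 d'))))
  refine Subtype.ext (Subtype.ext (Prod.ext e1 (funext₂ fun c i => Prod.ext (congrFun₂ h3 c i) ?_)))
  have := congrArg Prod.snd (congrFun₂ e2 c i)
  rw [h4, h5] at this
  by_cases e : c = b d' <;> by_cases e' : i = j d' <;> simpa [flp, e, e'] using this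

theorem card_WT_o (h2 : (2 : F) ≠ 0) (m : ℕ) : Nat.card (WT M (1 : F) (2 * m)) +
    Nat.card {d : WT M (1 : F) (2 * m) // encB d.1.2 = fun _ => false} ≤ 19 * Fintype.card F ^ m := by
  have h := card_WT_even (M := M) (ε := 1) h2 m (by norm_num) (one_le_card_mul h2) fun _ => True
  have h' := card_WT_even (M := M) (ε := 1) h2 m (by norm_num) (one_le_card_mul h2) fun β => β = fun _ => false
  rw [Nat.card_congr (Equiv.subtypeUnivEquiv fun _ => trivial), Finset.filter_true, ← Finset.sum_div,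
    Finset.sum_add_distrib, sum_Bits, sum_Bits] at h
  simp only [good_pos h2] at h
  rw [Fin.prod_univ_eq_prod_range (fun j => if Even j then 1 + (0.57736 : ℝ) ^ (j + 1) else 1)] at h
  have h3 := pow_le_pow_left₀ (Finset.prod_nonneg fun i _ => by split_ifs <;> positivity) (prod_even_le M) 4
  have h4 : (∏ j : Fin M, if Even (j : ℕ) then 1 + (-0.57736 : ℝ) ^ ((j : ℕ) + 1) else 1) ^ 4 ≤ 1 := by
    have : ∀ j : ℕ, (0.57736 : ℝ) ^ j ≤ 1 := fun j => pow_le_one₀ (by norm_num) (by norm_num)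
    have h0 : ∀ j : Fin M, 0 ≤ if Even (j : ℕ) then 1 + (-0.57736 : ℝ) ^ ((j : ℕ) + 1) else 1 := fun j => by
      split_ifs with e <;> [simp [e.add_one.neg_pow, this]; simp]
    refine pow_le_one₀ (Finset.prod_nonneg fun j _ => h0 j) (Finset.prod_le_one (fun j _ => h0 j) fun j _ => ?_)
    split_ifs with e
    · rw [e.add_one.neg_pow, add_neg_le_iff_le_add, le_add_iff_nonneg_right]; positivity
    · rfl
  have h5 : ∑ β ∈ (Bits M (1 : F)).filter fun β => β = fun _ => false,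
      ((0.57736 : ℝ) ^ wB β + (-0.57736) ^ wB β) / 2 ≤ 1 := by
    rw [Finset.filter_eq']
    split_ifs <;> simp [wB]
  have h6 : (0 : ℝ) ≤ Fintype.card F ^ m := by positivity
  have h7 := h.trans (mul_le_mul_of_nonneg_left (div_le_div_of_nonneg_right (add_le_add h3 h4) zero_le_two) (by positivity))
  have h8 := h'.trans (mul_le_mul_of_nonneg_left (show _ ≤ (1 : ℝ) by convert h5) (by positivity))
  have h9 : (Nat.card (WT M (1 : F) (2 * m)) : ℝ) + Nat.card {d : WT M (1 : F) (2 * m) // encB d.1.2 = fun _ => false} ≤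
      19 * Fintype.card F ^ m := (add_le_add h7 h8).trans (by
    rw [← mul_add, mul_right_comm]; exact mul_le_mul_of_nonneg_right (by norm_num) h6)
  exact_mod_cast h9

theorem card_O_le (h2 : (2 : F) ≠ 0) (hB : EF B 1) {m : ℕ} (hm : finrank F V = 2 * m) :
    2 * Nat.card (ConjClasses (SG B)) ≤ 19 * Fintype.card F ^ m :=
  (Nat.mul_le_mul_left 2 (card_classes_le h2 hB hm le_rfl)).trans ((card_Rl_le h2 hB).trans (card_WT_o h2 m))

variable (F) in
/-- realised by an isometry -/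
def RO (Q : F[X]) (D : Prop) : Prop :=
  ∃ (V : Type u) (_ : AddCommGroup V) (_ : Module F V) (_ : FiniteDimensional F V) (B : LinearMap.BilinForm F V)
    (g g' : End F V), EF B 1 ∧ (∀ x y, B (g x) (g y) = B x y) ∧ g * g' = 1 ∧ ((2⁻¹ : F) • (g + g')).charpoly = Q ∧
      (Dsc B ↔ D)

theorem RO.step (h2 : (2 : F) ≠ 0) {Q : F[X]} {D : Prop} (h : RO F Q D) {a : F} (ha : a * a = 1) (D' : Prop) :
    RO F (Q * (X - C a)) D' := by
  obtain ⟨V, _, _, _, B, g, g', h1, h3, h4, rfl, -⟩ := h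
  obtain ⟨γ, k1, k2⟩ := exists_dsc (V := F) h2 (Dsc B ↔ D') (by simp)
  refine ⟨V × F, inferInstance, inferInstance, inferInstance, osum B γ, g.prodMap (a • 1), g'.prodMap (a • 1),
    ef_osum h1 k1, fun x y => by simp [osum_apply, h3, smul_smul, ha, -smul_eq_mul], ?_, ?_,
    by rw [dsc_osum h1 k1, k2]; tauto⟩
  · rw [LinearMap.prodMap_mul, h4, smul_mul_smul_comm, ha, one_smul, mul_one, LinearMap.prodMap_one]
  · rw [show (2⁻¹ : F) • (g.prodMap (a • 1 : End F F) + g'.prodMap (a • 1)) = ((2⁻¹ : F) • (g + g')).prodMap (a • 1) by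
      ext <;> simp [← two_mul, h2], LinearMap.charpoly_prodMap]
    congr 1
    rw [← LinearMap.charpoly_toMatrix _ (Basis.singleton Unit F), Matrix.charpoly, Matrix.det_unique]
    simp

theorem ro_base (h2 : (2 : F) ≠ 0) {P : F[X]} (hP : P.Monic) (h1 : P.eval 1 ≠ 0) (h1' : P.eval (-1) ≠ 0) :
    RO F (P ^ 2) (IsSquare ((-1) ^ P.natDegree * P.eval (-1) * P.eval 1)) := by
  have := hP.finite_adjoinRoot
  obtain ⟨l, hl⟩ := exists_frob hP
  let t := AdjoinRoot.root P
  let L := LinearMap.mulLeft F (A := AdjoinRoot P)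
  have e0 : EF ((LinearMap.mul F (AdjoinRoot P)).compr₂ l) 1 := ⟨fun _ => rfl, Or.inl rfl, fun x y => by simp [mul_comm], hl⟩
  have e1 : LinearMap.det (L (1 - t)) = P.eval 1 := by
    conv_rhs => rw [← charpoly_root hP, LinearMap.eval_charpoly]
    congr 1; ext; simp [L, t, sub_mul]
  have e2 : LinearMap.det (L (1 + t)) = (-1) ^ P.natDegree * P.eval (-1) := by
    conv_rhs => rw [← charpoly_root hP, LinearMap.eval_charpoly, LinearMap.charpoly_natDegree, ← LinearMap.det_smul]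
    congr 1; ext; simp [L, t, add_mul, add_comm]
  have e3 := LinearMap.det_prodMap (L (1 + t)) (L (1 - t))
  rw [e1, e2] at e3
  have e4 : IsUnit ((L (1 + t)).prodMap (L (1 - t)) : End F _) := (LinearMap.isUnit_iff_isUnit_det _).2 (by simp [e3, h1, h1'])
  refine ⟨_, inferInstance, inferInstance, inferInstance, _, ((L t).coprod (L (t - 1))).prod ((L (1 + t)).coprod (L t)),
    ((L t).coprod (L (1 - t))).prod ((L (-1 - t)).coprod (L t)), (ef_osum e0 e0).twist ((ef_osum e0 e0).eq_adj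
      fun x y => by simp [osum_apply, L, mul_assoc, mul_left_comm]) e4, fun x y => ?_, LinearMap.ext fun x => ?_, ?_,
      by rw [dsc_twist (ef_osum e0 e0) e4, e3, dsc_osum e0 e0]; simp⟩
  · simp only [osum_apply, L, LinearMap.comp_apply, LinearMap.prodMap_apply, LinearMap.prod_apply, Function.prod,
      LinearMap.coprod_apply, LinearMap.mulLeft_apply, LinearMap.compr₂_apply, LinearMap.mul_apply', ← map_add]
    congr 1; ring
  · ext <;> simp [L] <;> ring
  · rw [show (2⁻¹ : F) • (((L t).coprod (L (t - 1))).prod ((L (1 + t)).coprod (L t)) +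
      ((L t).coprod (L (1 - t))).prod ((L (-1 - t)).coprod (L t))) = (L t).prodMap (L t) from LinearMap.ext fun x => by
        rw [LinearMap.smul_apply, inv_smul_eq_iff₀ h2, two_smul]
        ext <;> simp [L] <;> ring, LinearMap.charpoly_prodMap, charpoly_root hP, sq]

theorem ro_all (h2 : (2 : F) ≠ 0) {P : F[X]} (hP : P.Monic) (D : Prop) (h : P.eval 1 ≠ 0 → P.eval (-1) ≠ 0 →
    (D ↔ IsSquare ((-1) ^ P.natDegree * P.eval (-1) * P.eval 1))) : RO F (P ^ 2) D := by
  induction hn : P.natDegree using Nat.strong_induction_on generalizing P D with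
  | _ n ih =>
    have key : ∀ a : F, a * a = 1 → P.eval a = 0 → RO F (P ^ 2) D := fun a ha k => by
      obtain ⟨R, rfl⟩ := dvd_iff_isRoot.2 k
      have hR := (monic_X_sub_C a).of_mul_monic_left hP
      have := ((ih _ (by rw [← hn, (monic_X_sub_C a).natDegree_mul hR]; simp) hR _ (fun _ _ => Iff.rfl) rfl).step h2 ha
        D).step h2 ha D
      convert this using 1
      ring
    by_cases h1 : P.eval 1 = 0
    · exact key 1 (one_mul 1) h1
    by_cases h1' : P.eval (-1) = 0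
    · exact key (-1) (by simp) h1'
    exact propext (h h1 h1') ▸ ro_base h2 hP h1 h1'

theorem le_card_O (h2 : (2 : F) ≠ 0) (hB : EF B 1) {m : ℕ} (hm : finrank F V = 2 * m) (hm' : 2 ≤ m) :
    Fintype.card F ^ m ≤ 2 * Nat.card (ConjClasses (SG B)) := by
  have : Finite V := Module.finite_of_finite F
  have : Finite (SG B) := Finite.of_injective (fun g : SG B => (g.1 : V → V)) fun _ _ h => SG.ext (congrFun h)
  have : Finite {p : F[X] // p.Monic ∧ p.natDegree = m} := finite_monic m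
  let G : {p : F[X] // p.Monic ∧ p.natDegree = m} → Prop := fun P => P.1.eval 1 ≠ 0 → P.1.eval (-1) ≠ 0 →
    (Dsc B ↔ IsSquare ((-1) ^ m * P.1.eval (-1) * P.1.eval 1))
  have h1 : ∀ P : {P // G P}, ∃ g : SG B, ((2⁻¹ : F) • (g.1.toLinearMap + (g⁻¹).1.toLinearMap)).charpoly = P.1.1 ^ 2 := by
    rintro ⟨⟨P, hP, rfl⟩, h⟩
    obtain ⟨W, _, _, _, C, g, g', k1, k2, k3, k4, k5⟩ := ro_all h2 hP _ h
    obtain ⟨e, he⟩ := (iso_iff_dsc h2 k1 hB (by
      rw [hm, ← LinearMap.charpoly_natDegree, k4, hP.natDegree_pow])).2 k5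
    let u : W ≃ₗ[F] W := LinearEquiv.ofLinearMap g g' k3 (mul_eq_one_comm.1 k3)
    refine ⟨⟨e.symm.trans (u.trans e), fun x y => (he _ _).trans ((k2 _ _).trans (by rw [← he]; simp))⟩, ?_⟩
    exact (Sim.charpoly_eq ⟨e, fun v => by simp [u]⟩).symm.trans k4
  choose g hg using h1
  have h3 : Nat.card {P // G P} ≤ Nat.card (ConjClasses (SG B)) :=
    Nat.card_le_card_of_injective (fun P => ConjClasses.mk (g P)) fun P P' e => by
      obtain ⟨c, hc⟩ := isConj_iff.1 (ConjClasses.mk_eq_mk_iff_isConj.1 e)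
      have := (hg P).symm.trans ((Sim.charpoly_eq ⟨c.1, fun v => by simp [← hc]⟩).trans (hg P'))
      refine Subtype.ext (Subtype.ext ((sq_eq_sq_iff_eq_or_eq_neg.1 this).resolve_right fun k => h2 ?_))
      have := congrArg leadingCoeff k
      rw [leadingCoeff_neg, P.1.2.1, P'.1.2.1] at this
      linear_combination this
  obtain ⟨δ, hδ⟩ := Orth.exists_not_isSquare h2
  have δ0 : δ ≠ 0 := by rintro rfl; exact hδ IsSquare.zero
  have h4 : Nat.card {P // ¬ G P} ≤ Nat.card {P // G P} := by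
    refine Nat.card_le_card_of_injective (fun P => ⟨⟨P.1.1 + C ((δ - 1) * P.1.1.eval 1 / 2) * (X + 1), ?_⟩, ?_⟩) ?_
    · have : (C ((δ - 1) * P.1.1.eval 1 / 2) * (X + 1)).degree < P.1.1.degree := by
        rw [degree_eq_natDegree P.1.2.1.ne_zero, P.1.2.2]
        exact lt_of_le_of_lt (by compute_degree!) (show (1 : WithBot ℕ) < m by exact_mod_cast hm')
      exact ⟨P.1.2.1.add_of_left this, (natDegree_add_eq_left_of_degree_lt this).trans P.1.2.2⟩
    · obtain ⟨a, b, c⟩ : _ ∧ _ ∧ _ := by simpa only [G, not_forall, exists_prop] using P.2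
      have := isSquare_mul_iff δ0 (mul_ne_zero (mul_ne_zero (pow_ne_zero m (neg_ne_zero.2 one_ne_zero)) b) a)
      intro _ _
      rw [show (-1) ^ m * eval (-1) (P.1.1 + C ((δ - 1) * P.1.1.eval 1 / 2) * (X + 1)) *
        eval 1 (P.1.1 + C ((δ - 1) * P.1.1.eval 1 / 2) * (X + 1)) = δ * ((-1) ^ m * P.1.1.eval (-1) * P.1.1.eval 1) by
          simp; field_simp; ring, this]
      exact (by tauto : ∀ a b c : Prop, ¬ a → ¬ (b ↔ c) → (b ↔ (a ↔ c))) _ _ _ hδ c
    · intro P P' e
      replace e := Subtype.mk.inj (Subtype.mk.inj e)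
      have k := congrArg (eval 1) e
      simp only [eval_add, eval_mul, eval_C, eval_X, eval_one, one_add_one_eq_two, div_mul_cancel₀ _ h2] at k
      rw [show P.1.1.eval 1 = P'.1.1.eval 1 from mul_left_cancel₀ δ0 (by linear_combination k)] at e
      exact Subtype.ext (Subtype.ext (add_right_cancel e))
  rw [← card_monic, ← Nat.card_congr (Equiv.sumCompl G), Nat.card_sum]
  omega

theorem card_OG (h2 : (2 : F) ≠ 0) {ι : Type} [Fintype ι] [DecidableEq ι] {Q : QuadraticForm F (ι → F)} (hQ : Orth.ND Q)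
    {m : ℕ} (hm : Fintype.card ι = 2 * m) (hm' : 2 ≤ m) :
    Fintype.card F ^ m ≤ 2 * Nat.card (ConjClasses (Cfsg.isometryGroup F ⇑Q)) ∧
      2 * Nat.card (ConjClasses (Cfsg.isometryGroup F ⇑Q)) ≤ 19 * Fintype.card F ^ m := by
  have hB : EF Q.polarBilin 1 := ⟨fun _ => rfl, Or.inl rfl, fun x y => by simp [QuadraticMap.polar_comm Q x y], hQ⟩
  have e : Orth.OG Q = SG Q.polarBilin := Subgroup.ext fun g => ⟨fun h x y => by
    simp only [QuadraticMap.polarBilin_apply_apply, QuadraticMap.polar, ← map_add, h _], fun h x => mul_left_cancel₀ h2 (by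
      simpa [QuadraticMap.polar_self] using h x x)⟩
  rw [card_conjClasses_congr ((Orth.toOG Q).trans (MulEquiv.subgroupCongr e))]
  exact ⟨le_card_O h2 hB (by simpa using hm) hm', card_O_le h2 hB (by simpa using hm)⟩

end Cfsg.Agent.UGL.Cl
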