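import Mathlib
import Cfsg.Agent.UGL.ClO

/-!
Class numbers of subgroups of index four, and a refined count of tuples of polynomials.
-/

set_option autoImplicit false

namespace Cfsg.Agent.UGL.Cl

open Finset
open scoped _root_.Classical

theorem k_mul' (G : Type*) [Group G] [Fintype G] :
    ((Nat.card (ConjClasses G) : ℤ) * Nat.card G) = ∑ x : G, ∑ y : G, if x * y = y * x then 1 else 0 := by
  rw [← Nat.cast_mul, ← card_comm_eq_card_conjClasses_mul_card, Nat.card_eq_fintype_card, Fintype.card_subtype, card_filter,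
    Fintype.sum_prod_type]
  push_cast
  rfl

theorem k_index_four {G : Type*} [Group G] [Finite G] (δ θ : G →* ℤˣ) (H : Subgroup G)
    (hH : ∀ g, g ∈ H ↔ δ g = 1 ∧ θ g = 1) (hi : H.index = 4) {z : G} (hz : ∀ g, z * g = g * z) (h1 : δ z = -1)
    (h2 : θ z = 1) : Nat.card (ConjClasses G) ≤ 4 * Nat.card (ConjClasses H) ∧ 4 * Nat.card (ConjClasses H) ≤
      Nat.card (ConjClasses G) + 3 * Nat.card {c // ∃ g, ConjClasses.mk g = c ∧ ∀ h, g * h = h * g → θ h = 1} := by
  have := Fintype.ofFinite G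
  set c : G → G → ℤ := fun x y => if x * y = y * x then 1 else 0 with hc
  have c1 : ∀ x y, c x y = c y x := fun x y => by simp only [hc, eq_comm]
  have c2 : ∀ x y, c x (z * y) = c x y := fun x y => by
    simp only [hc, ← mul_assoc x, ← hz x, mul_assoc z, mul_left_cancel_iff]
  have a1 : ∀ f : G → ℤ, (∀ g, f (z * g) = f g) → ∑ g, (1 + δ g) * f g = ∑ g, f g := fun f hf => by
    have := Fintype.sum_equiv (Equiv.mulLeft z) (fun g => -((δ g : ℤ) * f g)) (fun g => δ g * f g) fun g => by
      simp [hf, h1]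
    simp only [add_mul, one_mul, sum_add_distrib, sum_neg_distrib] at this ⊢
    omega
  have a2 : ∀ f : G → ℤ, 4 * ∑ g : H, f g = ∑ g, (1 + δ g) * ((1 + θ g) * f g) := fun f => by
    rw [← sum_subtype (univ.filter (· ∈ H)) (by simp), sum_filter, mul_sum]
    exact sum_congr rfl fun g _ => by
      rcases Int.units_eq_one_or (δ g) with h | h <;> rcases Int.units_eq_one_or (θ g) with h' | h' <;> simp [hH, h, h']
      ring
  have a3 : 16 * ((Nat.card (ConjClasses H) : ℤ) * Nat.card H) = ∑ x, (1 + θ x) * ∑ y, (1 + θ y) * c x y := by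
    rw [k_mul', ← a1 _ fun g => by simp only [map_mul, h2, one_mul, c1 (z * g), c2, c1 _ g], ← a2,
      show (16 : ℤ) = 4 * 4 from rfl, mul_assoc, mul_sum]
    refine congrArg _ (sum_congr rfl fun x _ => ?_)
    rw [← a1 _ fun g => by simp only [map_mul, h2, one_mul, c2], ← a2]
    simp [hc, Subtype.ext_iff]
  let S : G → Prop := fun g => ∀ h, g * h = h * g → θ h = 1
  have a4 : ∀ x, ∑ y, θ y * c x y = if S x then ∑ y, c x y else 0 := fun x => by
    split_ifs with h
    · exact sum_congr rfl fun y _ => by by_cases e : x * y = y * x <;> simp [hc, e, h y]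
    · obtain ⟨y, e, h⟩ := not_forall₂.1 h
      have := Fintype.sum_equiv (Equiv.mulLeft y) (fun g => -((θ g : ℤ) * c x g)) (fun g => θ g * c x g) fun g => by
        simp [(Int.units_eq_one_or _).resolve_left h, hc, ← mul_assoc x, e, mul_assoc y, apply_ite]
      rw [sum_neg_distrib] at this
      omega
  have a5 : ∑ x, (1 + θ x) * ∑ y, (1 + θ y) * c x y = ∑ x, ∑ y, c x y + 3 * ∑ x, if S x then ∑ y, c x y else 0 := by
    have b1 : ∑ x, θ x * ∑ y, c x y = ∑ x, if S x then ∑ y, c x y else 0 := by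
      simp only [← a4, mul_sum]
      rw [sum_comm]
      simp only [c1]
    have b2 : ∑ x, (θ x * if S x then ∑ y, c x y else 0) = ∑ x, if S x then ∑ y, c x y else 0 :=
      sum_congr rfl fun x _ => by split_ifs with h <;> [simp [h x rfl]; simp]
    simp only [add_mul, one_mul, sum_add_distrib, a4, mul_add, b1, b2]
    ring
  have a6 : (∑ x, if S x then ∑ y, c x y else 0) = Nat.card {p : G × G // S p.1 ∧ p.1 * p.2 = p.2 * p.1} := by
    rw [Nat.card_eq_fintype_card, Fintype.card_subtype, card_filter, Fintype.sum_prod_type]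
    push_cast
    exact sum_congr rfl fun x _ => by split_ifs with h <;> simp [h, hc]
  have a7 : Nat.card {p : G × G // S p.1 ∧ p.1 * p.2 = p.2 * p.1} ≤
      Nat.card {c // ∃ g, ConjClasses.mk g = c ∧ S g} * Nat.card G := by
    choose r hr using ConjClasses.mk_surjective (α := G)
    choose t ht using fun g : G => isConj_iff.1 (ConjClasses.mk_eq_mk_iff_isConj.1 (hr (ConjClasses.mk g)).symm)
    rw [← Nat.card_prod]
    refine Nat.card_le_card_of_injective (fun p => (⟨_, p.1.1, rfl, p.2.1⟩, t p.1.1 * p.1.2)) ?_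
    rintro ⟨⟨x, y⟩, _, h⟩ ⟨⟨x', y'⟩, _, h'⟩ e
    obtain ⟨e1, e2⟩ := Prod.mk.inj e
    have key : ∀ x y : G, x * y = y * x → x = (t x * y)⁻¹ * r (ConjClasses.mk x) * (t x * y) := fun x y h => by
      rw [← ht x]; simp [mul_assoc, h]
    obtain rfl : x = x' := (key x y h).trans (by rw [e2, Subtype.mk.inj e1]; exact (key x' y' h').symm)
    simpa using e2
  rw [a5, ← k_mul', a6, ← H.card_mul_index, hi] at a3
  rw [← H.card_mul_index, hi] at a7
  have : 0 < Nat.card H := Nat.card_pos
  constructor <;> refine Nat.le_of_mul_le_mul_right ?_ this <;> zify at a7 ⊢ <;> push_cast at a3 <;> linarith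

open PowerSeries in
theorem card_tuples_le' {α : Type*} {N : ℕ} (A : ℕ → Finset α) (wt : α → ℕ) {g : ℕ → PowerSeries ℤ}
    (hg : ∀ j m, ((((A j).filter fun a => wt a = m).card : ℕ) : ℤ) ≤ coeff m (g j)) (m : ℕ) (S : Finset (Fin N → α))
    (hS : ∀ s ∈ S, (∀ j : Fin N, s j ∈ A j) ∧ ∑ j : Fin N, (j + 1) * wt (s j) = m) :
    (S.card : ℤ) ≤ coeff m (∏ j ∈ range N, expand (j + 1) (Nat.succ_ne_zero j) (g j)) := by
  rw [← Fin.prod_univ_eq_prod_range fun j => expand (j + 1) (Nat.succ_ne_zero j) (g j)]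
  have h := NN.prod_sub (s := univ) (f := fun j : Fin N => ∑ p ∈ A j, X ^ (((j : ℕ) + 1) * wt p))
    (g := fun j : Fin N => expand (j + 1) (Nat.succ_ne_zero j) (g j))
    (fun j _ => NN.sum fun _ _ => NN.X_pow _) (fun j _ => by
      have h0 : NN (g j - ∑ p ∈ A j, X ^ wt p) := fun n => by
        rw [map_sub, map_sum, sub_nonneg]
        refine le_trans (le_of_eq ?_) (hg j n)
        simp only [coeff_X_pow, eq_comm (a := n)]
        rw [sum_boole]
      have := h0.expand (j + 1) (Nat.succ_ne_zero j)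
      simp only [map_sub, map_sum, map_pow, expand_X, ← pow_mul] at this
      exact this) m
  rw [map_sub, sub_nonneg, prod_univ_sum, map_sum] at h
  refine le_trans ?_ h
  simp only [prod_pow_eq_pow_sum, coeff_X_pow]
  rw [sum_boole]
  exact_mod_cast card_le_card fun s hs => mem_filter.2 ⟨Fintype.mem_piFinset.2 (hS s hs).1, (hS s hs).2.symm⟩

open PowerSeries in
theorem coeff_AG' {q : ℕ} (hq : 3 ≤ q) (J n : ℕ) : ((coeff n (∏ j ∈ range (J + 2), expand (j + 1) (Nat.succ_ne_zero j)
    (if j = 0 then g1 q else gI q)) : ℤ) : ℝ) ≤ 1.1903 * q ^ n := by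
  have h : (3 : ℝ) ≤ q := by exact_mod_cast hq
  have h0 := fun i => (q_mul_pow (q := q) (by omega) i)
  have key : ∀ n, ((coeff n (∏ j ∈ range (J + 2), expand (j + 1) (Nat.succ_ne_zero j)
      (if j = 0 then g1 q else gI q)) : ℤ) : ℝ) ≤ (∏ i ∈ range J, (1 - (q : ℝ)⁻¹ ^ (i + 2))⁻¹) * q ^ n := by
    induction J with
    | zero =>
      intro n
      have h1 := congrArg (expand 2 two_ne_zero) (gI_mul q)
      simp only [map_mul, map_sub, map_one, map_natCast, expand_X] at h1
      have h2 : gI q - g1 q * expand 2 two_ne_zero (gI q) = X ^ 1 * expand 2 two_ne_zero (gI q) := by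
        rw [g1]
        linear_combination -gI q * h1 + X * expand 2 two_ne_zero (gI q) * gI_mul q
      have h3 := (NN.X_pow 1).mul ((NN_gI q).expand 2 two_ne_zero) n
      rw [← h2, map_sub, sub_nonneg, gI, coeff_mk] at h3
      simp only [prod_range_succ, range_zero, prod_empty, one_mul, if_true, zero_add, expand_one_apply]
      exact_mod_cast h3
    | succ J ih =>
      intro n
      rw [prod_range_succ _ (J + 2), prod_range_succ _ J, if_neg (by omega)]
      refine coeff_mul_le (by linarith) (prod_nonneg fun i _ => inv_nonneg.2 (by linarith [(h0 (i + 1)).2])) ih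
        ((NN_gI q).expand _ _) (Bd.expand _ (NN_gI q) (by positivity) ?_) n
      have := Bd_gI (q := q) (z := (q : ℝ)⁻¹ ^ (J + 1 + 2)) (by positivity) (by rw [(h0 _).1]; exact (h0 _).2)
      rwa [(h0 _).1] at this
  refine (key n).trans (mul_le_mul_of_nonneg_right ?_ (by positivity))
  have h1 := prodQ3 (y := 1 / 3) (by norm_num) le_rfl (J + 1)
  rw [prod_range_succ'] at h1
  refine (prod_le_prod (g := fun i => (1 - (1 / 3 : ℝ) ^ (i + 1 + 1))⁻¹)
    (fun i _ => inv_nonneg.2 (by linarith [(h0 (i + 1)).2])) fun i _ => inv_anti₀ (sub_pos.2 (pow_lt_one₀ (by norm_num)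
      (by norm_num) (by omega))) ?_).trans (by norm_num at h1 ⊢; linarith)
  rw [one_div]
  gcongr

open Polynomial

variable {F : Type*} [Field F] [Fintype F]

theorem card_pal_le' (A : Finset F[X]) (m : ℕ) (h : ∀ p ∈ A, Pal p ∧ p.natDegree / 2 = m ∧ p.eval 1 ≠ 0) :
    (A.card : ℤ) ≤ PowerSeries.coeff m (g1 (Fintype.card F)) := by
  rcases m with _ | m
  · rw [coeff_g1_zero]
    simpa using card_pal_le A 0 fun p hp => ⟨(h p hp).1, (h p hp).2.1⟩
  have h1 : A.card ≤ ((univ : Finset (Fin m → F)) ×ˢ (univ.erase (0 : F))).card := by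
    refine card_le_card_of_injOn (fun p => (fun i => p.coeff (i + 1), p.eval 1)) (fun p hp => by simp [(h p hp).2.2])
      fun p hp p' hp' H => ?_
    obtain ⟨H1, H2⟩ := Prod.mk.inj H
    have d : ∀ p ∈ A, p.natDegree = 2 * (m + 1) := fun p hp => by
      rw [← (h p hp).2.1, Nat.two_mul_div_two_of_even (h p hp).1.2.1]
    have k : ∀ i, i ≤ m → p.coeff i = p'.coeff i := fun i hi => by
      rcases i with _ | i
      · rw [(h p hp).1.coeff_zero, (h p' hp').1.coeff_zero]
      · exact congrFun H1 ⟨i, hi⟩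
    have : p = p' + monomial (m + 1) (p.coeff (m + 1) - p'.coeff (m + 1)) := by
      ext i
      rw [coeff_add, coeff_monomial]
      split_ifs with e
      · simp [e]
      rw [add_zero]
      rcases le_or_gt i m with hi | hi
      · exact k i hi
      rcases le_or_gt i (2 * (m + 1)) with hi' | hi'
      · rw [← (h p hp).1.coeff (d p hp ▸ hi'), ← (h p' hp').1.coeff (d p' hp' ▸ hi'), d p hp, d p' hp']
        exact k _ (by omega)
      · rw [coeff_eq_zero_of_natDegree_lt (d p hp ▸ hi'), coeff_eq_zero_of_natDegree_lt (d p' hp' ▸ hi')]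
    have e := congrArg (eval 1) this
    rw [eval_add, H2, eval_monomial, one_pow, mul_one, left_eq_add] at e
    rwa [e, map_zero, add_zero] at this
  rw [card_product, card_erase_of_mem (mem_univ _), card_univ, card_univ, Fintype.card_fun, Fintype.card_fin] at h1
  rw [coeff_g1_succ]
  zify [Fintype.card_pos (α := F)] at h1
  linarith [pow_succ (Fintype.card F : ℤ) m]

theorem card_UU_le' (hq : 3 ≤ Fintype.card F) (J k : ℕ) :
    (((UU F (J + 2) k).filter fun s => (s 0).eval 1 ≠ 0).card : ℝ) ≤ 1.1903 * Fintype.card F ^ k := by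
  refine le_trans ?_ (coeff_AG' hq J k)
  exact_mod_cast card_tuples_le' (fun j => (ML F (2 * k)).filter fun p => Pal p ∧ (j = 0 → p.eval 1 ≠ 0))
    (fun p => p.natDegree / 2) (fun j m => by
      split_ifs with e
      · exact card_pal_le' _ m fun p hp => by simp only [mem_filter] at hp; exact ⟨hp.1.2.1, hp.2, hp.1.2.2 e⟩
      · rw [gI, PowerSeries.coeff_mk]
        exact_mod_cast card_pal_le _ m fun p hp => by simp only [mem_filter] at hp; exact ⟨hp.1.2.1, hp.2⟩) k _
    fun s hs => by
      simp only [UU, mem_filter, Fintype.mem_piFinset] at hs ⊢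
      exact ⟨fun j => ⟨(hs.1.1 j).1, (hs.1.1 j).2, fun e => (show j = 0 from Fin.ext e) ▸ hs.2⟩, hs.1.2⟩

end Cfsg.Agent.UGL.Cl
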