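import Mathlib

/-!
A chain ring with involution in characteristic two.
-/

set_option autoImplicit false

namespace Cfsg.Agent.UGL.Ev

open Polynomial

/-- the data of the ring -/
structure Ctx (F A : Type*) [Field F] [CommRing A] [Algebra F A] where
  σ : A →ₐ[F] A
  π : A
  M : ℕ
  α : F
  two : (2 : A) = 0
  σσ : ∀ a, σ (σ a) = a
  hσ : π * σ π = π + σ π
  nil : π ^ (2 * M) = 0
  dec : ∀ a, ∃ (c : F) (a' : A), a = algebraMap F A c + π * a'
  card : Nat.card A = Nat.card F ^ (2 * M)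
  fin : Finite F
  sq : ∀ c : F, ∃ d : F, d * d = c
  hα : ∀ c : F, (∃ w : F, w * w + w = c) ∨ ∃ w : F, w * w + w = c + α

variable {F A : Type*} [Field F] [CommRing A] [Algebra F A] (C : Ctx F A)

namespace Ctx

include C in
theorem finA : Finite A := by
  have := C.fin
  refine Nat.finite_of_card_ne_zero ?_
  rw [C.card]
  exact pow_ne_zero _ Nat.card_pos.ne'

/-- the norm of the uniformiser -/
def s : A := C.π * C.σ C.π

theorem σs : C.σ C.s = C.s := by rw [s, map_mul, C.σσ, mul_comm]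

theorem u_mul : (1 + C.π) * (1 + C.σ C.π) = 1 := by
  have := C.two; have := C.hσ; grind

theorem s_eq : C.s = C.π ^ 2 * (1 + C.σ C.π) := by
  have := C.two; have := C.hσ; rw [s]; grind

theorem sq_eq : C.π ^ 2 = C.s * (1 + C.π) := by
  have := C.two; have := C.hσ; rw [s]; grind

theorem s_nil : C.s ^ C.M = 0 := by rw [s_eq, mul_pow, ← pow_mul, C.nil, zero_mul]

theorem unit_π (a : A) : IsUnit (1 + C.π * a) :=
  IsNilpotent.isUnit_one_add ((Commute.all _ _).isNilpotent_mul_right ⟨_, C.nil⟩)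

theorem unit_s (a : A) : IsUnit (1 + C.s * a) := by
  rw [s, mul_assoc]; exact C.unit_π _

theorem unit_c {c : F} (hc : c ≠ 0) (a : A) : IsUnit (algebraMap F A c + C.π * a) := by
  have h : algebraMap F A c + C.π * a =
      algebraMap F A c * (1 + C.π * (algebraMap F A c⁻¹ * a)) := by
    have : algebraMap F A c * algebraMap F A c⁻¹ = 1 := by
      rw [← map_mul, mul_inv_cancel₀ hc, map_one]
    linear_combination (-C.π * a) * this
  rw [h]
  exact ((IsUnit.mk0 c hc).map _).mul (C.unit_π _)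

/-- the subring generated by the norm -/
noncomputable def S : Subalgebra F A := (aeval C.s : F[X] →ₐ[F] A).range

theorem s_mem : C.s ∈ C.S := ⟨X, by simp⟩

theorem σ_of_mem {a : A} (h : a ∈ C.S) : C.σ a = a := by
  obtain ⟨p, rfl⟩ := h
  change C.σ (aeval _ p) = aeval _ p
  rw [← aeval_algHom_apply, σs]

theorem decS {a : A} (h : a ∈ C.S) : ∃ (c : F), ∃ a' ∈ C.S, a = algebraMap F A c + C.s * a' := by
  obtain ⟨p, rfl⟩ := h
  refine ⟨p.coeff 0, _, ⟨p.divX, rfl⟩, ?_⟩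
  change aeval _ p = _ + _ * aeval _ p.divX
  conv_lhs => rw [← X_mul_divX_add p]
  rw [map_add, map_mul, aeval_X, aeval_C, add_comm]

theorem surjS (f : A → A) (h : ∀ a ∈ C.S, f a ∈ C.S)
    (hi : ∀ a ∈ C.S, ∀ b ∈ C.S, f a = f b → a = b) {e : A} (he : e ∈ C.S) :
    ∃ y ∈ C.S, f y = e := by
  have := C.finA
  obtain ⟨y, hy⟩ := Finite.injective_iff_surjective.1
    (show Function.Injective fun a : C.S => (⟨f a, h a a.2⟩ : C.S) from fun a b H =>
      Subtype.ext (hi _ a.2 _ b.2 (congrArg Subtype.val H))) ⟨e, he⟩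
  exact ⟨y, y.2, congrArg Subtype.val hy⟩

theorem invS {a : A} (h : a ∈ C.S) (hu : IsUnit a) : ∃ b ∈ C.S, a * b = 1 :=
  C.surjS (a * ·) (fun _ hb => mul_mem h hb) (fun _ _ _ _ H => hu.mul_left_cancel H) (one_mem _)

theorem sol {m e : A} (hm : m ∈ C.S) (he : e ∈ C.S) : ∃ y ∈ C.S, y + C.s * m * y ^ 2 = e := by
  refine C.surjS (fun y => y + C.s * m * y ^ 2) (fun a ha =>
    add_mem ha (mul_mem (mul_mem C.s_mem hm) (pow_mem ha 2))) (fun a _ b _ H => ?_) he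
  have h2 := C.two
  have : (1 + C.s * (m * (a + b))) * (a - b) = 0 := by grind
  exact sub_eq_zero.1 ((C.unit_s _).mul_right_eq_zero.1 this)

theorem decA (a : A) : ∃ b ∈ C.S, ∃ c ∈ C.S, a = b + c * C.π := by
  have h1 : ∀ i, ∃ b ∈ C.S, ∃ c ∈ C.S, C.π ^ i = b + c * C.π := fun i => by
    induction i with
    | zero => exact ⟨1, one_mem _, 0, zero_mem _, by simp⟩
    | succ i ih =>
      obtain ⟨b, hb, c, hc, h⟩ := ih
      refine ⟨c * C.s, mul_mem hc C.s_mem, b + c * C.s, add_mem hb (mul_mem hc C.s_mem), ?_⟩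
      have := C.sq_eq
      rw [pow_succ, h]
      linear_combination c * this
  have h2 : ∀ i, ∃ b ∈ C.S, ∃ c ∈ C.S, ∃ a', a = b + c * C.π + C.π ^ i * a' := fun i => by
    induction i with
    | zero => exact ⟨0, zero_mem _, 0, zero_mem _, a, by simp⟩
    | succ i ih =>
      obtain ⟨b, hb, c, hc, a', h⟩ := ih
      obtain ⟨b', hb', c', hc', h'⟩ := h1 i
      obtain ⟨d, a'', h''⟩ := C.dec a'
      refine ⟨b + b' * algebraMap F A d, add_mem hb (mul_mem hb' (C.S.algebraMap_mem d)),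
        c + c' * algebraMap F A d, add_mem hc (mul_mem hc' (C.S.algebraMap_mem d)), a'', ?_⟩
      rw [h, h'', pow_succ]
      linear_combination algebraMap F A d * h'
  obtain ⟨b, hb, c, hc, a', h⟩ := h2 (2 * C.M)
  exact ⟨b, hb, c, hc, by rw [h, C.nil, zero_mul, add_zero]⟩

theorem norm_mem (a : A) : a * C.σ a ∈ C.S := by
  obtain ⟨b, hb, c, hc, rfl⟩ := C.decA a
  have : (b + c * C.π) * C.σ (b + c * C.π) = b * b + C.s * (b * c + c * c) := by
    have := C.hσ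
    rw [map_add, map_mul, C.σ_of_mem hb, C.σ_of_mem hc, s]
    grind
  rw [this]
  exact add_mem (mul_mem hb hb) (mul_mem C.s_mem (add_mem (mul_mem hb hc) (mul_mem hc hc)))

theorem tr_mem (a : A) : a + C.σ a ∈ C.S := by
  have : a + C.σ a = (1 + a) * C.σ (1 + a) - a * C.σ a - 1 := by
    rw [map_add, map_one]; ring
  rw [this]
  exact sub_mem (sub_mem (C.norm_mem _) (C.norm_mem _)) (one_mem _)

theorem norm_one (a : A) : ∃ r ∈ C.S, (1 + C.π * a) * C.σ (1 + C.π * a) = 1 + C.s * r := by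
  obtain ⟨b, hb, c, hc, rfl⟩ := C.decA a
  have hs := C.s_mem
  refine ⟨C.s * c * c + (1 + C.s * c) * (b + c * C.s) + (b + c * C.s) ^ 2, by
    refine add_mem (add_mem ?_ ?_) (pow_mem ?_ _) <;> aesop, ?_⟩
  have := C.hσ
  have := C.two
  simp only [map_add, map_mul, map_one, C.σ_of_mem hb, C.σ_of_mem hc, s]
  grind

/-- the twist -/
def tw (t : Bool) : A := bif t then algebraMap F A C.α else 0

theorem tw_mem (t : Bool) : C.tw t ∈ C.S := by
  cases t
  · exact zero_mem _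
  · exact C.S.algebraMap_mem _

/-- the Artin--Schreier class -/
def Cl (e : A) (t : Bool) : Prop := e ∈ C.S ∧ ∃ w ∈ C.S, w * w + w = e + C.tw t

variable {C}

theorem Cl.add {e e' : A} {t t' : Bool} (h : C.Cl e t) (h' : C.Cl e' t') :
    C.Cl (e + e') (xor t t') := by
  obtain ⟨h1, w, h2, h3⟩ := h
  obtain ⟨h1', w', h2', h3'⟩ := h'
  refine ⟨add_mem h1 h1', w + w', add_mem h2 h2', ?_⟩
  have := C.two
  cases t <;> cases t' <;> simp only [tw, cond_true, cond_false, Bool.xor_false, Bool.xor_true,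
    Bool.not_true, Bool.not_false] at * <;> grind

theorem cl_s {e : A} (h : e ∈ C.S) : C.Cl (C.s * e) false := by
  obtain ⟨y, h1, h2⟩ := C.sol (one_mem _) h
  refine ⟨mul_mem C.s_mem h, C.s * y, mul_mem C.s_mem h1, ?_⟩
  simp only [tw, cond_false]
  grind

theorem Cl.add_s {e e' : A} {t : Bool} (h : C.Cl e t) (h' : e' ∈ C.S) :
    C.Cl (e + C.s * e') t := by
  simpa using h.add (cl_s h')

theorem cl_tw (t : Bool) : C.Cl (C.tw t) t :=
  ⟨C.tw_mem t, 0, zero_mem _, by have := C.two; grind⟩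

theorem exists_cl {e : A} (h : e ∈ C.S) : ∃ t, C.Cl e t := by
  obtain ⟨c, e', h1, rfl⟩ := C.decS h
  rcases C.hα c with ⟨w, hw⟩ | ⟨w, hw⟩
  · refine ⟨false, Cl.add_s ⟨C.S.algebraMap_mem _, algebraMap F A w, C.S.algebraMap_mem _, ?_⟩ h1⟩
    simp [tw, ← hw]
  · refine ⟨true, Cl.add_s ⟨C.S.algebraMap_mem _, algebraMap F A w, C.S.algebraMap_mem _, ?_⟩ h1⟩
    simp only [tw, cond_true, ← map_add, ← hw, ← map_mul]

theorem Cl.flip {e e' : A} {t : Bool} (h : C.Cl e t) (h' : e' ∈ C.S) :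
    C.Cl (e + C.tw true + C.s * e') (!t) := by
  simpa using (h.add (cl_tw true)).add_s h'

theorem exists_sq (C : Ctx F A) : ∃ c ∈ C.S, c * c = C.tw true := by
  obtain ⟨d, hd⟩ := C.sq C.α
  exact ⟨_, C.S.algebraMap_mem d, by rw [← map_mul, hd]; rfl⟩

variable (C)

/-- powers of the maximal ideal -/
def I (i : ℕ) : Ideal A := Ideal.span {C.π ^ i}

theorem mem_I {i : ℕ} {a : A} : a ∈ C.I i ↔ ∃ b, a = C.π ^ i * b := Ideal.mem_span_singleton

theorem mem_I_even {j : ℕ} {a : A} : a ∈ C.I (2 * j) ↔ ∃ b, a = C.s ^ j * b := by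
  rw [mem_I, pow_mul]
  constructor
  · rintro ⟨b, rfl⟩
    exact ⟨(1 + C.π) ^ j * b, by rw [sq_eq, mul_pow, mul_assoc]⟩
  · rintro ⟨b, rfl⟩
    exact ⟨(1 + C.σ C.π) ^ j * b, by rw [s_eq, mul_pow, mul_assoc]⟩

theorem mem_I_odd {j : ℕ} {a : A} : a ∈ C.I (2 * j + 1) ↔ ∃ b, a = C.s ^ j * C.π * b := by
  rw [mem_I, pow_succ, pow_mul]
  constructor
  · rintro ⟨b, rfl⟩
    exact ⟨(1 + C.π) ^ j * b, by rw [sq_eq, mul_pow]; ring⟩
  · rintro ⟨b, rfl⟩
    exact ⟨(1 + C.σ C.π) ^ j * b, by rw [s_eq, mul_pow]; ring⟩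

theorem I_anti {i j : ℕ} (h : i ≤ j) : C.I j ≤ C.I i :=
  Ideal.span_singleton_le_span_singleton.2 (pow_dvd_pow _ h)

theorem card_I_le (i : ℕ) : Nat.card (C.I i) ≤ Nat.card F * Nat.card (C.I (i + 1)) := by
  have := C.finA
  have := C.fin
  rw [← Nat.card_prod]
  refine Nat.card_le_card_of_surjective (fun p : F × C.I (i + 1) =>
    (⟨C.π ^ i * algebraMap F A p.1 + p.2, add_mem (C.mem_I.2 ⟨_, rfl⟩)
      (C.I_anti (Nat.le_succ i) p.2.2)⟩ : C.I i)) fun ⟨a, ha⟩ => ?_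
  obtain ⟨b, rfl⟩ := C.mem_I.1 ha
  obtain ⟨c, b', rfl⟩ := C.dec b
  exact ⟨(c, ⟨_, C.mem_I.2 ⟨b', rfl⟩⟩), Subtype.ext (by simp only []; ring)⟩

theorem card_I {i : ℕ} (hi : i ≤ 2 * C.M) : Nat.card (C.I i) = Nat.card F ^ (2 * C.M - i) := by
  have := C.fin
  have h1 : ∀ k j, Nat.card (C.I j) ≤ Nat.card F ^ k * Nat.card (C.I (j + k)) := fun k j => by
    induction k with
    | zero => simp
    | succ k ih =>
      rw [pow_succ, mul_assoc]
      exact ih.trans (Nat.mul_le_mul_left _ (C.card_I_le _))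
  have h2 := h1 (2 * C.M - i) i
  have h3 := h1 i 0
  have h4 : C.I (2 * C.M) = ⊥ := by simp [I, C.nil]
  have h5 : C.I 0 = ⊤ := by simp [I]
  rw [Nat.add_sub_cancel' hi, h4] at h2
  rw [h5, zero_add, Nat.card_congr Submodule.topEquiv.toEquiv, C.card] at h3
  refine le_antisymm (by simpa using h2) (Nat.le_of_mul_le_mul_left ?_
    (pow_pos (Nat.card_pos (α := F)) i))
  rwa [← pow_add, Nat.add_sub_cancel' hi]

theorem unit_of_not {i : ℕ} {b : A} (h : C.π ^ i * b ∉ C.I (i + 1)) : IsUnit b := by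
  obtain ⟨c, b', rfl⟩ := C.dec b
  refine C.unit_c (fun hc => h (C.mem_I.2 ⟨b', ?_⟩)) _
  rw [hc, map_zero, pow_succ]; ring

theorem chainS {a : A} (ha : a ∈ C.S) (j : ℕ) : (∃ b ∈ C.S, a = C.s ^ j * b) ∨
    ∃ k < j, ∃ c : F, c ≠ 0 ∧ ∃ b ∈ C.S, a = C.s ^ k * (algebraMap F A c + C.s * b) := by
  induction j with
  | zero => exact Or.inl ⟨a, ha, by simp⟩
  | succ j ih =>
    rcases ih with ⟨b, hb, rfl⟩ | ⟨k, hk, h⟩
    · obtain ⟨c, b', hb', rfl⟩ := C.decS hb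
      rcases eq_or_ne c 0 with rfl | hc
      · exact Or.inl ⟨b', hb', by rw [map_zero, pow_succ]; ring⟩
      · exact Or.inr ⟨j, Nat.lt_succ_self j, c, hc, b', hb', rfl⟩
    · exact Or.inr ⟨k, by omega, h⟩

theorem mem_sS {a : A} (ha : a ∈ C.S) {j : ℕ} (h : a ∈ C.I (2 * j + 1)) :
    ∃ b ∈ C.S, a = C.s ^ (j + 1) * b := by
  rcases C.chainS ha (j + 1) with h1 | ⟨k, hk, c, hc, b, hb, rfl⟩
  · exact h1
  obtain ⟨d, hd⟩ := C.mem_I_odd.1 (C.I_anti (show 2 * k + 1 ≤ 2 * j + 1 by omega) h)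
  have h2 : (algebraMap F A c + C.π * (C.σ C.π * b - d)) * C.s ^ k = 0 := by
    rw [s] at hd ⊢; linear_combination hd
  rw [(C.unit_c hc _).mul_right_eq_zero.1 h2]
  exact ⟨0, zero_mem _, by simp⟩

end Ctx

end Cfsg.Agent.UGL.Ev
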