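import Mathlib
import Cfsg.Agent.UGL.Ev1

/-!
Hermitian modules over the chain ring: blocks and their normal forms.
-/

set_option autoImplicit false

namespace Cfsg.Agent.UGL.Ev

variable {F A : Type*} [Field F] [CommRing A] [Algebra F A] {C : Ctx F A}

/-- a hermitian form with values in the subring -/
structure Frm (C : Ctx F A) (V : Type*) [AddCommGroup V] [Module A V] where
  H : V → V → A
  add_l : ∀ x y z, H (x + y) z = H x z + H y z
  smul_l : ∀ (a : A) x y, H (a • x) y = a * H x y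
  symm : ∀ x y, H y x = C.σ (H x y)
  alt : ∀ x, H x x ∈ C.S

/-- blocks -/
inductive Bk
  | v (j : ℕ) (t : Bool)
  | e (j : ℕ)
  | o (j : ℕ) (t : Bool)
  deriving DecidableEq

/-- the scale of a block -/
def Bk.j : Bk → ℕ
  | .v j _ => j
  | .e j => j
  | .o j _ => j

namespace Frm

variable {V : Type*} [AddCommGroup V] [Module A V] (f : Frm C V)

theorem add_r (x y z : V) : f.H x (y + z) = f.H x y + f.H x z := by
  rw [f.symm, f.add_l, map_add, ← f.symm, ← f.symm]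

theorem smul_r (a : A) (x y : V) : f.H x (a • y) = C.σ a * f.H x y := by
  rw [f.symm, f.smul_l, map_mul, ← f.symm]

theorem zero_l (x : V) : f.H 0 x = 0 := by simpa using f.smul_l 0 0 x

theorem zero_r (x : V) : f.H x 0 = 0 := by rw [f.symm, f.zero_l, map_zero]

theorem zero_symm {x y : V} (h : f.H x y = 0) : f.H y x = 0 := by rw [f.symm, h, map_zero]

/-- exact Gram matrices -/
def Ex : Bk → V → V → Prop
  | .v j t, x, y => f.H x x = C.s ^ j * (1 + C.s * C.tw t) ∧ y = 0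
  | .e j, x, y => f.H x x = 0 ∧ f.H x y = C.s ^ j ∧ f.H y y = 0
  | .o j t, x, y => f.H x x = C.s ^ j * C.s ∧ f.H x y = C.s ^ j * C.π ∧
      f.H y y = C.s ^ j * C.s * C.tw t

/-- relaxed Gram matrices -/
def Rx : Bk → V → V → Prop
  | .v j t, x, _ => ∃ e, C.Cl e t ∧ f.H x x = C.s ^ j * (1 + C.s * e)
  | .e j, x, y => ∃ a ∈ C.S, ∃ b ∈ C.S, ∃ μ, IsUnit μ ∧ f.H x x = C.s ^ j * C.s * a ∧
      f.H x y = C.s ^ j * μ ∧ f.H y y = C.s ^ j * C.s * b
  | .o j t, x, y => ∃ a ∈ C.S, ∃ b, C.Cl b t ∧ ∃ μ, f.H x x = C.s ^ j * C.s * (1 + C.s * a) ∧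
      f.H x y = C.s ^ j * C.π * (1 + C.π * μ) ∧ f.H y y = C.s ^ j * C.s * b

variable {f}

theorem rescale {x y : V} {r μ b : A} (hμ : IsUnit μ) (h : f.H x y = r * μ)
    {t : A} (h' : f.H y y = t * b) : ∃ ν, ν * μ = 1 ∧ f.H x (C.σ ν • y) = r ∧
      f.H (C.σ ν • y) (C.σ ν • y) = t * (ν * C.σ ν * b) := by
  obtain ⟨ν, hν⟩ := hμ.exists_left_inv
  refine ⟨ν, hν, ?_, ?_⟩
  · rw [f.smul_r, C.σσ, h]; linear_combination r * hν
  · rw [f.smul_l, f.smul_r, C.σσ, h']; ring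

theorem norm_v {j : ℕ} {t : Bool} {x y : V} (h : f.Rx (.v j t) x y) :
    ∃ z : A, f.Ex (.v j t) (z • x) 0 := by
  obtain ⟨e, he, h⟩ := h
  obtain ⟨ι, h1, h2⟩ := C.invS (add_mem (one_mem _) (mul_mem C.s_mem he.1)) (C.unit_s e)
  obtain ⟨-, w, h3, h4⟩ := he.add_s (mul_mem (mul_mem he.1 h1) (add_mem he.1 (C.tw_mem t)))
  refine ⟨1 + w * C.π, ?_, rfl⟩
  rw [f.smul_l, f.smul_r, h, map_add, map_mul, map_one, C.σ_of_mem h3]
  have := C.two; have := C.hσ
  have hs : C.s = C.π * C.σ C.π := rfl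
  generalize C.s ^ j = q at *
  generalize C.s = s at *
  generalize C.tw t = γ at *
  generalize C.σ C.π = p' at *
  generalize C.π = p at *
  have h5 : (1 + w * p) * (1 + w * p') = 1 + s * (w * w + w) := by grind
  have h6 : (1 + s * (w * w + w)) * (1 + s * e) = 1 + s * γ := by grind
  linear_combination q * (1 + s * e) * h5 + q * h6

theorem norm_e1 {j : ℕ} {x y : V} {a b : A} (ha : a ∈ C.S) (hb : b ∈ C.S)
    (h1 : f.H x x = C.s ^ j * C.s * a) (h2 : f.H x y = C.s ^ j)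
    (h3 : f.H y y = C.s ^ j * C.s * b) : ∃ z μ : A, f.H (x + z • y) (x + z • y) = 0 ∧
      f.H (x + z • y) y = C.s ^ j * (1 + C.π * μ) := by
  obtain ⟨w, h4, h5⟩ := C.sol hb ha
  have h6 : f.H y x = C.s ^ j := by rw [f.symm, h2, map_pow, C.σs]
  refine ⟨w * C.π, w * C.s * b, ?_, ?_⟩
  · simp only [f.add_l, f.add_r, f.smul_l, f.smul_r, h1, h2, h3, h6, map_mul, C.σ_of_mem h4]
    have := C.two; have := C.hσ
    have hs : C.s = C.π * C.σ C.π := rfl
    generalize C.s ^ j = q at *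
    generalize C.s = s at *
    generalize C.σ C.π = p' at *
    generalize C.π = p at *
    grind
  · simp only [f.add_l, f.smul_l, h2, h3]
    ring

theorem norm_e {j : ℕ} {x y : V} (h : f.Rx (.e j) x y) {W : Submodule A V} (hx : x ∈ W)
    (hy : y ∈ W) : ∃ x' ∈ W, ∃ y' ∈ W, f.Ex (.e j) x' y' := by
  obtain ⟨a, ha, b, hb, μ, hμ, h1, h2, h3⟩ := h
  obtain ⟨ν, -, h4, h5⟩ := rescale hμ h2 h3
  have hb' := mul_mem (C.norm_mem ν) hb
  obtain ⟨z, μ', h6, h7⟩ := norm_e1 ha hb' h1 h4 h5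
  obtain ⟨ν', -, h8, h9⟩ := rescale (C.unit_π _) h7 h5
  have h10 := h8
  rw [f.symm, ← C.σs, ← map_pow] at h10
  obtain ⟨z', μ'', h11, -⟩ := norm_e1 (mul_mem (C.norm_mem ν') hb') (zero_mem _) h9
    (by simpa [C.σσ, C.σs] using congrArg C.σ h10) (by rw [h6, mul_zero])
  have m1 := W.smul_mem (C.σ ν) hy
  have m2 := add_mem hx (W.smul_mem z m1)
  refine ⟨_, m2, _, add_mem (W.smul_mem _ m1) (W.smul_mem z' m2), h6, ?_, h11⟩
  rw [f.add_r, h8, f.smul_r, h6, mul_zero, add_zero]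

theorem resc_o {j : ℕ} {t : Bool} {x y : V} {μ b : A} (hb : C.Cl b t)
    (h2 : f.H x y = C.s ^ j * C.π * (1 + C.π * μ)) (h3 : f.H y y = C.s ^ j * C.s * b) :
    ∃ z b' : A, C.Cl b' t ∧ f.H x (z • y) = C.s ^ j * C.π ∧
      f.H (z • y) (z • y) = C.s ^ j * C.s * b' := by
  obtain ⟨ν, h4, h5, h6⟩ := rescale (C.unit_π _) h2 h3
  obtain ⟨r, h7, h8⟩ := C.norm_one (-(μ * ν))
  rw [show 1 + C.π * -(μ * ν) = ν by linear_combination -h4] at h8
  refine ⟨_, _, hb.add_s (mul_mem h7 hb.1), h5, ?_⟩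
  rw [h6, h8]; ring

theorem norm_o {j : ℕ} {t : Bool} {x y : V} (h : f.Rx (.o j t) x y) {W : Submodule A V}
    (hx : x ∈ W) (hy : y ∈ W) : ∃ x' ∈ W, ∃ y' ∈ W, f.Ex (.o j t) x' y' := by
  obtain ⟨a, ha, b, hb, μ, h1, h2, h3⟩ := h
  obtain ⟨z, b, hb, h2, h3⟩ := resc_o hb h2 h3
  have hy := W.smul_mem z hy
  generalize z • y = y at *
  have two := C.two
  have hσ := C.hσ
  have hs : C.s = C.π * C.σ C.π := rfl
  obtain ⟨Y, hY, h4⟩ := C.sol hb.1 ha
  have h5 : f.H y x = C.s ^ j * C.σ C.π := by rw [f.symm, h2, map_mul, map_pow, C.σs]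
  have h6 : f.H (x + (C.s * Y) • y) (x + (C.s * Y) • y) = C.s ^ j * C.s := by
    simp only [f.add_l, f.add_r, f.smul_l, f.smul_r, h1, h2, h3, h5, map_mul, C.σ_of_mem hY, C.σs]
    generalize C.s ^ j = q at *
    generalize C.s = s at *
    generalize C.σ C.π = p' at *
    generalize C.π = p at *
    grind
  have h7 : f.H (x + (C.s * Y) • y) y =
      C.s ^ j * C.π * (1 + C.π * (C.σ C.π * C.σ C.π * Y * b)) := by
    simp only [f.add_l, f.smul_l, h2, h3]
    generalize C.s ^ j = q at *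
    generalize C.s = s at *
    generalize C.σ C.π = p' at *
    generalize C.π = p at *
    grind
  have hx := add_mem hx (W.smul_mem (C.s * Y) hy)
  generalize x + (C.s * Y) • y = x at *
  obtain ⟨z, b, hb, h2, h3⟩ := resc_o hb h7 h3
  have hy := W.smul_mem z hy
  generalize z • y = y at *
  have hγ := C.tw_mem t
  obtain ⟨ι, h8, h9⟩ := C.invS (add_mem (one_mem _) (mul_mem C.s_mem hγ)) (C.unit_s _)
  obtain ⟨-, w, h10, h11⟩ := hb.add_s (mul_mem (mul_mem hγ h8) (add_mem hb.1 hγ))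
  have h5 : f.H y x = C.s ^ j * C.σ C.π := by rw [f.symm, h2, map_mul, map_pow, C.σs]
  have h12 : f.H x (y + w • x) = C.s ^ j * C.π * (1 + C.π * (w * (1 + C.σ C.π))) := by
    simp only [f.add_r, f.smul_r, h2, h6, C.σ_of_mem h10]
    generalize C.s ^ j = q at *
    generalize C.s = s at *
    generalize C.σ C.π = p' at *
    generalize C.π = p at *
    grind
  have h13 : f.H (y + w • x) (y + w • x) = C.s ^ j * C.s * (b + (w * w + w)) := by
    simp only [f.add_l, f.add_r, f.smul_l, f.smul_r, h2, h3, h5, h6, C.σ_of_mem h10]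
    generalize C.s ^ j = q at *
    generalize C.s = s at *
    generalize C.σ C.π = p' at *
    generalize C.π = p at *
    grind
  obtain ⟨ν, h14, h15, h16⟩ := rescale (C.unit_π _) h12 h13
  refine ⟨x, hx, _, W.smul_mem _ (add_mem hy (W.smul_mem w hx)), h6, h15, ?_⟩
  have h17 := congrArg C.σ h14
  simp only [map_mul, map_add, map_one, C.σσ, C.σ_of_mem h10] at h17
  rw [h16]
  congr 1
  generalize C.s = s at *
  generalize C.tw t = γ at *
  generalize C.σ ν = ν' at *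
  generalize C.σ C.π = p' at *
  generalize C.π = p at *
  have h18 : b + (w * w + w) = γ * (1 + s * (w * w + w)) := by
    clear * - two h9 h11
    grind
  have h19 : (1 + p * (w * (1 + p'))) * (1 + p' * (w * (1 + p))) = 1 + s * (w * w + w) := by
    clear * - two hσ hs
    grind
  rw [h18, ← h19]
  linear_combination γ * (ν' * (1 + p' * (w * (1 + p)))) * h14 + γ * h17

theorem Rx.norm {b : Bk} {x y : V} (h : f.Rx b x y) {W : Submodule A V}
    (hx : x ∈ W) (hy : y ∈ W) : ∃ x' ∈ W, ∃ y' ∈ W, f.Ex b x' y' := by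
  cases b with
  | v j t =>
    obtain ⟨z, hz⟩ := norm_v h
    exact ⟨_, W.smul_mem z hx, 0, zero_mem _, hz⟩
  | e j => exact norm_e h hx hy
  | o j t => exact norm_o h hx hy

variable (f)

/-- the pairing with two vectors -/
def φ (x y : V) : V →ₗ[A] A × A where
  toFun z := (f.H z x, f.H z y)
  map_add' a b := by simp [f.add_l]
  map_smul' a b := by simp [f.smul_l]

theorem mem_ker {x y z : V} : z ∈ LinearMap.ker (f.φ x y) ↔ f.H z x = 0 ∧ f.H z y = 0 := by
  simp [φ]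

/-- orthogonal complement -/
def P (U : Submodule A V) : Submodule A V where
  carrier := {z | ∀ u ∈ U, f.H z u = 0}
  add_mem' ha hb u hu := by rw [f.add_l, ha u hu, hb u hu, add_zero]
  zero_mem' u _ := f.zero_l u
  smul_mem' a x hx u hu := by rw [f.smul_l, hx u hu, mul_zero]

theorem P_anti {U W : Submodule A V} (h : U ≤ W) : f.P W ≤ f.P U := fun _ hz u hu => hz u (h hu)

theorem P_le {U : Submodule A V} {x y : V} (hx : x ∈ U) (hy : y ∈ U) :
    f.P U ≤ LinearMap.ker (f.φ x y) := fun _ hz => f.mem_ker.2 ⟨hz x hx, hz y hy⟩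

theorem le_P (x y : V) : LinearMap.ker (f.φ x y) ≤ f.P (Submodule.span A {x, y}) := by
  intro z hz u hu
  obtain ⟨a, b, rfl⟩ := Submodule.mem_span_pair.1 hu
  rw [f.add_r, f.smul_r, f.smul_r, (f.mem_ker.1 hz).1, (f.mem_ker.1 hz).2]
  simp

theorem P_sup (U W : Submodule A V) : f.P U ⊓ f.P W ≤ f.P (U ⊔ W) := by
  rintro z ⟨h1, h2⟩ u hu
  obtain ⟨a, ha, b, hb, rfl⟩ := Submodule.mem_sup.1 hu
  rw [f.add_r, h1 a ha, h2 b hb, add_zero]

/-- orthogonal families of blocks -/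
def RL : Submodule A V → List Bk → Prop
  | _, [] => True
  | W, b :: l => b.j < C.M ∧ ∃ x ∈ W, ∃ y ∈ W, f.Ex b x y ∧ RL (W ⊓ LinearMap.ker (f.φ x y)) l

variable {f}

theorem RL.mono {l : List Bk} {U W : Submodule A V} (h : f.RL U l) (hU : U ≤ W) : f.RL W l := by
  induction l generalizing U W with
  | nil => trivial
  | cons b l ih =>
    obtain ⟨h0, x, hx, y, hy, h1, h2⟩ := h
    exact ⟨h0, x, hU hx, y, hU hy, h1, ih h2 (inf_le_inf_right _ hU)⟩

theorem rl_cons {b : Bk} {l : List Bk} {W : Submodule A V} (h0 : b.j < C.M) {x y : V} (hx : x ∈ W)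
    (hy : y ∈ W) (h : f.Rx b x y) (h' : f.RL (W ⊓ LinearMap.ker (f.φ x y)) l) :
    f.RL W (b :: l) := by
  have h1 : Submodule.span A {x, y} ≤ W := Submodule.span_le.2 (by
    rintro _ (rfl | rfl) <;> assumption)
  obtain ⟨x', hx', y', hy', h2⟩ := h.norm (W := Submodule.span A {x, y})
    (Submodule.subset_span (by simp)) (Submodule.subset_span (by simp))
  exact ⟨h0, x', h1 hx', y', h1 hy', h2,
    h'.mono (inf_le_inf_left _ ((f.le_P x y).trans (f.P_le hx' hy')))⟩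

theorem rl_append {l l' : List Bk} {W : Submodule A V} :
    f.RL W (l ++ l') ↔ ∃ U ≤ W, f.RL U l ∧ f.RL (W ⊓ f.P U) l' := by
  induction l generalizing W with
  | nil =>
    exact ⟨fun h => ⟨⊥, bot_le, trivial, h.mono (le_inf le_rfl fun z _ u hu => by
      rw [(Submodule.mem_bot A).1 hu, f.zero_r])⟩, fun ⟨U, _, _, h⟩ => h.mono inf_le_left⟩
  | cons b l ih =>
    constructor
    · rintro ⟨h0, x, hx, y, hy, h1, h2⟩
      obtain ⟨U, h3, h4, h5⟩ := ih.1 h2
      have h6 : Submodule.span A {x, y} ≤ W := Submodule.span_le.2 (by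
        rintro _ (rfl | rfl) <;> assumption)
      refine ⟨Submodule.span A {x, y} ⊔ U, sup_le h6 (h3.trans inf_le_left), ⟨h0, x,
        Submodule.mem_sup_left (Submodule.subset_span (by simp)), y,
        Submodule.mem_sup_left (Submodule.subset_span (by simp)), h1,
        h4.mono (le_inf le_sup_right (h3.trans inf_le_right))⟩, h5.mono ?_⟩
      rw [inf_assoc]
      exact inf_le_inf_left _ ((inf_le_inf_right _ (f.le_P x y)).trans (f.P_sup _ _))
    · rintro ⟨U, h3, ⟨h0, x, hx, y, hy, h1, h2⟩, h5⟩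
      refine ⟨h0, x, h3 hx, y, h3 hy, h1, ih.2 ⟨_, inf_le_inf_right _ h3, h2, h5.mono ?_⟩⟩
      rw [inf_assoc]
      exact inf_le_inf_left _ (le_inf (f.P_le hx hy) (f.P_anti inf_le_left))

theorem RL.move {l l₁ l' : List Bk} {W : Submodule A V} (H : ∀ U, f.RL U l → f.RL U l₁)
    (h : f.RL W (l ++ l')) : f.RL W (l₁ ++ l') := by
  obtain ⟨U, h1, h2, h3⟩ := rl_append.1 h
  exact rl_append.2 ⟨U, h1, H U h2, h3⟩

theorem RL.swap {a b : Bk} {W : Submodule A V} (h : f.RL W [a, b]) : f.RL W [b, a] := by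
  obtain ⟨h0, x, hx, y, hy, h1, h0', x', hx', y', hy', h2, -⟩ := h
  have a1 := f.mem_ker.1 hx'.2
  have a2 := f.mem_ker.1 hy'.2
  exact ⟨h0', x', hx'.1, y', hy'.1, h2, h0, x, ⟨hx, f.mem_ker.2 ⟨f.zero_symm a1.1,
    f.zero_symm a2.1⟩⟩, y, ⟨hy, f.mem_ker.2 ⟨f.zero_symm a1.2, f.zero_symm a2.2⟩⟩, h1, trivial⟩

theorem RL.perm {l l' : List Bk} (p : l.Perm l') {W : Submodule A V} (h : f.RL W l) :
    f.RL W l' := by
  induction p generalizing W with
  | nil => trivial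
  | cons b _ ih =>
    obtain ⟨h0, x, hx, y, hy, h1, h2⟩ := h
    exact ⟨h0, x, hx, y, hy, h1, ih h2⟩
  | swap a b l => exact RL.move (l := [b, a]) (l₁ := [a, b]) (fun _ => RL.swap) h
  | trans _ _ ih ih' => exact ih' (ih h)

end Frm

end Cfsg.Agent.UGL.Ev
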