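import Mathlib
import Cfsg.Agent.UGL.Ev2

/-!
Hermitian modules over the chain ring: relations between blocks.
-/

set_option autoImplicit false

namespace Cfsg.Agent.UGL.Ev

variable {F A : Type*} [Field F] [CommRing A] [Algebra F A] {C : Ctx F A}

/-- one-units with their class -/
def Ctx.Un (C : Ctx F A) (X : A) (t : Bool) : Prop := ∃ e, C.Cl e t ∧ X = 1 + C.s * e

theorem Ctx.Un.mul {X Y : A} {t t' : Bool} (h : C.Un X t) (h' : C.Un Y t') :
    C.Un (X * Y) (xor t t') := by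
  obtain ⟨e, h1, rfl⟩ := h
  obtain ⟨e', h2, rfl⟩ := h'
  exact ⟨_, (h1.add h2).add_s (mul_mem h1.1 h2.1), by ring⟩

theorem Ctx.Cl.un {e : A} {t : Bool} (h : C.Cl e t) : C.Un (1 + C.s * e) t := ⟨e, h, rfl⟩

theorem Ctx.Cl.flip' {e e' : A} {t : Bool} (h : C.Cl e t) (h' : e' ∈ C.S) :
    C.Cl ((1 + C.s * e') * ((1 + C.s * e') * e + C.tw true)) (!t) := by
  have := h.flip (add_mem (mul_mem h' (add_mem (mul_mem (add_mem (one_mem _)
    (mul_mem C.s_mem h')) h.1) (C.tw_mem true))) (mul_mem h' h.1))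
  convert this using 1
  ring

theorem Ctx.Cl.flip0 {e : A} {t : Bool} (h : C.Cl e t) : C.Cl (e + C.tw true) (!t) := by
  simpa using h.flip (zero_mem _)

namespace Frm

variable {V : Type*} [AddCommGroup V] [Module A V] {f : Frm C V} {U : Submodule A V}

theorem rx_v {j : ℕ} {t : Bool} {x : V} {X : A} (h : C.Un X t) (h' : f.H x x = C.s ^ j * X) :
    f.Rx (.v j t) x 0 := by
  obtain ⟨e, h1, rfl⟩ := h
  exact ⟨e, h1, h'⟩

theorem rx_o {j : ℕ} {t t' : Bool} {x y : V} {X b : A} (h : C.Un X t') (hb : C.Cl b t)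
    (h1 : f.H x x = C.s ^ j * C.s * X) (h2 : f.H x y = C.s ^ j * C.π * X)
    (h3 : f.H y y = C.s ^ j * C.s * b) : f.Rx (.o j t) x y := by
  obtain ⟨e, h4, rfl⟩ := h
  exact ⟨e, h4.1, b, hb, C.σ C.π * e, h1, by rw [h2, Ctx.s, mul_assoc C.π], h3⟩

theorem rl2 {a b : Bk} (ha : a.j < C.M) (hb : b.j < C.M) {x y x' y' : V} (hx : x ∈ U)
    (hy : y ∈ U) (hx' : x' ∈ U) (hy' : y' ∈ U) (h1 : f.Rx a x y) (h2 : f.Rx b x' y')
    (o1 : f.H x' x = 0) (o2 : f.H x' y = 0) (o3 : f.H y' x = 0) (o4 : f.H y' y = 0) :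
    f.RL U [a, b] :=
  rl_cons ha hx hy h1 (rl_cons hb ⟨hx', f.mem_ker.2 ⟨o1, o2⟩⟩ ⟨hy', f.mem_ker.2 ⟨o3, o4⟩⟩ h2
    trivial)

theorem m1 {j : ℕ} {t t' : Bool} (h : f.RL U [.v j t, .v j t']) :
    f.RL U [.v j (!t), .v j (!t')] := by
  obtain ⟨h0, x, hx, -, -, ⟨h1, rfl⟩, -, y, hy, -, -, ⟨h2, rfl⟩, -⟩ := h
  have h3 := (f.mem_ker.1 hy.2).1
  have h4 := f.zero_symm h3
  obtain ⟨c, hc, h5⟩ := C.exists_sq
  have g1 := C.tw_mem t
  have g2 := C.tw_mem t'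
  have a1 := ((Ctx.cl_tw (C := C) t).flip (mul_mem (C.tw_mem true) g2)).un
  have a2 := ((Ctx.cl_tw (C := C) t').un.mul (Ctx.cl_tw t).un).mul a1
  have two := C.two
  have hσ := C.hσ
  have hs : C.s = C.π * C.σ C.π := rfl
  refine rl2 h0 h0 (x := x + (c * C.π) • y) (x' := (1 + C.s * C.tw t) • y +
    (c * C.σ C.π * (1 + C.s * C.tw t')) • x) (add_mem hx (U.smul_mem _ hy.1)) (zero_mem _)
    (add_mem (U.smul_mem _ hy.1) (U.smul_mem _ hx)) (zero_mem _) (rx_v a1 ?_)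
    (rx_v (by convert a2 using 1; cases t <;> cases t' <;> rfl) ?_) ?_ (f.zero_r _) (f.zero_l _)
    (f.zero_l _)
  all_goals
    simp only [f.add_l, f.add_r, f.smul_l, f.smul_r, h1, h2, h3, h4, map_mul, map_add, map_one,
      C.σ_of_mem hc, C.σ_of_mem g1, C.σ_of_mem g2, C.σs, C.σσ]
    clear * - two hσ hs h5
    generalize C.s ^ j = q at *
    generalize C.s = s at *
    generalize C.σ C.π = p' at *
    grind

theorem m2 {j : ℕ} {t t' : Bool} (h : f.RL U [.v j t, .v (j + 1) t']) :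
    f.RL U [.v j (!t), .v (j + 1) (!t')] := by
  obtain ⟨h0, x, hx, -, -, ⟨h1, rfl⟩, h0', y, hy, -, -, ⟨h2, rfl⟩, -⟩ := h
  have h3 := (f.mem_ker.1 hy.2).1
  have h4 := f.zero_symm h3
  obtain ⟨c, hc, h5⟩ := C.exists_sq
  have g1 := C.tw_mem t
  have g2 := C.tw_mem t'
  have a1 := ((Ctx.cl_tw (C := C) t).flip (mul_mem (C.tw_mem true) g2)).un
  have a2 := ((Ctx.cl_tw (C := C) t').un.mul (Ctx.cl_tw t).un).mul a1
  have two := C.two
  refine rl2 h0 h0' (x := x + c • y) (x' := (1 + C.s * C.tw t) • y +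
    (c * C.s * (1 + C.s * C.tw t')) • x) (add_mem hx (U.smul_mem _ hy.1)) (zero_mem _)
    (add_mem (U.smul_mem _ hy.1) (U.smul_mem _ hx)) (zero_mem _) (rx_v a1 ?_)
    (rx_v (by convert a2 using 1; cases t <;> cases t' <;> rfl) ?_) ?_ (f.zero_r _) (f.zero_l _)
    (f.zero_l _)
  all_goals
    simp only [f.add_l, f.add_r, f.smul_l, f.smul_r, h1, h2, h3, h4, map_mul, map_add, map_one,
      C.σ_of_mem hc, C.σ_of_mem g1, C.σ_of_mem g2, C.σs, C.σσ, pow_succ]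
    clear * - two h5
    generalize C.s ^ j = q at *
    generalize C.s = s at *
    grind

theorem m3 {j : ℕ} {t t' : Bool} (h : f.RL U [.v j t, .o j t']) :
    f.RL U [.v j (!t), .o j (!t')] := by
  obtain ⟨h0, w, hw, -, -, ⟨h1, rfl⟩, -, x, hx, y, hy, ⟨h2, h2', h2''⟩, -⟩ := h
  have h3 := (f.mem_ker.1 hx.2).1
  have h4 := f.zero_symm h3
  have h3' := (f.mem_ker.1 hy.2).1
  have h4' := f.zero_symm h3'
  have h6 : f.H y x = C.s ^ j * C.σ C.π := by rw [f.symm, h2', map_mul, map_pow, C.σs]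
  obtain ⟨c, hc, h5⟩ := C.exists_sq
  have g1 := C.tw_mem t
  have g3 := C.tw_mem true
  have a1 := (Ctx.cl_tw (C := C) t).flip0
  have two := C.two
  have hσ := C.hσ
  have hs : C.s = C.π * C.σ C.π := rfl
  have m := add_mem hw (U.smul_mem c hx.1)
  refine rl2 h0 h0 (x := w + c • x) (x' := (1 + C.s * (C.tw t + C.tw true)) • x +
    (c * C.s) • (w + c • x)) (y' := (1 + C.s * (C.tw t + C.tw true)) • y +
    (c * C.σ C.π) • (w + c • x)) m (zero_mem _)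
    (add_mem (U.smul_mem _ hx.1) (U.smul_mem _ m)) (add_mem (U.smul_mem _ hy.1) (U.smul_mem _ m))
    (rx_v a1.un ?_) (rx_o (a1.un.mul a1.flip0.un) ((Ctx.cl_tw t').flip' a1.1) ?_ ?_ ?_) ?_
    (f.zero_r _) ?_ (f.zero_r _)
  all_goals
    simp only [f.add_l, f.add_r, f.smul_l, f.smul_r, h1, h2, h2', h2'', h3, h4, h3', h4', h6,
      map_mul, map_add, map_one, C.σ_of_mem hc, C.σ_of_mem g1, C.σ_of_mem g3, C.σs, C.σσ]
    clear * - two hσ hs h5
    generalize C.s ^ j = q at *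
    generalize C.s = s at *
    generalize C.σ C.π = p' at *
    grind

theorem m4 {j : ℕ} {t t' : Bool} (h : f.RL U [.v (j + 1) t, .o j t']) :
    f.RL U [.v (j + 1) (!t), .o j (!t')] := by
  obtain ⟨h0, w, hw, -, -, ⟨h1, rfl⟩, h0', x, hx, y, hy, ⟨h2, h2', h2''⟩, -⟩ := h
  have h3 := (f.mem_ker.1 hx.2).1
  have h4 := f.zero_symm h3
  have h3' := (f.mem_ker.1 hy.2).1
  have h4' := f.zero_symm h3'
  have h6 : f.H y x = C.s ^ j * C.σ C.π := by rw [f.symm, h2', map_mul, map_pow, C.σs]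
  obtain ⟨c, hc, h5⟩ := C.exists_sq
  have g1 := C.tw_mem t
  have g3 := C.tw_mem true
  have a1 := (Ctx.cl_tw (C := C) t).flip0
  have two := C.two
  have hσ := C.hσ
  have hs : C.s = C.π * C.σ C.π := rfl
  have m := add_mem hw (U.smul_mem (c * C.π) hx.1)
  refine rl2 h0 h0' (x := w + (c * C.π) • x) (x' := (1 + C.s * (C.tw t + C.tw true)) • x +
    (c * C.σ C.π) • (w + (c * C.π) • x)) (y' := (1 + C.s * (C.tw t + C.tw true)) • y +
    (c * (1 + C.σ C.π)) • (w + (c * C.π) • x)) m (zero_mem _)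
    (add_mem (U.smul_mem _ hx.1) (U.smul_mem _ m)) (add_mem (U.smul_mem _ hy.1) (U.smul_mem _ m))
    (rx_v a1.un ?_) (rx_o (a1.un.mul a1.flip0.un) ((Ctx.cl_tw t').flip' a1.1) ?_ ?_ ?_) ?_
    (f.zero_r _) ?_ (f.zero_r _)
  all_goals
    simp only [f.add_l, f.add_r, f.smul_l, f.smul_r, h1, h2, h2', h2'', h3, h4, h3', h4', h6,
      map_mul, map_add, map_one, C.σ_of_mem hc, C.σ_of_mem g1, C.σ_of_mem g3, C.σs, C.σσ,
      pow_succ]
    clear * - two hσ hs h5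
    generalize C.s ^ j = q at *
    generalize C.s = s at *
    generalize C.σ C.π = p' at *
    grind

theorem m5 {j : ℕ} {t t' : Bool} (h : f.RL U [.o j t, .o j t']) :
    f.RL U [.o j (!t), .o j (!t')] := by
  obtain ⟨h0, x, hx, y, hy, ⟨h1, h1', h1''⟩, -, z, hz, w, hw, ⟨h2, h2', h2''⟩, -⟩ := h
  obtain ⟨o1, o2⟩ := f.mem_ker.1 hz.2
  obtain ⟨o3, o4⟩ := f.mem_ker.1 hw.2
  have o5 := f.zero_symm o1
  have o6 := f.zero_symm o2
  have o7 := f.zero_symm o3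
  have o8 := f.zero_symm o4
  have h6 : f.H y x = C.s ^ j * C.σ C.π := by rw [f.symm, h1', map_mul, map_pow, C.σs]
  have h7 : f.H w z = C.s ^ j * C.σ C.π := by rw [f.symm, h2', map_mul, map_pow, C.σs]
  obtain ⟨c, hc, h5⟩ := C.exists_sq
  have g1 := C.tw_mem t
  have g3 := C.tw_mem true
  have a1 := (Ctx.cl_tw (C := C) t).flip0
  have two := C.two
  have hσ := C.hσ
  have hs : C.s = C.π * C.σ C.π := rfl
  have m := add_mem hy (U.smul_mem c hz.1)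
  refine rl2 h0 h0 (y := y + c • z) (x' := (1 + C.s * (C.tw t + C.tw true)) • z +
    (c * C.σ C.π) • x + (c * C.s) • (y + c • z)) (y' := (1 + C.s * (C.tw t + C.tw true)) • w +
    (c * (1 + C.σ C.π)) • x + (c * C.σ C.π) • (y + c • z)) hx m
    (add_mem (add_mem (U.smul_mem _ hz.1) (U.smul_mem _ hx)) (U.smul_mem _ m))
    (add_mem (add_mem (U.smul_mem _ hw.1) (U.smul_mem _ hx)) (U.smul_mem _ m))
    (rx_o (Ctx.cl_tw false).un a1 ?_ ?_ ?_)
    (rx_o (a1.un.mul a1.flip0.un) ((Ctx.cl_tw t').flip' a1.1) ?_ ?_ ?_) ?_ ?_ ?_ ?_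
  all_goals
    have g0 : C.tw false = 0 := rfl
    simp only [f.add_l, f.add_r, f.smul_l, f.smul_r, h1, h1', h1'', h2, h2', h2'', o1, o2, o3, o4,
      o5, o6, o7, o8, h6, h7, g0,
      map_mul, map_add, map_one, C.σ_of_mem hc, C.σ_of_mem g1, C.σ_of_mem g3, C.σs, C.σσ]
    clear * - two hσ hs h5
    generalize C.s ^ j = q at *
    generalize C.s = s at *
    generalize C.σ C.π = p' at *
    grind

theorem m6 {j : ℕ} {t₁ t₂ t₃ : Bool} (h : f.RL U [.v j t₁, .v j t₂, .v j t₃]) :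
    ∃ t, f.RL U [.e j, .v j t] := by
  obtain ⟨h0, x, hx, -, -, ⟨h1, rfl⟩, -, y, hy, -, -, ⟨h2, rfl⟩, -, w, hw, -, -, ⟨h3, rfl⟩, -⟩ := h
  have o1 := (f.mem_ker.1 hy.2).1
  have o2 := (f.mem_ker.1 hw.1.2).1
  have o3 := (f.mem_ker.1 hw.2).1
  have o4 := f.zero_symm o1
  have o5 := f.zero_symm o2
  have o6 := f.zero_symm o3
  have g1 := C.tw_mem t₁
  have g2 := C.tw_mem t₂
  have g3 := C.tw_mem t₃
  have a1 := (((Ctx.cl_tw (C := C) t₁).un.mul (Ctx.cl_tw t₂).un).mul (Ctx.cl_tw t₃).un).mul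
    (Ctx.cl_s (add_mem (add_mem (mul_mem g1 g2) (mul_mem g1 g3)) (mul_mem g2 g3))).un
  have two := C.two
  refine ⟨t₁ ^^ t₂ ^^ t₃ ^^ false, rl2 h0 h0 (x := x + y) (y := y + w)
    (x' := ((1 + C.s * C.tw t₂) * (1 + C.s * C.tw t₃)) • x +
      ((1 + C.s * C.tw t₁) * (1 + C.s * C.tw t₃)) • y +
      ((1 + C.s * C.tw t₁) * (1 + C.s * C.tw t₂)) • w) (add_mem hx hy.1) (add_mem hy.1 hw.1.1)
    (add_mem (add_mem (U.smul_mem _ hx) (U.smul_mem _ hy.1)) (U.smul_mem _ hw.1.1)) (zero_mem _)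
    ⟨_, add_mem g1 g2, _, add_mem g2 g3, _, C.unit_s (C.tw t₂), ?_, ?_, ?_⟩ (rx_v a1 ?_) ?_ ?_
    (f.zero_l _) (f.zero_l _)⟩
  all_goals
    simp only [f.add_l, f.add_r, f.smul_l, f.smul_r, h1, h2, h3, o1, o2, o3, o4, o5, o6,
      map_mul, map_add, map_one, C.σ_of_mem g1, C.σ_of_mem g2, C.σ_of_mem g3, C.σs]
    clear * - two
    generalize C.s ^ j = q at *
    generalize C.s = s at *
    grind

theorem m7 {j : ℕ} (hj : j + 1 = C.M) (h : f.RL U [.v j true]) : f.RL U [.v j false] := by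
  obtain ⟨h0, x, hx, y, hy, ⟨h1, h2⟩, h3⟩ := h
  refine ⟨h0, x, hx, y, hy, ⟨?_, h2⟩, h3⟩
  have := C.s_nil
  rw [← hj, pow_succ] at this
  rw [h1]
  linear_combination (C.tw true - C.tw false) * this

theorem m8 {j : ℕ} (hj : j + 1 = C.M) (h : f.RL U [.o j true]) : f.RL U [.o j false] := by
  obtain ⟨h0, x, hx, y, hy, ⟨h1, h2, h4⟩, h3⟩ := h
  refine ⟨h0, x, hx, y, hy, ⟨h1, h2, ?_⟩, h3⟩
  have := C.s_nil
  rw [← hj, pow_succ] at this
  rw [h4, this, zero_mul, zero_mul]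

end Frm

end Cfsg.Agent.UGL.Ev
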