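import Mathlib
import Cfsg.Agent.UGL.Ev2

/-!
Hermitian modules over the chain ring: Jordan splitting and isometries.
-/

set_option autoImplicit false

namespace Cfsg.Agent.UGL.Ev

variable {F A : Type*} [Field F] [CommRing A] [Algebra F A] {C : Ctx F A}

/-- half the dimension of a block -/
def Bk.wt (M : ℕ) : Bk → ℕ
  | .v j _ => M - j
  | .e j => 2 * (M - j)
  | .o j _ => 2 * (M - j) - 1

/-- the exponent of a block -/
def Bk.sc : Bk → ℕ
  | .v j _ => 2 * j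
  | .e j => 2 * j
  | .o j _ => 2 * j + 1

/-- the image of the Gram matrix -/
def Ctx.R (C : Ctx F A) : Bk → Submodule A (A × A)
  | .v j _ => Submodule.prod (C.I (2 * j)) ⊥
  | .e j => Submodule.prod (C.I (2 * j)) (C.I (2 * j))
  | .o j _ => Submodule.prod (C.I (2 * j + 1)) (C.I (2 * j + 1))

theorem card_prod' (p q : Submodule A A) : Nat.card (p.prod q) = Nat.card p * Nat.card q := by
  rw [← Nat.card_prod]
  exact Nat.card_congr (Equiv.Set.prod (p : Set A) (q : Set A))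

theorem card_R {b : Bk} (h : b.j < C.M) : Nat.card (C.R b) = Nat.card F ^ (2 * b.wt C.M) := by
  cases b <;> simp only [Bk.j] at h <;> simp only [Ctx.R, Bk.wt, card_prod']
  · rw [C.card_I (by omega)]
    simp [Nat.mul_sub]
  · rw [C.card_I (by omega), ← pow_add]
    congr 1; omega
  · rw [C.card_I (by omega), ← pow_add]
    congr 1; omega

theorem Bk.wt_pos {M : ℕ} {b : Bk} (h : b.j < M) : 0 < b.wt M := by
  cases b <;> simp only [Bk.j] at h <;> simp only [Bk.wt] <;> omega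

namespace Frm

variable {V V' : Type*} [AddCommGroup V] [Module A V] [AddCommGroup V'] [Module A V']
  {f : Frm C V} {f' : Frm C V'} {W : Submodule A V} {W' : Submodule A V'}

theorem φ_apply (x y z : V) : f.φ x y z = (f.H z x, f.H z y) := rfl

theorem Ex.surj {b : Bk} {x y : V} (h : f.Ex b x y) {p : A × A} (hp : p ∈ C.R b) :
    ∃ a c : A, f.φ x y (a • x + c • y) = p := by
  obtain ⟨p, p'⟩ := p
  simp only [φ_apply, f.add_l, f.smul_l, Prod.mk.injEq]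
  cases b with
  | v j t =>
    obtain ⟨h1, rfl⟩ := h
    obtain ⟨r, rfl⟩ := C.mem_I_even.1 hp.1
    obtain ⟨ι, h2⟩ := (C.unit_s (C.tw t)).exists_left_inv
    refine ⟨r * ι, 0, ?_, ?_⟩
    · rw [h1]; linear_combination C.s ^ j * r * h2
    · rw [f.zero_r, f.zero_r, mul_zero, mul_zero, add_zero]; exact hp.2.symm
  | e j =>
    obtain ⟨h1, h2, h3⟩ := h
    obtain ⟨r, rfl⟩ := C.mem_I_even.1 hp.1
    obtain ⟨r', rfl⟩ := C.mem_I_even.1 hp.2
    refine ⟨r', r, ?_, ?_⟩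
    · rw [h1, f.symm x y, h2, map_pow, C.σs]; ring
    · rw [h2, h3]; ring
  | o j t =>
    obtain ⟨h1, h2, h3⟩ := h
    obtain ⟨r, rfl⟩ := C.mem_I_odd.1 hp.1
    obtain ⟨r', rfl⟩ := C.mem_I_odd.1 hp.2
    obtain ⟨ι, h4⟩ := (C.unit_s (C.tw t)).exists_left_inv
    have two := C.two
    have hσ := C.hσ
    have hs : C.s = C.π * C.σ C.π := rfl
    refine ⟨r' + (1 + C.π) * ι * (r + r' * C.σ C.π) * C.σ C.π * C.tw t,
      (1 + C.π) * ι * (r + r' * C.σ C.π), ?_, ?_⟩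
    · rw [h1, f.symm x y, h2, map_mul, map_pow, C.σs]
      clear * - two hσ hs h4
      generalize C.s ^ j = q at *
      generalize C.s = s at *
      generalize C.σ C.π = p' at *
      grind
    · rw [h2, h3]
      clear * - two hσ hs h4
      generalize C.s ^ j = q at *
      generalize C.s = s at *
      generalize C.σ C.π = p' at *
      grind

theorem Ex.eq {b : Bk} {x y : V} {x' y' : V'} (h : f.Ex b x y) (h' : f'.Ex b x' y') :
    f.H x x = f'.H x' x' ∧ f.H x y = f'.H x' y' ∧ f.H y x = f'.H y' x' ∧ f.H y y = f'.H y' y' := by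
  rw [f.symm x y, f'.symm x' y']
  cases b with
  | v j t => rw [h.1, h'.1, h.2, h'.2]; simp [zero_r]
  | e j => rw [h.1, h'.1, h.2.1, h'.2.1, h.2.2, h'.2.2]; simp
  | o j t => rw [h.1, h'.1, h.2.1, h'.2.1, h.2.2, h'.2.2]; simp

theorem card_eq (g : V →ₗ[A] A × A) (W : Submodule A V) :
    Nat.card W = Nat.card ↥(W ⊓ LinearMap.ker g) * Nat.card (W.map g) := by
  rw [Submodule.card_eq_card_quotient_mul_card (LinearMap.ker (g.domRestrict W)),
    Nat.card_congr (g.domRestrict W).quotKerEquivRange.toEquiv, LinearMap.range_domRestrict,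
    LinearMap.ker_domRestrict, ← Nat.card_congr (Submodule.comapSubtypeEquivOfLe
      (inf_le_left : W ⊓ LinearMap.ker g ≤ W)).toEquiv]
  simp

theorem Ex.le_map {b : Bk} {x y : V} (h : f.Ex b x y) (hx : x ∈ W) (hy : y ∈ W) :
    C.R b ≤ W.map (f.φ x y) := fun _ hp => by
  obtain ⟨a, c, h1⟩ := h.surj hp
  exact ⟨_, add_mem (W.smul_mem a hx) (W.smul_mem c hy), h1⟩

theorem Ex.dec {b : Bk} {x y : V} (h : f.Ex b x y) (hx : x ∈ W) (hy : y ∈ W)
    (H : W.map (f.φ x y) ≤ C.R b) {z : V} (hz : z ∈ W) :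
    ∃ a c : A, ∃ w ∈ W ⊓ LinearMap.ker (f.φ x y), z = a • x + c • y + w := by
  obtain ⟨a, c, h1⟩ := h.surj (H ⟨z, hz, rfl⟩)
  exact ⟨a, c, z - (a • x + c • y), ⟨sub_mem hz (add_mem (W.smul_mem a hx) (W.smul_mem c hy)),
    by rw [SetLike.mem_coe, LinearMap.mem_ker, map_sub, h1, sub_self]⟩, by abel⟩

/-- total weight -/
def wl (M : ℕ) (l : List Bk) : ℕ := (l.map (Bk.wt M)).sum

theorem RL.le_card [Finite V] {l : List Bk} (h : f.RL W l) :
    Nat.card F ^ (2 * wl C.M l) ≤ Nat.card W := by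
  have := C.finA
  induction l generalizing W with
  | nil => exact Nat.card_pos
  | cons b l ih =>
    obtain ⟨h0, x, hx, y, hy, h1, h2⟩ := h
    rw [card_eq (f.φ x y), wl, List.map_cons, List.sum_cons, mul_add, pow_add, mul_comm,
      ← card_R h0]
    exact Nat.mul_le_mul (ih h2) (Nat.card_mono (Set.toFinite _) (h1.le_map hx hy))

theorem tight [Finite V] {b : Bk} {l : List Bk} (h0 : b.j < C.M) {x y : V} (hx : x ∈ W)
    (hy : y ∈ W) (h1 : f.Ex b x y) (h2 : f.RL (W ⊓ LinearMap.ker (f.φ x y)) l)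
    (h : Nat.card W = Nat.card F ^ (2 * wl C.M (b :: l))) :
    Nat.card ↥(W ⊓ LinearMap.ker (f.φ x y)) = Nat.card F ^ (2 * wl C.M l) ∧
      W.map (f.φ x y) ≤ C.R b := by
  have := C.finA
  have := C.fin
  rw [card_eq (f.φ x y), wl, List.map_cons, List.sum_cons, mul_add, pow_add, mul_comm (_ ^ _),
      ← card_R h0] at h
  have a1 := h2.le_card
  have a2 : Nat.card (C.R b) ≤ Nat.card (W.map (f.φ x y)) :=
    Nat.card_mono (Set.toFinite _) (h1.le_map hx hy)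
  have a3 : 0 < Nat.card (C.R b) := Nat.card_pos
  have a4 : 0 < Nat.card F ^ (2 * wl C.M l) := pow_pos Nat.card_pos _
  change _ = Nat.card F ^ (2 * wl C.M l) * _ at h
  have a5 : Nat.card (W.map (f.φ x y)) ≤ Nat.card (C.R b) := by nlinarith
  refine ⟨by nlinarith, ?_⟩
  have := Set.eq_of_subset_of_ncard_le (s := (C.R b : Set (A × A)))
    (t := (W.map (f.φ x y) : Set (A × A))) (h1.le_map hx hy) a5
  exact fun p hp => (this.ge hp :)

theorem graph [Finite V] [Finite V'] {l : List Bk} (h : f.RL W l) (h' : f'.RL W' l)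
    (hc : Nat.card W = Nat.card F ^ (2 * wl C.M l))
    (hc' : Nat.card W' = Nat.card F ^ (2 * wl C.M l)) : ∃ Γ : Submodule A (V × V'),
      (∀ p ∈ Γ, p.1 ∈ W ∧ p.2 ∈ W') ∧ (∀ a ∈ W, ∃ a', (a, a') ∈ Γ) ∧
      (∀ a' ∈ W', ∃ a, (a, a') ∈ Γ) ∧ ∀ p ∈ Γ, ∀ r ∈ Γ, f.H p.1 r.1 = f'.H p.2 r.2 := by
  induction l generalizing W W' with
  | nil =>
    have a1 := (Nat.card_eq_one_iff_unique.1 hc).1
    have a2 := (Nat.card_eq_one_iff_unique.1 hc').1
    refine ⟨⊥, fun p hp => ?_, fun a ha => ⟨0, ?_⟩, fun a ha => ⟨0, ?_⟩, fun p hp r _ => ?_⟩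
    · rw [(Submodule.mem_bot A).1 hp]; exact ⟨zero_mem _, zero_mem _⟩
    · rw [show a = 0 from congrArg Subtype.val (Subsingleton.elim (⟨a, ha⟩ : W) 0)]
      exact zero_mem _
    · rw [show a = 0 from congrArg Subtype.val (Subsingleton.elim (⟨a, ha⟩ : W') 0)]
      exact zero_mem _
    · rw [(Submodule.mem_bot A).1 hp]; exact (f.zero_l _).trans (f'.zero_l _).symm
  | cons b l ih =>
    obtain ⟨h0, x, hx, y, hy, h1, h2⟩ := h
    obtain ⟨-, x', hx', y', hy', h1', h2'⟩ := h'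
    obtain ⟨a1, a2⟩ := tight h0 hx hy h1 h2 hc
    obtain ⟨a1', a2'⟩ := tight h0 hx' hy' h1' h2' hc'
    obtain ⟨Γ, b1, b2, b3, b4⟩ := ih h2 h2' a1 a1'
    have key : ∀ p, p ∈ Submodule.span A {(x, x'), (y, y')} ⊔ Γ ↔ ∃ a c : A, ∃ w ∈ Γ,
        p = (a • x + c • y + w.1, a • x' + c • y' + w.2) := fun p => by
      rw [Submodule.mem_sup]
      constructor
      · rintro ⟨u, hu, w, hw, rfl⟩
        obtain ⟨a, c, rfl⟩ := Submodule.mem_span_pair.1 hu
        exact ⟨a, c, w, hw, rfl⟩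
      · rintro ⟨a, c, w, hw, rfl⟩
        exact ⟨_, Submodule.mem_span_pair.2 ⟨a, c, rfl⟩, w, hw, rfl⟩
    refine ⟨Submodule.span A {(x, x'), (y, y')} ⊔ Γ, fun p hp => ?_, fun z hz => ?_,
      fun z hz => ?_, fun p hp r hr => ?_⟩
    · obtain ⟨a, c, w, hw, rfl⟩ := (key p).1 hp
      exact ⟨add_mem (add_mem (W.smul_mem a hx) (W.smul_mem c hy)) (b1 w hw).1.1,
        add_mem (add_mem (W'.smul_mem a hx') (W'.smul_mem c hy')) (b1 w hw).2.1⟩
    · obtain ⟨a, c, w, hw, rfl⟩ := h1.dec hx hy a2 hz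
      obtain ⟨w', hw'⟩ := b2 w hw
      exact ⟨_, (key _).2 ⟨a, c, _, hw', rfl⟩⟩
    · obtain ⟨a, c, w, hw, rfl⟩ := h1'.dec hx' hy' a2' hz
      obtain ⟨w', hw'⟩ := b3 w hw
      exact ⟨_, (key _).2 ⟨a, c, _, hw', rfl⟩⟩
    · obtain ⟨a, c, w, hw, rfl⟩ := (key p).1 hp
      obtain ⟨a', c', w', hw', rfl⟩ := (key r).1 hr
      obtain ⟨e1, e2, e3, e4⟩ := h1.eq h1'
      obtain ⟨o1, o2⟩ := f.mem_ker.1 (b1 w hw).1.2
      obtain ⟨o3, o4⟩ := f'.mem_ker.1 (b1 w hw).2.2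
      obtain ⟨o5, o6⟩ := f.mem_ker.1 (b1 w' hw').1.2
      obtain ⟨o7, o8⟩ := f'.mem_ker.1 (b1 w' hw').2.2
      simp only [add_l, add_r, smul_l, smul_r, e1, e2, e3, e4, o1, o2, o3, o4, f.zero_symm o5,
        f.zero_symm o6, f'.zero_symm o7, f'.zero_symm o8, b4 w hw w' hw']

/-- nondegeneracy -/
def ND (f : Frm C V) (W : Submodule A V) : Prop := ∀ x ∈ W, (∀ y ∈ W, f.H x y = 0) → x = 0

theorem exists_equiv [Finite V] [Finite V'] {l : List Bk} (h : f.RL ⊤ l) (h' : f'.RL ⊤ l)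
    (hc : Nat.card V = Nat.card F ^ (2 * wl C.M l))
    (hc' : Nat.card V' = Nat.card F ^ (2 * wl C.M l)) (nd : f.ND ⊤) (nd' : f'.ND ⊤) :
    ∃ e : V ≃ₗ[A] V', ∀ x y, f'.H (e x) (e y) = f.H x y := by
  obtain ⟨Γ, -, b2, b3, b4⟩ := graph h h' ((Nat.card_congr Submodule.topEquiv.toEquiv).trans hc)
    ((Nat.card_congr Submodule.topEquiv.toEquiv).trans hc')
  have i1 : Function.Bijective ((LinearMap.fst A V V').domRestrict Γ) := by
    refine ⟨(injective_iff_map_eq_zero _).2 fun p hp => Subtype.ext (Prod.ext hp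
      (nd' _ trivial fun y _ => ?_)), fun a => ?_⟩
    · obtain ⟨a, ha⟩ := b3 y trivial
      rw [← b4 _ p.2 _ ha, show p.1.1 = 0 from hp, f.zero_l]
    · obtain ⟨a', ha⟩ := b2 a trivial
      exact ⟨⟨_, ha⟩, rfl⟩
  have i2 : Function.Bijective ((LinearMap.snd A V V').domRestrict Γ) := by
    refine ⟨(injective_iff_map_eq_zero _).2 fun p hp => Subtype.ext (Prod.ext
      (nd _ trivial fun y _ => ?_) hp), fun a => ?_⟩
    · obtain ⟨a, ha⟩ := b2 y trivial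
      rw [b4 _ p.2 _ ha, show p.1.2 = 0 from hp, f'.zero_l]
    · obtain ⟨a', ha⟩ := b3 a trivial
      exact ⟨⟨_, ha⟩, rfl⟩
  refine ⟨(LinearEquiv.ofBijective _ i1).symm.trans (LinearEquiv.ofBijective _ i2), fun x y => ?_⟩
  obtain ⟨x, rfl⟩ := (LinearEquiv.ofBijective _ i1).surjective x
  obtain ⟨y, rfl⟩ := (LinearEquiv.ofBijective _ i1).surjective y
  simp only [LinearEquiv.trans_apply, LinearEquiv.symm_apply_apply]
  exact (b4 _ x.2 _ y.2).symm

theorem scale_one {x : V} {q b : A} {c : F} (hc : c ≠ 0) (hb : b ∈ C.S)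
    (h : f.H x x = q * (algebraMap F A c + C.s * b)) : ∃ d : A, IsUnit d ∧ ∃ b' ∈ C.S,
      f.H (d • x) (d • x) = q * (1 + C.s * b') := by
  obtain ⟨d, hd⟩ := C.sq c⁻¹
  have h1 : d ≠ 0 := by
    rintro rfl
    exact inv_ne_zero hc (by simpa using hd.symm)
  refine ⟨algebraMap F A d, (IsUnit.mk0 d h1).map _, algebraMap F A c⁻¹ * b,
    mul_mem (C.S.algebraMap_mem _) hb, ?_⟩
  have h2 : algebraMap F A c⁻¹ * algebraMap F A c = 1 := by
    rw [← map_mul, inv_mul_cancel₀ hc, map_one]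
  rw [f.smul_l, f.smul_r, AlgHom.commutes, ← mul_assoc, ← map_mul, hd, h]
  linear_combination q * h2

theorem blk_o {j : ℕ} {x y : V} (hx : x ∈ W) (hy : y ∈ W) {μ a b : A} {c : F} (hμ : IsUnit μ)
    (hc : c ≠ 0) (ha : a ∈ C.S) (hb : b ∈ C.S)
    (h1 : f.H x x = C.s ^ j * C.s * (algebraMap F A c + C.s * a))
    (h2 : f.H x y = C.s ^ j * C.π * μ) (h3 : f.H y y = C.s ^ j * C.s * b) :
    ∃ t, ∃ x ∈ W, ∃ y ∈ W, f.Rx (.o j t) x y := by
  obtain ⟨d, hd, a', ha', h4⟩ := scale_one hc ha h1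
  obtain ⟨ν, -, h5, h6⟩ := rescale (x := d • x) (r := C.s ^ j * C.π) (hd.mul hμ)
    (by rw [f.smul_l, h2]; ring) h3
  obtain ⟨t, ht⟩ := Ctx.exists_cl (mul_mem (C.norm_mem ν) hb)
  exact ⟨t, _, W.smul_mem d hx, _, W.smul_mem _ hy, a', ha', _, ht, 0, h4, by simpa using h5, h6⟩

theorem exists_block (nd : f.ND W) {z : V} (hz : z ∈ W) (hz0 : z ≠ 0) :
    ∃ b : Bk, b.j < C.M ∧ (∀ x ∈ W, ∀ y ∈ W, f.H x y ∈ C.I b.sc) ∧ ∃ x ∈ W, ∃ y ∈ W, f.Rx b x y := by
  have h4 : C.I (2 * C.M) = ⊥ := by simp [Ctx.I, C.nil]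
  obtain ⟨i, h1, h2⟩ := Nat.exists_not_and_succ_of_not_zero_of_exists
    (p := fun i => ¬ ∀ x ∈ W, ∀ y ∈ W, f.H x y ∈ C.I i) (by simp [Ctx.I])
    ⟨2 * C.M, fun h => hz0 (nd z hz fun y hy => by simpa [h4] using h z hz y hy)⟩
  rw [not_not] at h1
  have hi : i < 2 * C.M := by
    by_contra hi
    refine h2 fun x hx y hy => ?_
    have := C.I_anti (not_lt.1 hi) (h1 x hx y hy)
    rw [h4] at this
    exact (bot_le : ⊥ ≤ C.I (i + 1)) this
  by_cases hA : ∃ x ∈ W, f.H x x ∉ C.I (i + 1)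
  · obtain ⟨x, hx, h3⟩ := hA
    rcases C.chainS (f.alt x) (i + 1) with ⟨b, -, hb⟩ | ⟨k, -, c, hc, b, hb, h5⟩
    · exact absurd (C.I_anti (by omega) (C.mem_I_even.2 ⟨b, hb⟩)) h3
    have hk : 2 * k ≤ i := by
      by_contra hk
      exact h3 (C.I_anti (by omega) (C.mem_I_even.2 ⟨_, h5⟩))
    obtain ⟨d, -, b', hb', h6⟩ := scale_one hc hb h5
    obtain ⟨t, ht⟩ := Ctx.exists_cl hb'
    exact ⟨.v k t, by simp only [Bk.j]; omega, fun x hx y hy => C.I_anti hk (h1 x hx y hy),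
      _, W.smul_mem d hx, 0, zero_mem _, _, ht, h6⟩
  push Not at hA h2
  obtain ⟨x, hx, y, hy, h3⟩ := h2
  obtain ⟨μ, h5⟩ := C.mem_I.1 (h1 x hx y hy)
  have hμ := C.unit_of_not (h5 ▸ h3)
  have hu : IsUnit (1 + C.π) := by simpa using C.unit_π 1
  obtain ⟨j, rfl | rfl⟩ := Nat.even_or_odd' i
  · obtain ⟨a, ha, h6⟩ := C.mem_sS (f.alt x) (hA x hx)
    obtain ⟨b, hb, h7⟩ := C.mem_sS (f.alt y) (hA y hy)
    refine ⟨.e j, by simp only [Bk.j]; omega, h1, x, hx, y, hy, a, ha, b, hb, _,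
      (hu.pow j).mul hμ, by rw [h6, pow_succ], ?_, by rw [h7, pow_succ]⟩
    rw [h5, pow_mul, C.sq_eq, mul_pow, mul_assoc]
  suffices H : ∃ t, ∃ x ∈ W, ∃ y ∈ W, f.Rx (.o j t) x y by
    obtain ⟨t, H⟩ := H
    exact ⟨.o j t, by simp only [Bk.j]; omega, h1, H⟩
  obtain ⟨a, ha, h6⟩ := C.mem_sS (f.alt x) (C.I_anti (Nat.le_succ _) (hA x hx))
  obtain ⟨b, hb, h7⟩ := C.mem_sS (f.alt y) (C.I_anti (Nat.le_succ _) (hA y hy))
  rw [pow_succ] at h6 h7
  obtain ⟨ν, -, h8, h9⟩ := rescale (x := x) (r := C.s ^ j * C.π) ((hu.pow j).mul hμ)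
    (by rw [h5, pow_succ, pow_mul, C.sq_eq, mul_pow]; ring) h7
  have hb := mul_mem (C.norm_mem ν) hb
  have hy := W.smul_mem (C.σ ν) hy
  generalize C.σ ν • y = y at *
  generalize ν * C.σ ν * b = b at *
  have h10 : f.H y x = C.s ^ j * C.σ C.π := by rw [f.symm, h8, map_mul, map_pow, C.σs]
  have two := C.two
  have hσ := C.hσ
  have hs : C.s = C.π * C.σ C.π := rfl
  obtain ⟨c, a', ha', rfl⟩ := C.decS ha
  obtain ⟨c', b', hb', rfl⟩ := C.decS hb
  rcases eq_or_ne c 0 with rfl | hc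
  · rcases eq_or_ne c' 0 with rfl | hc'
    · refine blk_o (add_mem hx hy) hy (C.unit_s (C.σ C.π * b')) one_ne_zero (add_mem ha' hb') hb
        ?_ ?_ h9
      all_goals
        simp only [f.add_l, f.add_r, h6, h8, h9, h10, map_zero, map_one]
        clear * - two hσ hs
        generalize C.s ^ j = q at *
        generalize C.s = s at *
        generalize C.σ C.π = p' at *
        grind
    · refine blk_o hy hx (IsUnit.of_mul_eq_one_right _ C.u_mul) hc' hb' ha h9 ?_ h6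
      rw [h10]
      linear_combination -C.s ^ j * hσ - C.s ^ j * C.π * two
  · exact blk_o hx hy isUnit_one hc ha' hb h6 (by rw [h8, mul_one]) h9

theorem jordan [Finite V] (nd : f.ND W) :
    ∃ l, f.RL W l ∧ Nat.card W = Nat.card F ^ (2 * wl C.M l) := by
  have := C.fin
  induction h : Nat.card W using Nat.strong_induction_on generalizing W with
  | _ n ih =>
  subst h
  by_cases hW : ∀ z ∈ W, z = 0
  · exact ⟨[], trivial, Nat.card_eq_one_iff_unique.2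
      ⟨⟨fun a b => Subtype.ext ((hW _ a.2).trans (hW _ b.2).symm)⟩, ⟨0⟩⟩⟩
  push Not at hW
  obtain ⟨z, hz, hz0⟩ := hW
  obtain ⟨b, h0, h1, x, hx, y, hy, h2⟩ := exists_block nd hz hz0
  obtain ⟨x, hx, y, hy, h2⟩ := h2.norm hx hy
  have h3 : W.map (f.φ x y) ≤ C.R b := by
    rintro _ ⟨w, hw, rfl⟩
    cases b with
    | v j t => exact ⟨h1 w hw x hx, by rw [h2.2]; exact f.zero_r _⟩
    | e j => exact ⟨h1 w hw x hx, h1 w hw y hy⟩
    | o j t => exact ⟨h1 w hw x hx, h1 w hw y hy⟩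
  have h4 := card_eq (f.φ x y) W
  rw [le_antisymm h3 (h2.le_map hx hy), card_R h0] at h4
  have h5 : 1 < Nat.card F ^ (2 * b.wt C.M) :=
    Nat.one_lt_pow (by have := Bk.wt_pos h0; omega) Finite.one_lt_card
  obtain ⟨l, h6, h7⟩ := ih _ (h4 ▸ lt_mul_of_one_lt_right Nat.card_pos h5)
    (W := W ⊓ LinearMap.ker (f.φ x y)) (fun w hw H => nd w hw.1 fun u hu => by
      obtain ⟨a, c, u', hu', rfl⟩ := h2.dec hx hy h3 hu
      rw [f.add_r, f.add_r, f.smul_r, f.smul_r, (f.mem_ker.1 hw.2).1, (f.mem_ker.1 hw.2).2,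
        H u' hu']
      simp) rfl
  refine ⟨b :: l, ⟨h0, x, hx, y, hy, h2, h6⟩, ?_⟩
  rw [h4, h7, ← pow_add, wl, wl, List.map_cons, List.sum_cons, mul_add, add_comm]

end Frm

end Cfsg.Agent.UGL.Ev
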