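import Mathlib
import Cfsg.Agent.UGL.Ev3
import Cfsg.Agent.UGL.Ev4

/-!
Hermitian modules over the chain ring: canonical forms.
-/

set_option autoImplicit false

namespace Cfsg.Agent.UGL.Ev

variable {F A : Type*} [Field F] [CommRing A] [Algebra F A] {C : Ctx F A}

/-- canonical multisets of blocks -/
structure Can (M : ℕ) (s : Multiset Bk) : Prop where
  lt : ∀ b ∈ s, b.j < M
  v3 : ∀ j, s.count (.v j false) + s.count (.v j true) ≤ 2
  v2 : ∀ j, s.count (.v j true) ≤ 1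
  o2 : ∀ j, s.count (.o j true) ≤ 1
  vv : ∀ j, .v j true ∈ s → j + 1 ≠ M ∧ ∀ t, .v (j + 1) t ∉ s
  ov : ∀ j, .o j true ∈ s → j + 1 ≠ M ∧ (∀ t, .v j t ∉ s) ∧ ∀ t, .v (j + 1) t ∉ s

/-- the measure -/
def Bk.μ (M : ℕ) : Bk → ℕ
  | .v _ false => M + 1
  | .v j true => M + 2 + (M - j)
  | .e _ => 0
  | .o _ false => 0
  | .o _ true => M + 2

/-- total weight -/
def wm (M : ℕ) (s : Multiset Bk) : ℕ := (s.map (Bk.wt M)).sum

namespace Frm

variable {V : Type*} [AddCommGroup V] [Module A V] {f : Frm C V} {W : Submodule A V}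

theorem RL.lt {l : List Bk} (h : f.RL W l) : ∀ b ∈ l, b.j < C.M := by
  induction l generalizing W with
  | nil => simp
  | cons b l ih =>
    obtain ⟨h0, x, -, y, -, -, h2⟩ := h
    simpa [h0] using ih h2

theorem RL.can {l : List Bk} (h : f.RL W l) :
    ∃ l', f.RL W l' ∧ wl C.M l' = wl C.M l ∧ Can C.M l' := by
  classical
  have ex : ∃ k, ∃ l', f.RL W l' ∧ wl C.M l' = wl C.M l ∧ (l'.map (Bk.μ C.M)).sum = k :=
    ⟨_, l, h, rfl, rfl⟩
  obtain ⟨l', h1, h2, h3⟩ := Nat.find_spec ex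
  have no : ∀ l₀ : List Bk, (l₀ : Multiset Bk) ≤ l' → (∀ U, f.RL U l₀ → ∃ l₁, f.RL U l₁ ∧
      wl C.M l₁ = wl C.M l₀ ∧ (l₁.map (Bk.μ C.M)).sum < (l₀.map (Bk.μ C.M)).sum) → False := by
    intro l₀ h4 H
    obtain ⟨r, hr⟩ := Multiset.le_iff_exists_add.1 h4
    induction r using Quotient.inductionOn with | _ r
    have p : l'.Perm (l₀ ++ r) := Multiset.coe_eq_coe.1 hr
    obtain ⟨U, a1, a2, a3⟩ := rl_append.1 (h1.perm p)
    obtain ⟨l₁, b1, b2, b3⟩ := H U a2
    refine Nat.find_min ex (m := ((l₁ ++ r).map (Bk.μ C.M)).sum) ?_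
      ⟨_, rl_append.2 ⟨U, a1, b1, a3⟩, ?_, rfl⟩
    · rw [← h3, (p.map _).sum_eq]
      simpa using b3
    · rw [← h2, wl, wl, (p.map _).sum_eq]
      simpa [wl] using b2
  have two : ∀ a b, a ∈ (l' : Multiset Bk) → b ∈ (l' : Multiset Bk) → a ≠ b →
      (([a, b] : List Bk) : Multiset Bk) ≤ l' := fun a b ha hb hab =>
    (Multiset.le_iff_subset (by simpa using hab)).2 fun c hc => by
      rcases (by simpa using hc : c = a ∨ c = b) with rfl | rfl <;> assumption
  have one : ∀ a, a ∈ (l' : Multiset Bk) → (([a] : List Bk) : Multiset Bk) ≤ l' :=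
    fun a ha => Multiset.singleton_le.2 ha
  have lt : ∀ b ∈ (l' : Multiset Bk), b.j < C.M := h1.lt
  have v2 : ∀ j, (l' : Multiset Bk).count (.v j true) ≤ 1 := fun j => by
    by_contra hc
    refine no [.v j true, .v j true] (Multiset.le_count_iff_replicate_le.1 (not_le.1 hc))
      fun U hU => ⟨_, m1 hU, rfl, ?_⟩
    simp [Bk.μ]; omega
  refine ⟨l', h1, h2, lt, fun j => ?_, v2, fun j => ?_, fun j hj => ⟨fun hM => ?_, fun t ht => ?_⟩,
    fun j hj => ⟨fun hM => ?_, fun t ht => ?_, fun t ht => ?_⟩⟩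
  · by_contra hc
    obtain ⟨t, ht⟩ : ∃ t, (([.v j false, .v j false, .v j t] : List Bk) : Multiset Bk) ≤ l' := by
      have := v2 j
      rcases le_or_gt 3 ((l' : Multiset Bk).count (.v j false)) with h4 | h4
      · exact ⟨false, Multiset.le_count_iff_replicate_le.1 h4⟩
      · refine ⟨true, Multiset.le_iff_count.2 fun b => ?_⟩
        by_cases h5 : b = .v j false
        · subst h5
          refine le_trans (le_of_eq (by simp)) (show 2 ≤ _ by omega)
        by_cases h6 : b = .v j true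
        · subst h6
          refine le_trans (le_of_eq (by simp)) (show 1 ≤ _ by omega)
        · rw [Multiset.count_eq_zero.2 (by simp [h5, h6])]
          exact Nat.zero_le _
    refine no _ ht fun U hU => ?_
    obtain ⟨t', h4⟩ := m6 hU
    refine ⟨_, h4, by simp [wl, Bk.wt]; omega, ?_⟩
    cases t <;> cases t' <;> simp [Bk.μ] <;> omega
  · by_contra hc
    refine no [.o j true, .o j true] (Multiset.le_count_iff_replicate_le.1 (not_le.1 hc))
      fun U hU => ⟨_, m5 hU, rfl, ?_⟩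
    simp [Bk.μ]
  · refine no _ (one _ hj) fun U hU => ⟨_, m7 hM hU, rfl, ?_⟩
    simp [Bk.μ]; omega
  · have : j + 1 < C.M := lt _ ht
    refine no _ (two _ _ hj ht (by simp)) fun U hU => ⟨_, m2 hU, rfl, ?_⟩
    cases t <;> simp [Bk.μ] <;> omega
  · refine no _ (one _ hj) fun U hU => ⟨_, m8 hM hU, rfl, ?_⟩
    simp [Bk.μ]
  · refine no _ (two _ _ ht hj (by simp)) fun U hU => ⟨_, m3 hU, rfl, ?_⟩
    cases t <;> simp [Bk.μ] <;> omega
  · refine no _ (two _ _ ht hj (by simp)) fun U hU => ⟨_, m4 hU, rfl, ?_⟩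
    cases t <;> simp [Bk.μ] <;> omega

end Frm

/-- local data -/
abbrev D : Type := ℕ × ℕ × ℕ × ℕ × ℕ

/-- admissible local states -/
def LS : Finset (ℕ × ℕ × ℕ) := {(0, 0, 0), (1, 0, 0), (0, 1, 0), (0, 0, 1), (0, 2, 0), (0, 1, 1)}

/-- lists of local data -/
def LL (n : ℕ) : ℕ → Finset (List D)
  | 0 => {[]}
  | K + 1 => ((Finset.range (n + 1) ×ˢ Finset.range (n + 1) ×ˢ LS) ×ˢ LL n K).image
      fun p => p.1 :: p.2

/-- is there a block of rank one -/
def hv : List D → Bool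
  | [] => true
  | d :: _ => d.2.2.2.1 + d.2.2.2.2 ≠ 0

theorem hv_cons (d : D) (T : List D) : hv (d :: T) = decide (d.2.2.2.1 + d.2.2.2.2 ≠ 0) := rfl

/-- local weight -/
noncomputable def ρ (X : ℝ) (β : Bool) (l : ℕ × ℕ × ℕ) : ℝ :=
  if β = true ∧ l.1 + l.2.2 ≠ 0 then 0 else (2 * X ^ 2) ^ l.1 * X ^ (l.2.1 + l.2.2)

/-- weight of a list -/
noncomputable def g : ℕ → List D → ℝ
  | K + 1, d :: T => (((1 / 2) ^ (K + 1)) ^ 2) ^ d.1 * (2 * ((1 / 2) ^ (K + 1)) ^ 2) ^ d.2.1 *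
      ρ ((1 / 2) ^ (K + 1)) (hv T) d.2.2 * g K T
  | _, _ => 1

theorem ρ_nonneg {X : ℝ} (h : 0 ≤ X) (β : Bool) (l : ℕ × ℕ × ℕ) : 0 ≤ ρ X β l := by
  unfold ρ; split_ifs <;> positivity

theorem g_nonneg (K : ℕ) (T : List D) : 0 ≤ g K T := by
  induction K generalizing T with
  | zero => simp [g]
  | succ K ih =>
    cases T with
    | nil => simp [g]
    | cons d T => exact mul_nonneg (mul_nonneg (by positivity) (ρ_nonneg (by positivity) _ _)) (ih T)

/-- partial sums -/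
noncomputable def Z (n K : ℕ) (β : Bool) : ℝ := ∑ T ∈ LL n K, if hv T = β then g K T else 0

theorem Z_nonneg (n K : ℕ) (β : Bool) : 0 ≤ Z n K β :=
  Finset.sum_nonneg fun T _ => by split_ifs; exacts [g_nonneg _ _, le_rfl]

theorem geo {a : ℝ} (h0 : 0 ≤ a) (h1 : a < 1) (n : ℕ) : ∑ i ∈ Finset.range n, a ^ i ≤ (1 - a)⁻¹ :=
  tsum_geometric_of_lt_one h0 h1 ▸
    (summable_geometric_of_lt_one h0 h1).sum_le_tsum _ fun _ _ => by positivity

theorem Z_succ (n K : ℕ) (β : Bool) {X : ℝ} (hX : X = (1 / 2) ^ (K + 1)) :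
    Z n (K + 1) β ≤ (1 - X ^ 2)⁻¹ * (1 - 2 * X ^ 2)⁻¹ * ∑ l ∈ LS,
      if decide (l.2.1 + l.2.2 ≠ 0) = β then
        ρ X true l * Z n K true + ρ X false l * Z n K false else 0 := by
  have h0 : 0 < X := by rw [hX]; positivity
  have h1 : X ≤ 1 / 2 := by
    rw [hX, pow_succ]
    exact mul_le_of_le_one_left (by norm_num) (pow_le_one₀ (by norm_num) (by norm_num))
  have h2 : Z n (K + 1) β = (∑ i ∈ Finset.range (n + 1), (X ^ 2) ^ i) *
      (∑ i ∈ Finset.range (n + 1), (2 * X ^ 2) ^ i) * ∑ l ∈ LS,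
      if decide (l.2.1 + l.2.2 ≠ 0) = β then
        ρ X true l * Z n K true + ρ X false l * Z n K false else 0 := by
    rw [Z, LL, Finset.sum_image fun a _ b _ h => Prod.ext (List.cons.inj h).1 (List.cons.inj h).2,
      Finset.sum_product, Finset.sum_product, Finset.sum_mul, Finset.sum_mul]
    refine Finset.sum_congr rfl fun i _ => ?_
    rw [Finset.sum_product, Finset.mul_sum (Finset.range (n + 1)), Finset.sum_mul]
    refine Finset.sum_congr rfl fun j _ => ?_
    rw [Finset.mul_sum]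
    refine Finset.sum_congr rfl fun l _ => ?_
    simp only [hv_cons, g, ← hX]
    split_ifs with h
    · simp only [Z, Finset.mul_sum, ← Finset.sum_add_distrib]
      refine Finset.sum_congr rfl fun T _ => ?_
      cases hv T <;> simp <;> ring
    · simp
  rw [h2]
  refine mul_le_mul_of_nonneg_right (mul_le_mul (geo (by positivity) (by nlinarith) _)
    (geo (by positivity) (by nlinarith) _) (by positivity) (inv_nonneg.2 (by nlinarith)))
    (Finset.sum_nonneg fun l _ => ?_)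
  split_ifs
  · exact add_nonneg (mul_nonneg (ρ_nonneg h0.le _ _) (Z_nonneg _ _ _))
      (mul_nonneg (ρ_nonneg h0.le _ _) (Z_nonneg _ _ _))
  · exact le_rfl

theorem Z_f (n K : ℕ) {X : ℝ} (hX : X = (1 / 2) ^ (K + 1)) :
    Z n (K + 1) false ≤ (1 - X ^ 2)⁻¹ * (1 - 2 * X ^ 2)⁻¹ *
      ((1 + 2 * X ^ 2) * Z n K false + Z n K true) := by
  refine (Z_succ n K false hX).trans (le_of_eq ?_)
  simp [LS, ρ]
  exact Or.inl (by ring)

theorem Z_t (n K : ℕ) {X : ℝ} (hX : X = (1 / 2) ^ (K + 1)) :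
    Z n (K + 1) true ≤ (1 - X ^ 2)⁻¹ * (1 - 2 * X ^ 2)⁻¹ *
      ((X + X ^ 2) * (2 * Z n K false + Z n K true)) := by
  refine (Z_succ n K true hX).trans (le_of_eq ?_)
  simp [LS, ρ]
  exact Or.inl (by ring)

theorem Z_seven (n : ℕ) : Z n 7 false + Z n 7 true ≤ 14.95 := by
  have a0 : Z n 0 false = 0 := by simp [Z, LL, hv]
  have b0 : Z n 0 true = 1 := by rw [Z, LL, Finset.sum_singleton]; simp [hv, g]
  have a1 := Z_f n 0 rfl
  have b1 := Z_t n 0 rfl
  have a2 := Z_f n 1 rfl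
  have b2 := Z_t n 1 rfl
  have a3 := Z_f n 2 rfl
  have b3 := Z_t n 2 rfl
  have a4 := Z_f n 3 rfl
  have b4 := Z_t n 3 rfl
  have a5 := Z_f n 4 rfl
  have b5 := Z_t n 4 rfl
  have a6 := Z_f n 5 rfl
  have b6 := Z_t n 5 rfl
  have a7 := Z_f n 6 rfl
  have b7 := Z_t n 6 rfl
  norm_num at *
  linarith

theorem Z_le (n K : ℕ) (hK : 7 ≤ K) :
    Z n K false + Z n K true ≤ 15.2 * (1 - 2.1 * (1 / 2) ^ K) := by
  induction K, hK using Nat.le_induction with
  | base => exact (Z_seven n).trans (by norm_num)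
  | succ K hK ih =>
    have a := Z_f n K rfl
    have b := Z_t n K rfl
    have h1 : (1 / 2 : ℝ) ^ K = 2 * (1 / 2) ^ (K + 1) := by ring
    have h2 : (1 / 2 : ℝ) ^ (K + 1) ≤ (1 / 2) ^ 8 :=
      pow_le_pow_of_le_one (by norm_num) (by norm_num) (by omega)
    have h3 : (0 : ℝ) < (1 / 2) ^ (K + 1) := by positivity
    rw [h1] at ih
    generalize (1 / 2 : ℝ) ^ (K + 1) = X at *
    have h4 := Z_nonneg n K false
    have h5 := Z_nonneg n K true
    norm_num at h2
    have h6 : 0 < (1 - X ^ 2) * (1 - 2 * X ^ 2) := mul_pos (by nlinarith) (by nlinarith)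
    rw [← mul_inv] at a b
    have h7 : ((1 - X ^ 2) * (1 - 2 * X ^ 2))⁻¹ * (1 + 2 * X + 4 * X ^ 2) ≤ 1 + 2.1 * X := by
      rw [inv_mul_le_iff₀ h6]
      have : X ^ 2 ≤ X / 256 := by nlinarith
      have : X ^ 3 ≤ X / 256 := by nlinarith
      have : 0 ≤ X ^ 4 := by positivity
      have : 0 ≤ X ^ 5 := by positivity
      nlinarith
    have h8 := inv_pos.2 h6
    generalize ((1 - X ^ 2) * (1 - 2 * X ^ 2))⁻¹ = P at *
    have h9 : Z n (K + 1) false + Z n (K + 1) true ≤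
        P * (1 + 2 * X + 4 * X ^ 2) * (Z n K false + Z n K true) := by
      have : 0 ≤ P * (X + 3 * X ^ 2) * Z n K true := by positivity
      nlinarith
    have h10 := mul_le_mul h7 ih (by positivity) (by positivity)
    nlinarith

theorem sum_g_le (n K : ℕ) (hK : 7 ≤ K) : ∑ T ∈ LL n K, g K T ≤ 15.2 := by
  have h := Z_le n K hK
  rw [Z, Z, ← Finset.sum_add_distrib] at h
  refine le_trans (le_of_eq (Finset.sum_congr rfl fun T _ => ?_)) (h.trans ?_)
  · cases hv T <;> simp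
  · have : (0 : ℝ) < (1 / 2) ^ K := by positivity
    linarith

/-- the local data of a multiset of blocks -/
def dat (s : Multiset Bk) (j : ℕ) : D :=
  (s.count (.e j), s.count (.o j false), s.count (.o j true), s.count (.v j false),
    s.count (.v j true))

/-- the code of a multiset of blocks -/
def enc (M : ℕ) (s : Multiset Bk) : ℕ → List D
  | 0 => []
  | K + 1 => dat s (M - (K + 1)) :: enc M s K

/-- local weight -/
def wd (k : ℕ) (d : D) : ℕ :=
  2 * k * d.1 + (2 * k - 1) * (d.2.1 + d.2.2.1) + k * (d.2.2.2.1 + d.2.2.2.2)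

theorem wm_eq {M : ℕ} {s : Multiset Bk} (h : ∀ b ∈ s, b.j < M) :
    wm M s = ∑ k ∈ Finset.range M, wd (k + 1) (dat s (M - (k + 1))) := by
  induction s using Multiset.induction_on with
  | empty => simp [wm, wd, dat]
  | cons b s ih =>
    have h1 : b.j < M := h b (Multiset.mem_cons_self _ _)
    have h2 : ∀ k ∈ Finset.range M, wd (k + 1) (dat (b ::ₘ s) (M - (k + 1))) =
        (if M - b.j - 1 = k then b.wt M else 0) + wd (k + 1) (dat s (M - (k + 1))) := by
      intro k hk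
      rw [Finset.mem_range] at hk
      split_ifs with h3
      · have h4 : M - (k + 1) = b.j := by omega
        have h5 : M - b.j = k + 1 := by omega
        rw [h4]
        rcases b with ⟨j, _ | _⟩ | j | ⟨j, _ | _⟩ <;> simp only [Bk.j] at h5 <;>
          simp [wd, dat, Bk.wt, Bk.j, h5] <;> ring
      · have h4 : M - (k + 1) ≠ b.j := by omega
        rcases b with ⟨j, _ | _⟩ | j | ⟨j, _ | _⟩ <;> simp only [Bk.j] at h4 <;>
          simp [wd, dat, h4]
    rw [Finset.sum_congr rfl h2, Finset.sum_add_distrib, Finset.sum_ite_eq,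
      if_pos (Finset.mem_range.2 (by omega)), ← ih fun b hb => h b (Multiset.mem_cons_of_mem hb)]
    simp [wm]

theorem count_le_wm {M : ℕ} {s : Multiset Bk} (h : ∀ b ∈ s, b.j < M) (b : Bk) :
    s.count b ≤ wm M s := by
  refine (Multiset.count_le_card b s).trans ?_
  have := Multiset.card_nsmul_le_sum (s := s.map (Bk.wt M)) (a := 1) fun x hx => by
    obtain ⟨b, hb, rfl⟩ := Multiset.mem_map.1 hx
    exact Bk.wt_pos (h b hb)
  simpa [wm] using this

theorem Can.mem_LL {M n : ℕ} {s : Multiset Bk} (h : Can M s) (hn : wm M s ≤ n) (K : ℕ) :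
    enc M s K ∈ LL n K := by
  induction K with
  | zero => simp [enc, LL]
  | succ K ih =>
    refine Finset.mem_image.2 ⟨(_, _), ?_, rfl⟩
    simp only [Finset.mem_product, Finset.mem_range, dat]
    refine ⟨⟨Nat.lt_succ_of_le ((count_le_wm h.lt _).trans hn),
      Nat.lt_succ_of_le ((count_le_wm h.lt _).trans hn), ?_⟩, ih⟩
    generalize M - (K + 1) = j
    have h1 := h.v3 j
    have h2 := h.v2 j
    have h3 := h.o2 j
    have h4 : s.count (.o j true) ≠ 0 → s.count (.v j false) = 0 ∧ s.count (.v j true) = 0 :=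
      fun h4 => ⟨Multiset.count_eq_zero.2 ((h.ov j (Multiset.count_ne_zero.1 h4)).2.1 _),
        Multiset.count_eq_zero.2 ((h.ov j (Multiset.count_ne_zero.1 h4)).2.1 _)⟩
    simp only [LS, Finset.mem_insert, Finset.mem_singleton, Prod.mk.injEq]
    omega

theorem Can.g_enc {M : ℕ} {s : Multiset Bk} (h : Can M s) {K : ℕ} (hK : K ≤ M) :
    g K (enc M s K) = (1 / 2) ^ ∑ k ∈ Finset.range K, wd (k + 1) (dat s (M - (k + 1))) := by
  induction K with
  | zero => simp [g]
  | succ K ih =>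
    rw [enc, g, ih (by omega), Finset.sum_range_succ, pow_add _ (∑ _ ∈ _, _), mul_comm]
    congr 1
    have h1 : ¬ (hv (enc M s K) = true ∧
        (dat s (M - (K + 1))).2.2.1 + (dat s (M - (K + 1))).2.2.2.2 ≠ 0) := by
      rintro ⟨h1, h2⟩
      have h3 : M - (K + 1) + 1 ≠ M ∧ ∀ t, .v (M - (K + 1) + 1) t ∉ s := by
        by_cases h3 : .v (M - (K + 1)) true ∈ s
        · exact h.vv _ h3
        · have := h.ov _ (Multiset.count_ne_zero.1 (by
            simpa [dat, Multiset.count_eq_zero.2 h3] using h2))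
          exact ⟨this.1, this.2.2⟩
      rcases K with _ | K
      · omega
      · rw [show M - (K + 1 + 1) + 1 = M - (K + 1) by omega] at h3
        simp [enc, hv, dat, h3.2] at h1
    have h2 : (2 * ((1 / 2 : ℝ) ^ (K + 1)) ^ 2) = (1 / 2) ^ (2 * (K + 1) - 1) := by
      rw [show 2 * (K + 1) - 1 = 2 * K + 1 by omega]; ring
    rw [ρ, if_neg h1, h2, wd]
    simp only [← pow_mul, ← pow_add]
    congr 1
    ring

theorem enc_inj {M : ℕ} {s s' : Multiset Bk} (h : ∀ b ∈ s, b.j < M) (h' : ∀ b ∈ s', b.j < M)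
    (H : enc M s M = enc M s' M) : s = s' := by
  have h1 : ∀ K, enc M s K = enc M s' K → ∀ k < K, dat s (M - (k + 1)) = dat s' (M - (k + 1)) := by
    intro K
    induction K with
    | zero => simp
    | succ K ih =>
      intro H k hk
      rcases Nat.lt_succ_iff_lt_or_eq.1 hk with hk | rfl
      · exact ih (List.cons.inj H).2 k hk
      · exact (List.cons.inj H).1
  ext b
  by_cases hb : b.j < M
  · have := h1 M H (M - b.j - 1) (by omega)
    rw [show M - (M - b.j - 1 + 1) = b.j by omega] at this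
    simp only [dat, Prod.mk.injEq] at this
    rcases b with ⟨j, _ | _⟩ | j | ⟨j, _ | _⟩ <;> simp only [Bk.j] at this <;> tauto
  · rw [Multiset.count_eq_zero.2 fun h2 => hb (h b h2),
      Multiset.count_eq_zero.2 fun h2 => hb (h' b h2)]

theorem sum_can_le {M n : ℕ} (hM : 7 ≤ M) (X : Finset (Multiset Bk))
    (h : ∀ s ∈ X, Can M s ∧ wm M s ≤ n) : ∑ s ∈ X, (1 / 2 : ℝ) ^ wm M s ≤ 15.2 := by
  refine le_trans ?_ (sum_g_le n M hM)
  rw [Finset.sum_congr rfl fun s hs => show (1 / 2 : ℝ) ^ wm M s = g M (enc M s M) by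
    rw [(h s hs).1.g_enc le_rfl, wm_eq (h s hs).1.lt],
    ← Finset.sum_image (g := fun s => enc M s M) (f := g M)
      fun a ha b hb H => enc_inj (h a ha).1.lt (h b hb).1.lt H]
  refine Finset.sum_le_sum_of_subset_of_nonneg (fun T hT => ?_) fun _ _ _ => g_nonneg _ _
  obtain ⟨s, hs, rfl⟩ := Finset.mem_image.1 hT
  exact (h s hs).1.mem_LL (h s hs).2 M

end Cfsg.Agent.UGL.Ev
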