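import Mathlib
import Cfsg.Agent.UGL.Ev5
import Cfsg.Agent.UGL.ClK
import Cfsg.Agent.UGL.ClSp

/-!
Conjugacy classes of symplectic groups in characteristic two.
-/

set_option autoImplicit false
set_option backward.isDefEq.respectTransparency false

namespace Cfsg.Agent.UGL.Ev

open Polynomial Module Cfsg.Agent.Conj Cfsg.Agent.UGL.Cl Cfsg.Agent.Classical.SpWitt
open scoped _root_.Classical

theorem add_one_pow {R : Type*} [CommRing R] (h : (2 : R) = 0) (a : R) (k : ℕ) :
    (a + 1) ^ 2 ^ k = a ^ 2 ^ k + 1 := by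
  induction k with
  | zero => simp
  | succ k ih => rw [pow_succ, pow_mul, pow_mul, ih]; linear_combination a ^ 2 ^ k * h

theorem shift_sum {R : Type*} [AddCommGroup R] (a : ℕ → R) {N : ℕ} (h : a N = a 0) :
    ∑ k ∈ Finset.range N, a (k + 1) = ∑ k ∈ Finset.range N, a k := by
  have := Finset.sum_range_succ' a N
  rw [Finset.sum_range_succ, h] at this
  exact (add_right_cancel this).symm

theorem refl_sum {R : Type*} [AddCommGroup R] (a : ℕ → R) {N : ℕ} (h : a N = a 0) :
    ∑ k ∈ Finset.range N, a k = ∑ k ∈ Finset.range N, a (N - k) := by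
  rw [← shift_sum a h, ← Finset.sum_range_reflect]
  refine Finset.sum_congr rfl fun k hk => ?_
  rw [Finset.mem_range] at hk
  congr 1
  omega

universe u

variable {F : Type u} [Field F] {A : Type*} [CommRing A] [Algebra F A]

theorem Ctx.gen (C : Ctx F A) (T : Subalgebra F A) (h : C.π ∈ T) (a : A) : a ∈ T := by
  have h2 : ∀ i, ∃ b ∈ T, ∃ a', a = b + C.π ^ i * a' := fun i => by
    induction i with
    | zero => exact ⟨0, zero_mem _, a, by simp⟩
    | succ i ih =>
      obtain ⟨b, hb, a', h1⟩ := ih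
      obtain ⟨d, a'', rfl⟩ := C.dec a'
      exact ⟨_, add_mem hb (mul_mem (pow_mem h i) (T.algebraMap_mem d)), a'', by rw [h1]; ring⟩
  obtain ⟨b, hb, a', h1⟩ := h2 (2 * C.M)
  rwa [h1, C.nil, zero_mul, add_zero]

variable {V V' : Type*} [AddCommGroup V] [Module F V] [AddCommGroup V'] [Module F V']
  {B : LinearMap.BilinForm F V} {B' : LinearMap.BilinForm F V'} {g : End F V} {g' : End F V'}
  {ε : F}

theorem iso_pow (hg : ∀ x y, B (g x) (g y) = B x y) (k : ℕ) (x y : V) :
    B ((g ^ k) x) ((g ^ k) y) = B x y := by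
  induction k with
  | zero => rfl
  | succ k ih => rw [pow_succ', End.mul_apply, End.mul_apply, hg, ih]

theorem exists_frm (C : Ctx F A) [Module A V] (hs : ∀ x y, B x y = B y x) (ha : ∀ x, B x x = 0)
    (hg : ∀ x y, B (g x) (g y) = B x y) (h1 : g ^ C.M = 1) (hN : (1 + C.π) ^ (2 * C.M) = 1)
    (hu : ∀ v : V, (1 + C.π) • v = g v) (hc : ∀ (c : F) (v : V), algebraMap F A c • v = c • v) :
    ∃ f : Frm C V, ∀ x y,
      f.H x y = ∑ k ∈ Finset.range (2 * C.M), B x ((g ^ k) y) • (1 + C.π) ^ k := by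
  have h2 : g ^ (2 * C.M) = 1 := by rw [mul_comm, pow_mul, h1, one_pow]
  have h3 : ∀ k ≤ 2 * C.M, ∀ x y, B x ((g ^ (2 * C.M - k)) y) = B y ((g ^ k) x) := by
    intro k hk x y
    rw [← iso_pow hg k, ← End.mul_apply, ← pow_add, Nat.add_sub_cancel' hk, h2, hs]
    rfl
  have h4 : ∀ k ≤ 2 * C.M, C.σ ((1 + C.π) ^ k) = (1 + C.π) ^ (2 * C.M - k) := by
    intro k hk
    have a1 : (1 + C.π) ^ k * C.σ ((1 + C.π) ^ k) = 1 := by
      rw [map_pow, map_add, map_one, ← mul_pow, C.u_mul, one_pow]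
    have a2 : (1 + C.π) ^ (2 * C.M - k) * (1 + C.π) ^ k = 1 := by
      rw [← pow_add, Nat.sub_add_cancel hk, hN]
    linear_combination (1 + C.π) ^ (2 * C.M - k) * a1 - C.σ ((1 + C.π) ^ k) * a2
  let H : V → V → A := fun x y => ∑ k ∈ Finset.range (2 * C.M), B x ((g ^ k) y) • (1 + C.π) ^ k
  have add : ∀ x y z, H (x + y) z = H x z + H y z := fun x y z => by
    simp only [H, map_add, LinearMap.add_apply, add_smul, Finset.sum_add_distrib]
  let T : Subalgebra F A :=
    { carrier := {a | ∀ x y, H (a • x) y = a * H x y}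
      mul_mem' := fun {a b} ha hb x y => by rw [mul_smul, ha, hb, mul_assoc]
      add_mem' := fun {a b} ha hb x y => by rw [add_smul, add, ha, hb, add_mul]
      algebraMap_mem' := fun c x y => by
        simp only [H, hc, map_smul, LinearMap.smul_apply, smul_eq_mul, mul_smul, Finset.mul_sum,
          Algebra.smul_def, map_mul, mul_assoc] }
  have h5 : 1 + C.π ∈ T := fun x y => by
    simp only [H, hu, Finset.mul_sum]
    rw [← shift_sum (fun k => B (g x) ((g ^ k) y) • (1 + C.π) ^ k) (by simp [h2, hN])]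
    refine Finset.sum_congr rfl fun k _ => ?_
    rw [pow_succ', End.mul_apply, hg, pow_succ', mul_smul_comm]
  refine ⟨⟨H, add, fun a => C.gen T (by simpa using sub_mem h5 (one_mem T)) a, fun x y => ?_,
    fun x => ?_⟩, fun _ _ => rfl⟩
  · simp only [H, map_sum, map_smul]
    rw [refl_sum (fun k => B y ((g ^ k) x) • (1 + C.π) ^ k) (by simp [h2, hN])]
    refine Finset.sum_congr rfl fun k hk => ?_
    have := (Finset.mem_range.1 hk).le
    rw [h3 k this, h4 k this]
  · convert C.tr_mem (∑ k ∈ Finset.range C.M, B x ((g ^ k) x) • (1 + C.π) ^ k) using 1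
    simp only [H, map_sum, map_smul]
    rw [two_mul, Finset.sum_range_add, refl_sum (fun k => B x ((g ^ (C.M + k)) x) •
      (1 + C.π) ^ (C.M + k)) (by simp [h1, ha, pow_add])]
    congr 1
    refine Finset.sum_congr rfl fun k hk => ?_
    have := Finset.mem_range.1 hk
    rw [show C.M + (C.M - k) = 2 * C.M - k by omega, h3 k (by omega), h4 k (by omega)]

/-- a unipotent isometry realises a multiset of blocks -/
def UR (C : Ctx F A) (lam : A → F) (B : LinearMap.BilinForm F V) (g : End F V)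
    (s : Multiset Bk) : Prop :=
  ∃ (_ : Module A V) (f : Frm C V) (l : List Bk), (l : Multiset Bk) = s ∧ Finite V ∧
    (∀ v : V, (1 + C.π) • v = g v) ∧ (∀ (c : F) (v : V), algebraMap F A c • v = c • v) ∧
    (∀ x y, lam (f.H x y) = B x y) ∧ f.ND ⊤ ∧ f.RL ⊤ l ∧ Nat.card V = Nat.card F ^ (2 * wm C.M s)

theorem UR.tri {C : Ctx F A} {lam : A → F} {s : Multiset Bk} (h : UR C lam B g s)
    (h' : UR C lam B' g' s) : Tri B g B' g' := by
  obtain ⟨_, f, l, rfl, _, a1, a2, a3, a4, a5, a6⟩ := h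
  obtain ⟨_, f', l', hl, _, b1, b2, b3, b4, b5, b6⟩ := h'
  obtain ⟨e, he⟩ := Frm.exists_equiv a5 (b5.perm (Multiset.coe_eq_coe.1 hl)) a6 b6 a4 b4
  refine ⟨{ e.toAddEquiv with map_smul' := fun c v => ?_ }, fun v => ?_, fun x y => ?_⟩
  · change e (c • v) = c • e v
    rw [← a2, map_smul, b2]
  · change e (g v) = g' (e v)
    rw [← a1, map_smul, b1]
  · change B' (e x) (e y) = _
    rw [← a3, ← b3, he]

theorem exists_α [Finite F] (h2 : (2 : F) = 0) :
    ∃ α : F, ∀ c : F, (∃ w : F, w * w + w = c) ∨ ∃ w : F, w * w + w = c + α := by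
  let φ : F →+ F := AddMonoidHom.mk' (fun w => w * w + w) fun a b => by
    linear_combination a * b * h2
  have h1 : φ.range.index ≤ 2 := by
    rw [AddSubgroup.index_range, ← show Nat.card Bool = 2 by simp]
    refine Nat.card_le_card_of_injective (fun w => decide (w.1 = 0)) fun a b h => Subtype.ext ?_
    have key : ∀ w : φ.ker, w.1 = 0 ∨ w.1 = -1 := fun w => by
      have : w.1 * (w.1 + 1) = 0 := by rw [mul_add, mul_one]; exact w.2
      simpa [add_eq_zero_iff_eq_neg] using this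
    rcases key a with ha | ha <;> rcases key b with hb | hb <;> simp_all
  have h3 := φ.range.index_ne_zero_of_finite
  rcases (by omega : φ.range.index = 1 ∨ φ.range.index = 2) with h | h
  · exact ⟨0, fun c => Or.inl (AddSubgroup.index_eq_one.1 h ▸ AddSubgroup.mem_top c : c ∈ φ.range)⟩
  · obtain ⟨a, ha⟩ := AddSubgroup.index_eq_two_iff.1 h
    exact ⟨a, fun c => (ha c).or.symm⟩

variable (F) in
/-- the modulus -/
noncomputable def PP (m : ℕ) : F[X] := X ^ (2 * 2 ^ m) - 1

theorem monic_P (m : ℕ) : (PP F m).Monic := by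
  simpa [PP] using monic_X_pow_sub_C (1 : F) (n := 2 * 2 ^ m) (by positivity)

theorem natDegree_P (m : ℕ) : (PP F m).natDegree = 2 * 2 ^ m := by
  simpa [PP] using natDegree_X_pow_sub_C (R := F) (n := 2 * 2 ^ m) (r := 1)

variable (F) in
/-- the group algebra of a cyclic group -/
abbrev AA (m : ℕ) : Type u := AdjoinRoot (PP F m)

theorem root_pow (m : ℕ) : (AdjoinRoot.root _ : AA F m) ^ (2 * 2 ^ m) = 1 := by
  have : AdjoinRoot.mk (PP F m) (X ^ (2 * 2 ^ m) - 1) = 0 := AdjoinRoot.mk_self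
  rwa [map_sub, map_pow, AdjoinRoot.mk_X, map_one, sub_eq_zero] at this

theorem exists_ctx [Finite F] (h2 : (2 : F) = 0) (m : ℕ) : ∃ C : Ctx F (AA F m), C.M = 2 ^ m ∧
    1 + C.π = AdjoinRoot.root _ := by
  obtain ⟨α, hα⟩ := exists_α h2
  have two : (2 : AA F m) = 0 := by rw [← map_ofNat (algebraMap F (AA F m)), h2, map_zero]
  have h1 := root_pow (F := F) m
  obtain ⟨N, hN⟩ : ∃ N, 2 * 2 ^ m = N + 1 := Nat.exists_eq_succ_of_ne_zero (by positivity)
  let σ : AA F m →ₐ[F] AA F m := AdjoinRoot.liftAlgHom _ (Algebra.ofId F _)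
    (AdjoinRoot.root _ ^ N) (by
      change eval₂ _ _ (X ^ (2 * 2 ^ m) - 1) = 0
      rw [eval₂_sub, eval₂_X_pow, eval₂_one, ← pow_mul, mul_comm, pow_mul, h1, one_pow, sub_self])
  have h3 : σ (AdjoinRoot.root _) = AdjoinRoot.root _ ^ N := AdjoinRoot.liftAlgHom_root _ _ _ _
  have h4 : AdjoinRoot.root _ * σ (AdjoinRoot.root _) = 1 := by rw [h3, ← pow_succ', ← hN, h1]
  refine ⟨⟨σ, AdjoinRoot.root _ + 1, 2 ^ m, α, two, fun a => ?_, ?_, ?_, fun a => ?_, ?_,
    inferInstance, fun c => ?_, hα⟩, rfl, ?_⟩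
  · refine AlgHom.congr_fun (AdjoinRoot.algHom_ext (g₁ := σ.comp σ) (g₂ := AlgHom.id F _) ?_) a
    have h5 := congrArg σ h4
    rw [map_mul, map_one] at h5
    change σ (σ _) = AdjoinRoot.root _
    linear_combination AdjoinRoot.root _ * h5 - σ (σ (AdjoinRoot.root _)) * h4
  · rw [map_add, map_one]
    linear_combination h4
  · rw [← pow_succ', add_one_pow two, pow_succ', h1]
    linear_combination two
  · induction a using AdjoinRoot.induction_on with | _ p
    refine ⟨p.eval (-1), AdjoinRoot.mk _ (p /ₘ (X - C (-1))), ?_⟩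
    conv_lhs => rw [← modByMonic_add_div p (X - C (-1)), modByMonic_X_sub_C_eq_C_eval]
    simp
  · have := (monic_P (F := F) m).finite_adjoinRoot
    rw [Module.natCard_eq_pow_finrank (K := F), (AdjoinRoot.powerBasis' (monic_P m)).finrank,
      AdjoinRoot.powerBasis'_dim, natDegree_P]
  · refine Finite.injective_iff_surjective.1 (show Function.Injective fun d : F => d * d from
      fun a b h => ?_) c
    have : (a - b) ^ 2 = 0 := by linear_combination h + (b * b - a * b) * h2
    exact sub_eq_zero.1 (pow_eq_zero_iff two_ne_zero |>.1 this)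
  · linear_combination two

theorem exists_lam (m : ℕ) : ∃ lam : AA F m →ₗ[F] F, ∀ k < 2 * 2 ^ m,
    lam (AdjoinRoot.root _ ^ k) = if k = 0 then 1 else 0 := by
  let b := AdjoinRoot.powerBasis' (monic_P (F := F) m)
  have hb : b.dim = 2 * 2 ^ m := natDegree_P m
  refine ⟨b.basis.coord ⟨0, by rw [hb]; positivity⟩, fun k hk => ?_⟩
  have := b.basis_eq_pow ⟨k, hk.trans_eq hb.symm⟩
  change _ = AdjoinRoot.root _ ^ k at this
  rw [← this, Basis.coord_apply, Basis.repr_self, Finsupp.single_apply]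
  simp [Fin.ext_iff]

theorem exists_UR [Finite F] [FiniteDimensional F V] (h2 : (2 : F) = 0) {m : ℕ}
    {C : Ctx F (AA F m)} (hM : C.M = 2 ^ m) (hπ : 1 + C.π = AdjoinRoot.root _)
    {lam : AA F m →ₗ[F] F} (hl : ∀ k < 2 * 2 ^ m,
      lam (AdjoinRoot.root _ ^ k) = if k = 0 then 1 else 0) (hB : EF B (-1)) (ha : ∀ x, B x x = 0)
    (hg : ∀ x y, B (g x) (g y) = B x y) (hn : IsNilpotent (g - 1)) (hV : finrank F V ≤ 2 ^ m) :
    ∃ s, UR C lam B g s ∧ Can C.M s ∧ 2 * wm C.M s = finrank F V := by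
  have : Finite V := Module.finite_of_finite F
  have h1 : g ^ 2 ^ m = 1 := by
    have a1 := pow_eq_zero_of_le hV (pow_finrank_eq_zero hn)
    have a2 : (2 : F[X]) = 0 := by rw [← map_ofNat Polynomial.C, h2, map_zero]
    have a3 := add_one_pow a2 X m
    rw [show ∀ p : F[X], p + 1 = p - 1 from fun p => by linear_combination a2,
      show ∀ p : F[X], p + 1 = p - 1 from fun p => by linear_combination a2] at a3
    have a4 := congrArg (aeval g) a3
    rw [map_pow, map_sub, map_sub, map_pow, aeval_X, map_one, a1] at a4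
    exact sub_eq_zero.1 a4.symm
  let φ : AA F m →+* End F V := Ideal.Quotient.lift _ (aeval g : F[X] →ₐ[F] End F V).toRingHom
    fun a ha => by
      obtain ⟨b, rfl⟩ := Ideal.mem_span_singleton.1 ha
      simp [PP, mul_comm 2, pow_mul, h1]
  have hφ : ∀ p, φ (AdjoinRoot.mk _ p) = aeval g p := fun _ => rfl
  let _ : Module (AA F m) V := Module.compHom V φ
  have hu : ∀ v : V, (1 + C.π) • v = g v := fun v => by
    rw [hπ]
    change φ (AdjoinRoot.mk _ X) v = _
    rw [hφ, aeval_X]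
  have hc : ∀ (c : F) (v : V), algebraMap F (AA F m) c • v = c • v := fun c v => by
    change φ (AdjoinRoot.mk _ (Polynomial.C c)) v = _
    rw [hφ, aeval_C]
    rfl
  obtain ⟨f, hf⟩ := exists_frm C (fun x y => by
    rw [hB.symm]; simp only [RingHom.id_apply]; linear_combination -B y x * h2) ha hg (by rw [hM, h1])
    (by rw [hπ, hM, root_pow]) hu hc
  have h3 : ∀ x y, lam (f.H x y) = B x y := fun x y => by
    rw [hf, map_sum, hM, hπ, Finset.sum_eq_single 0 (fun k hk h0 => by
      rw [map_smul, hl k (Finset.mem_range.1 hk), if_neg h0, smul_zero]) (by simp), map_smul,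
      hl 0 (by positivity)]
    simp
  have nd : f.ND ⊤ := fun x _ h => hB.nd x fun y => by rw [← h3, h y trivial, map_zero]
  obtain ⟨l, h4, h5⟩ := Frm.jordan nd
  obtain ⟨l', h6, h7, h8⟩ := h4.can
  rw [Nat.card_congr Submodule.topEquiv.toEquiv, ← h7] at h5
  refine ⟨l', ⟨_, f, l', rfl, this, hu, hc, h3, nd, h6, h5⟩, h8, ?_⟩
  rw [Module.natCard_eq_pow_finrank (K := F)] at h5
  exact (Nat.pow_right_injective Finite.one_lt_card h5).symm

end Cfsg.Agent.UGL.Ev
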