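import Mathlib
import Cfsg.Agent.UGL.Ev6

/-!
The number of conjugacy classes of symplectic groups in characteristic two.
-/

set_option autoImplicit false
set_option backward.isDefEq.respectTransparency false

namespace Cfsg.Agent.UGL.Ev

open Polynomial Module Cfsg.Agent.Conj Cfsg.Agent.UGL.Cl Cfsg.Agent.Classical.SpWitt
open scoped _root_.Classical

universe u

variable {F : Type u} [Field F]

theorem even_of_rev (h2 : (2 : F) = 0) {p : F[X]} (h : p.reverse = p) (h1 : p.eval 1 ≠ 0) :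
    Even p.natDegree := by
  by_contra ho
  obtain ⟨k, hk⟩ := Nat.not_even_iff_odd.1 ho
  apply h1
  have h3 : ∀ i ≤ p.natDegree, p.coeff (p.natDegree - i) = p.coeff i := fun i hi => by
    conv_rhs => rw [← h, coeff_reverse, revAt_le hi]
  rw [eval_eq_sum_range, show p.natDegree + 1 = (k + 1) + (k + 1) by omega, Finset.sum_range_add,
    ← Finset.sum_range_reflect (fun i => p.coeff (k + 1 + i) * 1 ^ (k + 1 + i)),
    ← Finset.sum_add_distrib]
  refine Finset.sum_eq_zero fun i hi => ?_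
  have := Finset.mem_range.1 hi
  rw [show k + 1 + (k + 1 - 1 - i) = p.natDegree - i by omega, h3 i (by omega), one_pow, one_pow]
  linear_combination p.coeff i * h2

variable [Fintype F]

theorem card_UU_ne {N k : ℕ} (hN : k ≤ N) :
    ((UU F N k).filter fun s => ∀ j, (s j).eval 1 ≠ 0).card ≤ Fintype.card F ^ k := by
  have h := card_tuples_le' (N := N) (fun _ => (ML F (2 * k)).filter fun p => Pal p ∧ p.eval 1 ≠ 0)
    (fun p => p.natDegree / 2) (g := fun _ => g1 (Fintype.card F)) (fun j m =>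
      card_pal_le' _ m fun p hp => by
        simp only [Finset.mem_filter] at hp; exact ⟨hp.1.2.1, hp.2, hp.1.2.2⟩) k
    ((UU F N k).filter fun s => ∀ j, (s j).eval 1 ≠ 0) fun s hs => by
      simp only [UU, Finset.mem_filter, Fintype.mem_piFinset] at hs ⊢
      exact ⟨fun j => ⟨(hs.1.1 j).1, (hs.1.1 j).2, hs.2 j⟩, hs.1.2⟩
  change _ ≤ PowerSeries.coeff k (Cl.AA _ N) at h
  rcases Nat.eq_zero_or_pos k with rfl | hk
  · rw [Cl.AA, PowerSeries.coeff_zero_eq_constantCoeff, map_prod, Finset.prod_eq_one fun i _ => by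
      rw [← PowerSeries.coeff_zero_eq_constantCoeff_apply, coeff_gg_zero]] at h
    exact_mod_cast h
  · have := coeff_AA_le (q := Fintype.card F) Fintype.card_pos hk hN
    zify
    linarith

variable {V V' : Type*} [AddCommGroup V] [Module F V] [FiniteDimensional F V]
  {B : LinearMap.BilinForm F V} {A : Type*} [CommRing A] [Algebra F A]

/-- the invariants -/
def WE (C : Ctx F A) (lam : A → F) (B : LinearMap.BilinForm F V) (g : End F V) {N : ℕ}
    (s : Multiset Bk) (r : Fin N → F[X]) : Prop :=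
  ∃ (W W₀ : Submodule F V) (h : Spl B g W W₀), UR C lam (B.restrict W) (g.restrict h.inv) s ∧
    Has (g.restrict h.inv') r ∧ ∀ x, g.restrict h.inv' x = x → x = 0

theorem WE.tri (h2 : (2 : F) = 0) {C : Ctx F A} {lam : A → F} {g g' : End F V} (hB : EF B (-1))
    (hg : ∀ x y, B (g x) (g y) = B x y) (hg' : ∀ x y, B (g' x) (g' y) = B x y) {N : ℕ}
    {s : Multiset Bk} {r : Fin N → F[X]} (h : WE C lam B g s r) (h' : WE C lam B g' s r) :
    Tri B g B g' := by
  obtain ⟨W, W₀, t, a1, a2, a3⟩ := h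
  obtain ⟨U, U₀, t', b1, b2, -⟩ := h'
  refine t.glue t' hB hB (a1.tri b1) (tri_of_fpf (t.ef' hB) (t'.ef' hB) (fun x y => hg x y)
    (fun x y => hg' x y) (a2.sim b2) a3 fun x hx => a3 x (hx.trans ?_))
  rw [← neg_one_smul F x, show (-1 : F) = 1 by linear_combination -h2, one_smul]

theorem card_Sp_le' (h2 : (2 : F) = 0) (n : ℕ) :
    5 * Nat.card (ConjClasses (Matrix.symplecticGroup (Fin n) F)) ≤ 76 * Fintype.card F ^ n := by
  rw [card_conjClasses_congr (Classical.SpMat.spEquiv (Fin n) F)]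
  have hA := Classical.SpMat.sB_alt (ι := Fin n) (F := F)
  have hB := ef_of_alt Classical.SpMat.sB_nondeg hA
  have hV : finrank F (Fin n ⊕ Fin n → F) = 2 * n := by simp [two_mul]
  generalize Classical.SpMat.sB (Fin n) F = B at *
  obtain ⟨C, hM, hπ⟩ := exists_ctx h2 (2 * n + 7)
  obtain ⟨lam, hl⟩ := exists_lam (F := F) (2 * n + 7)
  have hm : 2 * n + 7 < 2 ^ (2 * n + 7) := Nat.lt_two_pow_self
  have H : ∀ c : ConjClasses (SG B), ∃ (g : SG B) (s : Multiset Bk) (r : Fin (2 * n) → F[X]),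
      ConjClasses.mk g = c ∧ WE C lam B g.1.toLinearMap s r ∧ Can C.M s ∧ wm C.M s ≤ n ∧
      r ∈ (UU F (2 * n) (n - wm C.M s)).filter fun s => ∀ j, (s j).eval 1 ≠ 0 := fun c => by
    obtain ⟨g, rfl⟩ := ConjClasses.mk_surjective c
    have hg : ∀ x y, B (g.1.toLinearMap x) (g.1.toLinearMap y) = B x y := g.2
    obtain ⟨W, W₀, t, a1, a2⟩ := exists_spl hg (mul_one 1)
    have d := t.finrank_add
    obtain ⟨s, b1, b2, b3⟩ := exists_UR h2 hM hπ hl (t.ef hB) (fun x => hA x)
      (g := g.1.toLinearMap.restrict t.inv) (fun x y => hg x y) (by rwa [one_smul] at a1) (by omega)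
    obtain ⟨r, hr⟩ := exists_has (N := 2 * n) (g.1.toLinearMap.restrict t.inv') (by omega)
    have e1 : ∀ x, g.1.toLinearMap.restrict t.inv' x = (1 : F) • x → x = 0 := fun x hx =>
      Subtype.ext (a2 _ x.2 (congrArg Subtype.val hx))
    have e3 := hr.dual_eq' (t.ef' hB) fun x y => hg x y
    have e4 := fun j => pal_of_dual (hr.monic j) (e3 j).1 (e3 j).2 (hr.eval_ne e1 j)
    have e5 := fun j => even_of_rev h2 (e4 j) (hr.eval_ne e1 j)
    have e6 := hr.sum_eq'
    have e7 : 2 * ∑ j : Fin (2 * n), (j + 1) * ((r j).natDegree / 2) = finrank F W₀ := by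
      rw [← e6, Finset.mul_sum]
      exact Finset.sum_congr rfl fun j _ => by
        rw [mul_left_comm, Nat.two_mul_div_two_of_even (e5 j)]
    exact ⟨g, s, r, rfl, ⟨W, W₀, t, b1, hr, fun x hx => e1 x (by rwa [one_smul])⟩, b2, by omega,
      Finset.mem_filter.2 ⟨mem_UU.2 ⟨fun j => ⟨hr.monic j, e5 j, e4 j⟩, by omega⟩, hr.eval_ne e1⟩⟩
  choose g s r h1 h3 h4 h5 h6 using H
  have : Finite (SG B) := by
    have : Finite ((Fin n ⊕ Fin n → F) ≃ₗ[F] (Fin n ⊕ Fin n → F)) :=
      Finite.of_injective _ DFunLike.coe_injective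
    infer_instance
  have := Fintype.ofFinite (ConjClasses (SG B))
  have h7 := card_le_sum (Finset.univ.image s) (fun c t => s c = t)
    (fun t => Fintype.card F ^ (n - wm C.M t))
    (fun c => ⟨_, Finset.mem_image_of_mem _ (Finset.mem_univ c), rfl⟩) fun t _ => by
      refine le_trans ?_ (card_UU_ne (N := 2 * n) (by omega))
      rw [← Fintype.card_coe, ← Nat.card_eq_fintype_card]
      refine Nat.card_le_card_of_injective (fun c => ⟨r c.1, by have := h6 c.1; rwa [c.2] at this⟩) fun c c' h => ?_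
      have a1 : r c.1 = r c'.1 := congrArg Subtype.val h
      obtain ⟨e, he, he'⟩ := (h3 c.1).tri h2 hB (g c.1).2 (g c'.1).2
        (a1 ▸ (c'.2.trans c.2.symm) ▸ h3 c'.1)
      apply Subtype.ext
      rw [← h1 c.1, ← h1 c'.1, ConjClasses.mk_eq_mk_iff_isConj]
      exact isConj_of_equiv e he' he
  have h8 := sum_can_le (M := C.M) (n := n) (by omega) (Finset.univ.image s) fun t ht => by
    obtain ⟨c, -, rfl⟩ := Finset.mem_image.1 ht
    exact ⟨h4 c, h5 c⟩
  have hq : (2 : ℝ) ≤ Fintype.card F := by exact_mod_cast Fintype.one_lt_card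
  have h9 : (Nat.card (ConjClasses (SG B)) : ℝ) ≤ Fintype.card F ^ n * 15.2 := by
    refine le_trans (Nat.cast_le.2 h7) (le_trans ?_ (mul_le_mul_of_nonneg_left h8 (by positivity)))
    rw [Finset.mul_sum, Nat.cast_sum]
    refine Finset.sum_le_sum fun t ht => ?_
    obtain ⟨c, -, rfl⟩ := Finset.mem_image.1 ht
    obtain ⟨k, hk⟩ := Nat.exists_eq_add_of_le (h5 c)
    generalize wm C.M (s c) = w at *
    subst hk
    rw [Nat.add_sub_cancel_left, Nat.cast_pow, pow_add, mul_right_comm, ← mul_pow]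
    exact le_mul_of_one_le_left (by positivity) (one_le_pow₀ (by linarith))
  have : (5 * Nat.card (ConjClasses (SG B)) : ℝ) ≤ 76 * Fintype.card F ^ n := by linarith
  exact_mod_cast this

theorem two_eq_zero_of_even (h : Even (Fintype.card F)) : (2 : F) = 0 := by
  by_contra h2
  have h3 : ringChar F ≠ 2 := fun h3 => h2 (by
    have := ringChar.Nat.cast_ringChar (R := F)
    rwa [h3] at this)
  have := FiniteField.odd_card_of_char_ne_two h3
  rw [Nat.even_iff] at h
  omega

end Cfsg.Agent.UGL.Ev
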