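import Mathlib
import Cfsg.Agent.UGL.Ev4

/-!
Quadratic refinements of hermitian modules over the chain ring.
-/

set_option autoImplicit false

namespace Cfsg.Agent.UGL.Ev

variable {F A : Type*} [Field F] [CommRing A] [Algebra F A] {C : Ctx F A}

theorem Ctx.chainA (C : Ctx F A) {a : A} (h : a ≠ 0) : ∃ i μ, IsUnit μ ∧ a = C.π ^ i * μ := by
  obtain ⟨i, h1, h2⟩ := Nat.exists_not_and_succ_of_not_zero_of_exists
    (p := fun i => a ∉ C.I i) (by simp [Ctx.I]) ⟨2 * C.M, by simpa [Ctx.I, C.nil] using h⟩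
  obtain ⟨μ, rfl⟩ := C.mem_I.1 (not_not.1 h1)
  exact ⟨i, μ, C.unit_of_not h2, rfl⟩

theorem Ctx.le_of_pow (C : Ctx F A) {k : ℕ} (h : C.π ^ k = 0) : 2 * C.M ≤ k := by
  have := C.fin
  by_contra hk
  have h1 := C.card_I (i := k) (by omega)
  rw [show C.I k = ⊥ by simp [Ctx.I, h]] at h1
  exact (Nat.one_lt_pow (n := 2 * C.M - k) (by omega) (Finite.one_lt_card (α := F))).ne
    (by simpa using h1)

theorem Ctx.ann (C : Ctx F A) {a μ : A} {m n i : ℕ} (hμ : IsUnit μ)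
    (h : a * (C.σ C.π ^ m * C.s ^ n * μ) = 0) (hi : m + 2 * n + i = 2 * C.M) : a ∈ C.I i := by
  rcases eq_or_ne a 0 with rfl | h0
  · exact zero_mem _
  obtain ⟨k, ν, hν, rfl⟩ := C.chainA h0
  have h1 : C.σ C.π = C.π * (1 + C.σ C.π) := by linear_combination -C.hσ - C.π * C.two
  have h2 : IsUnit (1 + C.σ C.π) := IsUnit.of_mul_eq_one_right _ C.u_mul
  have h3 : (ν * (1 + C.σ C.π) ^ m * (1 + C.σ C.π) ^ n * μ) * C.π ^ (k + m + 2 * n) = 0 := by
    rw [← h, C.s_eq]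
    conv_rhs => enter [2, 1, 1, 1]; rw [h1]
    rw [mul_pow, mul_pow]
    ring
  have := C.le_of_pow ((((hν.mul (h2.pow m)).mul (h2.pow n)).mul hμ).mul_right_eq_zero.1 h3)
  exact C.I_anti (by omega) (C.mem_I.2 ⟨ν, rfl⟩)

/-- two linear functionals -/
structure Lam (C : Ctx F A) where
  l0 : A →ₗ[F] F
  l1 : A →ₗ[F] F
  tr : ∀ a, l0 (C.s * a) = l1 (a + C.σ a)
  top : l1 (C.s ^ (C.M - 1)) = 1
  sub : l1 (C.s ^ (C.M - 2)) = 0
  hM : 2 ≤ C.M

namespace Lam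

variable (Λ : Lam C)

include Λ in
theorem top_s : C.s ^ (C.M - 1) * C.s = 0 := by
  rw [← pow_succ, Nat.sub_add_cancel (by have := Λ.hM; omega), C.s_nil]

theorem top' : Λ.l0 (C.s ^ (C.M - 1) * C.π) = 1 := by
  have h : C.s ^ (C.M - 1) = C.s * C.s ^ (C.M - 2) := by
    rw [← pow_succ']; congr 1; have := Λ.hM; omega
  rw [h, mul_assoc, Λ.tr, map_mul, map_pow, C.σs, ← mul_add, ← C.hσ, mul_comm, ← Λ.top, h]
  rfl

theorem nd {a : A} (h : ∀ t, Λ.l0 (a * t) = 0) : a = 0 := by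
  by_contra h0
  obtain ⟨i, μ, hμ, rfl⟩ := C.chainA h0
  have h1 : i < 2 * C.M := by
    by_contra hi
    exact h0 (by rw [pow_eq_zero_of_le (not_lt.1 hi) C.nil, zero_mul])
  obtain ⟨b, hb⟩ := C.mem_I.1 (C.I_anti (show i ≤ 2 * (C.M - 1) + 1 by omega)
    (C.mem_I_odd.2 ⟨1, rfl⟩))
  obtain ⟨ν, hν⟩ := hμ.exists_right_inv
  have := h (ν * b)
  rw [show C.π ^ i * μ * (ν * b) = C.s ^ (C.M - 1) * C.π by
    linear_combination C.π ^ i * b * hν - hb, Λ.top'] at this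
  exact one_ne_zero this

include Λ in
theorem top_tr (a : A) : C.s ^ (C.M - 1) * (a + C.σ a) = 0 := by
  obtain ⟨b, hb, c, hc, rfl⟩ := C.decA a
  rw [map_add, map_mul, C.σ_of_mem hb, C.σ_of_mem hc]
  have := Λ.top_s
  rw [Ctx.s] at this ⊢
  linear_combination c * this + (C.π * C.σ C.π) ^ (C.M - 1) * (b * C.two - c * C.hσ)

theorem sqr (r : A) :
    Λ.l1 (C.s ^ (C.M - 1) * (r * C.σ r)) = Λ.l0 (C.s ^ (C.M - 1) * C.π * r) ^ 2 := by
  obtain ⟨c, r, rfl⟩ := C.dec r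
  have h1 := Λ.top_tr (C.π * r)
  have h2 := Λ.top_s
  have h3 := C.sq_eq
  have hs : C.s = C.π * C.σ C.π := rfl
  rw [map_mul] at h1
  rw [map_add, map_mul C.σ, AlgHom.commutes, show C.s ^ (C.M - 1) * ((algebraMap F A c + C.π * r) *
    (algebraMap F A c + C.σ C.π * C.σ r)) = (c * c) • C.s ^ (C.M - 1) by
      rw [Algebra.smul_def, map_mul]; grind,
    show C.s ^ (C.M - 1) * C.π * (algebraMap F A c + C.π * r) = c • (C.s ^ (C.M - 1) * C.π) by
      rw [Algebra.smul_def]; grind, map_smul, map_smul, Λ.top, Λ.top']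
  simp [sq]

end Lam

/-- shift of scale -/
def Bk.up : Bk → Bk
  | .v j t => .v (j + 1) t
  | .e j => .e (j + 1)
  | .o j t => .o (j + 1) t

/-- is the block twisted -/
def Bk.tws : Bk → Bool
  | .v _ t => t
  | .e _ => false
  | .o _ t => t

/-- the norm form of a block -/
def Ctx.nf (C : Ctx F A) : Bk → A → A → A
  | .v j t, a, _ => a * C.σ a * (C.s ^ j * (1 + C.s * C.tw t))
  | .e j, a, c => C.s ^ j * (a * C.σ c + c * C.σ a)
  | .o j t, a, c => a * C.σ a * (C.s ^ j * C.s) + C.s ^ j * (a * C.σ c * C.π + c * C.σ a * C.σ C.π) +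
      c * C.σ c * (C.s ^ j * C.s * C.tw t)

theorem Bk.up_j (b : Bk) : b.up.j = b.j + 1 := by cases b <;> rfl

theorem Bk.up_wt (M : ℕ) (b : Bk) : b.up.wt M = b.wt (M - 1) := by
  cases b <;> simp only [Bk.up, Bk.wt] <;> omega

theorem tw_eq (t : Bool) : C.tw t = algebraMap F A (bif t then C.α else 0) := by
  cases t <;> simp [Ctx.tw]

namespace Frm

variable {V V' : Type*} [AddCommGroup V] [Module A V] [AddCommGroup V'] [Module A V']
  {f : Frm C V} {f' : Frm C V'} {W : Submodule A V} {W' : Submodule A V'}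

theorem Ex.nf {b : Bk} {x y : V} (h : f.Ex b x y) (a c : A) :
    f.H (a • x + c • y) (a • x + c • y) = C.nf b a c := by
  simp only [add_l, add_r, smul_l, smul_r, f.symm x y]
  cases b with
  | v j t => rw [h.1, h.2]; simp only [zero_r, Ctx.nf, map_zero]; ring
  | e j => rw [h.1, h.2.1, h.2.2, map_pow, C.σs, Ctx.nf]; ring
  | o j t => rw [h.1, h.2.1, h.2.2, map_mul, map_pow, C.σs, Ctx.nf]; ring

theorem blk (Λ : Lam C) {b : Bk} (hb : b.j + 1 < C.M) {x y : V} (h : f.Ex b.up x y) :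
    ∃ (i i' : ℕ) (w w' : A), (∀ a ∈ C.I i, ∀ c ∈ C.I i', ∀ a' ∈ C.I i, ∀ c' ∈ C.I i',
      f.H (a • x + c • y) (a' • x + c' • y) = 0) ∧
    (∀ a c : A, (∀ a' ∈ C.I i, ∀ c' ∈ C.I i', Λ.l0 (f.H (a • x + c • y) (a' • x + c' • y)) = 0) →
      ∃ a' ∈ C.I i, ∃ c' ∈ C.I i', a • x + c • y = a' • x + c' • y) ∧
    (∀ a ∈ C.I i, ∀ c ∈ C.I i',
      Λ.l1 (C.nf b a c) = Λ.l0 (f.H (a • x + c • y) (w • x + w' • y)) ^ 2) ∧
    Λ.l1 (C.nf b w w') = bif b.tws then C.α else 0 := by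
  obtain ⟨k, hk⟩ : ∃ k, C.M = b.j + k + 2 := ⟨C.M - b.j - 2, by omega⟩
  have two := C.two
  have hσ := C.hσ
  have hs : C.s = C.π * C.σ C.π := rfl
  have hP : C.π ^ k * C.σ C.π ^ k = C.s ^ k := by rw [hs, mul_pow]
  have hT : C.s ^ (C.M - 1) = C.s ^ b.j * C.s ^ k * C.s := by
    rw [← pow_add, ← pow_succ]; congr 1; omega
  have hT' : C.s ^ (C.M - 2) = C.s ^ b.j * C.s ^ k := by rw [← pow_add]; congr 1; omega
  have h0 := Λ.top_s
  rw [hT] at h0
  simp only [add_l, add_r, smul_l, smul_r, f.symm x y]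
  cases b with
  | v j t =>
    obtain ⟨h1, rfl⟩ := h
    simp only [Bk.j] at hk hT hT' h0
    simp only [zero_r, zero_l, map_zero, mul_zero, add_zero, h1, smul_zero, Ctx.nf, pow_succ C.s]
    refine ⟨k + 1, 0, C.π ^ k, 0, fun a ha c _ a' ha' c' _ => ?_, fun a c H => ⟨a, ?_, 0,
      zero_mem _, rfl⟩, fun a ha c _ => ?_, ?_⟩
    · obtain ⟨r, rfl⟩ := C.mem_I.1 ha
      obtain ⟨r', rfl⟩ := C.mem_I.1 ha'
      simp only [map_mul, map_pow, pow_succ]
      grind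
    · refine C.ann (m := k + 1) (n := j + 1) (C.unit_s (C.tw t)) (Λ.nd fun r => ?_) (by omega)
      rw [← H _ (C.mem_I.2 ⟨C.σ r, rfl⟩) 0 (zero_mem _), map_mul C.σ, map_pow, C.σσ]
      congr 1; ring
    · obtain ⟨r, rfl⟩ := C.mem_I.1 ha
      refine (congrArg Λ.l1 ?_).trans ((Λ.sqr r).trans (congrArg (Λ.l0 · ^ 2) ?_)) <;>
        simp only [hT, map_mul, map_pow, pow_succ] <;> grind
    · rw [map_pow, hP, show C.s ^ k * (C.s ^ j * (1 + C.s * C.tw t)) =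
        C.s ^ (C.M - 2) + C.tw t * C.s ^ (C.M - 1) by rw [hT, hT']; ring, tw_eq,
        ← Algebra.smul_def, map_add, map_smul, Λ.top, Λ.sub]
      simp [Bk.tws]
  | e j =>
    obtain ⟨h1, h2, h3⟩ := h
    simp only [Bk.j] at hk hT hT' h0
    simp only [mul_zero, add_zero, zero_add, h1, h2, h3, Ctx.nf, pow_succ C.s, map_mul, map_pow, C.σs]
    refine ⟨0, 2 * (k + 1), 0, 0, fun a _ c hc a' _ c' hc' => ?_, fun a c H => ⟨a,
      by simp [Ctx.I], c, ?_, rfl⟩, fun a _ c hc => ?_, by simp [Bk.tws]⟩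
    · obtain ⟨r, rfl⟩ := C.mem_I_even.1 hc
      obtain ⟨r', rfl⟩ := C.mem_I_even.1 hc'
      simp only [map_mul, map_pow, pow_succ, C.σs]
      grind
    · refine C.ann (m := 0) (n := j + 1) isUnit_one (Λ.nd fun r => ?_) (by omega)
      rw [← H (C.σ r) (by simp [Ctx.I]) 0 (zero_mem _), C.σσ, map_zero]
      congr 1; ring
    · obtain ⟨r, rfl⟩ := C.mem_I_even.1 hc
      have := Λ.top_tr (a * C.σ r)
      rw [hT, map_mul, C.σσ] at this
      rw [show C.s ^ j * (a * C.σ (C.s ^ (k + 1) * r) + C.s ^ (k + 1) * r * C.σ a) = 0 by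
        rw [map_mul, map_pow, C.σs, pow_succ]; linear_combination this]
      simp
  | o j t =>
    obtain ⟨h1, h2, h3⟩ := h
    simp only [Bk.j] at hk hT hT' h0
    simp only [h1, h2, h3, Ctx.nf, pow_succ C.s, map_mul, map_pow, C.σs]
    refine ⟨k, k + 1, 0, C.π ^ k, fun a ha c hc a' ha' c' hc' => ?_, fun a c H => ?_,
      fun a ha c hc => ?_, ?_⟩
    · obtain ⟨r, rfl⟩ := C.mem_I.1 ha
      obtain ⟨r', rfl⟩ := C.mem_I.1 ha'
      obtain ⟨u, rfl⟩ := C.mem_I.1 hc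
      obtain ⟨u', rfl⟩ := C.mem_I.1 hc'
      simp only [map_mul, map_pow, pow_succ]
      grind
    · have a1 : a + c * C.σ C.π * C.tw t ∈ C.I k := by
        refine C.ann (m := k) (n := j + 2) isUnit_one (Λ.nd fun r => ?_) (by omega)
        rw [← H 0 (zero_mem _) _ (C.mem_I.2 ⟨C.σ r, rfl⟩), map_mul C.σ, map_pow, C.σσ, map_zero]
        congr 1
        simp only [pow_succ]
        grind
      have a2 : a * C.π + c ∈ C.I (k + 1) := by
        refine C.ann (m := k + 1) (n := j + 1) isUnit_one (Λ.nd fun r => ?_) (by omega)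
        rw [← H _ (C.mem_I.2 ⟨C.σ r, rfl⟩) 0 (zero_mem _), map_mul C.σ, map_pow, C.σσ, map_zero]
        congr 1
        simp only [pow_succ]
        grind
      obtain ⟨r, hr⟩ := C.mem_I.1 a1
      obtain ⟨r', hr'⟩ := C.mem_I.1 a2
      obtain ⟨ι, hι⟩ := (C.unit_s (C.tw t)).exists_right_inv
      rw [pow_succ] at hr'
      have a3 : c = C.π ^ k * C.π * ((r + r') * ι) := by
        clear * - two hs hr hr' hι
        grind
      refine ⟨a, C.mem_I.2 ⟨r - C.π * ((r + r') * ι) * C.σ C.π * C.tw t, ?_⟩, c,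
        C.mem_I.2 ⟨_, by rw [pow_succ]; exact a3⟩, rfl⟩
      linear_combination hr - C.σ C.π * C.tw t * a3
    · obtain ⟨r, rfl⟩ := C.mem_I.1 ha
      obtain ⟨u, rfl⟩ := C.mem_I.1 hc
      have := Λ.top_tr (r * C.σ u)
      rw [hT, map_mul, C.σσ] at this
      refine (congrArg Λ.l1 ?_).trans ((Λ.sqr r).trans (congrArg (Λ.l0 · ^ 2) ?_)) <;>
        simp only [hT, map_mul, map_pow, pow_succ, map_zero] <;> grind
    · rw [map_pow, hP, show 0 * C.σ 0 * (C.s ^ j * C.s) + C.s ^ j * (0 * C.σ C.π ^ k * C.π +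
        C.π ^ k * C.σ 0 * C.σ C.π) + C.s ^ k * (C.s ^ j * C.s * C.tw t) =
        C.tw t * C.s ^ (C.M - 1) by rw [hT, map_zero]; ring, tw_eq,
        ← Algebra.smul_def, map_smul, Λ.top]
      simp [Bk.tws]

end Frm

end Cfsg.Agent.UGL.Ev
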