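import Mathlib
import Cfsg.Agent.UGL.Ev5
import Cfsg.Agent.UGL.Ev6
import Cfsg.Agent.UGL.Ev10

/-!
Quadratic refinements of hermitian modules: spanning families of blocks.
-/

set_option autoImplicit false

namespace Cfsg.Agent.UGL.Ev

variable {F A : Type*} [Field F] [CommRing A] [Algebra F A] {C : Ctx F A}

/-- canonical multisets of blocks, quadratic case -/
structure Can' (M : ℕ) (s : Multiset Bk) : Prop where
  lt : ∀ b ∈ s, b.j < M
  v3 : ∀ j, s.count (.v j false) + s.count (.v j true) ≤ 2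
  v2 : ∀ j, s.count (.v j true) ≤ 1
  o2 : ∀ j, s.count (.o j true) ≤ 1
  vv : ∀ j, .v j true ∈ s → ∀ t, .v (j + 1) t ∉ s
  ov : ∀ j, .o j true ∈ s → (∀ t, .v j t ∉ s) ∧ ∀ t, .v (j + 1) t ∉ s

theorem Can.filter {M : ℕ} {s : Multiset Bk} (h : Can M s) :
    Can' (M - 1) (s.filter fun b => b.j + 1 < M) := by
  have h1 := fun b => Multiset.count_le_of_le b (Multiset.filter_le (fun b : Bk => b.j + 1 < M) s)
  have h2 : ∀ b, b ∈ s.filter (fun b => b.j + 1 < M) → b ∈ s := fun b => Multiset.mem_of_mem_filter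
  exact ⟨fun b hb => by have := (Multiset.mem_filter.1 hb).2; omega,
    fun j => (add_le_add (h1 _) (h1 _)).trans (h.v3 j), fun j => (h1 _).trans (h.v2 j),
    fun j => (h1 _).trans (h.o2 j), fun j hj t ht => (h.vv j (h2 _ hj)).2 t (h2 _ ht),
    fun j hj => ⟨fun t ht => (h.ov j (h2 _ hj)).2.1 t (h2 _ ht),
      fun t ht => (h.ov j (h2 _ hj)).2.2 t (h2 _ ht)⟩⟩

theorem mem_R_up {b : Bk} {p : A × A} (h : p ∈ C.R b) : C.s • p ∈ C.R b.up := by
  have h1 : ∀ i a, a ∈ C.I i → C.s * a ∈ C.I (i + 2) := fun i a ha => by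
    obtain ⟨r, rfl⟩ := C.mem_I.1 ha
    exact C.mem_I.2 ⟨(1 + C.σ C.π) * r, by rw [C.s_eq]; ring⟩
  cases b with
  | v j t => exact ⟨h1 _ _ h.1, Submodule.smul_mem _ _ h.2⟩
  | e j => exact ⟨h1 _ _ h.1, h1 _ _ h.2⟩
  | o j t => exact ⟨h1 _ _ h.1, h1 _ _ h.2⟩

theorem R_up_top {b : Bk} (hb : C.M ≤ b.j + 1) {p : A × A} (h : p ∈ C.R b.up) : p = 0 := by
  have h1 : ∀ i a, a ∈ C.I i → 2 * C.M ≤ i → a = 0 := fun i a ha hi => by
    simpa [Ctx.I, C.nil] using C.I_anti hi ha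
  cases b <;> simp only [Bk.j] at hb
  · exact Prod.ext (h1 _ _ h.1 (by omega)) h.2
  · exact Prod.ext (h1 _ _ h.1 (by omega)) (h1 _ _ h.2 (by omega))
  · exact Prod.ext (h1 _ _ h.1 (by omega)) (h1 _ _ h.2 (by omega))

namespace Frm

variable {V V' : Type*} [AddCommGroup V] [Module A V] [AddCommGroup V'] [Module A V']
  {f : Frm C V} {f' : Frm C V'} {W : Submodule A V} {W' : Submodule A V'} {Λ : Lam C}
  {Q : V → F} {Q' : V' → F}

/-- spanning families with prescribed quadratic form -/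
def RQ (f : Frm C V) (Λ : Lam C) (Q : V → F) : Submodule A V → List Bk → Prop
  | W, [] => ∀ z ∈ W, z = 0
  | W, b :: l => b.j + 1 < C.M ∧ ∃ x ∈ W, ∃ y ∈ W, f.Ex b.up x y ∧
      (∀ a c : A, Q (a • x + c • y) = Λ.l1 (C.nf b a c)) ∧ W.map (f.φ x y) ≤ C.R b.up ∧
      RQ f Λ Q (W ⊓ LinearMap.ker (f.φ x y)) l

theorem RQ.card {l : List Bk} (h : f.RQ Λ Q W l) :
    Nat.card W = Nat.card F ^ (2 * wl (C.M - 1) l) := by
  induction l generalizing W with
  | nil =>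
    exact Nat.card_eq_one_iff_unique.2
      ⟨⟨fun a b => Subtype.ext ((h _ a.2).trans (h _ b.2).symm)⟩, ⟨0⟩⟩
  | cons b l ih =>
    obtain ⟨h0, x, hx, y, hy, h1, -, h2, h3⟩ := h
    rw [card_eq (f.φ x y), ih h3, le_antisymm h2 (h1.le_map hx hy), card_R (by rwa [Bk.up_j]),
      Bk.up_wt, ← pow_add, wl, wl, List.map_cons, List.sum_cons, mul_add, add_comm]

theorem q_zero (hQ : ∀ x y, Q (x + y) = Q x + Q y + Λ.l0 (f.H x y)) : Q 0 = 0 := by
  simpa [f.zero_l] using hQ 0 0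

theorem graphQ (hQ : ∀ x y, Q (x + y) = Q x + Q y + Λ.l0 (f.H x y))
    (hQ' : ∀ x y, Q' (x + y) = Q' x + Q' y + Λ.l0 (f'.H x y)) {l : List Bk} (h : f.RQ Λ Q W l)
    (h' : f'.RQ Λ Q' W' l) : ∃ Γ : Submodule A (V × V'),
      (∀ p ∈ Γ, p.1 ∈ W ∧ p.2 ∈ W') ∧ (∀ a ∈ W, ∃ a', (a, a') ∈ Γ) ∧
      (∀ a' ∈ W', ∃ a, (a, a') ∈ Γ) ∧ (∀ p ∈ Γ, ∀ r ∈ Γ, f.H p.1 r.1 = f'.H p.2 r.2) ∧
      ∀ p ∈ Γ, Q p.1 = Q' p.2 := by
  induction l generalizing W W' with
  | nil =>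
    refine ⟨⊥, fun p hp => ?_, fun a ha => ⟨0, ?_⟩, fun a ha => ⟨0, ?_⟩, fun p hp r _ => ?_,
      fun p hp => ?_⟩
    · rw [(Submodule.mem_bot A).1 hp]; exact ⟨zero_mem _, zero_mem _⟩
    · rw [h a ha]
      exact zero_mem _
    · rw [h' a ha]
      exact zero_mem _
    · rw [(Submodule.mem_bot A).1 hp]; exact (f.zero_l _).trans (f'.zero_l _).symm
    · rw [(Submodule.mem_bot A).1 hp]; exact (q_zero hQ).trans (q_zero hQ').symm
  | cons b l ih =>
    obtain ⟨h0, x, hx, y, hy, h1, q, a2, h2⟩ := h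
    obtain ⟨-, x', hx', y', hy', h1', q', a2', h2'⟩ := h'
    obtain ⟨Γ, b1, b2, b3, b4, b5⟩ := ih h2 h2'
    have key : ∀ p, p ∈ Submodule.span A {(x, x'), (y, y')} ⊔ Γ ↔ ∃ a c : A, ∃ w ∈ Γ,
        p = (a • x + c • y + w.1, a • x' + c • y' + w.2) := fun p => by
      rw [Submodule.mem_sup]
      constructor
      · rintro ⟨u, hu, w, hw, rfl⟩
        obtain ⟨a, c, rfl⟩ := Submodule.mem_span_pair.1 hu
        exact ⟨a, c, w, hw, rfl⟩
      · rintro ⟨a, c, w, hw, rfl⟩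
        exact ⟨_, Submodule.mem_span_pair.2 ⟨a, c, rfl⟩, w, hw, rfl⟩
    refine ⟨Submodule.span A {(x, x'), (y, y')} ⊔ Γ, fun p hp => ?_, fun z hz => ?_,
      fun z hz => ?_, fun p hp r hr => ?_, fun p hp => ?_⟩
    · obtain ⟨a, c, w, hw, rfl⟩ := (key p).1 hp
      exact ⟨add_mem (add_mem (W.smul_mem a hx) (W.smul_mem c hy)) (b1 w hw).1.1,
        add_mem (add_mem (W'.smul_mem a hx') (W'.smul_mem c hy')) (b1 w hw).2.1⟩
    · obtain ⟨a, c, w, hw, rfl⟩ := h1.dec hx hy a2 hz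
      obtain ⟨w', hw'⟩ := b2 w hw
      exact ⟨_, (key _).2 ⟨a, c, _, hw', rfl⟩⟩
    · obtain ⟨a, c, w, hw, rfl⟩ := h1'.dec hx' hy' a2' hz
      obtain ⟨w', hw'⟩ := b3 w hw
      exact ⟨_, (key _).2 ⟨a, c, _, hw', rfl⟩⟩
    · obtain ⟨a, c, w, hw, rfl⟩ := (key p).1 hp
      obtain ⟨a', c', w', hw', rfl⟩ := (key r).1 hr
      obtain ⟨e1, e2, e3, e4⟩ := h1.eq h1'
      obtain ⟨o1, o2⟩ := f.mem_ker.1 (b1 w hw).1.2
      obtain ⟨o3, o4⟩ := f'.mem_ker.1 (b1 w hw).2.2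
      obtain ⟨o5, o6⟩ := f.mem_ker.1 (b1 w' hw').1.2
      obtain ⟨o7, o8⟩ := f'.mem_ker.1 (b1 w' hw').2.2
      simp only [add_l, add_r, smul_l, smul_r, e1, e2, e3, e4, o1, o2, o3, o4, f.zero_symm o5,
        f.zero_symm o6, f'.zero_symm o7, f'.zero_symm o8, b4 w hw w' hw']
    · obtain ⟨a, c, w, hw, rfl⟩ := (key p).1 hp
      obtain ⟨o1, o2⟩ := f.mem_ker.1 (b1 w hw).1.2
      obtain ⟨o3, o4⟩ := f'.mem_ker.1 (b1 w hw).2.2
      rw [hQ, hQ', q, q', b5 w hw]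
      simp only [add_l, smul_l, f.zero_symm o1, f.zero_symm o2, f'.zero_symm o3, f'.zero_symm o4]

theorem exists_equivQ (hQ : ∀ x y, Q (x + y) = Q x + Q y + Λ.l0 (f.H x y))
    (hQ' : ∀ x y, Q' (x + y) = Q' x + Q' y + Λ.l0 (f'.H x y)) {l : List Bk} (h : f.RQ Λ Q ⊤ l)
    (h' : f'.RQ Λ Q' ⊤ l) (nd : f.ND ⊤) (nd' : f'.ND ⊤) :
    ∃ e : V ≃ₗ[A] V', ∀ x, Q' (e x) = Q x := by
  obtain ⟨Γ, -, b2, b3, b4, b5⟩ := graphQ hQ hQ' h h'
  have i1 : Function.Bijective ((LinearMap.fst A V V').domRestrict Γ) := by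
    refine ⟨(injective_iff_map_eq_zero _).2 fun p hp => Subtype.ext (Prod.ext hp
      (nd' _ trivial fun y _ => ?_)), fun a => ?_⟩
    · obtain ⟨a, ha⟩ := b3 y trivial
      rw [← b4 _ p.2 _ ha, show p.1.1 = 0 from hp, f.zero_l]
    · obtain ⟨a', ha⟩ := b2 a trivial
      exact ⟨⟨_, ha⟩, rfl⟩
  have i2 : Function.Bijective ((LinearMap.snd A V V').domRestrict Γ) := by
    refine ⟨(injective_iff_map_eq_zero _).2 fun p hp => Subtype.ext (Prod.ext
      (nd _ trivial fun y _ => ?_) hp), fun a => ?_⟩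
    · obtain ⟨a, ha⟩ := b2 y trivial
      rw [b4 _ p.2 _ ha, show p.1.2 = 0 from hp, f'.zero_l]
    · obtain ⟨a', ha⟩ := b3 a trivial
      exact ⟨⟨_, ha⟩, rfl⟩
  refine ⟨(LinearEquiv.ofBijective _ i1).symm.trans (LinearEquiv.ofBijective _ i2), fun x => ?_⟩
  obtain ⟨x, rfl⟩ := (LinearEquiv.ofBijective _ i1).surjective x
  simp only [LinearEquiv.trans_apply, LinearEquiv.symm_apply_apply]
  exact (b5 _ x.2).symm

theorem RQ.ad (hQ : ∀ x y, Q (x + y) = Q x + Q y + Λ.l0 (f.H x y)) (h2 : (2 : F) = 0)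
    {l : List Bk} (h : f.RQ Λ Q W l) : ∃ L ≤ W, ∃ w ∈ W,
      (∀ x ∈ W, x ∈ L ↔ ∀ z ∈ L, Λ.l0 (f.H x z) = 0) ∧ (∀ z ∈ L, Q z = Λ.l0 (f.H z w) ^ 2) ∧
      Q w = l.countP Bk.tws • C.α := by
  induction l generalizing W with
  | nil =>
    refine ⟨W, le_rfl, 0, zero_mem _, fun x hx => iff_of_true hx fun z hz => ?_, fun z hz => ?_,
      by simp [q_zero hQ]⟩
    · rw [h z hz, f.zero_r, map_zero]
    · simp [h z hz, f.zero_r, q_zero hQ]
  | cons b l ih =>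
    obtain ⟨h0, x, hx, y, hy, h1, q, a2, h3⟩ := h
    obtain ⟨L, b1, w, b2, b3, b4, b5⟩ := ih h3
    obtain ⟨i, i', u, u', c1, c2, c3, c4⟩ := blk Λ h0 h1
    let L' : Submodule A V :=
      { carrier := {z | ∃ a ∈ C.I i, ∃ c ∈ C.I i', ∃ v ∈ L, z = a • x + c • y + v}
        add_mem' := by
          rintro _ _ ⟨a, ha, c, hc, v, hv, rfl⟩ ⟨a', ha', c', hc', v', hv', rfl⟩
          exact ⟨_, add_mem ha ha', _, add_mem hc hc', _, add_mem hv hv', by module⟩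
        zero_mem' := ⟨0, zero_mem _, 0, zero_mem _, 0, zero_mem _, by simp⟩
        smul_mem' := by
          rintro r _ ⟨a, ha, c, hc, v, hv, rfl⟩
          exact ⟨_, Ideal.mul_mem_left _ r ha, _, Ideal.mul_mem_left _ r hc, _, L.smul_mem r hv,
            by module⟩ }
    have o : ∀ (a c : A), ∀ v ∈ W ⊓ LinearMap.ker (f.φ x y), f.H v (a • x + c • y) = 0 :=
      fun a c v hv => f.le_P x y hv.2 _ (Submodule.mem_span_pair.2 ⟨a, c, rfl⟩)
    have e : ∀ (a c a' c' : A), ∀ v ∈ W ⊓ LinearMap.ker (f.φ x y),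
        ∀ v' ∈ W ⊓ LinearMap.ker (f.φ x y), f.H (a • x + c • y + v) (a' • x + c' • y + v') =
          f.H (a • x + c • y) (a' • x + c' • y) + f.H v v' := fun a c a' c' v hv v' hv' => by
      rw [f.add_l _ v, f.add_r _ _ v', f.add_r v, o _ _ v hv, f.zero_symm (o _ _ v' hv')]
      simp
    refine ⟨L', ?_, u • x + u' • y + w, add_mem (add_mem (W.smul_mem _ hx) (W.smul_mem _ hy)) b2.1,
      fun z hz => ⟨?_, fun H => ?_⟩, ?_, ?_⟩
    · rintro _ ⟨a, -, c, -, v, hv, rfl⟩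
      exact add_mem (add_mem (W.smul_mem _ hx) (W.smul_mem _ hy)) (b1 hv).1
    · rintro ⟨a, ha, c, hc, v, hv, rfl⟩ _ ⟨a', ha', c', hc', v', hv', rfl⟩
      rw [e _ _ _ _ _ (b1 hv) _ (b1 hv'), c1 a ha c hc a' ha' c' hc', zero_add]
      exact (b3 v (b1 hv)).1 hv v' hv'
    · obtain ⟨a, c, v, hv, rfl⟩ := h1.dec hx hy a2 hz
      obtain ⟨a', ha', c', hc', h4⟩ := c2 a c fun a' ha' c' hc' => by
        have := H _ ⟨a', ha', c', hc', 0, zero_mem _, rfl⟩
        rwa [e _ _ _ _ _ hv _ (zero_mem _), f.zero_r, add_zero] at this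
      refine ⟨a', ha', c', hc', v, (b3 v hv).2 fun v' hv' => ?_, by rw [h4]⟩
      have := H _ ⟨0, zero_mem _, 0, zero_mem _, v', hv', rfl⟩
      rw [e _ _ _ _ _ hv _ (b1 hv')] at this
      simpa [f.zero_r] using this
    · rintro _ ⟨a, ha, c, hc, v, hv, rfl⟩
      rw [hQ, q, c3 a ha c hc, b4 v hv, e _ _ _ _ _ (b1 hv) _ b2, f.zero_symm (o _ _ v (b1 hv)),
        map_zero, map_add]
      linear_combination -(Λ.l0 (f.H (a • x + c • y) (u • x + u' • y)) * Λ.l0 (f.H v w)) * h2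
    · rw [hQ, q, c4, b5, f.zero_symm (o _ _ w b2), map_zero, List.countP_cons]
      cases b.tws <;> simp [add_smul, add_comm]

theorem Ex.push {b : Bk} {x y : V'} (h : f'.Ex b x y) (p : V' →ₗ[A] V)
    (hH : ∀ a b, f.H (p a) (p b) = C.s * f'.H a b) : f.Ex b.up (p x) (p y) := by
  cases b with
  | v j t => exact ⟨by rw [hH, h.1]; ring, by rw [h.2, map_zero]⟩
  | e j => exact ⟨by rw [hH, h.1]; ring, by rw [hH, h.2.1]; ring, by rw [hH, h.2.2]; ring⟩
  | o j t => exact ⟨by rw [hH, h.1]; ring, by rw [hH, h.2.1]; ring, by rw [hH, h.2.2]; ring⟩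

theorem RL.push [Finite V'] (p : V' →ₗ[A] V) (hH : ∀ a b, f.H (p a) (p b) = C.s * f'.H a b)
    (hQ : ∀ a, Q (p a) = Λ.l1 (f'.H a a)) {l : List Bk} (h : f'.RL W' l)
    (hc : Nat.card W' = Nat.card F ^ (2 * wl C.M l)) (nd : f.ND (W'.map p)) :
    f.RQ Λ Q (W'.map p) (l.filter fun b => b.j + 1 < C.M) := by
  induction l generalizing W' with
  | nil =>
    have a1 := (Nat.card_eq_one_iff_unique.1 hc).1
    rintro _ ⟨a, ha, rfl⟩
    rw [show a = 0 from congrArg Subtype.val (Subsingleton.elim (⟨a, ha⟩ : W') 0), map_zero]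
  | cons b l ih =>
    obtain ⟨h0, x, hx, y, hy, h1, h2⟩ := h
    obtain ⟨a1, a2⟩ := tight h0 hx hy h1 h2 hc
    have o : ∀ (a c : A), ∀ v ∈ W' ⊓ LinearMap.ker (f'.φ x y), f'.H v (a • x + c • y) = 0 :=
      fun a c v hv => f'.le_P x y hv.2 _ (Submodule.mem_span_pair.2 ⟨a, c, rfl⟩)
    have hφ : ∀ z, f.φ (p x) (p y) (p z) = C.s • f'.φ x y z := fun z => Prod.ext (hH _ _) (hH _ _)
    have a3 : (W'.map p).map (f.φ (p x) (p y)) ≤ C.R b.up := by
      rintro _ ⟨_, ⟨z, hz, rfl⟩, rfl⟩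
      rw [hφ]
      exact mem_R_up (a2 ⟨z, hz, rfl⟩)
    have key : W'.map p ⊓ LinearMap.ker (f.φ (p x) (p y)) =
        (W' ⊓ LinearMap.ker (f'.φ x y)).map p := by
      refine le_antisymm ?_ ?_
      · rintro _ ⟨⟨z, hz, rfl⟩, h3⟩
        obtain ⟨a, c, v, hv, rfl⟩ := h1.dec hx hy a2 hz
        refine ⟨v, hv, ?_⟩
        rw [map_add p _ v, nd (p (a • x + c • y))
          ⟨_, add_mem (W'.smul_mem _ hx) (W'.smul_mem _ hy), rfl⟩ ?_, zero_add]
        rintro _ ⟨z', hz', rfl⟩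
        obtain ⟨a', c', v', hv', rfl⟩ := h1.dec hx hy a2 hz'
        have h4 := f.le_P _ _ h3 _ (Submodule.mem_span_pair.2 ⟨a', c', rfl⟩)
        rw [← map_smul, ← map_smul, ← map_add, hH, f'.add_l _ v, o _ _ v hv, add_zero] at h4
        rw [hH, f'.add_r _ _ v', f'.zero_symm (o _ _ v' hv'), add_zero, h4]
      · rintro _ ⟨z, hz, rfl⟩
        exact ⟨⟨z, hz.1, rfl⟩, by
          rw [SetLike.mem_coe, LinearMap.mem_ker, hφ, LinearMap.mem_ker.1 hz.2, smul_zero]⟩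
    have ih' := ih h2 a1 (by
      rintro _ ⟨v, hv, rfl⟩ H
      refine nd _ ⟨v, hv.1, rfl⟩ ?_
      rintro _ ⟨z', hz', rfl⟩
      obtain ⟨a', c', v', hv', rfl⟩ := h1.dec hx hy a2 hz'
      rw [map_add p _ v', f.add_r, H _ ⟨v', hv', rfl⟩, hH, o _ _ v hv]
      simp)
    rw [← key] at ih'
    rw [List.filter_cons]
    split_ifs with hb
    · refine ⟨by simpa using hb, _, ⟨x, hx, rfl⟩, _, ⟨y, hy, rfl⟩, h1.push p hH, fun a c => ?_, a3,
        ih'⟩
      rw [← map_smul, ← map_smul, ← map_add, hQ, h1.nf]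
    · rwa [inf_eq_left.2 fun z hz => R_up_top (by simpa using hb) (a3 ⟨z, hz, rfl⟩)] at ih'

theorem exists_quot (f : Frm C V) : ∃ (R : Submodule A V) (g : Frm C (V ⧸ R)), g.ND ⊤ ∧
    (∀ a b, g.H (R.mkQ a) (R.mkQ b) = f.H a b) := by
  let H : (V ⧸ f.P ⊤) → (V ⧸ f.P ⊤) → A := fun a b => Quotient.liftOn₂' a b f.H
    fun a b a' b' h h' => by
      have h1 := (Submodule.quotientRel_def _).1 h
      have h2 := (Submodule.quotientRel_def _).1 h'
      rw [← sub_add_cancel a a', ← sub_add_cancel b b', f.add_l, h1 _ trivial, f.add_r,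
        f.zero_symm (h2 _ trivial), zero_add, zero_add]
  have hH : ∀ a b, H ((f.P ⊤).mkQ a) ((f.P ⊤).mkQ b) = f.H a b := fun _ _ => rfl
  have s := (f.P ⊤).mkQ_surjective
  refine ⟨f.P ⊤, ⟨H, s.forall₃.2 fun a b c => ?_, fun r => s.forall₂.2 fun a b => ?_,
    s.forall₂.2 fun a b => f.symm a b, s.forall.2 fun a => f.alt a⟩,
    s.forall.2 fun a _ h => (Submodule.Quotient.mk_eq_zero _).2 fun u _ => h (Submodule.mkQ _ u)
      trivial, hH⟩
  · rw [← map_add, hH, hH, hH, f.add_l]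
  · rw [← map_smul, hH, hH, f.smul_l]

theorem exists_hat [Finite V] (hQ : ∀ x y, Q (x + y) = Q x + Q y + Λ.l0 (f.H x y))
    (hu : ∀ v, Q ((1 + C.π) • v) = Q v) (hc : ∀ (c : F) v, Q (algebraMap F A c • v) = c * c * Q v)
    (hM : ∀ v : V, C.π ^ C.M • v = 0) : ∃ (r : ℕ) (g : Frm C (Fin r → A)) (p : (Fin r → A) →ₗ[A] V),
      Function.Surjective p ∧ (∀ a b, f.H (p a) (p b) = C.s * g.H a b) ∧
      ∀ a, Q (p a) = Λ.l1 (g.H a a) := by
  obtain ⟨r, ⟨e⟩⟩ := Finite.exists_equiv_fin V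
  have hM2 := Λ.hM
  have h1 : ∀ x y, f.H x y ∈ C.I 2 := fun x y => C.I_anti hM2 (C.ann (m := C.M) (n := 0) isUnit_one
    (by rw [pow_zero, mul_one, mul_one, mul_comm, ← map_pow, ← f.smul_r, hM, f.zero_r]) (by omega))
  have h2 : ∀ x y, ∃ a, C.s * a = f.H x y := fun x y => by
    obtain ⟨a, ha⟩ := (C.mem_I_even (j := 1)).1 (h1 x y)
    exact ⟨a, by rw [ha, pow_one]⟩
  have h3 : ∀ x, ∃ a ∈ C.S, C.s * a = f.H x x ∧ Λ.l1 a = Q x := fun x => by
    obtain ⟨a, ha, h⟩ := C.mem_sS (j := 0) (f.alt x) (C.I_anti (by omega) (h1 x x))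
    refine ⟨a + (Q x - Λ.l1 a) • C.s ^ (C.M - 1),
      add_mem ha (C.S.smul_mem (pow_mem C.s_mem _) _), ?_, ?_⟩
    · rw [mul_add, mul_smul_comm, mul_comm _ (_ ^ _), Λ.top_s, h]; simp
    · rw [map_add, map_smul, Λ.top]; simp
  choose a ha using h2
  choose d hd using h3
  obtain ⟨h, a1, a2, a3⟩ : ∃ h : Fin r → Fin r → A, (∀ i j, h j i = C.σ (h i j)) ∧
      (∀ i, h i i = d (e.symm i)) ∧ ∀ i j, C.s * h i j = f.H (e.symm i) (e.symm j) := by
    refine ⟨fun i j => if i < j then a (e.symm i) (e.symm j) else if j < i then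
      C.σ (a (e.symm j) (e.symm i)) else d (e.symm i), fun i j => ?_, fun i => by simp,
      fun i j => ?_⟩
    · rcases lt_trichotomy i j with h | rfl | h
      · simp [h, h.not_gt]
      · simp [C.σ_of_mem (hd _).1]
      · simp [h, h.not_gt, C.σσ]
    · rcases lt_trichotomy i j with h | rfl | h
      · simp [h, ha]
      · simp [(hd _).2.1]
      · simp only [h, h.not_gt, if_true, if_false]
        rw [f.symm, ← ha, map_mul, C.σs]
  let H : (Fin r → A) → (Fin r → A) → A := fun x y => ∑ i, ∑ j, x i * C.σ (y j) * h i j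
  have b1 : ∀ x y z, H (x + y) z = H x z + H y z := fun x y z => by
    simp only [H, Pi.add_apply, add_mul, Finset.sum_add_distrib]
  have b2 : ∀ (c : A) x y, H (c • x) y = c * H x y := fun c x y => by
    simp only [H, Pi.smul_apply, smul_eq_mul, Finset.mul_sum, mul_assoc]
  have b3 : ∀ x y, H y x = C.σ (H x y) := fun x y => by
    simp only [H, map_sum, map_mul, C.σσ, ← a1]
    rw [Finset.sum_comm]
    exact Finset.sum_congr rfl fun i _ => Finset.sum_congr rfl fun j _ => by ring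
  have b4 : ∀ x y, H (x + y) (x + y) = H x x + H y y + (H x y + C.σ (H x y)) := fun x y => by
    rw [b1, b3 (x + y) x, b3 (x + y) y, b1, b1, map_add, map_add, ← b3 x x, ← b3 y y, ← b3 y x]
    ring
  have b5 : ∀ (c : A) x, H (c • x) (c • x) = c * C.σ c * H x x := fun c x => by
    rw [b2, b3, b2, map_mul, ← b3, mul_assoc]
  have b6 : ∀ i, H (Pi.single i 1) (Pi.single i 1) = d (e.symm i) := fun i => by
    simp [H, Pi.single_apply, apply_ite C.σ, a2]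
  have gen : ∀ T : Submodule A (Fin r → A), (∀ i, Pi.single i 1 ∈ T) → ∀ x, x ∈ T := by
    intro T hT x
    rw [pi_eq_sum_univ' x]
    exact T.sum_mem fun i _ => T.smul_mem _ (hT i)
  let p := Fintype.linearCombination A (fun i => e.symm i)
  have p1 : ∀ i, p (Pi.single i 1) = e.symm i := fun i => by simp [p]
  have p2 : ∀ x y, f.H (p x) (p y) = C.s * H x y := fun x y => by
    have s1 : ∀ (u : Fin r → V) z, f.H (∑ i, u i) z = ∑ i, f.H (u i) z := fun u z =>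
      map_sum ((LinearMap.fst A A A).comp (f.φ z z)) u _
    simp only [p, H, Fintype.linearCombination_apply, s1, f.smul_l, Finset.mul_sum]
    refine Finset.sum_congr rfl fun i _ => ?_
    rw [f.symm, s1, map_sum, Finset.mul_sum]
    refine Finset.sum_congr rfl fun j _ => ?_
    rw [← f.symm, f.smul_r, ← a3]
    ring
  have q1 : ∀ x y, Q (p x) = Λ.l1 (H x x) → Q (p y) = Λ.l1 (H y y) →
      Q (p (x + y)) = Λ.l1 (H (x + y) (x + y)) := fun x y hx hy => by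
    rw [map_add, hQ, hx, hy, b4, p2, Λ.tr]
    simp only [map_add]
  let T : Subalgebra F A :=
    { carrier := {c | ∀ x, Q (p x) = Λ.l1 (H x x) → Q (p (c • x)) = Λ.l1 (H (c • x) (c • x))}
      mul_mem' := fun {a b} ha hb x hx => by rw [mul_smul]; exact ha _ (hb x hx)
      add_mem' := fun {a b} ha hb x hx => by rw [add_smul]; exact q1 _ _ (ha x hx) (hb x hx)
      algebraMap_mem' := fun c x hx => by
        rw [map_smul, hc, b5, AlgHom.commutes, ← map_mul, ← Algebra.smul_def, map_smul, hx,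
          smul_eq_mul] }
  have hT : 1 + C.π ∈ T := fun x hx => by
    rw [map_smul, hu, b5, map_add C.σ, map_one, C.u_mul, one_mul, hx]
  refine ⟨r, ⟨H, b1, b2, b3, gen
    { carrier := {x | H x x ∈ C.S}
      add_mem' := fun {x y} hx hy => by
        change H _ _ ∈ C.S
        rw [b4]
        exact add_mem (add_mem hx hy) (C.tr_mem _)
      zero_mem' := by simp [H]
      smul_mem' := fun c x hx => by
        change H _ _ ∈ C.S
        rw [b5]
        exact mul_mem (C.norm_mem c) hx } fun i => by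
      change H _ _ ∈ C.S
      rw [b6]
      exact (hd _).1⟩, p, fun v => ⟨Pi.single (e v) 1, by rw [p1]; simp⟩, p2, gen
    { carrier := {x | Q (p x) = Λ.l1 (H x x)}
      add_mem' := fun {x y} => q1 x y
      zero_mem' := by simp [H, q_zero hQ]
      smul_mem' := fun c x => C.gen T (by simpa using sub_mem hT (one_mem T)) c x } fun i => ?_⟩
  change Q _ = _
  rw [p1, b6, (hd _).2.2]

theorem exists_RQ [Finite V] (nd : f.ND ⊤) (hQ : ∀ x y, Q (x + y) = Q x + Q y + Λ.l0 (f.H x y))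
    (hu : ∀ v, Q ((1 + C.π) • v) = Q v) (hc : ∀ (c : F) v, Q (algebraMap F A c • v) = c * c * Q v)
    (hM : ∀ v : V, C.π ^ C.M • v = 0) :
    ∃ s, Can' (C.M - 1) s ∧ ∀ l : List Bk, (l : Multiset Bk) = s → f.RQ Λ Q ⊤ l := by
  have := C.finA
  obtain ⟨r, g, p, h1, h2, h3⟩ := exists_hat hQ hu hc hM
  obtain ⟨R, g', h4, h5⟩ := g.exists_quot
  have s := R.mkQ_surjective
  have : Finite ((Fin r → A) ⧸ R) := Finite.of_surjective _ s
  let p' := R.liftQ p fun z hz => nd _ trivial fun y _ => by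
    obtain ⟨y, rfl⟩ := h1 y
    rw [h2, ← h5, show R.mkQ z = 0 from (Submodule.Quotient.mk_eq_zero _).2 hz, g'.zero_l, mul_zero]
  have h6 : (⊤ : Submodule A _).map p' = ⊤ := eq_top_iff.2 fun v _ => by
    obtain ⟨v, rfl⟩ := h1 v
    exact ⟨R.mkQ v, trivial, rfl⟩
  obtain ⟨l, a1, a2⟩ := jordan h4
  obtain ⟨l', a3, a4, a5⟩ := a1.can
  refine ⟨_, a5.filter, fun l₀ hl => ?_⟩
  have a6 : l'.Perm (l₀ ++ l'.filter fun b => !decide (b.j + 1 < C.M)) :=
    (List.filter_append_perm _ l').symm.trans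
      (List.Perm.append_right _ (Multiset.coe_eq_coe.1 hl).symm)
  have a7 := RL.push (f := f) (Λ := Λ) (Q := Q) p' (s.forall₂.2 fun a b => (h2 a b).trans
    (by rw [h5])) (s.forall.2 fun a => (h3 a).trans (by rw [h5])) (a3.perm a6)
    (by rw [a2, ← a4, wl, wl, (a6.map _).sum_eq]) (h6 ▸ nd)
  rw [h6, List.filter_append, List.filter_filter, List.filter_eq_self.2 fun b hb => by
    have := Multiset.mem_coe.2 hb
    rw [hl, Multiset.mem_filter] at this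
    simpa using this.2] at a7
  simpa using a7

end Frm

end Cfsg.Agent.UGL.Ev
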