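import Mathlib
import Cfsg.Agent.UGL.Ev11

/-!
Counting canonical multisets of blocks with a sign.
-/

set_option autoImplicit false

namespace Cfsg.Agent.UGL.Ev

/-- is there a block of rank one -/
def hv' : List D → Bool
  | [] => false
  | d :: _ => d.2.2.2.1 + d.2.2.2.2 ≠ 0

theorem hv'_cons (d : D) (T : List D) : hv' (d :: T) = decide (d.2.2.2.1 + d.2.2.2.2 ≠ 0) := rfl

/-- local sign -/
noncomputable def ρ' (χ : ℝ) (β : Bool) (l : ℕ × ℕ × ℕ) : ℝ :=
  if β = true ∧ l.1 + l.2.2 ≠ 0 then 0 else χ ^ (l.1 + l.2.2)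

/-- sign of a list -/
noncomputable def val (χ : ℝ) : List D → ℝ
  | [] => 1
  | d :: T => ρ' χ (hv' T) d.2.2 * val χ T

/-- weight of a list -/
def wL : ℕ → List D → ℕ
  | K + 1, d :: T => wd (K + 1) d + wL K T
  | _, _ => 0

/-- partial sums -/
noncomputable def SS' (χ : ℝ) (n K : ℕ) (h : ℕ → ℝ) (β : Bool) : ℝ :=
  ∑ T ∈ LL n K, if hv' T = β then val χ T * h (wL K T) else 0

theorem abs_val (T : List D) : |val (-1) T| = val 1 T := by
  induction T with
  | nil => simp [val]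
  | cons d T ih =>
    rw [val, val, abs_mul, ih]
    unfold ρ'
    split_ifs <;> simp

theorem SS'_succ (χ : ℝ) (n K : ℕ) (h : ℕ → ℝ) (β : Bool) : SS' χ n (K + 1) h β =
    ∑ i ∈ Finset.range (n + 1), ∑ j ∈ Finset.range (n + 1), ∑ l ∈ LS,
      if decide (l.2.1 + l.2.2 ≠ 0) = β then
        ρ' χ true l * SS' χ n K (fun m => h (wd (K + 1) (i, j, l) + m)) true +
        ρ' χ false l * SS' χ n K (fun m => h (wd (K + 1) (i, j, l) + m)) false else 0 := by
  rw [SS', LL, Finset.sum_image fun a _ b _ h => Prod.ext (List.cons.inj h).1 (List.cons.inj h).2,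
    Finset.sum_product, Finset.sum_product]
  refine Finset.sum_congr rfl fun i _ => ?_
  rw [Finset.sum_product]
  refine Finset.sum_congr rfl fun j _ => Finset.sum_congr rfl fun l _ => ?_
  simp only [hv'_cons, val, wL]
  by_cases h1 : decide (l.2.1 + l.2.2 ≠ 0) = β
  · simp only [h1, if_true, SS', Finset.mul_sum, ← Finset.sum_add_distrib]
    refine Finset.sum_congr rfl fun T _ => ?_
    cases hv' T <;> simp <;> ring
  · simp only [h1, if_false, Finset.sum_const_zero]

theorem SS'_true (n K : ℕ) (h : ℕ → ℝ) : SS' (-1) n K h true = 0 := by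
  induction K generalizing h with
  | zero => rw [SS', LL, Finset.sum_singleton]; simp [hv']
  | succ K ih =>
    rw [SS'_succ]
    refine Finset.sum_eq_zero fun i _ => Finset.sum_eq_zero fun j _ => ?_
    simp [LS, ρ', wd, ih]

theorem SS'_false (n K : ℕ) (h : ℕ → ℝ) (c : ℝ) (hc : ∀ m, |h m| ≤ c * (1 / 2) ^ m) :
    |SS' (-1) n K h false| ≤ c * (4 - 3 * (1 / 2) ^ K) := by
  induction K generalizing h c with
  | zero =>
    rw [SS', LL, Finset.sum_singleton]
    simpa [hv', val, wL, show (4 : ℝ) - 3 = 1 by norm_num] using hc 0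
  | succ K ih =>
    have c0 : 0 ≤ c := by simpa using (abs_nonneg _).trans (hc 0)
    obtain ⟨X, hX⟩ : ∃ X : ℝ, X = (1 / 2) ^ (K + 1) := ⟨_, rfl⟩
    have h0 : 0 < X := by rw [hX]; positivity
    have h1 : X ≤ 1 / 2 := by
      rw [hX, pow_succ]
      exact mul_le_of_le_one_left (by norm_num) (pow_le_one₀ (by norm_num) (by norm_num))
    have h3 : (1 / 2 : ℝ) ^ K = 2 * X := by rw [hX]; ring
    have key : ∀ w, |SS' (-1) n K (fun m => h (w + m)) false| ≤ c * (1 / 2) ^ w * (4 - 6 * X) :=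
      fun w => (ih _ _ fun m => (hc _).trans (by rw [pow_add, mul_assoc])).trans
        (by rw [h3]; exact le_of_eq (by ring))
    have h4 : ∀ i, |∑ j ∈ Finset.range (n + 1), ∑ l ∈ LS,
      if decide (l.2.1 + l.2.2 ≠ 0) = false then
        ρ' (-1) true l * SS' (-1) n K (fun m => h (wd (K + 1) (i, j, l) + m)) true +
        ρ' (-1) false l * SS' (-1) n K (fun m => h (wd (K + 1) (i, j, l) + m)) false else 0| ≤
        (X ^ 2) ^ i * (c * (1 + 2 * X ^ 2) * (4 - 6 * X)) := fun i => by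
      rw [Finset.sum_congr rfl (g := fun j =>
        SS' (-1) n K (fun m => h (2 * (K + 1) * i + (2 * K + 1) * j + m)) false -
        SS' (-1) n K (fun m => h (2 * (K + 1) * i + (2 * K + 1) * (j + 1) + m)) false) fun j _ => by
          simp [LS, ρ', wd, SS'_true, show 2 * (K + 1) - 1 = 2 * K + 1 by omega, sub_eq_add_neg],
        Finset.sum_range_sub']
      refine (abs_sub _ _).trans ((add_le_add (key _) (key _)).trans ?_)
      have a1 : (1 / 2 : ℝ) ^ (2 * (K + 1) * i) = (X ^ 2) ^ i := by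
        rw [hX, ← pow_mul, ← pow_mul]; congr 1; ring
      have a2 : (1 / 2 : ℝ) ^ ((2 * K + 1) * (n + 1)) ≤ 2 * X ^ 2 :=
        (pow_le_pow_of_le_one (by norm_num) (by norm_num) (Nat.le_mul_of_pos_right _ n.succ_pos)).trans
          (le_of_eq (by rw [hX]; ring))
      rw [pow_add, pow_add, a1, mul_zero, pow_zero]
      have : 0 ≤ c * (X ^ 2) ^ i * (4 - 6 * X) := mul_nonneg (by positivity) (by linarith)
      nlinarith
    rw [SS'_succ, ← hX]
    refine (Finset.abs_sum_le_sum_abs _ _).trans ((Finset.sum_le_sum fun i _ => h4 i).trans ?_)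
    rw [← Finset.sum_mul]
    refine (mul_le_mul_of_nonneg_right (geo (by positivity) (by nlinarith) _)
      (mul_nonneg (by positivity) (by linarith))).trans ?_
    rw [inv_mul_le_iff₀ (by nlinarith)]
    have : 0 ≤ c * X * (1 - 4 * X + 5 * X ^ 2) := mul_nonneg (by positivity) (by nlinarith)
    nlinarith

/-- unsigned sums -/
noncomputable def Z' (n K : ℕ) (β : Bool) : ℝ := SS' 1 n K (fun m => (1 / 2) ^ m) β

theorem Z'_nonneg (n K : ℕ) (β : Bool) : 0 ≤ Z' n K β :=
  Finset.sum_nonneg fun T _ => by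
    split_ifs
    · exact mul_nonneg (abs_val T ▸ abs_nonneg _) (by positivity)
    · exact le_rfl

theorem Z'_succ (n K : ℕ) (β : Bool) {X : ℝ} (hX : X = (1 / 2) ^ (K + 1)) :
    Z' n (K + 1) β ≤ (1 - X ^ 2)⁻¹ * (1 - 2 * X ^ 2)⁻¹ * ∑ l ∈ LS,
      if decide (l.2.1 + l.2.2 ≠ 0) = β then
        ρ X true l * Z' n K true + ρ X false l * Z' n K false else 0 := by
  have h0 : 0 < X := by rw [hX]; positivity
  have h1 : X ≤ 1 / 2 := by
    rw [hX, pow_succ]
    exact mul_le_of_le_one_left (by norm_num) (pow_le_one₀ (by norm_num) (by norm_num))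
  have h3 : ∀ w β, SS' 1 n K (fun m => (1 / 2) ^ (w + m)) β = (1 / 2) ^ w * Z' n K β := fun w β => by
    simp only [Z', SS', Finset.mul_sum]
    refine Finset.sum_congr rfl fun T _ => ?_
    split_ifs
    · ring
    · simp
  have h2 : Z' n (K + 1) β = (∑ i ∈ Finset.range (n + 1), (X ^ 2) ^ i) *
      (∑ i ∈ Finset.range (n + 1), (2 * X ^ 2) ^ i) * ∑ l ∈ LS,
      if decide (l.2.1 + l.2.2 ≠ 0) = β then
        ρ X true l * Z' n K true + ρ X false l * Z' n K false else 0 := by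
    rw [Z', SS'_succ, Finset.sum_mul, Finset.sum_mul]
    refine Finset.sum_congr rfl fun i _ => ?_
    rw [Finset.mul_sum (Finset.range (n + 1)), Finset.sum_mul]
    refine Finset.sum_congr rfl fun j _ => ?_
    rw [Finset.mul_sum]
    refine Finset.sum_congr rfl fun l _ => ?_
    have h4 : (1 / 2 : ℝ) ^ wd (K + 1) (i, j, l) =
        (X ^ 2) ^ i * (2 * X ^ 2) ^ j * ((2 * X ^ 2) ^ l.1 * X ^ (l.2.1 + l.2.2)) := by
      rw [show 2 * X ^ 2 = (1 / 2) ^ (2 * (K + 1) - 1) by
        rw [hX, show 2 * (K + 1) - 1 = 2 * K + 1 by omega]; ring, hX, wd]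
      simp only [← pow_mul, ← pow_add]
      congr 1
      ring
    simp only [h3, h4, ρ, ρ']
    split_ifs <;> ring
  rw [h2]
  refine mul_le_mul_of_nonneg_right (mul_le_mul (geo (by positivity) (by nlinarith) _)
    (geo (by positivity) (by nlinarith) _) (by positivity) (inv_nonneg.2 (by nlinarith)))
    (Finset.sum_nonneg fun l _ => ?_)
  split_ifs
  · exact add_nonneg (mul_nonneg (ρ_nonneg h0.le _ _) (Z'_nonneg _ _ _))
      (mul_nonneg (ρ_nonneg h0.le _ _) (Z'_nonneg _ _ _))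
  · exact le_rfl

theorem Z'_f (n K : ℕ) {X : ℝ} (hX : X = (1 / 2) ^ (K + 1)) :
    Z' n (K + 1) false ≤ (1 - X ^ 2)⁻¹ * (1 - 2 * X ^ 2)⁻¹ *
      ((1 + 2 * X ^ 2) * Z' n K false + Z' n K true) := by
  refine (Z'_succ n K false hX).trans (le_of_eq ?_)
  simp [LS, ρ]
  exact Or.inl (by ring)

theorem Z'_t (n K : ℕ) {X : ℝ} (hX : X = (1 / 2) ^ (K + 1)) :
    Z' n (K + 1) true ≤ (1 - X ^ 2)⁻¹ * (1 - 2 * X ^ 2)⁻¹ *
      ((X + X ^ 2) * (2 * Z' n K false + Z' n K true)) := by
  refine (Z'_succ n K true hX).trans (le_of_eq ?_)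
  simp [LS, ρ]
  exact Or.inl (by ring)

theorem Z'_seven (n : ℕ) : Z' n 7 false + Z' n 7 true ≤ 25.5 := by
  have a0 : Z' n 0 false = 1 := by rw [Z', SS', LL, Finset.sum_singleton]; simp [hv', val, wL]
  have b0 : Z' n 0 true = 0 := by rw [Z', SS', LL, Finset.sum_singleton]; simp [hv', val, wL]
  have a1 := Z'_f n 0 rfl
  have b1 := Z'_t n 0 rfl
  have a2 := Z'_f n 1 rfl
  have b2 := Z'_t n 1 rfl
  have a3 := Z'_f n 2 rfl
  have b3 := Z'_t n 2 rfl
  have a4 := Z'_f n 3 rfl
  have b4 := Z'_t n 3 rfl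
  have a5 := Z'_f n 4 rfl
  have b5 := Z'_t n 4 rfl
  have a6 := Z'_f n 5 rfl
  have b6 := Z'_t n 5 rfl
  have a7 := Z'_f n 6 rfl
  have b7 := Z'_t n 6 rfl
  norm_num at *
  linarith

theorem Z'_le (n K : ℕ) (hK : 7 ≤ K) :
    Z' n K false + Z' n K true ≤ 26 * (1 - 2.1 * (1 / 2) ^ K) := by
  induction K, hK using Nat.le_induction with
  | base => exact (Z'_seven n).trans (by norm_num)
  | succ K hK ih =>
    have a := Z'_f n K rfl
    have b := Z'_t n K rfl
    have h1 : (1 / 2 : ℝ) ^ K = 2 * (1 / 2) ^ (K + 1) := by ring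
    have h2 : (1 / 2 : ℝ) ^ (K + 1) ≤ (1 / 2) ^ 8 :=
      pow_le_pow_of_le_one (by norm_num) (by norm_num) (by omega)
    have h3 : (0 : ℝ) < (1 / 2) ^ (K + 1) := by positivity
    rw [h1] at ih
    generalize (1 / 2 : ℝ) ^ (K + 1) = X at *
    have h4 := Z'_nonneg n K false
    have h5 := Z'_nonneg n K true
    norm_num at h2
    have h6 : 0 < (1 - X ^ 2) * (1 - 2 * X ^ 2) := mul_pos (by nlinarith) (by nlinarith)
    rw [← mul_inv] at a b
    have h7 : ((1 - X ^ 2) * (1 - 2 * X ^ 2))⁻¹ * (1 + 2 * X + 4 * X ^ 2) ≤ 1 + 2.1 * X := by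
      rw [inv_mul_le_iff₀ h6]
      have : X ^ 2 ≤ X / 256 := by nlinarith
      have : X ^ 3 ≤ X / 256 := by nlinarith
      have : 0 ≤ X ^ 4 := by positivity
      have : 0 ≤ X ^ 5 := by positivity
      nlinarith
    have h8 := inv_pos.2 h6
    generalize ((1 - X ^ 2) * (1 - 2 * X ^ 2))⁻¹ = P at *
    have h9 : Z' n (K + 1) false + Z' n (K + 1) true ≤
        P * (1 + 2 * X + 4 * X ^ 2) * (Z' n K false + Z' n K true) := by
      have : 0 ≤ P * (X + 3 * X ^ 2) * Z' n K true := by positivity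
      nlinarith
    have h10 := mul_le_mul h7 ih (by positivity) (by positivity)
    nlinarith

/-- the number of twisted blocks -/
def ntw (s : Multiset Bk) : ℕ := (s.map fun b => b.tws.toNat).sum

theorem countP_eq (l : List Bk) : l.countP Bk.tws = ntw l := by
  induction l with
  | nil => rfl
  | cons b l ih =>
    rw [List.countP_cons, ih, ← Multiset.cons_coe, ntw, ntw, Multiset.map_cons, Multiset.sum_cons]
    cases b.tws <;> simp [add_comm]

theorem ntw_eq {M : ℕ} {s : Multiset Bk} (h : ∀ b ∈ s, b.j < M) : ntw s = ∑ k ∈ Finset.range M,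
    ((dat s (M - (k + 1))).2.2.1 + (dat s (M - (k + 1))).2.2.2.2) := by
  induction s using Multiset.induction_on with
  | empty => simp [ntw, dat]
  | cons b s ih =>
    have h1 : b.j < M := h b (Multiset.mem_cons_self _ _)
    have h2 : ∀ k ∈ Finset.range M, (dat (b ::ₘ s) (M - (k + 1))).2.2.1 +
        (dat (b ::ₘ s) (M - (k + 1))).2.2.2.2 = (if M - b.j - 1 = k then b.tws.toNat else 0) +
        ((dat s (M - (k + 1))).2.2.1 + (dat s (M - (k + 1))).2.2.2.2) := by
      intro k hk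
      rw [Finset.mem_range] at hk
      split_ifs with h3
      · have h4 : M - (k + 1) = b.j := by omega
        rw [h4]
        rcases b with ⟨j, _ | _⟩ | j | ⟨j, _ | _⟩ <;> simp [dat, Bk.tws, Bk.j] <;> ring
      · have h4 : M - (k + 1) ≠ b.j := by omega
        rcases b with ⟨j, _ | _⟩ | j | ⟨j, _ | _⟩ <;> simp only [Bk.j] at h4 <;>
          simp [dat, h4]
    rw [Finset.sum_congr rfl h2, Finset.sum_add_distrib, Finset.sum_ite_eq,
      if_pos (Finset.mem_range.2 (by omega)), ← ih fun b hb => h b (Multiset.mem_cons_of_mem hb)]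
    simp [ntw]

theorem Can'.mem_LL {M n : ℕ} {s : Multiset Bk} (h : Can' M s) (hn : wm M s ≤ n) (K : ℕ) :
    enc M s K ∈ LL n K := by
  induction K with
  | zero => simp [enc, LL]
  | succ K ih =>
    refine Finset.mem_image.2 ⟨(_, _), ?_, rfl⟩
    simp only [Finset.mem_product, Finset.mem_range, dat]
    refine ⟨⟨Nat.lt_succ_of_le ((count_le_wm h.lt _).trans hn),
      Nat.lt_succ_of_le ((count_le_wm h.lt _).trans hn), ?_⟩, ih⟩
    generalize M - (K + 1) = j
    have h1 := h.v3 j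
    have h2 := h.v2 j
    have h3 := h.o2 j
    have h4 : s.count (.o j true) ≠ 0 → s.count (.v j false) = 0 ∧ s.count (.v j true) = 0 :=
      fun h4 => ⟨Multiset.count_eq_zero.2 ((h.ov j (Multiset.count_ne_zero.1 h4)).1 _),
        Multiset.count_eq_zero.2 ((h.ov j (Multiset.count_ne_zero.1 h4)).1 _)⟩
    simp only [LS, Finset.mem_insert, Finset.mem_singleton, Prod.mk.injEq]
    omega

theorem wL_enc (M : ℕ) (s : Multiset Bk) (K : ℕ) :
    wL K (enc M s K) = ∑ k ∈ Finset.range K, wd (k + 1) (dat s (M - (k + 1))) := by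
  induction K with
  | zero => rfl
  | succ K ih => rw [enc, wL, ih, Finset.sum_range_succ, add_comm]

theorem Can'.val_enc {M : ℕ} {s : Multiset Bk} (h : Can' M s) (χ : ℝ) {K : ℕ} (hK : K ≤ M) :
    val χ (enc M s K) = χ ^ ∑ k ∈ Finset.range K,
      ((dat s (M - (k + 1))).2.2.1 + (dat s (M - (k + 1))).2.2.2.2) := by
  induction K with
  | zero => simp [enc, val]
  | succ K ih =>
    rw [enc, val, ih (by omega), Finset.sum_range_succ, pow_add _ (∑ _ ∈ _, _), mul_comm]
    congr 1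
    refine if_neg ?_
    rintro ⟨h1, h2⟩
    have h3 : ∀ t, .v (M - (K + 1) + 1) t ∉ s := by
      by_cases h3 : .v (M - (K + 1)) true ∈ s
      · exact h.vv _ h3
      · exact (h.ov _ (Multiset.count_ne_zero.1 (by
          simpa [dat, Multiset.count_eq_zero.2 h3] using h2))).2
    rcases K with _ | K
    · simp [enc, hv'] at h1
    · rw [show M - (K + 1 + 1) + 1 = M - (K + 1) by omega] at h3
      simp [enc, hv', dat, h3] at h1

theorem sum_can_le' {M n : ℕ} (hM : 7 ≤ M) (X : Finset (Multiset Bk)) (δ : ℕ → Prop)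
    (h : ∀ s ∈ X, Can' M s ∧ wm M s ≤ n ∧ (Even (ntw s) ↔ δ (wm M s))) :
    ∑ s ∈ X, (1 / 2 : ℝ) ^ wm M s ≤ 15 := by
  classical
  let u : ℕ → ℝ := fun m => if δ m then (1 / 2) ^ m else -(1 / 2) ^ m
  have hu : ∀ m, |u m| = (1 / 2) ^ m := fun m => by
    simp only [u]; split_ifs <;> simp
  let G : List D → ℝ := fun T => (val 1 T * (1 / 2) ^ wL M T + val (-1) T * u (wL M T)) / 2
  have h1 : ∑ T ∈ LL n M, G T = (Z' n M false + Z' n M true + SS' (-1) n M u false +
      SS' (-1) n M u true) / 2 := by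
    simp only [G, Z', SS', ← Finset.sum_add_distrib, Finset.sum_div]
    refine Finset.sum_congr rfl fun T _ => ?_
    cases hv' T <;> simp
  have h2 := Z'_le n M hM
  have h3 := (le_abs_self _).trans (SS'_false n M u 1 fun m => by rw [hu, one_mul])
  have h4 : (0 : ℝ) < (1 / 2) ^ M := by positivity
  refine le_trans ?_ (h1.trans_le (by rw [SS'_true]; linarith))
  rw [Finset.sum_congr rfl fun s hs => show (1 / 2 : ℝ) ^ wm M s = G (enc M s M) by
    obtain ⟨a1, -, a3⟩ := h s hs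
    simp only [G, u, wL_enc, a1.val_enc _ le_rfl, ← wm_eq a1.lt, ← ntw_eq a1.lt, ← a3]
    split_ifs with a4
    · rw [a4.neg_one_pow]; ring
    · rw [(Nat.not_even_iff_odd.1 a4).neg_one_pow]; ring,
    ← Finset.sum_image (g := fun s => enc M s M) (f := G)
      fun a ha b hb H => enc_inj (h a ha).1.lt (h b hb).1.lt H]
  refine Finset.sum_le_sum_of_subset_of_nonneg (fun T hT => ?_) fun T _ _ => ?_
  · obtain ⟨s, hs, rfl⟩ := Finset.mem_image.1 hT
    exact (h s hs).1.mem_LL (h s hs).2.1 M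
  · have := neg_abs_le (val (-1) T * u (wL M T))
    rw [abs_mul, abs_val, hu] at this
    simp only [G]
    linarith

end Cfsg.Agent.UGL.Ev
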