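import Mathlib
import Cfsg.Agent.Orth.Class

/-!
The type of a quadratic form in characteristic two.
-/

set_option autoImplicit false

namespace Cfsg.Agent.UGL.Ev

open Module QuadraticMap Cfsg.Agent.Orth

variable {F V V' : Type*} [Field F] [AddCommGroup V] [Module F V] [AddCommGroup V'] [Module F V']

/-- Artin--Schreier elements -/
def AS (c : F) : Prop := ∃ w : F, w * w + w = c

theorem AS.add (h2 : (2 : F) = 0) {a b : F} (h : AS a) (h' : AS b) : AS (a + b) := by
  obtain ⟨x, rfl⟩ := h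
  obtain ⟨y, rfl⟩ := h'
  exact ⟨x + y, by linear_combination x * y * h2⟩

theorem as_zero : AS (0 : F) := ⟨0, by simp⟩

theorem exists_α' [Finite F] (h2 : (2 : F) = 0) :
    ∃ α : F, ¬ AS α ∧ ∀ c : F, AS c ∨ AS (c + α) := by
  let φ : F →+ F := AddMonoidHom.mk' (fun w => w * w + w) fun a b => by
    linear_combination a * b * h2
  have h1 : φ.range.index = 2 := by
    rw [AddSubgroup.index_range, Nat.card_eq_two_iff' (0 : φ.ker)]
    refine ⟨⟨1, by change (1 : F) * 1 + 1 = 0; linear_combination h2⟩,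
      fun h => one_ne_zero (congrArg Subtype.val h), fun w hw => Subtype.ext ?_⟩
    have : w.1 * (w.1 - 1) = 0 := by
      have : w.1 * w.1 + w.1 = 0 := w.2
      linear_combination this - w.1 * h2
    exact sub_eq_zero.1 ((mul_eq_zero.1 this).resolve_left fun h => hw (Subtype.ext h))
  obtain ⟨a, ha⟩ := AddSubgroup.index_eq_two_iff.1 h1
  refine ⟨a, fun h => ?_, fun c => (ha c).or.symm⟩
  rcases ha 0 with h3 | h3
  · exact h3.2 (zero_mem _)
  · exact h3.2 (by rw [zero_add]; exact h)

theorem as_add_iff [Finite F] (h2 : (2 : F) = 0) {a b : F} : AS (a + b) ↔ (AS a ↔ AS b) := by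
  obtain ⟨α, -, h⟩ := exists_α' h2
  refine ⟨fun H => ⟨fun h => ?_, fun h => ?_⟩, fun H => ?_⟩
  · convert H.add h2 h using 1
    linear_combination -a * h2
  · convert H.add h2 h using 1
    linear_combination -b * h2
  · by_cases ha : AS a
    · exact ha.add h2 (H.1 ha)
    · convert ((h a).resolve_left ha).add h2 ((h b).resolve_left (mt H.2 ha)) using 1
      linear_combination -α * h2

/-- a Lagrangian subspace with a characteristic vector -/
def AD (Q : QuadraticForm F V) (L : Submodule F V) (w : V) : Prop :=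
  perp Q L = L ∧ ∀ l ∈ L, Q l = polar Q l w ^ 2

variable {Q : QuadraticForm F V} {Q' : QuadraticForm F V'} [FiniteDimensional F V]

theorem AD.isPlus_iff (h2 : (2 : F) = 0) (hQ : ND Q) {L : Submodule F V} {w : V} (h : AD Q L w) :
    IsPlus Q ↔ AS (Q w) := by
  obtain ⟨h1, h3⟩ := h
  have h4 : ∀ a ∈ L, ∀ b ∈ L, polar Q a b = 0 := fun a ha b hb => mem_perp.1 (h1.symm ▸ hb) a ha
  have h5 := hQ.finrank_perp_add L
  rw [h1] at h5
  constructor
  · rintro ⟨T, hT, hd⟩
    have : w ∈ perp Q (T ⊓ L) := mem_perp.2 fun l hl =>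
      pow_eq_zero_iff two_ne_zero |>.1 ((h3 l hl.2).symm.trans (hT l hl.1))
    rw [hQ.perp_inf, hQ.perp_eq_self hT hd, h1] at this
    obtain ⟨t, ht, l, hl, rfl⟩ := Submodule.mem_sup.1 this
    refine ⟨polar Q l (t + l), ?_⟩
    rw [q_add, hT t ht, h3 l hl, polar_add_right, h4 l hl l hl, polar_comm Q t l]
    ring
  · rintro ⟨c, hc⟩
    by_cases hw : w ∈ perp Q L
    · exact ⟨L, fun l hl => by rw [h3 l hl, mem_perp.1 hw l hl]; simp, by omega⟩
    obtain ⟨l, hl, h6⟩ : ∃ l ∈ L, polar Q l w = 1 := by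
      obtain ⟨l, hl, h6⟩ : ∃ l ∈ L, polar Q l w ≠ 0 := by simpa [mem_perp] using hw
      exact ⟨(polar Q l w)⁻¹ • l, L.smul_mem _ hl, by rw [p_smul_left, inv_mul_cancel₀ h6]⟩
    refine ⟨(L ⊓ perp Q (Submodule.span F {w})) ⊔ Submodule.span F {w + c • l}, fun v hv => ?_, ?_⟩
    · obtain ⟨a, ha, b, hb, rfl⟩ := Submodule.mem_sup.1 hv
      obtain ⟨d, rfl⟩ := Submodule.mem_span_singleton.1 hb
      have h7 : polar Q a w = 0 := by rw [polar_comm]; exact mem_perp_singleton.1 ha.2
      rw [q_add, q_smul, q_add, q_smul, p_smul_right, p_smul_right, polar_add_right, p_smul_right,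
        h3 a ha.1, h3 l hl, h7, h4 a ha.1 l hl, polar_comm Q w l, h6, ← hc]
      linear_combination d ^ 2 * (c ^ 2 + c) * h2
    · rw [finrank_sup_span_singleton', hQ.finrank_inf_perp_singleton hw]
      · omega
      · intro h7
        have := h4 l hl _ h7.1
        rw [polar_add_right, p_smul_right, h6, h4 l hl l hl] at this
        simp at this

theorem exists_AD [Finite F] (h2 : (2 : F) = 0) (hQ : ND Q) : ∃ L w, AD Q L w := by
  obtain ⟨L, h1, h3⟩ := exists_maximal_of_wellFoundedGT (fun L : Submodule F V => L ≤ perp Q L)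
    ⟨⊥, bot_le⟩
  have h4 : perp Q L = L := le_antisymm (fun x hx => h3 (y := L ⊔ Submodule.span F {x}) (by
    change _ ≤ _
    rw [perp_sup]
    refine sup_le (le_inf h1 (le_perp_comm.1 ?_)) (le_inf ?_ ?_)
    · simpa using hx
    · simpa using hx
    · rw [Submodule.span_singleton_le_iff_mem, mem_perp_singleton, p_self, h2, zero_mul])
    le_sup_left (Submodule.mem_sup_right (Submodule.mem_span_singleton_self x))) h1
  have inj : Function.Injective fun d : F => d ^ 2 := fun a b h => by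
    have : (a - b) ^ 2 = 0 := by linear_combination h + (b * b - a * b) * h2
    exact sub_eq_zero.1 (pow_eq_zero_iff two_ne_zero |>.1 this)
  choose r hr using Finite.injective_iff_surjective.1 inj
  let ℓ : L →ₗ[F] F :=
    { toFun := fun l => r (Q l)
      map_add' := fun a b => inj (by
        have h5 : r (Q a) ^ 2 = _ := hr (Q a)
        have h6 : r (Q b) ^ 2 = _ := hr (Q b)
        simp only [hr, Submodule.coe_add, q_add, mem_perp.1 (h1 b.2) a a.2]
        linear_combination -h5 - h6 - r (Q a) * r (Q b) * h2)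
      map_smul' := fun c a => inj (by
        have h5 : r (Q a) ^ 2 = _ := hr (Q a)
        simp only [hr, Submodule.coe_smul, q_smul, RingHom.id_apply, smul_eq_mul]
        linear_combination -c ^ 2 * h5) }
  obtain ⟨ℓ', h5⟩ := LinearMap.exists_extend ℓ
  obtain ⟨w, hw⟩ := (LinearMap.BilinForm.toDual _ hQ.nondeg).surjective ℓ'
  refine ⟨L, w, h4, fun l hl => ?_⟩
  have h6 : polar Q w l = r (Q l) := by
    have := LinearMap.congr_fun h5 ⟨l, hl⟩
    rw [← hw] at this
    exact this
  rw [polar_comm, h6]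
  exact (hr _).symm

theorem isPlus_prod [Finite F] [FiniteDimensional F V'] (h2 : (2 : F) = 0) (hQ : ND Q)
    (hQ' : ND Q') : ND (Q.prod Q') ∧ (IsPlus (Q.prod Q') ↔ (IsPlus Q ↔ IsPlus Q')) := by
  obtain ⟨L, w, h⟩ := exists_AD h2 hQ
  obtain ⟨L', w', h'⟩ := exists_AD h2 hQ'
  have nd : ND (Q.prod Q') := fun x hx => Prod.ext (hQ _ fun y => by simpa using hx (y, 0))
    (hQ' _ fun y => by simpa using hx (0, y))
  have : AD (Q.prod Q') (L.prod L') (w, w') := by
    refine ⟨Submodule.ext fun x => ?_, fun l hl => ?_⟩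
    · rw [Submodule.mem_prod, ← h.1, ← h'.1, h.1, h'.1]
      conv_rhs => rw [← h.1, ← h'.1]
      simp only [mem_perp, polar_prod]
      refine ⟨fun H => ⟨fun a ha => by simpa using H (a, 0) ⟨ha, zero_mem _⟩,
        fun a ha => by simpa using H (0, a) ⟨zero_mem _, ha⟩⟩, fun H a ha => ?_⟩
      rw [H.1 _ ha.1, H.2 _ ha.2, add_zero]
    · rw [prod_apply, polar_prod, h.2 _ hl.1, h'.2 _ hl.2]
      linear_combination -(polar Q l.1 w * polar Q' l.2 w') * h2
  refine ⟨nd, ?_⟩
  rw [this.isPlus_iff h2 nd, h.isPlus_iff h2 hQ, h'.isPlus_iff h2 hQ', prod_apply, as_add_iff h2]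

end Cfsg.Agent.UGL.Ev
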