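import Mathlib
import Cfsg.Agent.UGL.Ev8
import Cfsg.Agent.UGL.ClSp

/-!
A lower bound for the class number of orthogonal groups in characteristic two.
-/

set_option autoImplicit false
set_option backward.isDefEq.respectTransparency false

namespace Cfsg.Agent.UGL.Ev

open Module QuadraticMap Cfsg.Agent.Orth Polynomial Cfsg.Agent.Conj Cfsg.Agent.UGL.Cl

universe u

variable {F : Type u} [Field F]

variable (F) in
/-- realised by an isometry -/
def RE (P : F[X]) (D : Prop) : Prop :=
  ∃ (V : Type u) (_ : AddCommGroup V) (_ : Module F V) (_ : FiniteDimensional F V)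
    (Q : QuadraticForm F V) (g g' : End F V), ND Q ∧ (∀ x, Q (g x) = Q x) ∧ g * g' = 1 ∧
      (g + g').charpoly = P ^ 2 ∧ (IsPlus Q ↔ D)

theorem exists_plane [Finite F] (D : Prop) :
    ∃ Q : QuadraticForm F (Fin 2 → F), ND Q ∧ (IsPlus Q ↔ D) := by
  by_cases h : D
  · refine ⟨binQ 1 0, nd_binQ (by simp), iff_of_true ⟨Submodule.span F {![0, 1]}, fun w hw => ?_, ?_⟩
      h⟩
    · obtain ⟨c, rfl⟩ := Submodule.mem_span_singleton.1 hw
      simp [binQ_apply]
    · rw [finrank_span_singleton (by simp)]; simp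
  · obtain ⟨ζ, hζ⟩ := exists_aniso (F := F)
    refine ⟨binQ 1 ζ, hζ.nd, iff_of_false (fun ⟨W, h1, h2⟩ => ?_) h⟩
    rw [(Submodule.eq_bot_iff W).2 fun w hw => hζ.zero_of_Q _ (h1 w hw)] at h2
    simp at h2

theorem RE.step [Finite F] (h2 : (2 : F) = 0) {P : F[X]} {D : Prop} (h : RE F P D) (D' : Prop) :
    RE F (X * P) D' := by
  obtain ⟨V, _, _, _, Q, g, g', h1, h3, h4, h5, -⟩ := h
  obtain ⟨γ, k1, k2⟩ := exists_plane (F := F) (IsPlus Q ↔ D')
  obtain ⟨a1, a2⟩ := isPlus_prod h2 h1 k1
  refine ⟨V × (Fin 2 → F), inferInstance, inferInstance, inferInstance, Q.prod γ, g.prodMap 1,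
    g'.prodMap 1, a1, fun x => by simp [h3], ?_, ?_, by rw [a2, k2]; tauto⟩
  · rw [LinearMap.prodMap_mul, h4, mul_one, LinearMap.prodMap_one]
  · rw [← LinearMap.prodMap_add, LinearMap.charpoly_prodMap, h5, show (1 + 1 : End F (Fin 2 → F)) = 0 by
      rw [← two_smul F, h2, zero_smul], LinearMap.charpoly_zero]
    simp [mul_pow, mul_comm]

theorem re_base [Finite F] (h2 : (2 : F) = 0) {P : F[X]} (hP : P.Monic) (h0 : P.coeff 0 ≠ 0) :
    ∃ D, RE F P D ∧ (2 ≤ P.natDegree → (D ↔ AS (P.coeff 1 / P.coeff 0))) := by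
  have := hP.finite_adjoinRoot
  let mk := AdjoinRoot.mk P
  let t := AdjoinRoot.root P
  let l : AdjoinRoot P →ₗ[F] F := (lcoeff F (P.natDegree - 1)) ∘ₗ AdjoinRoot.modByMonicHom hP
  have two : (2 : AdjoinRoot P) = 0 := by
    rw [← map_ofNat (algebraMap F (AdjoinRoot P)), h2, map_zero]
  have hl : ∀ p : F[X], p.natDegree < P.natDegree → l (mk p) = p.coeff (P.natDegree - 1) := by
    intro p hp
    simp only [l, mk, LinearMap.comp_apply, AdjoinRoot.modByMonicHom_mk, lcoeff_apply]
    rw [(modByMonic_eq_self_iff hP).2 (degree_lt_degree hp)]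
  have hl0 : ∀ p : F[X], p.natDegree + 1 < P.natDegree → l (mk p) = 0 := fun p hp => by
    rw [hl p (by omega), coeff_eq_zero_of_natDegree_lt (by omega)]
  have rep : ∀ x, ∃ p, mk p = x ∧ (p ≠ 0 → p.natDegree < P.natDegree ∧
      l (x * mk (X ^ (P.natDegree - 1 - p.natDegree))) ≠ 0) := fun x => by
    induction x using AdjoinRoot.induction_on with | _ p
    refine ⟨p %ₘ P, AdjoinRoot.mk_leftInverse hP (mk p), fun h => ?_⟩
    have h1 := natDegree_lt_natDegree h (degree_modByMonic_lt p hP)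
    refine ⟨h1, ?_⟩
    rw [← show mk (p %ₘ P) = mk p from AdjoinRoot.mk_leftInverse hP (mk p), ← map_mul,
      hl _ (by rw [natDegree_mul_X_pow _ h]; omega)]
    generalize p %ₘ P = r at *
    rw [show P.natDegree - 1 = r.natDegree + (P.natDegree - 1 - r.natDegree) by omega,
      Nat.add_sub_cancel_left, coeff_mul_X_pow]
    exact leadingCoeff_ne_zero.2 h
  have nd : ∀ x, (∀ y, l (x * y) = 0) → x = 0 := fun x hx => by
    obtain ⟨p, rfl, h⟩ := rep x
    by_contra h1
    exact (h fun h3 => h1 (by rw [h3, map_zero])).2 (hx _)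
  have dec : ∀ p : F[X], mk p = t * mk p.divX + algebraMap F _ (p.coeff 0) := fun p => by
    conv_lhs => rw [← X_mul_divX_add p]
    rw [map_add, map_mul]
    rfl
  obtain ⟨τ, hτ0⟩ : ∃ τ, τ = (P.coeff 0)⁻¹ • mk P.divX := ⟨_, rfl⟩
  have hτ : t * τ = 1 := by
    have h1 := dec P
    rw [show mk P = 0 from AdjoinRoot.mk_self] at h1
    rw [hτ0, mul_smul_comm, show t * mk P.divX = algebraMap F _ (P.coeff 0) by
      linear_combination -h1 - algebraMap F _ (P.coeff 0) * two, Algebra.smul_def, ← map_mul,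
      inv_mul_cancel₀ h0, map_one]
  let β : LinearMap.BilinForm F (AdjoinRoot P × AdjoinRoot P) := LinearMap.mk₂ F
    (fun x y => l (τ * x.1 * y.1 + x.1 * y.2 + τ * x.2 * y.2))
    (fun x y z => by rw [← map_add]; congr 1; simp only [Prod.fst_add, Prod.snd_add]; ring)
    (fun c x y => by simp [mul_add])
    (fun x y z => by rw [← map_add]; congr 1; simp only [Prod.fst_add, Prod.snd_add]; ring)
    (fun c x y => by simp [mul_add])
  have hQ : ∀ x, β.toQuadraticMap x = l (τ * x.1 * x.1 + x.1 * x.2 + τ * x.2 * x.2) := fun _ => rfl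
  generalize β.toQuadraticMap = Q at hQ
  have hp : ∀ x y, polar Q x y = l (x.1 * y.2 + x.2 * y.1) := fun x y => by
    rw [polar, hQ, hQ, hQ, ← map_sub, ← map_sub]
    congr 1
    simp only [Prod.fst_add, Prod.snd_add]
    linear_combination (τ * x.1 * y.1 + τ * x.2 * y.2) * two
  have ndQ : ND Q := fun x hx => Prod.ext (nd _ fun y => by simpa [hp] using hx (0, y))
    (nd _ fun y => by simpa [hp] using hx (y, 0))
  let L := LinearMap.mulLeft F (A := AdjoinRoot P)
  refine ⟨_, ⟨_, inferInstance, inferInstance, inferInstance, Q,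
    (LinearMap.snd F _ _).prod ((LinearMap.id).coprod (L t)),
    ((L t).coprod LinearMap.id).prod (LinearMap.fst F _ _), ndQ, fun x => ?_,
    LinearMap.ext fun x => ?_, ?_, Iff.rfl⟩, fun hm => ?_⟩
  · rw [hQ, hQ]
    congr 1
    simp only [L, LinearMap.prod_apply, Function.prod, LinearMap.coprod_apply, LinearMap.snd_apply,
      LinearMap.id_apply, LinearMap.mulLeft_apply]
    grind
  · ext
    · simp [L]
    · simp only [L, End.mul_apply, LinearMap.prod_apply, Function.prod, LinearMap.coprod_apply,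
        LinearMap.snd_apply, LinearMap.fst_apply, LinearMap.id_apply, LinearMap.mulLeft_apply,
        End.one_apply]
      linear_combination t * x.1 * two
  · rw [show (LinearMap.snd F _ _).prod ((LinearMap.id).coprod (L t)) +
      ((L t).coprod LinearMap.id).prod (LinearMap.fst F _ _) = (L t).prodMap (L t) from
        LinearMap.ext fun x => Prod.ext (by simp [L]; linear_combination x.2 * two)
          (by simp [L]; linear_combination x.1 * two),
      LinearMap.charpoly_prodMap, charpoly_root hP, _root_.sq]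
  have hτ1 : l τ = (P.coeff 0)⁻¹ := by
    rw [hτ0, map_smul, hl _ (by rw [natDegree_divX_eq_natDegree_tsub_one]; omega), coeff_divX,
      show P.natDegree - 1 + 1 = P.natDegree by omega, hP.coeff_natDegree, smul_eq_mul, mul_one]
  have hτ2 : ∀ p : F[X], p.natDegree < P.natDegree → l (τ * mk p) = p.coeff 0 / P.coeff 0 := by
    intro p hp
    rw [dec p, mul_add, ← mul_assoc, mul_comm τ t, hτ, one_mul, mul_comm, ← Algebra.smul_def,
      map_add, map_smul, hτ1, hl0 _ (by rw [natDegree_divX_eq_natDegree_tsub_one]; omega), zero_add,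
      smul_eq_mul, div_eq_mul_inv]
  let S : ℕ → Submodule F (AdjoinRoot P) := fun n =>
    (degreeLE F n).map (AdjoinRoot.mkₐ P).toLinearMap
  have hS : ∀ n x, x ∈ S n ↔ ∃ p : F[X], p.natDegree ≤ n ∧ mk p = x := fun n x => by
    simp only [S, Submodule.mem_map, mem_degreeLE, natDegree_le_iff_degree_le]
    rfl
  have hS1 : ∀ a b, a + b + 2 = P.natDegree → ∀ x, x ∈ S a ↔ ∀ y ∈ S b, l (x * y) = 0 := by
    intro a b hab x
    constructor
    · intro hx y hy
      obtain ⟨p, h1, rfl⟩ := (hS _ _).1 hx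
      obtain ⟨r, h3, rfl⟩ := (hS _ _).1 hy
      have := natDegree_mul_le (p := p) (q := r)
      rw [← map_mul, hl0 _ (by omega)]
    · intro H
      obtain ⟨p, rfl, h⟩ := rep x
      refine (hS _ _).2 ⟨p, not_lt.1 fun h1 => ?_, rfl⟩
      exact (h (by rintro rfl; simp at h1)).2 (H _ ((hS _ _).2 ⟨_, by rw [natDegree_X_pow]; omega, rfl⟩))
  have inj : Function.Injective fun d : F => d * d := fun a b h => by
    have : (a - b) ^ 2 = 0 := by linear_combination h + (b * b - a * b) * h2
    exact sub_eq_zero.1 (pow_eq_zero_iff two_ne_zero |>.1 this)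
  obtain ⟨c, hc⟩ := Finite.injective_iff_surjective.1 inj (P.coeff 0)
  change c * c = _ at hc
  have ad : AD Q ((S ((P.natDegree - 1) / 2)).prod (S (P.natDegree / 2 - 1))) (c • τ, c • τ) := by
    refine ⟨Submodule.ext fun x => ?_, fun x hx => ?_⟩
    · rw [Submodule.mem_prod, hS1 _ (P.natDegree / 2 - 1) (by omega),
        hS1 _ ((P.natDegree - 1) / 2) (by omega), mem_perp']
      simp only [hp]
      refine ⟨fun H => ⟨fun a ha => by simpa using H (0, a) ⟨zero_mem _, ha⟩,
        fun a ha => by simpa using H (a, 0) ⟨ha, zero_mem _⟩⟩, fun H a ha => ?_⟩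
      rw [map_add, H.1 _ ha.2, H.2 _ ha.1, add_zero]
    · obtain ⟨p, h1, h3⟩ := (hS _ _).1 hx.1
      obtain ⟨r, h4, h5⟩ := (hS _ _).1 hx.2
      have a1 := natDegree_mul_le (p := p) (q := p)
      have a2 := natDegree_mul_le (p := r) (q := r)
      have a3 := natDegree_mul_le (p := p) (q := r)
      rw [hQ, hp]
      dsimp only
      rw [← h3, ← h5, mul_assoc, mul_assoc, ← map_mul, ← map_mul, ← map_mul, map_add, map_add,
        hτ2 _ (by omega), hτ2 _ (by omega), hl0 _ (by omega), mul_smul_comm, mul_smul_comm,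
        mul_comm (mk p), mul_comm (mk r), map_add, map_smul, map_smul, hτ2 _ (by omega),
        hτ2 _ (by omega), mul_coeff_zero, mul_coeff_zero, smul_eq_mul, smul_eq_mul]
      field_simp
      linear_combination -(p.coeff 0 + r.coeff 0) ^ 2 * hc - p.coeff 0 * r.coeff 0 * P.coeff 0 * h2
  rw [ad.isPlus_iff h2 ndQ, hQ]
  have : τ * c • τ * c • τ + c • τ * c • τ + τ * c • τ * c • τ = τ * mk P.divX := by
    rw [show ∀ a b : AdjoinRoot P, a + b + a = b from fun a b => by linear_combination a * two,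
      smul_mul_smul_comm, hc, ← mul_smul_comm]
    congr 1
    rw [hτ0, smul_smul, mul_inv_cancel₀ h0, one_smul]
  rw [this, hτ2 _ (by rw [natDegree_divX_eq_natDegree_tsub_one]; omega), coeff_divX]

theorem re_ex [Finite F] (h2 : (2 : F) = 0) {P : F[X]} (hP : P.Monic) : ∃ D, RE F P D := by
  induction hn : P.natDegree using Nat.strong_induction_on generalizing P with
  | _ n ih =>
    by_cases h0 : P.coeff 0 = 0
    · obtain ⟨R, rfl⟩ := X_dvd_iff.2 h0
      have hR := monic_X.of_mul_monic_left hP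
      obtain ⟨D, h⟩ := ih _ (by rw [← hn, monic_X.natDegree_mul hR]; simp) hR rfl
      exact ⟨D, h.step h2 D⟩
    · obtain ⟨D, h, -⟩ := re_base h2 hP h0
      exact ⟨D, h⟩

theorem re_all [Finite F] (h2 : (2 : F) = 0) {P : F[X]} (hP : P.Monic) (hm : 2 ≤ P.natDegree)
    (D : Prop) (h : P.coeff 0 ≠ 0 → (D ↔ AS (P.coeff 1 / P.coeff 0))) : RE F P D := by
  by_cases h0 : P.coeff 0 = 0
  · obtain ⟨R, rfl⟩ := X_dvd_iff.2 h0
    obtain ⟨D', h⟩ := re_ex h2 (monic_X.of_mul_monic_left hP)
    exact h.step h2 D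
  · obtain ⟨D', h1, h3⟩ := re_base h2 hP h0
    exact propext ((h3 hm).trans (h h0).symm) ▸ h1

theorem le_card_OG [Fintype F] (h2 : (2 : F) = 0) {V : Type*} [AddCommGroup V] [Module F V]
    [FiniteDimensional F V] {Q : QuadraticForm F V} (hQ : ND Q) {m : ℕ} (hm : finrank F V = 2 * m)
    (hm' : 2 ≤ m) : Fintype.card F ^ m ≤ 2 * Nat.card (ConjClasses (OG Q)) := by
  classical
  have : Finite V := Module.finite_of_finite F
  have : Finite (V ≃ₗ[F] V) := Finite.of_injective _ DFunLike.coe_injective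
  have : Finite {p : F[X] // p.Monic ∧ p.natDegree = m} := finite_monic m
  let G : {p : F[X] // p.Monic ∧ p.natDegree = m} → Prop := fun P => P.1.coeff 0 ≠ 0 →
    (IsPlus Q ↔ AS (P.1.coeff 1 / P.1.coeff 0))
  have h1 : ∀ P : {P // G P}, ∃ g : OG Q,
      (g.1.toLinearMap + (g⁻¹).1.toLinearMap).charpoly = P.1.1 ^ 2 := by
    rintro ⟨⟨P, hP, rfl⟩, h⟩
    obtain ⟨W, _, _, _, C, g, g', k1, k2, k3, k4, k5⟩ := re_all h2 hP hm' _ h
    have hd : finrank F W = finrank F V := by
      rw [hm, ← LinearMap.charpoly_natDegree, k4, hP.natDegree_pow]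
    obtain ⟨e⟩ := k1.iso_of_isPlus_iff hQ hd (by rw [hd, hm]; simp) k5
    let u : W ≃ₗ[F] W := LinearEquiv.ofLinearMap g g' k3 (mul_eq_one_comm.1 k3)
    refine ⟨⟨e.toLinearEquiv.symm.trans (u.trans e.toLinearEquiv), fun x => (e.map_app _).trans
      ((k2 _).trans (e.symm.map_app x))⟩, ?_⟩
    exact (Sim.charpoly_eq ⟨e.toLinearEquiv, fun v => by simp [u]; rfl⟩).symm.trans k4
  choose g hg using h1
  have h3 : Nat.card {P // G P} ≤ Nat.card (ConjClasses (OG Q)) :=
    Nat.card_le_card_of_injective (fun P => ConjClasses.mk (g P)) fun P P' e => by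
      obtain ⟨c, hc⟩ := isConj_iff.1 (ConjClasses.mk_eq_mk_iff_isConj.1 e)
      have := (hg P).symm.trans ((Sim.charpoly_eq ⟨c.1, fun v => by simp [← hc]⟩).trans (hg P'))
      refine Subtype.ext (Subtype.ext ((sq_eq_sq_iff_eq_or_eq_neg.1 this).elim id fun k => ?_))
      rw [k, ← neg_one_smul F, show (-1 : F) = 1 by linear_combination -h2, one_smul]
  obtain ⟨α, hα, -⟩ := exists_α' h2
  have h4 : Nat.card {P // ¬ G P} ≤ Nat.card {P // G P} := by
    refine Nat.card_le_card_of_injective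
      (fun P => ⟨⟨P.1.1 + monomial 1 (α * P.1.1.coeff 0), ?_⟩, ?_⟩) ?_
    · have : (monomial 1 (α * P.1.1.coeff 0)).degree < P.1.1.degree := by
        rw [degree_eq_natDegree P.1.2.1.ne_zero, P.1.2.2]
        exact lt_of_le_of_lt (degree_monomial_le _ _) (by exact_mod_cast hm')
      exact ⟨P.1.2.1.add_of_left this, (natDegree_add_eq_left_of_degree_lt this).trans P.1.2.2⟩
    · obtain ⟨a, b⟩ : _ ∧ _ := by simpa only [G, not_forall, exists_prop] using P.2
      intro _
      rw [show (P.1.1 + monomial 1 (α * P.1.1.coeff 0)).coeff 1 /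
        (P.1.1 + monomial 1 (α * P.1.1.coeff 0)).coeff 0 = P.1.1.coeff 1 / P.1.1.coeff 0 + α by
          simp [coeff_monomial]; field_simp, as_add_iff h2]
      tauto
    · intro P P' e
      replace e := Subtype.mk.inj (Subtype.mk.inj e)
      have k := congrArg (coeff · 0) e
      simp only [coeff_add, coeff_monomial, one_ne_zero, if_false, add_zero] at k
      rw [k] at e
      exact Subtype.ext (Subtype.ext (add_right_cancel e))
  rw [← card_monic, ← Nat.card_congr (Equiv.sumCompl G), Nat.card_sum]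
  omega

end Cfsg.Agent.UGL.Ev
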