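import Mathlib
import Cfsg.Agent.UGL.Ev7
import Cfsg.Agent.UGL.Ev9
import Cfsg.Agent.UGL.Ev12

/-!
The number of conjugacy classes of orthogonal groups in characteristic two.
-/

set_option autoImplicit false
set_option backward.isDefEq.respectTransparency false

namespace Cfsg.Agent.UGL.Ev

open Polynomial Module Cfsg.Agent.Conj Cfsg.Agent.UGL.Cl Cfsg.Agent.Orth QuadraticMap
open scoped _root_.Classical

theorem comb {γ α β : Type*} [Fintype γ] (s : γ → α) (r : γ → β) (w : α → ℕ) (e : α → Prop)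
    (U : ℕ → Finset β) (inj : ∀ c c', s c = s c' → r c = r c' → c = c')
    (hU : ∀ c, r c ∈ U (w (s c))) (he : ∀ c c', r c = r c' → (e (s c) ↔ e (s c'))) :
    ∃ (δ : ℕ → Prop) (Y : Finset α), (∀ t ∈ Y, (∃ c, s c = t) ∧ (e t ↔ δ (w t))) ∧
      Nat.card γ ≤ ∑ t ∈ Y, (U (w t)).card := by
  let T : ℕ → Prop → Finset α := fun k b => (Finset.univ.image s).filter fun t => w t = k ∧ (e t ↔ b)
  have h1 : ∀ k, ∃ d : Prop, ∀ b, (T k b).card ≤ (T k d).card := fun k => by
    rcases le_total (T k False).card (T k True).card with h | h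
    · refine ⟨True, fun b => ?_⟩
      by_cases hb : b
      · rw [eq_true hb]
      · rw [eq_false hb]; exact h
    · refine ⟨False, fun b => ?_⟩
      by_cases hb : b
      · rw [eq_true hb]; exact h
      · rw [eq_false hb]
  choose δ h1 using h1
  refine ⟨δ, (Finset.univ.image s).filter (fun t => e t ↔ δ (w t)), fun t ht => by simpa using ht,
    (card_le_sum (((Finset.univ.image s).image w).sigma U)
    (fun c t => w (s c) = t.1 ∧ r c = t.2) (fun t => (T t.1 (δ t.1)).card)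
    (fun c => ⟨⟨_, r c⟩, Finset.mem_sigma.2 ⟨Finset.mem_image_of_mem _
      (Finset.mem_image_of_mem _ (Finset.mem_univ c)), hU c⟩, rfl, rfl⟩) fun t _ => ?_).trans
    (le_of_eq ?_)⟩
  · rcases isEmpty_or_nonempty {c // w (s c) = t.1 ∧ r c = t.2} with h | ⟨⟨c₀⟩⟩
    · simp
    refine le_trans ?_ (h1 _ (e (s c₀.1)))
    rw [← Fintype.card_coe, ← Nat.card_eq_fintype_card]
    exact Nat.card_le_card_of_injective (fun c => ⟨s c.1, Finset.mem_filter.2
      ⟨Finset.mem_image_of_mem _ (Finset.mem_univ _), c.2.1, he _ _ (c.2.2.trans c₀.2.2.symm)⟩⟩)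
      fun c c' h => Subtype.ext (inj _ _ (congrArg Subtype.val h) (c.2.2.trans c'.2.2.symm))
  · rw [Finset.sum_sigma, ← Finset.sum_fiberwise_of_maps_to (t := (Finset.univ.image s).image w)
      (g := w) fun t ht => Finset.mem_image_of_mem _ (Finset.mem_filter.1 ht).1]
    refine Finset.sum_congr rfl fun k _ => ?_
    dsimp only
    symm
    rw [Finset.sum_congr rfl (g := fun _ => (U k).card) fun t ht => by
      rw [(Finset.mem_filter.1 ht).2], Finset.sum_const, Finset.sum_const, smul_eq_mul, smul_eq_mul,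
      mul_comm, Finset.filter_filter]
    symm
    congr 2
    exact Finset.filter_congr fun t _ => ⟨fun h => ⟨h.1 ▸ h.2, h.1⟩, fun h => ⟨h.2, h.2 ▸ h.1⟩⟩

universe u

variable {F : Type u} [Field F]

theorem exists_Lam (h2 : (2 : F) = 0) {m : ℕ} (hm : 1 ≤ m) {C : Ctx F (AA F m)} (hM : C.M = 2 ^ m)
    (hπ : 1 + C.π = AdjoinRoot.root _) {lam : AA F m →ₗ[F] F} (hl : ∀ k < 2 * 2 ^ m,
      lam (AdjoinRoot.root _ ^ k) = if k = 0 then 1 else 0) : ∃ Λ : Lam C, Λ.l0 = lam := by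
  have h1 := root_pow (F := F) m
  have two := C.two
  have hσ := C.hσ
  have hu := C.u_mul
  have hs : C.s = C.π * C.σ C.π := rfl
  have hN : 0 < 2 * 2 ^ m := by positivity
  have ind : ∀ P : AA F m → Prop, (∀ a b, P a → P b → P (a + b)) →
      (∀ (c : F) k, P (c • AdjoinRoot.root _ ^ k)) → ∀ a, P a := fun P p1 p2 a => by
    induction a using AdjoinRoot.induction_on with | _ p
    induction p using Polynomial.induction_on' with
    | add p q hp hq => rw [map_add]; exact p1 _ _ hp hq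
    | monomial n c =>
      rw [← C_mul_X_pow_eq_monomial, map_mul, map_pow, AdjoinRoot.mk_X]
      exact Algebra.smul_def c (AdjoinRoot.root (PP F m) ^ n) ▸ p2 c n
  rw [← hπ] at h1 hl ind
  have h3 : ∀ a, lam (C.σ a) = lam a := ind _ (fun a b ha hb => by simp only [map_add, ha, hb])
    fun c k => by
      rw [map_smul, map_smul, map_smul, pow_eq_pow_mod k h1]
      have hk := Nat.mod_lt k hN
      generalize k % (2 * 2 ^ m) = k at hk
      have a1 : (1 + C.π) ^ k * C.σ ((1 + C.π) ^ k) = 1 := by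
        rw [map_pow, map_add, map_one, ← mul_pow, C.u_mul, one_pow]
      have a2 : (1 + C.π) ^ (2 * 2 ^ m - k) * (1 + C.π) ^ k = 1 := by
        rw [← pow_add, Nat.sub_add_cancel hk.le, h1]
      rw [show C.σ ((1 + C.π) ^ k) = (1 + C.π) ^ (2 * 2 ^ m - k) by
        linear_combination (1 + C.π) ^ (2 * 2 ^ m - k) * a1 - C.σ ((1 + C.π) ^ k) * a2]
      rcases Nat.eq_zero_or_pos k with rfl | h0
      · rw [Nat.sub_zero, h1, pow_zero]
      · rw [hl _ hk, hl _ (by omega), if_neg (by omega), if_neg (by omega)]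
  have h4 : ∀ a, lam ((1 + C.π) * (a * a)) = 0 := ind _ (fun a b ha hb => by
    rw [show (1 + C.π) * ((a + b) * (a + b)) = (1 + C.π) * (a * a) + (1 + C.π) * (b * b) by
      linear_combination (1 + C.π) * a * b * two, map_add, ha, hb, add_zero]) fun c k => by
    rw [smul_mul_smul_comm, mul_smul_comm, map_smul, ← pow_add, ← pow_succ', pow_eq_pow_mod _ h1,
      hl _ (Nat.mod_lt _ hN), if_neg, smul_zero]
    intro h
    have := (Dvd.intro _ rfl).trans (Nat.dvd_of_mod_eq_zero h)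
    omega
  obtain ⟨k, hk⟩ : ∃ k, C.M = k + k + 2 := by
    obtain ⟨m, rfl⟩ := Nat.exists_eq_add_of_le' hm
    have := Nat.one_le_two_pow (n := m)
    exact ⟨2 ^ m - 1, by rw [hM, pow_succ]; omega⟩
  refine ⟨⟨lam, lam ∘ₗ LinearMap.mulLeft F (1 + C.π), fun a => ?_, ?_, ?_, by omega⟩, rfl⟩
  · rw [LinearMap.comp_apply, LinearMap.mulLeft_apply, mul_add, map_add,
      ← h3 ((1 + C.π) * C.σ a), map_mul C.σ, C.σσ, map_add C.σ, map_one, ← map_add]
    congr 1
    grind
  · have a1 : C.π ^ (2 * (C.M - 1) + 1) = ∑ i ∈ Finset.range (2 * 2 ^ m), (1 + C.π) ^ i := by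
      have a2 : (2 : F[X]) = 0 := by rw [← map_ofNat Polynomial.C, h2, map_zero]
      have a3 := add_one_pow a2 X (m + 1)
      have a4 := geom_sum_mul (X : F[X]) (2 * 2 ^ m)
      rw [pow_succ', show 2 * 2 ^ m = 2 * (C.M - 1) + 1 + 1 by omega, pow_succ] at a3
      have a5 : (X + 1 : F[X]) ^ (2 * (C.M - 1) + 1) = ∑ i ∈ Finset.range (2 * 2 ^ m), X ^ i := by
        refine mul_right_cancel₀ (b := X + 1) (by simpa using X_add_C_ne_zero (1 : F)) ?_
        rw [a3, show 2 * (C.M - 1) + 1 + 1 = 2 * 2 ^ m by omega]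
        linear_combination -a4 + (1 - ∑ i ∈ Finset.range (2 * 2 ^ m), X ^ i) * a2
      have a6 := congrArg (aeval (1 + C.π)) a5
      simpa [show 1 + C.π + 1 = C.π by linear_combination two] using a6
    have a2 : ∀ i, C.π ^ (2 * (C.M - 1) + 1) * (1 + C.σ C.π) ^ i = C.π ^ (2 * (C.M - 1) + 1) := by
      have a3 := C.nil
      rw [show 2 * C.M = 2 * (C.M - 1) + 1 + 1 by omega, pow_succ] at a3
      intro i
      induction i with
      | zero => simp
      | succ i ih => rw [pow_succ _ i, ← mul_assoc, ih]; grind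
    have a3 : lam (C.s ^ (C.M - 1) * C.π) = 1 := by
      rw [C.s_eq, mul_pow, ← pow_mul, mul_right_comm, ← pow_succ, a2, a1, map_sum,
        Finset.sum_eq_single 0 (fun k hk h0 => by rw [hl k (Finset.mem_range.1 hk), if_neg h0])
          (by simp), hl 0 hN, if_pos rfl]
    rw [LinearMap.comp_apply, LinearMap.mulLeft_apply, add_mul, one_mul, map_add, mul_comm, a3,
      show C.s ^ (C.M - 1) = C.s ^ (k + k) * C.π + C.σ (C.s ^ (k + k) * C.π) by
        rw [map_mul, map_pow, C.σs, ← mul_add, ← hσ, ← hs, ← pow_succ]; congr 1; omega,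
      map_add, h3]
    linear_combination lam (C.s ^ (k + k) * C.π) * h2
  · rw [LinearMap.comp_apply, LinearMap.mulLeft_apply, hk, Nat.add_sub_cancel, pow_add, h4]

variable {V V' : Type*} [AddCommGroup V] [Module F V] [AddCommGroup V'] [Module F V']
  {Q : QuadraticForm F V} {Q' : QuadraticForm F V'} {g : End F V} {g' : End F V'}
  {A : Type*} [CommRing A] [Algebra F A]

/-- a unipotent isometry realises a multiset of blocks -/
def UQ {C : Ctx F A} (Λ : Lam C) (Q : QuadraticForm F V) (g : End F V) (s : Multiset Bk) : Prop :=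
  ∃ (_ : Module A V) (f : Frm C V), (∀ v : V, (1 + C.π) • v = g v) ∧
    (∀ (c : F) (v : V), algebraMap F A c • v = c • v) ∧ (∀ x y, Λ.l0 (f.H x y) = polar Q x y) ∧
    f.ND ⊤ ∧ ∀ l : List Bk, (l : Multiset Bk) = s → f.RQ Λ Q ⊤ l

/-- isomorphic isometries -/
def TQ (Q : QuadraticForm F V) (g : End F V) (Q' : QuadraticForm F V') (g' : End F V') : Prop :=
  ∃ e : V ≃ₗ[F] V', (∀ v, e (g v) = g' (e v)) ∧ ∀ x, Q' (e x) = Q x

theorem UQ.tq {C : Ctx F A} {Λ : Lam C} {s : Multiset Bk} (h : UQ Λ Q g s) (h' : UQ Λ Q' g' s) :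
    TQ Q g Q' g' := by
  obtain ⟨_, f, a1, a2, a3, a4, a5⟩ := h
  obtain ⟨_, f', b1, b2, b3, b4, b5⟩ := h'
  obtain ⟨e, he⟩ := Frm.exists_equivQ (fun x y => by rw [a3, q_add]) (fun x y => by rw [b3, q_add])
    (a5 _ s.coe_toList) (b5 _ s.coe_toList) a4 b4
  refine ⟨{ e.toAddEquiv with map_smul' := fun c v => ?_ }, fun v => ?_, he⟩
  · change e (c • v) = c • e v
    rw [← a2, map_smul, b2]
  · change e (g v) = g' (e v)
    rw [← a1, map_smul, b1]

theorem UQ.finrank_eq [Finite F] [FiniteDimensional F V] {C : Ctx F A} {Λ : Lam C}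
    {s : Multiset Bk} (h : UQ Λ Q g s) : 2 * wm (C.M - 1) s = finrank F V := by
  obtain ⟨_, f, -, -, -, -, a5⟩ := h
  have h5 := (a5 _ s.coe_toList).card
  rw [Nat.card_congr Submodule.topEquiv.toEquiv, Module.natCard_eq_pow_finrank (K := F)] at h5
  rw [Nat.pow_right_injective Finite.one_lt_card h5, ← s.coe_toList, s.coe_toList]
  conv_lhs => rw [← s.coe_toList]
  rfl

theorem as_nsmul [Finite F] (h2 : (2 : F) = 0) {α : F} (h : ¬ AS α) (n : ℕ) :
    AS (n • α) ↔ Even n := by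
  induction n with
  | zero => simpa using as_zero
  | succ n ih => rw [succ_nsmul, as_add_iff h2, ih, Nat.even_add_one]; tauto

theorem UQ.isPlus [Finite F] [FiniteDimensional F V] (h2 : (2 : F) = 0) {C : Ctx F A} {Λ : Lam C}
    (hα : ¬ AS C.α) {s : Multiset Bk} (h : UQ Λ Q g s) (hQ : ND Q) : IsPlus Q ↔ Even (ntw s) := by
  obtain ⟨_, f, -, a2, a3, -, a5⟩ := h
  obtain ⟨L, -, w, -, b1, b2, b3⟩ := (a5 _ s.coe_toList).ad (fun x y => by rw [a3, q_add]) h2
  let L' : Submodule F V :=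
    { carrier := L
      add_mem' := L.add_mem
      zero_mem' := L.zero_mem
      smul_mem' := fun c x hx => a2 c x ▸ L.smul_mem _ hx }
  have : AD Q L' w := ⟨Submodule.ext fun x => by
    rw [mem_perp']; simp only [← a3]; exact (b1 x trivial).symm, fun z hz => a3 z w ▸ b2 z hz⟩
  rw [this.isPlus_iff h2 hQ, b3, countP_eq, s.coe_toList, as_nsmul h2 hα]

theorem exists_UQ [Finite F] [FiniteDimensional F V] (h2 : (2 : F) = 0) {m : ℕ}
    {C : Ctx F (AA F m)} (hM : C.M = 2 ^ m) (hπ : 1 + C.π = AdjoinRoot.root _) {Λ : Lam C}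
    (hl : ∀ k < 2 * 2 ^ m, Λ.l0 (AdjoinRoot.root _ ^ k) = if k = 0 then 1 else 0) (hQ : ND Q)
    (hg : ∀ x, Q (g x) = Q x) (hn : IsNilpotent (g - 1)) (hV : finrank F V ≤ 2 ^ m) :
    ∃ s, UQ Λ Q g s ∧ Can' (C.M - 1) s := by
  have : Finite V := Module.finite_of_finite F
  have a1 := pow_eq_zero_of_le hV (pow_finrank_eq_zero hn)
  have a2 : (2 : F[X]) = 0 := by rw [← map_ofNat Polynomial.C, h2, map_zero]
  have h1 : g ^ 2 ^ m = 1 := by
    have a3 := add_one_pow a2 X m
    rw [show ∀ p : F[X], p + 1 = p - 1 from fun p => by linear_combination a2,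
      show ∀ p : F[X], p + 1 = p - 1 from fun p => by linear_combination a2] at a3
    have a4 := congrArg (aeval g) a3
    rw [map_pow, map_sub, map_sub, map_pow, aeval_X, map_one, a1] at a4
    exact sub_eq_zero.1 a4.symm
  let φ : AA F m →+* End F V := Ideal.Quotient.lift _ (aeval g : F[X] →ₐ[F] End F V).toRingHom
    fun a ha => by
      obtain ⟨b, rfl⟩ := Ideal.mem_span_singleton.1 ha
      simp [PP, mul_comm 2, pow_mul, h1]
  have hφ : ∀ p, φ (AdjoinRoot.mk _ p) = aeval g p := fun _ => rfl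
  let _ : Module (AA F m) V := Module.compHom V φ
  have h4 : φ (1 + C.π) = g := by
    rw [hπ]
    exact (hφ X).trans (aeval_X g)
  have hu : ∀ v : V, (1 + C.π) • v = g v := fun v => LinearMap.congr_fun h4 v
  have hc : ∀ (c : F) (v : V), algebraMap F (AA F m) c • v = c • v := fun c v => by
    change φ (AdjoinRoot.mk _ (Polynomial.C c)) v = _
    rw [hφ, aeval_C]
    rfl
  obtain ⟨f, hf⟩ := exists_frm C (B := Q.polarBilin) (polar_comm Q)
    (fun x => (p_self Q x).trans (by rw [h2, zero_mul]))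
    (fun x y => by simp only [polarBilin_apply_apply, polar, ← map_add, hg]) (by rw [hM, h1])
    (by rw [hπ, hM, root_pow]) hu hc
  have h3 : ∀ x y, Λ.l0 (f.H x y) = polar Q x y := fun x y => by
    rw [hf, map_sum, hM, hπ, Finset.sum_eq_single 0 (fun k hk h0 => by
      rw [map_smul, hl k (Finset.mem_range.1 hk), if_neg h0, smul_zero]) (by simp), map_smul,
      hl 0 (by positivity)]
    simp
  have nd : f.ND ⊤ := fun x _ h => hQ x fun y => by rw [← h3, h y trivial, map_zero]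
  obtain ⟨s, b1, b2⟩ := Frm.exists_RQ (Λ := Λ) (Q := Q) nd (fun x y => by rw [h3, q_add])
    (fun v => by rw [hu, hg]) (fun c v => by rw [hc, q_smul, pow_two]) fun v => by
      change φ _ v = 0
      rw [map_pow, show φ C.π = g - 1 by rw [← h4, map_add, map_one, add_sub_cancel_left], hM, a1]
      rfl
  exact ⟨s, ⟨_, f, hu, hc, h3, nd, b2⟩, b1⟩

variable {W W₀ : Submodule F V} {U U₀ : Submodule F V'}

theorem glueQ (h : Spl Q.polarBilin g W W₀) (h' : Spl Q'.polarBilin g' U U₀)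
    (t : TQ (Q.restrict W) (g.restrict h.inv) (Q'.restrict U) (g'.restrict h'.inv))
    (t' : TQ (Q.restrict W₀) (g.restrict h.inv') (Q'.restrict U₀) (g'.restrict h'.inv')) :
    TQ Q g Q' g' := by
  obtain ⟨e, he, he'⟩ := t
  obtain ⟨f, hf, hf'⟩ := t'
  let E := (W.prodEquivOfIsCompl W₀ h.compl).symm.trans
    ((e.prodCongr f).trans (U.prodEquivOfIsCompl U₀ h'.compl))
  have hE : ∀ (x : W) (y : W₀), E (x + y) = e x + f y := fun x y => by
    have : (W.prodEquivOfIsCompl W₀ h.compl).symm (x + y) = (x, y) :=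
      (LinearEquiv.symm_apply_eq _).2 rfl
    simp only [E, LinearEquiv.trans_apply, this]
    rfl
  refine ⟨E, fun v => ?_, fun v => ?_⟩
  · obtain ⟨a, ha, b, hb, rfl⟩ := h.dec v
    rw [map_add g, hE ⟨a, ha⟩ ⟨b, hb⟩]
    refine (hE (g.restrict h.inv ⟨a, ha⟩) (g.restrict h.inv' ⟨b, hb⟩)).trans ?_
    rw [he, hf, map_add]
    rfl
  · obtain ⟨a, ha, b, hb, rfl⟩ := h.dec v
    rw [hE ⟨a, ha⟩ ⟨b, hb⟩, q_add, q_add, show polar Q a b = 0 from h.orth a ha b hb,
      show polar Q' _ _ = 0 from h'.orth _ (e _).2 _ (f _).2]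
    exact congrArg₂ (· + · + 0) (he' ⟨a, ha⟩) (hf' ⟨b, hb⟩)

theorem ef_polar (h2 : (2 : F) = 0) (hQ : ND Q) : EF Q.polarBilin (-1) :=
  ⟨fun _ => rfl, Or.inr rfl, fun x y => by
    simp only [polarBilin_apply_apply, RingHom.id_apply, polar_comm Q x y]
    linear_combination polar Q y x * h2, hQ⟩

theorem tq_of_fpf [Finite F] [FiniteDimensional F V] (h2 : (2 : F) = 0) (hQ : ND Q) (hQ' : ND Q')
    (hg : ∀ x, Q (g x) = Q x) (hg' : ∀ x, Q' (g' x) = Q' x) (hs : Sim g g')
    (h1 : ∀ x, g x = x → x = 0) : TQ Q g Q' g' := by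
  obtain ⟨e, he, he'⟩ := tri_of_fpf (ef_polar h2 hQ) (ef_polar h2 hQ')
    (fun x y => by simp only [polarBilin_apply_apply, polar, ← map_add, hg])
    (fun x y => by simp only [polarBilin_apply_apply, polar, ← map_add, hg']) hs h1
    fun x hx => h1 x (hx.trans (by
      rw [← neg_one_smul F x, show (-1 : F) = 1 by linear_combination -h2, one_smul]))
  refine ⟨e, he, fun x => ?_⟩
  obtain ⟨z, rfl⟩ := (LinearMap.injective_iff_surjective (f := g - 1)).1
    ((injective_iff_map_eq_zero _).2 fun x hx => h1 x (sub_eq_zero.1 hx)) x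
  change Q' (e (g z - z)) = Q (g z - z)
  rw [map_sub, q_sub, q_sub, show polar Q' _ _ = polar Q _ _ from he' _ _, he, hg, hg']
  linear_combination (Q' (e z) - Q z) * h2

theorem isPlus_spl [Finite F] [FiniteDimensional F V] (h2 : (2 : F) = 0) (hQ : ND Q)
    (h : Spl Q.polarBilin g W W₀) :
    IsPlus Q ↔ (IsPlus (Q.restrict W) ↔ IsPlus (Q.restrict W₀)) := by
  rw [← (isPlus_prod h2 (Q := Q.restrict W) (Q' := Q.restrict W₀) (h.ef (ef_polar h2 hQ)).nd
    (h.ef' (ef_polar h2 hQ)).nd).2]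
  refine (isPlus_iff_of_iso ⟨Submodule.prodEquivOfIsCompl _ _ h.compl, fun x => ?_⟩).symm
  change Q (x.1 + x.2) = Q x.1 + Q x.2
  rw [q_add, show polar Q _ _ = 0 from h.orth _ x.1.2 _ x.2.2, add_zero]

theorem card_OG_le [Fintype F] [FiniteDimensional F V] (h2 : (2 : F) = 0) (hQ : ND Q) {n : ℕ}
    (hV : finrank F V = 2 * n) : Nat.card (ConjClasses (OG Q)) ≤ 15 * Fintype.card F ^ n := by
  obtain ⟨C₀, hM, hπ⟩ := exists_ctx h2 (2 * n + 7)
  obtain ⟨α, hα, hα'⟩ := exists_α' h2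
  obtain ⟨C, hM, hπ, hα⟩ : ∃ C : Ctx F (AA F (2 * n + 7)), C.M = 2 ^ (2 * n + 7) ∧
      1 + C.π = AdjoinRoot.root _ ∧ ¬ AS C.α := ⟨{ C₀ with α := α, hα := hα' }, hM, hπ, hα⟩
  obtain ⟨lam, hl⟩ := exists_lam (F := F) (2 * n + 7)
  obtain ⟨Λ, rfl⟩ := exists_Lam h2 (by omega) hM hπ hl
  have hB := ef_polar h2 hQ
  have hm : 2 * n + 7 < 2 ^ (2 * n + 7) := Nat.lt_two_pow_self
  have H : ∀ c : ConjClasses (OG Q), ∃ (g : OG Q) (s : Multiset Bk) (r : Fin (2 * n) → F[X])
      (W W₀ : Submodule F V) (t : Spl Q.polarBilin g.1.toLinearMap W W₀),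
      ConjClasses.mk g = c ∧ UQ Λ (Q.restrict W) (g.1.toLinearMap.restrict t.inv) s ∧
      Has (g.1.toLinearMap.restrict t.inv') r ∧
      (∀ x, g.1.toLinearMap.restrict t.inv' x = x → x = 0) ∧ Can' (C.M - 1) s ∧
      wm (C.M - 1) s ≤ n ∧ r ∈ (UU F (2 * n) (n - wm (C.M - 1) s)).filter
        fun s => ∀ j, (s j).eval 1 ≠ 0 := fun c => by
    obtain ⟨g, rfl⟩ := ConjClasses.mk_surjective c
    have hg : ∀ x y, Q.polarBilin (g.1.toLinearMap x) (g.1.toLinearMap y) = Q.polarBilin x y :=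
      fun x y => by
        simp only [polarBilin_apply_apply, polar, ← map_add, LinearEquiv.coe_coe, OG.map_Q]
    obtain ⟨W, W₀, t, a1, a2⟩ := exists_spl hg (mul_one 1)
    have d := t.finrank_add
    obtain ⟨s, b1, b2⟩ := exists_UQ h2 hM hπ hl (Q := Q.restrict W) (t.ef hB).nd
      (g := g.1.toLinearMap.restrict t.inv) (fun x => g.2 x) (by rwa [one_smul] at a1) (by omega)
    have b3 := b1.finrank_eq
    obtain ⟨r, hr⟩ := exists_has (N := 2 * n) (g.1.toLinearMap.restrict t.inv') (by omega)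
    have e1 : ∀ x, g.1.toLinearMap.restrict t.inv' x = (1 : F) • x → x = 0 := fun x hx =>
      Subtype.ext (a2 _ x.2 (congrArg Subtype.val hx))
    have e3 := hr.dual_eq' (t.ef' hB) fun x y => hg x y
    have e4 := fun j => pal_of_dual (hr.monic j) (e3 j).1 (e3 j).2 (hr.eval_ne e1 j)
    have e5 := fun j => even_of_rev h2 (e4 j) (hr.eval_ne e1 j)
    have e6 := hr.sum_eq'
    have e7 : 2 * ∑ j : Fin (2 * n), (j + 1) * ((r j).natDegree / 2) = finrank F W₀ := by
      rw [← e6, Finset.mul_sum]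
      exact Finset.sum_congr rfl fun j _ => by
        rw [mul_left_comm, Nat.two_mul_div_two_of_even (e5 j)]
    exact ⟨g, s, r, W, W₀, t, rfl, b1, hr, fun x hx => e1 x (by rwa [one_smul]), b2, by omega,
      Finset.mem_filter.2 ⟨mem_UU.2 ⟨fun j => ⟨hr.monic j, e5 j, e4 j⟩, by omega⟩, hr.eval_ne e1⟩⟩
  choose g s r W W₀ t h1 h3 h3' h3'' h4 h5 h6 using H
  have : Finite V := Module.finite_of_finite F
  have : Finite (V ≃ₗ[F] V) := Finite.of_injective _ DFunLike.coe_injective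
  have := Fintype.ofFinite (ConjClasses (OG Q))
  have key : ∀ c c', r c = r c' → TQ (Q.restrict (W₀ c)) ((g c).1.toLinearMap.restrict (t c).inv')
      (Q.restrict (W₀ c')) ((g c').1.toLinearMap.restrict (t c').inv') := fun c c' h =>
    tq_of_fpf h2 ((t c).ef' hB).nd ((t c').ef' hB).nd (fun x => (g c).2 x) (fun x => (g c').2 x)
      ((h3' c).sim (h ▸ h3' c')) (h3'' c)
  obtain ⟨δ, Y, hY, h7⟩ := comb s r (wm (C.M - 1)) (fun t => Even (ntw t))
    (fun k => (UU F (2 * n) (n - k)).filter fun s => ∀ j, (s j).eval 1 ≠ 0) (fun c c' h h' => by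
      obtain ⟨e, he, he'⟩ := glueQ (t c) (t c') ((h3 c).tq (h ▸ h3 c')) (key c c' h')
      rw [← h1 c, ← h1 c', ConjClasses.mk_eq_mk_iff_isConj]
      exact isConj_of_equiv e he' he) h6 fun c c' h => by
      obtain ⟨e, -, he⟩ := key c c' h
      have a1 := isPlus_iff_of_iso (Q := Q.restrict (W₀ c)) (Q' := Q.restrict (W₀ c')) ⟨e, he⟩
      have a2 := isPlus_spl h2 hQ (t c)
      have a3 := isPlus_spl h2 hQ (t c')
      rw [(h3 c).isPlus h2 hα ((t c).ef hB).nd] at a2
      rw [(h3 c').isPlus h2 hα ((t c').ef hB).nd] at a3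
      tauto
  have h8 := sum_can_le' (M := C.M - 1) (n := n) (by omega) Y δ fun t ht => by
    obtain ⟨⟨c, rfl⟩, ht'⟩ := hY t ht
    exact ⟨h4 c, h5 c, ht'⟩
  have hq : (2 : ℝ) ≤ Fintype.card F := by exact_mod_cast Fintype.one_lt_card
  have h9 : (Nat.card (ConjClasses (OG Q)) : ℝ) ≤ Fintype.card F ^ n * 15 := by
    refine le_trans (Nat.cast_le.2 h7) (le_trans ?_ (mul_le_mul_of_nonneg_left h8 (by positivity)))
    rw [Finset.mul_sum, Nat.cast_sum]
    refine Finset.sum_le_sum fun t ht => ?_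
    obtain ⟨c, rfl⟩ := (hY t ht).1
    refine le_trans (Nat.cast_le.2 (card_UU_ne (by omega))) ?_
    obtain ⟨k, hk⟩ := Nat.exists_eq_add_of_le (h5 c)
    generalize wm (C.M - 1) (s c) = w at *
    rw [hk, Nat.add_sub_cancel_left, Nat.cast_pow, pow_add, mul_right_comm, ← mul_pow]
    exact le_mul_of_one_le_left (by positivity) (one_le_pow₀ (by linarith))
  rw [mul_comm] at h9
  exact_mod_cast h9

theorem card_OG' [Fintype F] (h2 : (2 : F) = 0) {ι : Type} [Fintype ι] [DecidableEq ι]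
    {Q : QuadraticForm F (ι → F)} (hQ : ND Q) {m : ℕ} (hm : Fintype.card ι = 2 * m) (hm' : 2 ≤ m) :
    Fintype.card F ^ m ≤ 2 * Nat.card (ConjClasses (Cfsg.isometryGroup F ⇑Q)) ∧
      Nat.card (ConjClasses (Cfsg.isometryGroup F ⇑Q)) ≤ 15 * Fintype.card F ^ m := by
  rw [card_conjClasses_congr (toOG Q)]
  exact ⟨le_card_OG h2 hQ (by simpa using hm) hm', card_OG_le h2 hQ (by simpa using hm)⟩

end Cfsg.Agent.UGL.Ev
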