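import Mathlib
import Cfsg.Agent.UGL.ClK
import Cfsg.Agent.Orth.Disc

/-!
Class numbers of the groups `Ω` in odd dimension.
-/

set_option autoImplicit false
set_option backward.isDefEq.respectTransparency false

namespace Cfsg.Agent.UGL.Cl

open Polynomial Module Cfsg.Agent.Conj Cfsg.Agent.Classical.SpWitt
open scoped _root_.Classical

universe u

variable {F : Type u} [Field F] [Fintype F] {V : Type*} [AddCommGroup V] [Module F V]
  [FiniteDimensional F V] {B : LinearMap.BilinForm F V} {M n : ℕ}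

/-- bits supported on a given set -/
def BA (A : Fin M × Bool × Bool → Prop) [DecidablePred A] : Finset (Fin M × Bool × Bool → Bool) :=
  Fintype.piFinset fun i => if A i then Finset.univ else {false}

theorem mem_BA {A : Fin M × Bool × Bool → Prop} [DecidablePred A] {β : Fin M × Bool × Bool → Bool} :
    β ∈ BA A ↔ ∀ i, ¬ A i → β i = false := by
  simp only [BA, Fintype.mem_piFinset]
  exact forall_congr' fun i => by split_ifs with h <;> simp [h]

theorem sum_BA (A : Fin M × Bool × Bool → Prop) [DecidablePred A] (x : ℝ) :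
    ∑ β ∈ BA A, x ^ wB β = ∏ i, if A i then 1 + x ^ ((i.1 : ℕ) + 1) else 1 := by
  simp only [wB, ← Finset.prod_pow_eq_pow_sum]
  rw [BA, ← Finset.prod_univ_sum (f := fun (i : Fin M × Bool × Bool) (b : Bool) => x ^ (((i.1 : ℕ) + 1) * b.toNat))]
  refine Finset.prod_congr rfl fun j _ => ?_
  split_ifs <;> simp [add_comm]

theorem card_WT_odd' (h2 : (2 : F) ≠ 0) (m : ℕ) {x : ℝ} (hx0 : 0 < x) (hx : 1 ≤ Fintype.card F * x ^ 2)
    (A : Fin M × Bool × Bool → Prop) [DecidablePred A] (R : (Fin M → F[X]) → Prop) {c : ℝ} (hc0 : 0 ≤ c)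
    (hc : ∀ k, (((UU F M k).filter R).card : ℝ) ≤ c * Fintype.card F ^ k) (K : WT M (1 : F) (2 * m + 1) → Prop)
    (hK : ∀ d, K d → encB d.1.2 ∈ BA A ∧ R (encU d.1.1 d.1.2)) :
    (Nat.card {d // K d} : ℝ) ≤ c * Fintype.card F ^ m * (((∏ i, if A i then 1 + x ^ ((i.1 : ℕ) + 1) else 1) -
      ∏ i, if A i then 1 + (-x) ^ ((i.1 : ℕ) + 1) else 1) / (2 * x)) := by
  have := finite_WT (M := M) (ε := (1 : F)) (n := 2 * m + 1) h2
  have hq := three_le_card h2
  refine le_trans (Nat.cast_le.2 (card_le_sum (BA A) (fun d β => encB d.1.1.2 = β) (fun β => if wB β ≤ 2 * m + 1 ∧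
    Odd (wB β) then ((UU F M ((2 * m + 1 - wB β) / 2)).filter R).card else 0)
    (fun d => ⟨_, (hK _ d.2).1, rfl⟩) fun β _ => ?_)) ?_
  · split_ifs with h
    · rw [← Fintype.card_coe, ← Nat.card_eq_fintype_card]
      refine Nat.card_le_card_of_injective (fun d => ⟨encU d.1.1.1.1 d.1.1.1.2,
        Finset.mem_filter.2 ⟨mem_UU.2 ⟨d.1.1.2.pal_enc, ?_⟩, (hK _ d.1.2).2⟩⟩) fun d d' H => ?_
      · have := d.1.1.2.sum_enc
        rw [d.2] at this
        omega
      · obtain ⟨a, b⟩ := enc_inj h2 d.1.1.2 d'.1.1.2 (congrArg Subtype.val H) (d.2.trans d'.2.symm)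
        exact Subtype.ext (Subtype.ext (Subtype.ext (Prod.ext a b)))
    · have : IsEmpty {c : {d // K d} // encB c.1.1.2 = β} := ⟨fun d => h (by
        have := d.1.1.2.sum_enc
        rw [d.2] at this
        exact ⟨by omega, Nat.odd_iff.2 (by omega)⟩)⟩
      rw [Nat.card_of_isEmpty]
  rw [← sum_BA, ← sum_BA, ← Finset.sum_sub_distrib, Finset.sum_div, Finset.mul_sum, Nat.cast_sum]
  refine Finset.sum_le_sum fun β _ => ?_
  split_ifs with h
  · obtain ⟨k, hk⟩ := h.2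
    refine (hc _).trans ?_
    rw [hk, show (2 * m + 1 - (2 * k + 1)) / 2 = m - k by omega, Odd.neg_pow (odd_two_mul_add_one k),
      show (x ^ (2 * k + 1) - -x ^ (2 * k + 1)) / (2 * x) = x ^ (2 * k) by field_simp; ring, mul_assoc]
    exact mul_le_mul_of_nonneg_left (pow_le_aux (by positivity) hx (by omega)) hc0
  · rw [Nat.cast_zero]
    refine mul_nonneg (by positivity) (div_nonneg ?_ (by positivity))
    rcases Nat.even_or_odd (wB β) with h | h
    · rw [h.neg_pow, sub_self]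
    · rw [h.neg_pow, sub_neg_eq_add]; positivity

theorem card_Rl_le' (h2 : (2 : F) ≠ 0) (hB : EF B 1) (J : Fin M → Prop) (hJ : ∀ j, J j → Even (j : ℕ))
    (K : (Bool → Fin M → ℕ × Bool) → Prop) (hK : ∀ z b j, J j → K z → K (Function.update z b (flp (z b) j))) :
    2 * Nat.card {d : WT M (1 : F) n // Rl B 1 d ∧ K d.1.2} ≤ Nat.card {d : WT M (1 : F) n // K d.1.2} +
      Nat.card {d : WT M (1 : F) n // K d.1.2 ∧ ∀ b j, J j → (d.1.2 b j).1 = 0} := by
  have := finite_WT (M := M) (ε := (1 : F)) (n := n) h2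
  have H : ∀ s : Bool → Fin M → ℕ, ∃ i : Option (Bool × Fin M), (¬ ∀ b j, J j → s b j = 0) →
      ∃ b j, i = some (b, j) ∧ J j ∧ s b j ≠ 0 := fun s => by
    by_cases h : ∀ b j, J j → s b j = 0
    · exact ⟨none, fun k => (k h).elim⟩
    · push Not at h
      obtain ⟨b, j, h⟩ := h
      exact ⟨_, fun _ => ⟨b, j, rfl, h⟩⟩
  choose i hi using H
  choose b j k1 k2 k3 using fun d : {d : {d : WT M (1 : F) n // K d.1.2} // ¬ ∀ b j, J j → (d.1.1.2 b j).1 = 0} =>
    hi _ d.2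
  have := two_mul_card_le (fun d : {d : WT M (1 : F) n // K d.1.2} => Rl B 1 d.1) _
    (fun d => ⟨⟨(d.1.1.1.1, Function.update d.1.1.1.2 (b d) (flp (d.1.1.1.2 (b d)) (j d))),
      d.1.1.2.flip (hJ _ (k2 d)) (k3 d)⟩, hK _ _ _ (k2 d) d.1.2⟩) (fun d d' e => ?_)
    fun d ⟨g, hg, h⟩ ⟨g', hg', h'⟩ => h.flip h2 hB hg hg' (hJ _ (k2 d)) (k3 d) h'
  · rwa [Nat.card_congr (Equiv.subtypeSubtypeEquivSubtypeInter _ (Rl B 1)), Nat.card_congr
      (Equiv.subtypeSubtypeEquivSubtypeInter _ fun d : WT M (1 : F) n => ∀ b j, J j → (d.1.2 b j).1 = 0),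
      Nat.card_congr (Equiv.subtypeEquivRight fun _ => and_comm)] at this
  obtain ⟨e1, e2⟩ := Prod.mk.inj (Subtype.mk.inj (Subtype.mk.inj e))
  have h1 : ∀ (z : Bool → Fin M → ℕ × Bool) b j c i, (Function.update z b (flp (z b) j) c i).1 = (z c i).1 :=
    fun z b j c i => by by_cases e : c = b <;> by_cases e' : i = j <;> simp [flp, e, e']
  have h3 : (fun b j => (d.1.1.1.2 b j).1) = fun b j => (d'.1.1.1.2 b j).1 := funext₂ fun c i => by rw [← h1, e2, h1]
  obtain ⟨h4, h5⟩ := Prod.mk.inj (Option.some.inj ((k1 d).symm.trans ((congrArg i h3).trans (k1 d'))))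
  refine Subtype.ext (Subtype.ext (Subtype.ext (Prod.ext e1 (funext₂ fun c i => Prod.ext (congrFun₂ h3 c i) ?_))))
  have := congrArg Prod.snd (congrFun₂ e2 c i)
  rw [h4, h5] at this
  by_cases e : c = b d' <;> by_cases e' : i = j d' <;> simpa [flp, e, e'] using this

theorem UD.small (h2 : (2 : F) ≠ 0) (hB : EF B 1) {N : End F V} {z : Fin (M + 1) → ℕ × Bool} (h : UD B N 1 z) {E : Bool}
    (H : ∀ v, N v = 0 → B v v ≠ 0 → (IsSquare (B v v) ↔ E = true)) : z 0 = (0, true) ∨ z 0 = (1, E) := by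
  obtain ⟨hu, -, h3⟩ := h
  obtain ⟨h4, h5⟩ := h3 0
  replace h5 := h5 (by simp)
  have hβ : EF (beta hu 0) 1 := by simpa using hB.beta hu 0
  have H' : ∀ x, beta hu 0 x x ≠ 0 → (IsSquare (beta hu 0 x x) ↔ E = true) := fun x => by
    obtain ⟨x, rfl⟩ := Submodule.Quotient.mk_surjective _ x
    exact H x (by simp)
  change finrank F (Lay N 0) = _ at h4
  change Dsc (beta hu 0) ↔ _ at h5
  rcases lt_trichotomy (finrank F (Lay N 0)) 1 with k | k | k
  · exact Or.inl (Prod.ext (by omega) (h5.1 (dsc_of_finrank_eq_zero (by omega) _)))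
  · obtain ⟨x, hx⟩ := finrank_pos_iff_exists_ne_zero.1 k.ge
    rw [dsc_iff (FiniteDimensional.basisSingleton Unit k x hx), Matrix.det_unique] at h5
    refine Or.inr (Prod.ext (by omega) (Bool.eq_iff_iff.2 (h5.symm.trans ?_)))
    simpa using H' x fun e => hx (hβ.nd x fun y => by
      obtain ⟨s, rfl⟩ := (finrank_eq_one_iff_of_nonzero' x hx).1 k y
      simp [e])
  obtain ⟨δ, hδ⟩ := Orth.exists_not_isSquare h2
  obtain ⟨x, hx⟩ := (hβ.nd_quad h2).exists_Q_eq k 1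
  obtain ⟨y, hy⟩ := (hβ.nd_quad h2).exists_Q_eq k δ
  rw [LinearMap.BilinMap.toQuadraticMap_apply] at hx hy
  have a := H' x
  have b := H' y
  rw [hx] at a
  rw [hy] at b
  exact (hδ ((b (by rintro rfl; exact hδ IsSquare.zero)).2 ((a one_ne_zero).1 IsSquare.one))).elim

theorem card_splitO_le (h2 : (2 : F) ≠ 0) (hB : EF B 1) (hn : finrank F V = n) (hM : n ≤ M + 1) (E : Bool)
    {G : Subgroup (V ≃ₗ[F] V)} (hG : G = SG B) (S : G → Prop) (hS : ∀ g, S g → ∀ v, g.1 v = v ∨ g.1 v = -v → B v v ≠ 0 → (IsSquare (B v v) ↔ E = true)) :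
    Nat.card {c // ∃ g, ConjClasses.mk g = c ∧ S g} ≤
      Nat.card {d : WT (M + 1) (1 : F) n // Rl B 1 d ∧ ∀ b, d.1.2 b 0 = (0, true) ∨ d.1.2 b 0 = (1, E)} := by
  have := finite_WT (M := M + 1) (ε := (1 : F)) (n := n) h2
  subst hn hG
  have H : ∀ c : {c // ∃ g, ConjClasses.mk g = c ∧ S g}, ∃ (g : SG B) (d : WT (M + 1) (1 : F) (finrank F V)),
      ConjClasses.mk g = c ∧ WD B g.1.toLinearMap 1 d.1.1 d.1.2 ∧ ∀ b, d.1.2 b 0 = (0, true) ∨ d.1.2 b 0 = (1, E) := by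
    rintro ⟨_, g, rfl, hg⟩
    obtain ⟨r, z, h1, h3⟩ := exists_WD (g := g.1.toLinearMap) h2 hB g.2 hM
    refine ⟨g, ⟨(r, z), h3⟩, rfl, h1, fun b => ?_⟩
    obtain ⟨W, W₀, s, U, U₀, t, a1, a2, -⟩ := h1
    cases b
    · exact a2.small h2 (t.ef (s.ef' hB)) fun v hv => hS g hg _ (Or.inr (by
        have := congrArg (fun y : U => y.1.1) hv
        simpa [sub_eq_zero, neg_eq_iff_eq_neg] using this))
    · exact a1.small h2 (s.ef hB) fun v hv => hS g hg _ (Or.inl (by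
        simpa [sub_eq_zero] using congrArg Subtype.val hv))
  choose g d hg hd hd' using H
  refine Nat.card_le_card_of_injective (fun c => ⟨d c, ⟨_, (g c).2, hd c⟩, hd' c⟩) fun c c' h => Subtype.ext ?_
  have h3 : d c = d c' := congrArg Subtype.val h
  obtain ⟨e, he, he'⟩ := (hd c).tri h2 hB hB (g c).2 (g c').2 (h3 ▸ hd c')
  rw [← hg c, ← hg c', ConjClasses.mk_eq_mk_iff_isConj]
  exact isConj_of_equiv e he' he

theorem card_odd_le (h2 : (2 : F) ≠ 0) (hB : EF B 1) {m J : ℕ} (E : Bool) :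
    (2 * Nat.card {d : WT (J + 2) (1 : F) (2 * m + 1) // Rl B 1 d} + 3 * (2 * Nat.card {d : WT (J + 2) (1 : F) (2 * m + 1) //
      Rl B 1 d ∧ ∀ b, d.1.2 b 0 = (0, true) ∨ d.1.2 b 0 = (1, E)}) : ℝ) ≤ 58.4 * Fintype.card F ^ m := by
  have hq := three_le_card h2
  have hx := one_le_card_mul h2
  let P : ℝ → ℝ := fun x => ∏ j : Fin (J + 1), if Even ((j : ℕ) + 1) then 1 + x ^ ((j : ℕ) + 1 + 1) else 1
  have p1 : ∀ x : ℝ, (∏ i : Fin (J + 2) × Bool × Bool, if Even (i.1 : ℕ) then 1 + x ^ ((i.1 : ℕ) + 1) else 1) =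
      ((1 + x) * P x) ^ 4 := fun x => by
    rw [Fintype.prod_prod_type, Fin.prod_univ_succ, mul_pow, ← Finset.prod_pow]
    simp
  have p2 : ∀ x : ℝ, (∏ i : Fin (J + 2) × Bool × Bool, if Even (i.1 : ℕ) ∧ (i.1 = 0 → i.2.2 = E) then
      1 + x ^ ((i.1 : ℕ) + 1) else 1) = (1 + x) ^ 2 * P x ^ 4 := fun x => by
    rw [Fintype.prod_prod_type, Fin.prod_univ_succ, ← Finset.prod_pow]
    cases E <;> simp [Fintype.prod_prod_type, sq]
  have p3 : ∀ x : ℝ, (∏ i : Fin (J + 2) × Bool × Bool, if i.1 = 0 ∧ i.2.2 = E then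
      1 + x ^ ((i.1 : ℕ) + 1) else 1) = (1 + x) ^ 2 := fun x => by
    rw [Fintype.prod_prod_type, Fin.prod_univ_succ]
    cases E <;> simp [Fintype.prod_prod_type, sq]
  have p4 : P 0.57736 ≤ 1.31042 := by
    have := prod_even_le (J + 2)
    rw [Finset.prod_range_succ', ← Fin.prod_univ_eq_prod_range
      (fun j => if Even (j + 1) then 1 + (0.57736 : ℝ) ^ (j + 1 + 1) else 1)] at this
    change P _ * _ ≤ _ at this
    norm_num at this ⊢
    linarith
  have p5 : P 0.57736 ^ 4 ≤ 1.31042 ^ 4 :=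
    pow_le_pow_left₀ (Finset.prod_nonneg fun i _ => by split_ifs <;> positivity) p4 4
  have b1 : ∀ (d : WT (J + 2) (1 : F) (2 * m + 1)) (j : Fin (J + 2)) b c, ¬ Even (j : ℕ) ∨ (d.1.2 b j).1 = 0 →
      encB d.1.2 (j, b, c) = false := fun d j b c h => by
    have : Even (d.1.2 b j).1 ∧ (d.1.2 b j).2 = true :=
      h.elim (fun e => (d.2.val b j).1 (mt (good_pos h2 _).1 e)) fun e => ⟨by simp [e], (d.2.val b j).2 e⟩
    cases c <;> simp [encB, bit1, this.2, Nat.even_iff.1 this.1]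
  have b2 : ∀ d : WT (J + 2) (1 : F) (2 * m + 1), (∀ b, d.1.2 b 0 = (0, true) ∨ d.1.2 b 0 = (1, E)) →
      (∀ b c, c ≠ E → encB d.1.2 (0, b, c) = false) ∧ (encU d.1.1 d.1.2 0).eval 1 ≠ 0 := fun d h =>
    ⟨fun b c e => by rcases h b with k | k <;> cases c <;> cases E <;> simp [encB, bit1, k] at e ⊢, by
      have : hlf (d.1.2 true 0) = 0 := by rcases h true with k | k <;> cases E <;> simp [k, hlf, bit1]
      simp [encU, this, d.2.ne 0, one_add_one_eq_two, h2]⟩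
  have c0 := card_WT_odd' h2 m (by norm_num) hx (fun _ => False) (fun _ => True) (c := 1.7854) (by norm_num)
    (fun k => by simpa using card_UU_le3 hq (J + 2) k) (fun d => encB d.1.2 = fun _ => false)
    fun d h => ⟨mem_BA.2 fun i _ => congrFun h i, trivial⟩
  have c1 := card_WT_odd' h2 m (by norm_num) hx (fun i => Even (i.1 : ℕ)) (fun _ => True) (c := 1.7854) (by norm_num)
    (fun k => by simpa using card_UU_le3 hq (J + 2) k) (fun _ => True)
    fun d _ => ⟨mem_BA.2 fun ⟨j, b, c⟩ h => b1 d j b c (Or.inl h), trivial⟩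
  have c2 := card_WT_odd' h2 m (by norm_num) hx (fun i => Even (i.1 : ℕ) ∧ (i.1 = 0 → i.2.2 = E)) (fun s => (s 0).eval 1 ≠ 0)
    (c := 1.1903) (by norm_num)
    (fun k => by convert card_UU_le' hq J k) (fun d => ∀ b, d.1.2 b 0 = (0, true) ∨ d.1.2 b 0 = (1, E))
    fun d h => ⟨mem_BA.2 fun ⟨j, b, c⟩ k => (not_and_or.1 k).elim (fun e => b1 d j b c (Or.inl e)) fun e => by
      obtain ⟨rfl, e⟩ := Classical.not_imp.1 e
      exact (b2 d h).1 b c e, (b2 d h).2⟩
  have c3 := card_WT_odd' h2 m (by norm_num) hx (fun i => i.1 = 0 ∧ i.2.2 = E) (fun s => (s 0).eval 1 ≠ 0)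
    (c := 1.1903) (by norm_num)
    (fun k => by convert card_UU_le' hq J k) (fun d => (∀ b, d.1.2 b 0 = (0, true) ∨ d.1.2 b 0 = (1, E)) ∧
      ∀ b (j : Fin (J + 2)), Even (j : ℕ) ∧ j ≠ 0 → (d.1.2 b j).1 = 0)
    fun d h => ⟨mem_BA.2 fun ⟨j, b, c⟩ k => by
      by_cases e : j = 0
      · subst e
        exact (b2 d h.1).1 b c fun e => k ⟨rfl, e⟩
      · exact b1 d j b c (or_iff_not_imp_left.2 fun k => h.2 b j ⟨not_not.1 k, e⟩), (b2 d h.1).2⟩
  have d1 := (Nat.cast_le (α := ℝ)).2 (card_Rl_le (M := J + 2) (n := 2 * m + 1) h2 hB)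
  have d2 := (Nat.cast_le (α := ℝ)).2 (card_Rl_le' (M := J + 2) (n := 2 * m + 1) h2 hB (fun j => Even (j : ℕ) ∧ j ≠ 0)
    (fun _ h => h.1) (fun z => ∀ b, z b 0 = (0, true) ∨ z b 0 = (1, E)) fun z b j h k c => by
      by_cases e : c = b
      · simpa [e, flp, h.2.symm] using k b
      · simpa [e] using k c)
  rw [Nat.card_congr (Equiv.subtypeUnivEquiv fun _ => trivial)] at c1
  simp only [if_false, sub_self, zero_div, mul_zero] at c0
  rw [p1, p1] at c1
  rw [p2, p2] at c2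
  rw [p3, p3] at c3
  push_cast at d1 d2
  have e1 : 0 ≤ ((1 + -0.57736) * P (-0.57736)) ^ 4 := by positivity
  have e2 : 0 ≤ (1 + -0.57736) ^ 2 * P (-0.57736) ^ 4 := by positivity
  have e3 : (0 : ℝ) ≤ Fintype.card F ^ m := by positivity
  have f1 := c1.trans (mul_le_mul_of_nonneg_left (show _ ≤ (15.81 : ℝ) by
    rw [div_le_iff₀ (by norm_num), mul_pow]; norm_num at p5 e1 ⊢; linarith) (by positivity))
  have f2 := c2.trans (mul_le_mul_of_nonneg_left (show _ ≤ (6.36 : ℝ) by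
    rw [div_le_iff₀ (by norm_num)]; norm_num at p5 e2 ⊢; linarith) (by positivity))
  have f3 := c3.trans (mul_le_mul_of_nonneg_left (show _ ≤ (2 : ℝ) by norm_num) (by positivity))
  clear c1 c2 c3 p1 p2 p3 b1 b2
  linarith

theorem le_card_O_odd (h2 : (2 : F) ≠ 0) (hB : EF B 1) {m : ℕ} (hm : finrank F V = 2 * m + 1) :
    2 * Fintype.card F ^ m ≤ Nat.card (ConjClasses (SG B)) := by
  have : Finite V := Module.finite_of_finite F
  have : Finite (SG B) := Finite.of_injective (fun g : SG B => (g.1 : V → V)) fun _ _ h => SG.ext (congrFun h)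
  have h1 : ∀ P : {a : F // a * a = 1} × {p : F[X] // p.Monic ∧ p.natDegree = m}, ∃ g : SG B,
      ((2⁻¹ : F) • (g.1.toLinearMap + (g⁻¹).1.toLinearMap)).charpoly = P.2.1 ^ 2 * (X - C P.1.1) := by
    rintro ⟨⟨a, ha⟩, P, hP, rfl⟩
    obtain ⟨W, _, _, _, C, g, g', k1, k2, k3, k4, k5⟩ := (ro_all h2 hP _ fun _ _ => Iff.rfl).step h2 ha (Dsc B)
    obtain ⟨e, he⟩ := (iso_iff_dsc h2 k1 hB (by
      rw [hm, ← LinearMap.charpoly_natDegree, k4, (hP.pow 2).natDegree_mul (monic_X_sub_C a), hP.natDegree_pow,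
        natDegree_X_sub_C])).2 k5
    let u : W ≃ₗ[F] W := LinearEquiv.ofLinearMap g g' k3 (mul_eq_one_comm.1 k3)
    refine ⟨⟨e.symm.trans (u.trans e), fun x y => (he _ _).trans ((k2 _ _).trans (by rw [← he]; simp))⟩, ?_⟩
    exact (Sim.charpoly_eq ⟨e, fun v => by simp [u]⟩).symm.trans k4
  choose g hg using h1
  have h3 : Nat.card {a : F // a * a = 1} = 2 := Nat.card_eq_two_iff.2 ⟨⟨1, by simp⟩, ⟨-1, by simp⟩,
    fun e => h2 (by linear_combination Subtype.mk.inj e), Set.eq_univ_of_forall fun ⟨a, ha⟩ => by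
      simpa using mul_self_eq_one_iff.1 ha⟩
  rw [← h3, ← card_monic, ← Nat.card_prod]
  refine Nat.card_le_card_of_injective (fun P => ConjClasses.mk (g P)) fun P P' e => ?_
  obtain ⟨c, hc⟩ := isConj_iff.1 (ConjClasses.mk_eq_mk_iff_isConj.1 e)
  have := (hg P).symm.trans ((Sim.charpoly_eq ⟨c.1, fun v => by simp [← hc]⟩).trans (hg P'))
  have k : P.1.1 = P'.1.1 := by_contra fun k => by
    have := congrArg (rootMultiplicity P.1.1) this
    rw [rootMultiplicity_mul ((P.2.2.1.pow 2).mul (monic_X_sub_C _)).ne_zero, rootMultiplicity_mul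
      ((P'.2.2.1.pow 2).mul (monic_X_sub_C _)).ne_zero, sq, sq, rootMultiplicity_mul (P.2.2.1.mul P.2.2.1).ne_zero,
      rootMultiplicity_mul (P'.2.2.1.mul P'.2.2.1).ne_zero, rootMultiplicity_X_sub_C, rootMultiplicity_X_sub_C, if_pos rfl,
      if_neg k] at this
    omega
  rw [k, mul_left_inj' (X_sub_C_ne_zero _)] at this
  refine Prod.ext (Subtype.ext k) (Subtype.ext ((sq_eq_sq_iff_eq_or_eq_neg.1 this).resolve_right fun k => h2 ?_))
  have := congrArg leadingCoeff k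
  rw [leadingCoeff_neg, P.2.2.1, P'.2.2.1] at this
  linear_combination this

theorem card_Om (h2 : (2 : F) ≠ 0) {Q : QuadraticForm F V} (hQ : Orth.ND Q) {m : ℕ} (hm : finrank F V = 2 * m + 1)
    (hm' : 1 ≤ m) : Fintype.card F ^ m ≤ 2 * Nat.card (ConjClasses (commutator (Orth.OG Q))) ∧
      10 * Nat.card (ConjClasses (commutator (Orth.OG Q))) ≤ 73 * Fintype.card F ^ m := by
  have : Finite V := Module.finite_of_finite F
  have : Finite (Orth.OG Q) := Finite.of_injective (fun g : Orth.OG Q => (g.1 : V → V)) fun _ _ h => Orth.OG.ext (congrFun h)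
  have hB : EF Q.polarBilin 1 := ⟨fun _ => rfl, Or.inl rfl, fun x y => by simp [QuadraticMap.polar_comm Q x y], hQ⟩
  have e : Orth.OG Q = SG Q.polarBilin := Subgroup.ext fun g => ⟨fun h x y => by
    simp only [QuadraticMap.polarBilin_apply_apply, QuadraticMap.polar, ← map_add, h _], fun h x => mul_left_cancel₀ h2 (by
      simpa [QuadraticMap.polar_self] using h x x)⟩
  have hg := Orth.good_of_two_ne_zero (V := V) h2
  have h1 : hQ.dick hg (Orth.negOne Q) = -1 := by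
    obtain ⟨b, hb, hb'⟩ := hQ.exists_orth_basis h2
    refine (Int.units_eq_one_or _).resolve_left ?_
    rw [hQ.dick_eq_one_iff, Orth.negOne_eq_prod b hb hb', hQ.even_rk_list _ (by simpa [List.mem_ofFn] using hb')]
    simp [hm]
  obtain ⟨θ, E, t1, t2, t3⟩ : ∃ (θ : Orth.OG Q →* ℤˣ) (E : Prop), θ (Orth.negOne Q) = 1 ∧
      (∀ g, hQ.dick hg g = 1 → θ g = hQ.spin hg g) ∧ ∀ v, Q v ≠ 0 → θ (Orth.refl Q v) = 1 → (IsSquare (Q v) ↔ E) := by
    rcases Int.units_eq_one_or (hQ.spin hg (Orth.negOne Q)) with h | h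
    · exact ⟨_, True, h, fun _ _ => rfl, fun v hv k => iff_true_intro ((hQ.spin_refl hg hv).1 k)⟩
    · refine ⟨hQ.spin hg * hQ.dick hg, False, by simp [h, h1], fun g k => by simp [k], fun v hv k => iff_false_intro fun k' => ?_⟩
      simp [(hQ.spin_refl hg hv).2 k', hQ.dick_refl hg hv] at k
  obtain ⟨k1, k2⟩ := k_index_four (hQ.dick hg) θ (commutator _) (fun g => by
    rw [hQ.mem_commutator_iff hg, ← hQ.dick_eq_one_iff hg, ← hQ.spin_eq_one_iff hg]
    exact and_congr_right fun k => by rw [t2 g k]) (hQ.index_commutator_odd h2 (by omega)) (z := Orth.negOne Q)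
    (fun g => Orth.OG.ext fun x => by simp) h1 t1
  have k3 : Nat.card {c // ∃ g, ConjClasses.mk g = c ∧ ∀ h, g * h = h * g → θ h = 1} ≤ Nat.card {c // ∃ g : Orth.OG Q,
      ConjClasses.mk g = c ∧ ∀ v, g.1 v = v ∨ g.1 v = -v → Q.polarBilin v v ≠ 0 →
        (IsSquare (Q.polarBilin v v) ↔ decide (IsSquare (2 : F) ↔ E) = true)} :=
    Nat.card_le_card_of_injective (Subtype.map id fun c ⟨g, a, b⟩ => ⟨g, a, fun v hv h0 => by
      rw [QuadraticMap.polarBilin_apply_apply, Orth.p_self] at h0 ⊢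
      rw [isSquare_mul_iff h2 (right_ne_zero_of_mul h0), t3 v (right_ne_zero_of_mul h0) (b _ ?_), decide_eq_true_iff]
      rw [← mul_inv_eq_iff_eq_mul, Orth.refl_conj]
      rcases hv with h | h <;> simp [h, Orth.refl_neg]⟩) (Subtype.map_injective _ Function.injective_id)
  obtain ⟨J, hJ⟩ : ∃ J, 2 * m + 1 = J + 2 := ⟨2 * m - 1, by omega⟩
  have k4 := k3.trans (card_splitO_le h2 hB hm hJ.le _ e _ fun _ h => h)
  rw [card_conjClasses_congr (MulEquiv.subgroupCongr e)] at k1 k2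
  have k5 := card_classes_le h2 hB hm hJ.le
  have k6 := le_card_O_odd h2 hB hm
  refine ⟨by omega, ?_⟩
  have k7 := card_odd_le (m := m) (J := J) h2 hB (decide (IsSquare (2 : F) ↔ E))
  have k8 := (Nat.cast_le (α := ℝ)).2 (k2.trans (Nat.add_le_add k5 (Nat.mul_le_mul_left 3 k4)))
  push_cast at k8
  exact_mod_cast (show (10 : ℝ) * Nat.card (ConjClasses (commutator (Orth.OG Q))) ≤ 73 * Fintype.card F ^ m by linarith)

end Cfsg.Agent.UGL.Cl
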